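import Cfsg.Agent.H1.FP0

/-! Chunks YQ and TG of `H1.FP`. -/

set_option autoImplicit false

namespace H4.FP
open MulAction H1.FP
open scoped Pointwise
universe u

section kit
variable {G : Type u} [Group G] {Δ : Type u} [MulAction G Δ]

/-- the subgroup generated by the `p`-elements of `H` -/
def Jp (p : ℕ) (H : Subgroup G) : Subgroup G :=
  Subgroup.closure {y : G | y ∈ H ∧ ∃ k : ℕ, orderOf y = p ^ k}

theorem Jp_le (p : ℕ) (H : Subgroup G) : Jp p H ≤ H := (Subgroup.closure_le _).2 fun _ h => h.1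

theorem pg_Jp (p : ℕ) (H : Subgroup G) : PG p (Jp p H) := by
  unfold PG
  apply Subgroup.map_injective (Jp p H).subtype_injective
  rw [MonoidHom.map_closure, ← MonoidHom.range_eq_map, Subgroup.range_subtype]
  apply le_antisymm
  · exact (Subgroup.closure_le _).2 (by rintro _ ⟨y, -, rfl⟩; exact y.2)
  · refine (Subgroup.closure_le _).2 fun y hy =>
      Subgroup.subset_closure ⟨⟨y, Subgroup.subset_closure hy⟩, ?_, rfl⟩
    obtain ⟨k, hk⟩ := hy.2
    exact ⟨k, by rw [← Subgroup.orderOf_coe]; exact hk⟩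

theorem le_Jp {p : ℕ} [Fact p.Prime] {H P : Subgroup G} (hP : IsPGroup p P) (h : P ≤ H) :
    P ≤ Jp p H := fun y hy => by
  obtain ⟨k, hk⟩ := (IsPGroup.iff_orderOf.1 hP) ⟨y, hy⟩
  exact Subgroup.subset_closure ⟨h hy, k, by rw [← hk, ← Subgroup.orderOf_coe]⟩

theorem Jp_conj {p : ℕ} {a : Δ} {g y : G} (hy : y ∈ Jp p (stabilizer G a)) :
    g * y * g⁻¹ ∈ Jp p (stabilizer G (g • a)) := by
  have : (Jp p (stabilizer G a)).map (MulAut.conj g).toMonoidHom ≤ Jp p (stabilizer G (g • a)) := by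
    rw [Jp, MonoidHom.map_closure]
    refine (Subgroup.closure_le _).2 ?_
    rintro _ ⟨z, hz, rfl⟩
    refine Subgroup.subset_closure ⟨?_, ?_⟩
    · show (g * z * g⁻¹) • g • a = g • a
      rw [mul_smul, inv_smul_smul, mul_smul, hz.1]
    · obtain ⟨k, hk⟩ := hz.2
      exact ⟨k, by rw [← hk]; exact (MulAut.conj g).orderOf_eq z⟩
  exact this ⟨y, hy, rfl⟩

theorem orb_ind [Finite Δ] (H : Subgroup G) (R : Δ → Prop) (Pp : Set Δ → Prop) (h0 : Pp ∅)
    (hs : ∀ (X : Set Δ) (x : Δ), R x → Disjoint (orbit H x) X → Pp X → Pp (orbit H x ∪ X)) :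
    ∀ X : Set Δ, (∀ (g : H), ∀ x ∈ X, g • x ∈ X) → (∀ x ∈ X, R x) → Pp X := by
  intro X
  induction h : X.ncard using Nat.strong_induction_on generalizing X with
  | _ n ih =>
    intro hX hR
    rcases X.eq_empty_or_nonempty with rfl | ⟨x, hx⟩
    · exact h0
    have hsub : orbit H x ⊆ X := by rintro _ ⟨g, rfl⟩; exact hX g x hx
    have e : X = orbit H x ∪ (X \ orbit H x) := (Set.union_sdiff_cancel hsub).symm
    rw [e]
    refine hs _ x (hR x hx) Set.disjoint_sdiff_right (ih _ ?_ _ rfl ?_ fun y hy => hR y hy.1)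
    · rw [← h]
      exact Set.ncard_lt_ncard ⟨Set.sdiff_subset, fun hh => (hh hx).2 (mem_orbit_self x)⟩
    · intro g y hy
      refine ⟨hX g y hy.1, fun hh => hy.2 ?_⟩
      have := mem_orbit_of_mem_orbit g⁻¹ hh
      rwa [inv_smul_smul] at this

theorem fP_eq (P : Subgroup G) : fP P Δ = (fixedPoints P Δ).ncard := by
  rw [fP, Nat.card_coe_set_eq]

theorem fP_orbit {p : ℕ} (J : Subgroup G) (P : Sylow p G) (h : (P : Subgroup G) ≤ J) (b : Δ) :
    fP ((P.subtype h : Sylow p J) : Subgroup J) (orbit J b) =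
      (orbit J b ∩ fixedPoints (P : Subgroup G) Δ).ncard := by
  rw [fP_eq, ← Set.ncard_image_of_injective _ Subtype.val_injective]
  congr 1
  ext c
  constructor
  · rintro ⟨c, hc, rfl⟩
    refine ⟨c.2, fun g => ?_⟩
    exact congrArg Subtype.val (hc ⟨⟨g, h g.2⟩, g.2⟩)
  · rintro ⟨h1, h2⟩
    exact ⟨⟨c, h1⟩, fun g => Subtype.ext (h2 ⟨g.1.1, g.2⟩), rfl⟩

theorem nd_orbit [Finite G] {p : ℕ} [Fact p.Prime] (J : Subgroup G) (P : Sylow p G)
    (h : (P : Subgroup G) ≤ J) {c : Δ} (hc : c ∈ fixedPoints (P : Subgroup G) Δ) :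
    ¬ p ∣ (orbit J c).ncard := by
  rw [← index_stabilizer]
  intro hd
  refine (P.subtype h).not_dvd_index (hd.trans (Subgroup.index_dvd_of_le ?_))
  intro g hg
  exact hc ⟨g.1, hg⟩

theorem sq_dvd [Finite Δ] {p : ℕ} [Fact p.Prime] {P : Subgroup G} (hP : IsPGroup p P)
    (hn : ∀ u : Δ, (orbit P u).ncard ≠ p) (X : Set Δ) (hX : ∀ (g : P), ∀ x ∈ X, g • x ∈ X) :
    p ^ 2 ∣ (X \ fixedPoints P Δ).ncard := by
  refine orb_ind P (fun x => x ∉ fixedPoints P Δ) (fun Y => p ^ 2 ∣ Y.ncard) (by simp) ?_ _ ?_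
    fun x hx => hx.2
  · intro Y x hx hd hY
    rw [Set.ncard_union_eq hd]
    refine Dvd.dvd.add ?_ hY
    obtain ⟨k, hk⟩ := hP.card_orbit x
    rw [Nat.card_coe_set_eq] at hk
    rw [hk]
    refine pow_dvd_pow _ ?_
    by_contra hlt
    have : k = 0 ∨ k = 1 := by omega
    rcases this with rfl | rfl
    · apply hx
      intro g
      obtain ⟨c, hc⟩ := Set.ncard_eq_one.1 (hk.trans (pow_zero _))
      have h1 : g • x ∈ orbit P x := mem_orbit x g
      have h2 : x ∈ orbit P x := mem_orbit_self x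
      rw [hc] at h1 h2
      exact h1.trans h2.symm
    · exact hn x (hk.trans (pow_one _))
  · intro g x hx
    refine ⟨hX g x hx.1, fun hh => hx.2 fun k => ?_⟩
    have h1 : x = g • x := by
      have := hh g⁻¹
      rwa [inv_smul_smul] at this
    rw [h1]; exact hh k

theorem witt [Finite G] {p : ℕ} [Fact p.Prime] (P : Sylow p G) [IsPretransitive G Δ] {a b : Δ}
    (ha : a ∈ fixedPoints (P : Subgroup G) Δ) (hb : b ∈ fixedPoints (P : Subgroup G) Δ) :
    ∃ g : G, g • P = P ∧ g • a = b := by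
  obtain ⟨g, rfl⟩ := exists_smul_eq G a b
  have h1 : (P : Subgroup G) ≤ stabilizer G (g • a) := fun y hy => hb ⟨y, hy⟩
  have h2 : ((g • P : Sylow p G) : Subgroup G) ≤ stabilizer G (g • a) := by
    rintro _ ⟨y, hy, rfl⟩
    show (g * y * g⁻¹) • g • a = g • a
    rw [mul_smul, inv_smul_smul, mul_smul]
    exact congrArg _ (ha ⟨y, hy⟩)
  obtain ⟨h, hh⟩ := exists_smul_eq (stabilizer G (g • a)) ((g • P).subtype h2) (P.subtype h1)
  rw [Sylow.smul_subtype] at hh
  refine ⟨h * g, ?_, ?_⟩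
  · rw [mul_smul]; exact Sylow.subtype_injective hh
  · rw [mul_smul]; exact h.2

theorem norm_of_idx [Finite G] {p : ℕ} [hp : Fact p.Prime] {Q P : Subgroup G} (hP : IsPGroup p P)
    (hQ : Q ≤ P) (hi : Q.relIndex P = p) : P ≤ Subgroup.normalizer (Q : Set G) := by
  have hn : (Q.subgroupOf P).Normal := by
    apply Subgroup.normal_of_index_eq_minFac_card
    obtain ⟨k, hk⟩ := IsPGroup.iff_card.1 hP
    have hd : p ∣ Nat.card P := hi ▸ Subgroup.index_dvd_card _
    have hk0 : k ≠ 0 := by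
      rintro rfl
      rw [hk, pow_zero] at hd
      exact hp.out.one_lt.ne' (Nat.dvd_one.1 hd)
    rw [hk, hp.out.pow_minFac hk0]; exact hi
  exact (Subgroup.normal_subgroupOf_iff_le_normalizer hQ).1 hn

theorem idx_orbit (P : Subgroup G) (u : Δ) :
    (P ⊓ stabilizer G u).relIndex P = (orbit P u).ncard := by
  rw [← index_stabilizer, Subgroup.inf_relIndex_left]
  rfl

end kit

theorem cover {Δ : Type u} [Finite Δ] (p : ℕ) (F : Set Δ) (T : Set (Set Δ))
    (hc : ∀ a ∈ F, ∃ Θ ∈ T, a ∈ Θ)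
    (hd : ∀ Θ ∈ T, ∀ Θ' ∈ T, ∀ w, w ∉ F → w ∈ Θ → w ∈ Θ' → Θ = Θ')
    (hi : ∀ Θ ∈ T, p * (Θ ∩ F).ncard ≤ (p - 1) * (Θ \ F).ncard) :
    p * F.ncard ≤ (p - 1) * (Nat.card Δ - F.ncard) := by
  have key : ∀ S : Set (Set Δ), S.Finite → S ⊆ T →
      p * (⋃₀ S ∩ F).ncard ≤ (p - 1) * (⋃₀ S \ F).ncard := by
    intro S hS
    induction S, hS using Set.Finite.induction_on with
    | empty => intro _; simp
    | @insert Θ S hΘ hS ih =>
      intro hT
      have h1 := ih (fun x hx => hT (Set.mem_insert_of_mem _ hx))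
      have h2 := hi Θ (hT (Set.mem_insert _ _))
      rw [Set.sUnion_insert, Set.union_inter_distrib_right, Set.union_sdiff_distrib,
        Set.ncard_union_eq (s := Θ \ F), mul_add]
      · refine le_trans (Nat.mul_le_mul_left _ (Set.ncard_union_le _ _)) ?_
        rw [mul_add]; exact Nat.add_le_add h2 h1
      · rw [Set.disjoint_left]
        rintro w ⟨hw, hF⟩ ⟨⟨Θ', h', hw'⟩, -⟩
        exact hΘ (hd Θ (hT (Set.mem_insert _ _)) Θ' (hT (Set.mem_insert_of_mem _ h')) w hF hw hw' ▸ h')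
  have h := key T (Set.toFinite _) subset_rfl
  have e : ⋃₀ T ∩ F = F := Set.inter_eq_right.2 fun a ha => by
    obtain ⟨Θ, h1, h2⟩ := hc a ha
    exact ⟨Θ, h1, h2⟩
  rw [e] at h
  refine h.trans (Nat.mul_le_mul_left _ ?_)
  rw [← Set.ncard_univ, ← Set.ncard_sdiff (Set.subset_univ F)]
  exact Set.ncard_le_ncard (Set.sdiff_subset_sdiff_left (Set.subset_univ _))

theorem yq (wq : WQ.{u}) : YQ.{u} := by
  intro p hp G _ _ P Δ _ _ ht ⟨u0, hu0⟩
  set F := fixedPoints (P : Subgroup G) Δ with hF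
  rw [fP_eq]
  let Q : Δ → Subgroup G := fun u => (P : Subgroup G) ⊓ stabilizer G u
  let Y : Δ → Subgroup G := fun u => Jp p (Subgroup.normalizer (Q u : Set G))
  have hPY : ∀ u, (orbit (P : Subgroup G) u).ncard = p → (P : Subgroup G) ≤ Y u := fun u hu =>
    le_Jp P.isPGroup' (norm_of_idx P.isPGroup' inf_le_left ((idx_orbit _ u).trans hu))
  have hfix : ∀ u, ∀ a ∈ F, ∀ w ∈ orbit (Y u) a, Q u ≤ stabilizer G w := by
    rintro u a ha _ ⟨y, rfl⟩ q hq
    have hy : (y : G)⁻¹ ∈ Subgroup.normalizer (Q u : Set G) := inv_mem (Jp_le _ _ y.2)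
    have h1 : (y : G)⁻¹ * q * (y : G)⁻¹⁻¹ ∈ Q u := (Subgroup.mem_normalizer_iff.1 hy q).1 hq
    have h2 : ((y : G)⁻¹ * q * (y : G)⁻¹⁻¹) • a = a := ha ⟨_, h1.1⟩
    rw [inv_inv, mul_smul, mul_smul, inv_smul_eq_iff] at h2
    exact h2
  refine cover p F {Θ | ∃ u, (orbit (P : Subgroup G) u).ncard = p ∧ ∃ a ∈ F,
    (∃ y ∈ Y u, y • a ≠ a) ∧ Θ = orbit (Y u) a} ?_ ?_ ?_
  · intro a ha
    -- a Sylow subgroup containing `Q u0` and fixing `u0`
    obtain ⟨g, hg⟩ := exists_smul_eq G a u0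
    have h2 : ((g • P : Sylow p G) : Subgroup G) ≤ stabilizer G u0 := by
      rintro _ ⟨y, hy, rfl⟩
      show (g * y * g⁻¹) • u0 = u0
      rw [← hg, mul_smul, inv_smul_smul, mul_smul]
      exact congrArg _ (ha ⟨y, hy⟩)
    have hQp : IsPGroup p ((Q u0).subgroupOf (stabilizer G u0)) :=
      (P.isPGroup'.to_le inf_le_left).comap_subtype
    obtain ⟨S, hS⟩ := hQp.exists_le_sylow
    obtain ⟨h, hh⟩ := exists_smul_eq (stabilizer G u0) ((g • P).subtype h2) S
    rw [Sylow.smul_subtype] at hh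
    set P' : Sylow p G := h • g • P with hP'
    have hP's : (P' : Subgroup G) ≤ stabilizer G u0 := Sylow.smul_le h2 h
    have hQP' : Q u0 ≤ P' := fun q hq => by
      have := hS (show (⟨q, hq.2⟩ : stabilizer G u0) ∈ (Q u0).subgroupOf _ from hq)
      rw [← hh] at this
      exact this
    have hidx : (Q u0).relIndex P' = p := by
      have e1 := Subgroup.relIndex_mul_index hQP'
      have e2 := Subgroup.relIndex_mul_index (show Q u0 ≤ P from inf_le_left)
      have e3 : (P' : Subgroup G).index = (P : Subgroup G).index := by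
        have a1 := (P' : Subgroup G).card_mul_index
        have a2 := (P : Subgroup G).card_mul_index
        rw [Sylow.card_eq_multiplicity] at a1 a2
        exact Nat.eq_of_mul_eq_mul_left (pow_pos hp.out.pos _) (a1.trans a2.symm)
      rw [idx_orbit, hu0] at e2
      rw [e3, ← e2] at e1
      exact Nat.eq_of_mul_eq_mul_right (Nat.pos_of_ne_zero Subgroup.index_ne_zero_of_finite) e1
    have hN := norm_of_idx P'.isPGroup' hQP' hidx
    have hmv : ∃ a0 ∈ F, ∃ y ∈ (P' : Subgroup G), y • a0 ≠ a0 := by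
      by_contra hc
      push Not at hc
      have hsub : F ⊆ fixedPoints (P' : Subgroup G) Δ := fun c hc' y => hc c hc' y y.2
      have hle : (fixedPoints (P' : Subgroup G) Δ).ncard ≤ F.ncard := by
        refine Set.ncard_le_ncard_of_injOn (fun c => ((h : G) * g)⁻¹ • c) ?_
          (fun c _ d _ e => MulAction.injective _ e)
        intro c hc' y
        have hy : ((h : G) * g) * y * ((h : G) * g)⁻¹ ∈ (P' : Subgroup G) := by
          have : P' = ((h : G) * g) • P := by rw [mul_smul]; rfl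
          rw [this]; exact ⟨y, y.2, rfl⟩
        have := hc' ⟨_, hy⟩
        change (((h : G) * g) * y * ((h : G) * g)⁻¹) • c = c at this
        rw [mul_smul, mul_smul, smul_eq_iff_eq_inv_smul] at this
        exact this
      have he := Set.eq_of_subset_of_ncard_le hsub hle
      have hu : u0 ∈ F := by rw [he]; exact fun y => hP's y.2
      have : orbit (P : Subgroup G) u0 = {u0} := by
        ext c; constructor
        · rintro ⟨y, rfl⟩; exact hu y
        · rintro rfl; exact mem_orbit_self _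
      rw [this, Set.ncard_singleton] at hu0
      exact hp.out.one_lt.ne hu0
    obtain ⟨a0, ha0, y, hy, hya⟩ := hmv
    obtain ⟨k, hkP, hk⟩ := witt P ha0 ha
    have hkN : ∀ q, q ∈ (P : Subgroup G) ↔ k * q * k⁻¹ ∈ (P : Subgroup G) :=
      Subgroup.mem_normalizer_iff.1 (Sylow.smul_eq_iff_mem_normalizer.1 hkP)
    have hQk : ∀ q, q ∈ Q u0 ↔ k * q * k⁻¹ ∈ Q (k • u0) := fun q => by
      refine and_congr (hkN q) ?_
      show q • u0 = u0 ↔ (k * q * k⁻¹) • k • u0 = k • u0
      rw [mul_smul, inv_smul_smul, mul_smul, smul_left_cancel_iff]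
    refine ⟨_, ⟨k • u0, ?_, a, ha, ⟨k * y * k⁻¹, ?_, ?_⟩, rfl⟩, mem_orbit_self a⟩
    · refine Eq.trans ?_ hu0
      rw [← Set.ncard_smul_set k (orbit (P : Subgroup G) u0)]
      congr 1
      ext c; constructor
      · rintro ⟨q, rfl⟩
        refine ⟨(k⁻¹ * q * k) • u0, ⟨⟨_, (hkN _).2 (by simpa [mul_assoc] using q.2)⟩, rfl⟩, ?_⟩
        show k • (k⁻¹ * q * k) • u0 = (q : G) • k • u0
        rw [mul_smul, mul_smul, smul_inv_smul]
      · rintro ⟨_, ⟨q, rfl⟩, rfl⟩
        refine ⟨⟨_, (hkN q).1 q.2⟩, ?_⟩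
        show (k * q * k⁻¹) • k • u0 = k • (q : G) • u0
        rw [mul_smul, inv_smul_smul, mul_smul]
    · obtain ⟨j, hj⟩ := (IsPGroup.iff_orderOf.1 P'.isPGroup') ⟨y, hy⟩
      refine Subgroup.subset_closure ⟨?_, j, ?_⟩
      · rw [Subgroup.mem_normalizer_iff]
        intro q
        have e1 := hQk (k⁻¹ * q * k)
        have e2 := Subgroup.mem_normalizer_iff.1 (hN hy) (k⁻¹ * q * k)
        have e3 := hQk (y * (k⁻¹ * q * k) * y⁻¹)
        have r1 : k * (k⁻¹ * q * k) * k⁻¹ = q := by group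
        have r3 : k * (y * (k⁻¹ * q * k) * y⁻¹) * k⁻¹ = k * y * k⁻¹ * q * (k * y * k⁻¹)⁻¹ := by group
        rw [r1] at e1; rw [r3] at e3
        exact e1.symm.trans (e2.trans e3)
      · rw [← hj, ← Subgroup.orderOf_coe]; exact (MulAut.conj k).orderOf_eq y
    · rw [← hk, mul_smul, inv_smul_smul, mul_smul]
      exact fun e => hya (smul_left_cancel k e)
  · rintro _ ⟨u, hu, a, ha, -, rfl⟩ _ ⟨u', hu', a', ha', -, rfl⟩ w hw h1 h2
    have key : ∀ v, (orbit (P : Subgroup G) v).ncard = p → Q v ≤ stabilizer G w → Q v = Q w := by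
      intro v hv hle
      have hle' : Q v ≤ Q w := le_inf inf_le_left hle
      have e := Subgroup.relIndex_mul_relIndex (Q v) (Q w) P hle' inf_le_left
      rw [idx_orbit _ v, hv] at e
      have hne : (Q w).relIndex P ≠ 1 := by
        intro h1
        exact hw fun y => (Subgroup.relIndex_eq_one.1 h1 y.2).2
      rcases (Nat.dvd_prime hp.out).1 (Dvd.intro_left _ e) with h | h
      · exact absurd h hne
      · rw [h] at e
        have : (Q v).relIndex (Q w) = 1 :=
          Nat.eq_of_mul_eq_mul_right hp.out.pos (e.trans (one_mul p).symm)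
        exact le_antisymm hle' (Subgroup.relIndex_eq_one.1 this)
    have e : Y u = Y u' := by
      simp only [Y, key u hu (hfix u a ha w h1), key u' hu' (hfix u' a' ha' w h2)]
    rw [← e] at h2 ⊢
    rw [← orbit_eq_iff.2 h1, ← orbit_eq_iff.2 h2]
  · rintro _ ⟨u, hu, a, ha, ⟨y, hy, hya⟩, rfl⟩
    have hP := hPY u hu
    have h := wq p (Y u) (P.subtype hP) (orbit (Y u) a) ((Q u).subgroupOf (Y u)) (pg_Jp _ _)
      inferInstance ?_ (fun q hq => hq.1) ?_ ?_
    · rw [fP_orbit, Nat.card_coe_set_eq] at h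
      rwa [← Set.sdiff_self_inter, Set.ncard_sdiff Set.inter_subset_left]
    · exact Finite.one_lt_card_iff_nontrivial.2
        ⟨⟨_, mem_orbit a (⟨y, hy⟩ : Y u)⟩, ⟨a, mem_orbit_self a⟩, fun e => hya (congrArg Subtype.val e)⟩
    · rw [Sylow.coe_subtype, Subgroup.relIndex_subgroupOf hP, idx_orbit, hu]
    · intro q hq
      ext w
      exact hfix u a ha w w.2 hq

theorem tg (q0 : Q0.{u}) (yq : YQ.{u}) : TG.{u} := by
  intro p hp G _ _ P Δ _ _
  induction hn : Nat.card Δ using Nat.strong_induction_on generalizing G Δ with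
  | _ n ih =>
  intro hG ht h2
  subst hn
  obtain ⟨A, _, _, π, β, hA, hA2, hπ, hβ, hS, hprim⟩ := q0 G Δ ht h2
  rcases Nat.lt_or_ge 1 β with hb | hb
  · have hn : Nat.card Δ = β * Nat.card A := by
      have := hS Set.univ
      rwa [Set.preimage_univ, Set.ncard_univ, Set.ncard_univ] at this
    have h1 := ih (Nat.card A) (by rw [hn]; nlinarith) G P A rfl hG hA.toIsPretransitive hA2
    have h3 : fP (P : Subgroup G) Δ ≤ β * fP (P : Subgroup G) A := by
      rw [fP_eq, fP_eq, ← hS]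
      refine Set.ncard_le_ncard fun c hc y => ?_
      have := hπ y c
      rw [show (y : G) • c = c from hc y] at this
      exact this.symm
    calc p * fP (P : Subgroup G) Δ ≤ β * (p * fP (P : Subgroup G) A) := by nlinarith
      _ ≤ β * ((p - 1) * (Nat.card A - fP (P : Subgroup G) A)) := Nat.mul_le_mul_left _ h1
      _ = (p - 1) * (Nat.card Δ - β * fP (P : Subgroup G) A) := by
        rw [hn, ← Nat.mul_sub]; ring
      _ ≤ _ := Nat.mul_le_mul_left _ (Nat.sub_le_sub_left h3 _)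
  have hpr := hprim (le_antisymm hb hβ)
  by_cases ho : ∃ u : Δ, (orbit (P : Subgroup G) u).ncard = p
  · exact yq p G P Δ ht ho
  push Not at ho
  set F := fixedPoints (P : Subgroup G) Δ with hF
  rw [fP_eq]
  rcases F.eq_empty_or_nonempty with h0 | ⟨a, ha⟩
  · rw [← hF, h0]; simp
  have : Nontrivial Δ := Finite.one_lt_card_iff_nontrivial.1 h2
  set J := Jp p (stabilizer G a) with hJ
  have hPJ : (P : Subgroup G) ≤ J := le_Jp P.isPGroup' fun y hy => ha ⟨y, hy⟩
  have hco := (isCoatom_stabilizer_iff_preprimitive G a).2 hpr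
  have hfix : ∀ b, (∀ y ∈ J, y • b = b) → b = a := by
    intro b hb
    obtain ⟨g, rfl⟩ := exists_smul_eq G a b
    have hNk : ∀ k : G, (∀ y ∈ J, y • k • a = k • a) → k ∈ Subgroup.normalizer (J : Set G) := by
      intro k hk
      have h1 : J ≤ Jp p (stabilizer G (k • a)) :=
        (Subgroup.closure_le _).2 fun y hy =>
          Subgroup.subset_closure ⟨hk y (Subgroup.subset_closure hy), hy.2⟩
      rw [← inv_mem_iff]
      refine Subgroup.mem_normalizer_fintype fun y hy => ?_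
      have := Jp_conj (g := k⁻¹) (h1 hy)
      rwa [inv_smul_smul] at this
    have hst : stabilizer G a ≤ Subgroup.normalizer (J : Set G) := fun k hk =>
      hNk k fun y hy => by rw [show k • a = a from hk]; exact Jp_le _ _ hy
    rcases hst.eq_or_lt with he | hlt
    · have := hNk g hb
      rw [← he] at this; exact this
    · exfalso
      have hN : J.Normal := Subgroup.normalizer_eq_top_iff.1 (hco.2 _ hlt)
      apply hco.1
      rw [eq_top_iff, ← hG]
      refine le_trans ((Subgroup.closure_le _).2 ?_) (Jp_le p _)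
      rintro y ⟨k, hk⟩
      have hy : IsPGroup p (Subgroup.zpowers y) := IsPGroup.of_card (by rw [Nat.card_zpowers, hk])
      obtain ⟨S, hS⟩ := hy.exists_le_sylow
      obtain ⟨c, rfl⟩ := exists_smul_eq G P S
      obtain ⟨z, hz, e⟩ := hS (Subgroup.mem_zpowers y)
      rw [← e]
      exact hN.conj_mem z (hPJ hz) c
  have key := orb_ind J (fun b => b ≠ a)
    (fun X => X = ∅ ∨ p * (X ∩ F).ncard + p ≤ (p - 1) * (X \ F).ncard) (Or.inl rfl) ?_ {a}ᶜ ?_
    fun x hx => hx
  · obtain ⟨b, hb⟩ := exists_ne a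
    rcases key with h | h
    · exact absurd h (Set.nonempty_iff_ne_empty.1 ⟨b, hb⟩)
    have e1 : ({a}ᶜ ∩ F).ncard + 1 = F.ncard := by
      rw [Set.inter_comm, ← Set.sdiff_eq]; exact Set.ncard_sdiff_singleton_add_one ha
    have e2 : ({a}ᶜ \ F).ncard ≤ Nat.card Δ - F.ncard := by
      rw [← Set.ncard_univ, ← Set.ncard_sdiff (Set.subset_univ F)]
      exact Set.ncard_le_ncard (Set.sdiff_subset_sdiff_left (Set.subset_univ _))
    rw [← e1, mul_add, mul_one, e1]
    exact h.trans (Nat.mul_le_mul_left _ e2)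
  · intro X b hb hd hX
    right
    have hO2 : 2 ≤ Nat.card (orbit J b) := by
      by_contra hlt
      apply hb
      refine hfix b fun y hy => ?_
      have : Subsingleton (orbit J b) := Finite.card_le_one_iff_subsingleton.1 (by omega)
      exact congrArg Subtype.val
        (Subsingleton.elim (⟨_, mem_orbit b (⟨y, hy⟩ : J)⟩ : orbit J b) ⟨b, mem_orbit_self b⟩)
    have hlt : Nat.card (orbit J b) < Nat.card Δ := by
      rw [Nat.card_coe_set_eq, ← Set.ncard_univ]
      refine Set.ncard_lt_ncard ⟨Set.subset_univ _, fun h => hb ?_⟩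
      obtain ⟨y, hy⟩ := h (Set.mem_univ a)
      have h1 : (y : G) • b = a := hy
      have h3 : (y : G) • a = a := Jp_le _ _ y.2
      exact smul_left_cancel (y : G) (h1.trans h3.symm)
    have h1 := ih _ hlt J (P.subtype hPJ) (orbit J b) rfl (pg_Jp _ _) inferInstance hO2
    rw [fP_orbit, Nat.card_coe_set_eq, ← Set.ncard_sdiff Set.inter_subset_left,
      Set.sdiff_self_inter, ← hF] at h1
    have h3 := sq_dvd P.isPGroup' ho (orbit J b) fun g x hx =>
      mem_orbit_of_mem_orbit (⟨g, hPJ g.2⟩ : J) hx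
    rw [← hF] at h3
    have hsum := Set.ncard_inter_add_ncard_sdiff_eq_ncard (orbit J b) F
    rw [Nat.card_coe_set_eq] at hO2
    have hO : p * (orbit J b ∩ F).ncard + p ≤ (p - 1) * (orbit J b \ F).ncard := by
      obtain ⟨m, hm⟩ := h3
      have hp1 := hp.out.one_lt
      have hne : (orbit J b ∩ F).ncard ≠ (p - 1) * (p * m) := by
        intro e
        rcases (orbit J b ∩ F).eq_empty_or_nonempty with h0 | ⟨c, hc1, hc2⟩
        · rw [h0, Set.ncard_empty] at e hsum
          have : m ≠ 0 := by rintro rfl; omega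
          exact (Nat.mul_ne_zero (by omega) (Nat.mul_ne_zero (by omega) this)) e.symm
        · apply nd_orbit J P hPJ hc2
          rw [orbit_eq_iff.2 hc1, ← hsum, e, hm]
          exact Dvd.dvd.add ⟨(p - 1) * m, by ring⟩ ⟨p * m, by ring⟩
      have e : (p - 1) * (orbit J b \ F).ncard = p * ((p - 1) * (p * m)) := by rw [hm]; ring
      rw [e] at h1 ⊢
      have := Nat.le_of_mul_le_mul_left h1 hp.out.pos
      have : (orbit J b ∩ F).ncard + 1 ≤ (p - 1) * (p * m) := by omega
      nlinarith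
    rcases hX with rfl | hX
    · rwa [Set.union_empty]
    · rw [Set.union_inter_distrib_right, Set.union_sdiff_distrib,
        Set.ncard_union_eq (hd.mono Set.inter_subset_left Set.inter_subset_left),
        Set.ncard_union_eq (hd.mono Set.sdiff_subset Set.sdiff_subset), mul_add, mul_add]
      omega
  · intro g x hx h
    apply hx
    have h1 : (g : G) • x = a := h
    have h3 : (g : G) • a = a := Jp_le _ _ g.2
    exact smul_left_cancel (g : G) (h1.trans h3.symm)

end H4.FP
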