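import Cfsg.Agent.H4.Pat
import Cfsg.Agent.H4.R2a
import Cfsg.Agent.H1.SF0
import Cfsg.Agent.H2.Action
import Cfsg.Agent.H0.ES5

/-! Generation by fixed points of automorphisms. -/

set_option autoImplicit false
set_option linter.unusedSectionVars false

namespace H4
open Subgroup SemidirectProduct

variable {P : Type*} [Group P] [Finite P] {p : ℕ}

theorem eq_top_of_hyp {I : Subgroup (MulAut P)} {q : ℕ} (hq : q.Prime) (hI : Cfsg.IsElementaryAbelian q I)
    (h1 : I ≠ ⊥) (hP : ¬ q ∣ Nat.card P) {L : Subgroup P}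
    (h : ∀ U ≤ I, Nat.card U * q = Nat.card I → ∀ x, (∀ u ∈ U, u x = x) → x ∈ L) : L = ⊤ := by
  let φ := MonoidHom.id (MulAut P)
  have := H1.le_of_hyp (A := I.map (inr : _ →* P ⋊[φ] MulAut P)) (K := H2.sdK φ ⊤) (L := H2.sdK φ L) hq
    ⟨isMulCommutative_iff.2 (by
      rintro _ ⟨a, ha, rfl⟩ _ ⟨b, hb, rfl⟩
      rw [← map_mul, ← map_mul, isMulCommutative_iff.1 hI.1 a ha b hb]), by
      rintro _ ⟨a, ha, rfl⟩; rw [← map_pow, hI.2 a ha, map_one]⟩
    (by rwa [Ne, map_eq_bot_iff_of_injective _ inr_injective])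
    (by have := H2.sdK_top_normal (φ := φ); exact (normalizer_eq_top _).ge.trans' le_top)
    (H19.PiN.of_not_dvd (by rwa [H2.card_sdK, card_top])) fun B hB => by
      obtain ⟨U, hU, rfl⟩ : ∃ U ≤ I, U.map inr = B := ⟨B.comap inr,
        (comap_mono hB.1).trans (comap_map_eq_self_of_injective inr_injective _).le,
        map_comap_eq_self (hB.1.trans (map_le_range _ _))⟩
      rintro _ ⟨⟨k, -, rfl⟩, hk⟩
      refine H2.inl_mem_sdK.2 (h U hU ?_ k fun u hu => inl_injective (φ := φ) ?_)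
      · simpa only [card_map_of_injective inr_injective] using hB.2
      · exact (H2.inr_mul_inl_mul_inv (φ := φ) u k).symm.trans (mul_inv_eq_iff_eq_mul.2 (hk _ ⟨u, hu, rfl⟩))
  exact top_le_iff.1 (H2.sdK_le_iff.1 this)

theorem le_of_four {S T : MulAut P} (hS : S * S = 1) (hT : T * T = 1) (hc : S * T = T * S) (h1 : S ≠ 1)
    (h2 : T ≠ 1) (h3 : S ≠ T) (hP : Odd (Nat.card P)) {K J : Subgroup P} (i1 : Inv S K) (i2 : Inv T K)
    (h : ∀ k ∈ K, S k = k ∨ T k = k ∨ (S * T) k = k → k ∈ J) : K ≤ J := by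
  have e := H0.abelem_four hS hT hc
  have c4 := H0.card_four hS hT hc h1 h2 h3
  have := e.1
  refine H2.aut_le_of_fixed_le (φ := (zpowers S ⊔ zpowers T).subtype) (fun hc => ?_)
    (H2.aInv_subtype.2 fun a ha => ?_) ?_ fun a ha k hk e => h k hk ?_
  · have := card_le_of_cyc_pow hc two_pos e.2; omega
  · rcases (H0.mem_four hS hT hc).1 ha with rfl | rfl | rfl | rfl
    exacts [fun x hx => hx, i1, i2, fun x hx => i1 _ (i2 x hx)]
  · rw [c4]; exact ((hP.of_dvd_nat K.card_subgroup_dvd_card).coprime_two_left).pow_left 2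
  · obtain ⟨a, ha'⟩ := a
    rcases (H0.mem_four hS hT hc).1 ha' with rfl | rfl | rfl | rfl
    exacts [absurd rfl ha, .inl e, .inr (.inl e), .inr (.inr e)]

theorem eq_one_of_inv_odd (hP : Odd (Nat.card P)) {x : P} (h : x⁻¹ = x) : x = 1 :=
  orderOf_eq_one_iff.1 (Nat.eq_one_of_dvd_coprimes (hP.coprime_two_right) (orderOf_dvd_natCard x)
    (orderOf_dvd_of_pow_eq_one (by rw [sq]; exact inv_eq_iff_mul_eq_one.1 h)))

theorem fix_or_inv [hp : Fact p.Prime] (hP : IsPGroup p P) (h2 : p ≠ 2) {T : MulAut P} (hT : T * T = 1) {a : P}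
    (ha : T a ∈ zpowers a) : T a = a ∨ T a = a⁻¹ := by
  obtain ⟨m, hm⟩ := mem_zpowers_iff.1 ha
  obtain ⟨n, hn⟩ := (IsPGroup.iff_orderOf.1 hP) a
  have e : a ^ ((m - 1) * (m + 1)) = 1 := by
    have : T (T a) = a := DFunLike.congr_fun hT a
    rw [← hm, map_zpow, ← hm, ← zpow_mul] at this
    rw [show (m - 1) * (m + 1) = m * m - 1 by ring, zpow_sub, this]; simp
  rw [← orderOf_dvd_iff_zpow_eq_one, hn, Nat.cast_pow] at e
  have pp := Nat.prime_iff_prime_int.1 hp.out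
  by_cases h : (p : ℤ) ∣ m + 1
  · have h' : ¬ (p : ℤ) ∣ m - 1 := fun h' => h2 ((Nat.prime_dvd_prime_iff_eq hp.out Nat.prime_two).1
      (by exact_mod_cast (show (p : ℤ) ∣ 2 by simpa using dvd_sub h h')))
    have := pp.pow_dvd_of_dvd_mul_left n h' e
    rw [← Nat.cast_pow, ← hn, orderOf_dvd_iff_zpow_eq_one, zpow_add, zpow_one, hm] at this
    exact .inr (eq_inv_of_mul_eq_one_left this)
  · have := pp.pow_dvd_of_dvd_mul_right n h e
    rw [← Nat.cast_pow, ← hn, orderOf_dvd_iff_zpow_eq_one, zpow_sub, zpow_one, hm] at this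
    exact .inl (mul_inv_eq_one.1 this)

end H4
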