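/-
Translation of the conclusions of BG 4.18 / 5.6 to the vocabulary of the frozen statements.
-/
import Cfsg.Agent.H4.BG5b
import Cfsg.Agent.H18.G26
import Cfsg.Agent.H18.Top

set_option autoImplicit false
set_option linter.unusedSectionVars false

namespace H4
open Cfsg Subgroup H19 H18

universe u

variable {G : Type u} [Group G] [Finite G] {p : ℕ} {M : Subgroup G}

theorem hasNPC_of_hall [hp : Fact p.Prime] (h : Hall {p}ᶜ (Oc {p}ᶜ M) M) :
    HasNormalPComplement p M := by
  obtain ⟨P, hP⟩ := exists_syl p M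
  obtain ⟨S, rfl⟩ := hP.exists_sylow
  have hsd := sdprod_of_hall' h (Oc_norm _ M) hP
  refine ⟨S, (Oc {p}ᶜ M).subgroupOf M, (Oc_normal _ M).subgroupOf, ?_⟩
  have := hsd.isComplement'
  rwa [H1.map_subtype_subgroupOf] at this

theorem hasNPC_top [hp : Fact p.Prime] (h : Hall {p}ᶜ (Oc {p}ᶜ (⊤ : Subgroup G)) ⊤) :
    HasNormalPComplement p G := H3.hasNPC_top_iff.1 (hasNPC_of_hall h)

theorem der1_complement_top [hp : Fact p.Prime] (hodd : Odd (Nat.card G))
    (h1 : Hall {p}ᶜ (Oc {p}ᶜ (commutator G)) (commutator G))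
    (h2 : commutator G ≤ Opp p ⊤) (h3 : PLen1 p (⊤ : Subgroup G))
    (h4 : ∀ q : ℕ, q.Prime → q ∣ (Oc {p}ᶜ (⊤ : Subgroup G)).relIndex ⊤ → q ≤ p) :
    (∀ q : ℕ, q.Prime → q ∣ (pPrimeCore p G).index → q ≤ p) ∧
      ((p = 3 ∨ ∀ q : ℕ, q.Prime → q ∣ Nat.card G → p ≤ q) → HasNormalPComplement p G) ∧
      HasNormalPComplement p ↥(commutator G) ∧
      (∀ L : Subgroup ↥(commutator G), (Nat.card L).Coprime p → L ≤ pPrimeCore p ↥(commutator G)) ∧
      commutator G ≤ pPrimePCore p G ∧ ((pPrimePCore p G).index).Coprime p := by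
  have hpp := hp.out
  refine ⟨?_, fun h => hasNPC_top ⟨le_top, Oc_pi _ _, PiN.compl_compl fun q hq hd => ?_⟩,
    hasNPC_of_hall h1, fun L hL => ?_, Opp_top (X := G) p ▸ h2, ?_⟩
  · rwa [Oc_top_p' hpp, relIndex_top_right] at h4
  · refine le_antisymm (h4 q hq hd) ?_
    have hd' : q ∣ Nat.card G := Subgroup.card_top (G := G) ▸ hd.trans (relIndex_dvd_card _ _)
    rcases h with rfl | h
    · have h5 : q ≠ 2 := by
        rintro rfl
        exact (Nat.not_even_iff_odd.2 hodd) (even_iff_two_dvd.2 hd')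
      have := hq.two_le
      omega
    · exact h q hq hd'
  · have := h1.le_Oc (K := L.map (commutator G).subtype) (map_subtype_le L)
      (PiN.of_coprime (by rwa [card_map_subtype]))
    rw [← pPrimeCore_map_eq hpp] at this
    exact (map_le_map_iff_of_injective (subtype_injective _)).1 this
  · have := (G1b.plength1_iff_Opp hpp).1 h3
    rw [Opp_top, relIndex_top_right] at this
    exact this.coprime_prime hpp

end H4
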