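import Cfsg.Agent.H1.PSolv
import Cfsg.Agent.H1.PConstr
import Cfsg.Agent.H3.Focal

/-! Maximal coprime actions on `p`-subgroups: reduction to a simple section. -/

namespace H4.Cc

open Subgroup Cfsg
open scoped Pointwise

local notation "𝐍" H:max => normalizer (H : Set _)
local notation "𝐂" H:max => centralizer (H : Set _)

universe u

section defs
variable (p : ℕ) {X : Type*} [Group X]

/-- `x` has prime-power order prime to `p` -/
def PP (x : X) : Prop := ∃ r k : ℕ, r.Prime ∧ r ≠ p ∧ orderOf x = r ^ k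

/-- prime-power `p'`-elements of `K` act trivially or fixed-point-freely on `p`-subgroups -/
def HP (K : Subgroup X) : Prop := ∀ x ∈ K, PP p x → ∀ W : Subgroup X, IsPGroup p W → x ∈ 𝐍 W →
  ∀ w ∈ W, w ≠ 1 → Commute x w → x ∈ 𝐂 W

/-- prime-power `p'`-elements of `K` commute with an element of order `p` -/
def HQ (K : Subgroup X) : Prop := ∀ x ∈ K, PP p x → ∃ t, orderOf t = p ∧ Commute x t

/-- prime-power `p'`-elements of `K` act trivially on `p`-subgroups -/
def NP (K : Subgroup X) : Prop := ∀ x ∈ K, PP p x → ∀ W : Subgroup X, IsPGroup p W → x ∈ 𝐍 W →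
  x ∈ 𝐂 W

end defs

variable {p : ℕ} [hp : Fact p.Prime] {X Y : Type*} [Group X] [Group Y] {K L : Subgroup X} {x : X}

theorem PP.coprime (h : PP p x) : (orderOf x).Coprime p :=
  let ⟨_, _, a, b, c⟩ := h; c ▸ ((Nat.coprime_primes a hp.out).2 b).pow_left _

omit hp in
theorem PP.map (h : PP p x) (f : X →* Y) : PP p (f x) := by
  obtain ⟨r, k, a, b, c⟩ := h
  obtain ⟨j, -, e⟩ := (Nat.dvd_prime_pow a).1 (c ▸ orderOf_map_dvd f x)
  exact ⟨r, j, a, b, e⟩

omit hp in
theorem PP.lift [Finite X] (f : X →* Y) (h : PP p (f x)) :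
    ∃ y ∈ zpowers x, PP p y ∧ f y = f x := by
  obtain ⟨r, k, a, b, c⟩ := h
  obtain ⟨z, hz, ⟨j, h1⟩, h2⟩ := H3.exists_pelt_lift a.ne_zero f x (c ▸ pow_orderOf_eq_one _)
  obtain ⟨i, -, hi⟩ := (Nat.dvd_prime_pow a).1 (orderOf_dvd_of_pow_eq_one h1)
  exact ⟨z, hz, ⟨r, i, a, b, hi⟩, h2⟩

omit hp in
theorem HP.mono (h : HP p K) (l : L ≤ K) : HP p L := fun x hx => h x (l hx)

omit hp in
theorem HQ.mono (h : HQ p K) (l : L ≤ K) : HQ p L := fun x hx => h x (l hx)

theorem eq_one_of_cop [Finite X] {W N : Subgroup X} (hW : IsPGroup p W)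
    (hN : (Nat.card N).Coprime p) {a : X} (h1 : a ∈ W) (h2 : a ∈ N) : a = 1 := by
  obtain ⟨k, e⟩ := IsPGroup.iff_orderOf.1 hW ⟨a, h1⟩
  rw [orderOf_mk] at e
  have := orderOf_dvd_natCard (⟨a, h2⟩ : N)
  rw [orderOf_mk, e] at this
  rw [← orderOf_eq_one_iff, e]
  exact Nat.eq_one_of_dvd_coprimes (hN.pow_right k) this dvd_rfl

omit hp in
theorem comm_mem {W : Subgroup X} {w : X} (hx : x ∈ 𝐍 W) (hw : w ∈ W) : x * w * x⁻¹ * w⁻¹ ∈ W :=
  mul_mem ((mem_normalizer_iff.1 hx w).1 hw) (inv_mem hw)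

omit hp in
theorem cm {w : X} (h : x * w * x⁻¹ * w⁻¹ = 1) : Commute x w :=
  mul_inv_eq_iff_eq_mul.1 (mul_inv_eq_one.1 h)

theorem HP.quot [Finite X] (h : HP p K) {f : X →* Y} (hf : Function.Surjective f)
    (hk : (Nat.card f.ker).Coprime p) (l : f.ker ≤ K) : HP p (K.map f) := by
  rintro _ ⟨x, hx, rfl⟩ pp W hW xn w hw w1 c
  obtain ⟨V, -, hV, rfl⟩ := H1.exists_isPGroup_map_eq f (H := ⊤) hW (by
    rw [map_top_of_surjective _ hf]; exact le_top)
  rw [← H1.map_normalizer_of_coprime hf hV hk] at xn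
  obtain ⟨y, hy, e⟩ := xn
  obtain ⟨z, hz, zp, e'⟩ := PP.lift f (e ▸ pp : PP p (f y))
  obtain ⟨v, hv, rfl⟩ := hw
  have zn : z ∈ 𝐍 V := zpowers_le.2 hy hz
  have zK : z ∈ K := by
    have : z * x⁻¹ ∈ f.ker := by rw [MonoidHom.mem_ker, map_mul, map_inv, e', e, mul_inv_cancel]
    simpa using mul_mem (l this) hx
  rw [← H1.map_centralizer_of_coprime hf hV hk]
  refine ⟨z, h z zK zp V hV zn v hv (fun k => w1 (k ▸ map_one f)) (cm (eq_one_of_cop hV hk
    (comm_mem zn hv) ?_)), e'.trans e⟩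
  rw [MonoidHom.mem_ker]
  simp only [map_mul, map_inv, e', e]
  rw [c.eq]; group

theorem HQ.quot [Finite X] (h : HQ p K) {f : X →* Y} (hk : (Nat.card f.ker).Coprime p) :
    HQ p (K.map f) := by
  rintro _ ⟨x, hx, rfl⟩ pp
  obtain ⟨z, hz, zp, e⟩ := PP.lift f pp
  obtain ⟨t, ht, c⟩ := h z (zpowers_le.2 hx hz) zp
  refine ⟨f t, orderOf_eq_prime (by rw [← map_pow, ← ht, pow_orderOf_eq_one, map_one]) fun k => ?_,
    e ▸ c.map f⟩
  have := eq_one_of_cop (H1.isPGroup_zpowers_of_orderOf_eq ht) hk (mem_zpowers t) k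
  rw [this, orderOf_one] at ht
  exact hp.out.one_lt.ne ht

theorem NP.of_quot [Finite X] {f : X →* Y} (h : NP p (K.map f)) (hk : (Nat.card f.ker).Coprime p) :
    NP p K := fun x hx pp W hW xn w hw => by
  have := h (f x) (mem_map_of_mem f hx) (pp.map f) _ (hW.map f) (le_normalizer_map f
    (mem_map_of_mem f xn)) (f w) (mem_map_of_mem f hw)
  refine (cm (eq_one_of_cop hW hk (comm_mem xn hw) ?_)).eq.symm
  rw [MonoidHom.mem_ker]
  simp only [map_mul, map_inv]
  rw [← this]; group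

omit hp in
theorem mem_norm_sup {A B : Subgroup X} (h1 : x ∈ 𝐍 A) (h2 : x ∈ 𝐍 B) : x ∈ 𝐍 (A ⊔ B : Subgroup X) :=
  normalizer_inf_normalizer_le_normalizer_sup A B ⟨h1, h2⟩

omit hp in
theorem mem_norm_zp {t : X} (c : Commute x t) : x ∈ 𝐍 (zpowers t) :=
  centralizer_le_normalizer _ fun y hy => by
    obtain ⟨k, rfl⟩ := mem_zpowers_iff.1 hy
    exact (c.zpow_right k).eq.symm

theorem ne_one_of_ord {t : X} (ht : orderOf t = p) : t ≠ 1 := fun k =>
  hp.out.one_lt.ne (by rw [← ht, k, orderOf_one])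

/-- adjoining a commuting element of order `p` -/
theorem HP.adj (h : HP p K) (hx : x ∈ K) (pp : PP p x) {W : Subgroup X} (hW : IsPGroup p W)
    (xn : x ∈ 𝐍 W) {t : X} (ht : orderOf t = p) (tn : t ∈ 𝐍 W) (c : Commute x t) : x ∈ 𝐂 W :=
  centralizer_le (SetLike.coe_subset_coe.2 (le_sup_right : W ≤ zpowers t ⊔ W))
    (h x hx pp _ ((H1.isPGroup_zpowers_of_orderOf_eq ht).to_sup_of_normal_right' hW
      (zpowers_le.2 tn)) (mem_norm_sup (mem_norm_zp c) xn) t (mem_sup_left (mem_zpowers t))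
      (ne_one_of_ord ht) c)

theorem np_of_O (h : HP p K) (q : HQ p K) {O : Subgroup X} [O.Normal] (hO : IsPGroup p O)
    (O1 : O ≠ ⊥) : NP p K := fun x hx pp W hW xn => by
  obtain ⟨t, ht, c⟩ := q x hx pp
  have n : ∀ g : X, g ∈ normalizer (O : Set X) := fun g => le_normalizer_of_normal (mem_top g)
  have := h.adj hx pp hO (n x) ht (n t) c
  obtain ⟨⟨o, ho⟩, o1⟩ := ne_bot_iff_exists_ne_one.1 O1
  exact centralizer_le (SetLike.coe_subset_coe.2 (le_sup_left : W ≤ W ⊔ O))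
    (h x hx pp _ (hW.to_sup_of_normal_right hO) (mem_norm_sup xn (n x)) o (mem_sup_right ho)
      (by simpa using o1) (this o ho).symm)

theorem exists_pair [Finite X] (h : ¬ HasNormalPComplement p L) :
    ∃ x ∈ L, PP p x ∧ ∃ W ≤ L, IsPGroup p W ∧ x ∈ 𝐍 W ∧ x ∉ 𝐂 W := by
  obtain ⟨T, hT, -, g, g1, g2, q, k, a, b, c⟩ := H3.exists_of_not_hasNPC (default : Sylow p L) h
  refine ⟨g, g.2, ⟨q, k, a, b, (orderOf_coe g).trans c⟩, T.map L.subtype, map_subtype_le _,
    ((default : Sylow p L).2.to_le hT).map _, le_normalizer_map _ (mem_map_of_mem _ g1), fun k => g2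
    fun y hy => Subtype.ext (k y (mem_map_of_mem _ hy))⟩

theorem simple_case [Finite X] [K.Normal] (h : HP p K) (h1 : pCore p K = ⊥) (h2 : pPrimeCore p K = ⊥)
    (K1 : K ≠ ⊥) : ∃ L ≤ K, L.Normal ∧ IsSimpleGroup L ∧ ¬ HasNormalPComplement p L := by
  obtain ⟨N, ⟨hN, NK, N1⟩, hmin⟩ := exists_minimal_of_wellFoundedLT
    (fun M : Subgroup X => M.Normal ∧ M ≤ K ∧ M ≠ ⊥) ⟨K, inferInstance, le_rfl, K1⟩
  obtain ⟨L, ⟨hL, LN, L1⟩, hm⟩ := exists_minimal_of_wellFoundedLT
    (fun M : Subgroup X => N ≤ 𝐍 M ∧ M ≤ N ∧ M ≠ ⊥) ⟨N, le_normalizer, le_rfl, N1⟩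
  have sub : ∀ M : Subgroup X, N ≤ 𝐍 M → M ≤ N → (M.subgroupOf K).IsSubnormal := fun M a b =>
    IsSubnormal.step _ (N.subgroupOf K) (subgroupOf_mono _ b) (Normal.isSubnormal inferInstance)
      ((normal_subgroupOf_iff_le_normalizer (subgroupOf_mono _ b)).2 fun x hx =>
        le_normalizer_comap _ (a hx))
  have nc : ¬ HasNormalPComplement p L := fun c => by
    have a := H3.hasNPC_iff_coprime.1 c
    by_cases e : pResidual p L = ⊥
    · have := H1.le_pCoreOf_of_subnormal (LN.trans NK) (sub L hL LN) (p := p)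
        ((H3.isPGroup_quotient_pResidual hp.out.ne_zero).of_injective (QuotientGroup.mk' _) (by
          rw [← MonoidHom.ker_eq_bot_iff, QuotientGroup.ker_mk', e]))
      rw [h1, Subgroup.map_bot, le_bot_iff] at this
      exact L1 this
    · have l : (pResidual p L).map L.subtype ≤ N := (map_subtype_le _).trans LN
      have := H1.le_pPrimeCoreOf_of_subnormal (l.trans NK) (sub _
        (H1.le_normalizer_map_subtype_of_char _ hL) l) (p := p) (by rwa [card_map_of_injective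
          L.subtype_injective])
      rw [h2, Subgroup.map_bot, le_bot_iff, map_eq_bot_iff_of_injective _ L.subtype_injective] at this
      exact e this
  have nL : L.Normal := by
    by_contra k
    obtain ⟨g, hg⟩ : ∃ g : X, ¬ L ≤ MulAut.conj g • L := by
      by_contra! c
      exact k ⟨fun n hn g => by simpa [mem_pointwise_smul_iff_inv_smul_mem] using c g⁻¹ hn⟩
    have hL' : N ≤ 𝐍 (MulAut.conj g • L : Subgroup X) := fun n hn => by
      have := le_normalizer_map (H := L) (MulAut.conj g).toMonoidHom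
        (mem_map_of_mem _ (hL (hN.conj_mem n hn g⁻¹)))
      rwa [show (MulAut.conj g).toMonoidHom (g⁻¹ * n * g⁻¹⁻¹) = n by simp [mul_assoc]] at this
    have LN' : (MulAut.conj g • L : Subgroup X) ≤ N := by
      rintro _ ⟨y, hy, rfl⟩
      exact hN.conj_mem y (LN hy) g
    have i : L ⊓ MulAut.conj g • L = ⊥ := by
      by_contra c
      exact hg ((hm ⟨(le_inf hL hL').trans inf_normalizer_le_normalizer_inf, inf_le_left.trans LN, c⟩
        inf_le_left).trans inf_le_right)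
    have cc : ∀ a ∈ L, ∀ b ∈ (MulAut.conj g • L : Subgroup X), Commute a b := fun a ha b hb =>
      cm (mem_bot.1 (i ▸ ⟨by
        simpa [mul_assoc] using mul_mem ha ((mem_normalizer_iff.1 (hL (LN' hb)) _).1 (inv_mem ha)),
        comm_mem (hL' (LN ha)) hb⟩))
    obtain ⟨x, hx, pp, W, l, hW, xn, xc⟩ := exists_pair nc
    obtain ⟨t, ht⟩ := exists_prime_orderOf_dvd_card' (G := L) p (by_contra fun d => nc
      (H3.hasNPC_iff_not_dvd.2 fun e => d (e.trans (card_subgroup_dvd_card _))))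
    have m : g * t * g⁻¹ ∈ (MulAut.conj g • L : Subgroup X) := ⟨t, t.2, rfl⟩
    exact xc (h.adj (NK (LN hx)) pp hW xn (t := g * t * g⁻¹) (by
      rw [← ht, ← orderOf_coe]; exact (MulAut.conj g).orderOf_eq _) (centralizer_le_normalizer _
      fun w hw => (cc w (l hw) _ m).eq) (cc x hx _ m))
  obtain rfl : L = N := le_antisymm LN (hmin ⟨nL, LN.trans NK, L1⟩ LN)
  haveI := (nontrivial_iff_ne_bot L).2 L1
  refine ⟨L, NK, nL, ⟨fun M hM => or_iff_not_imp_left.2 fun M1 => ?_⟩, nc⟩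
  have := hm ⟨H1.le_normalizer_map_subtype M, map_subtype_le _, fun e => M1
    ((map_eq_bot_iff_of_injective _ L.subtype_injective).1 e)⟩ (map_subtype_le M)
  exact eq_top_iff.2 fun y _ => by
    obtain ⟨z, hz, e⟩ := this y.2
    exact Subtype.ext e ▸ hz

/-- the simple configurations are impossible -/
def SF (p : ℕ) : Prop := ∀ (X : Type u) [Group X] [Finite X] (L : Subgroup X), L.Normal →
  IsSimpleGroup L → ¬ HasNormalPComplement p L → HP p L → HQ p L → False

theorem core (n : ℕ) : ∀ (X : Type u) [Group X] [Finite X] (K : Subgroup X) [K.Normal],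
    Nat.card X = n → (SF.{u} p ∨ IsPSolvable p K) → HP p K → HQ p K → NP p K := by
  induction n using Nat.strong_induction_on with
  | _ n ih =>
  intro X _ _ K _ hn hs h q
  by_cases h2 : pPrimeCore p K = ⊥
  swap
  · let N := (pPrimeCore p K).map K.subtype
    haveI : N.Normal := H1.pPrimeCoreOf_normal K
    have hk := H1.coprime_card_ker_mk' (N := N) (H1.pPrimeCoreOf_coprime K)
    have sj := QuotientGroup.mk'_surjective N
    haveI := Normal.map (inferInstance : K.Normal) _ sj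
    refine NP.of_quot (ih _ ?_ _ _ rfl (hs.imp_right fun s => H1.isPSolvable_map s _)
      (h.quot sj hk (by rw [QuotientGroup.ker_mk']; exact map_subtype_le _)) (q.quot hk)) hk
    rw [← hn, ← N.card_mul_index]
    exact lt_mul_of_one_lt_left Nat.card_pos ((N.one_lt_card_iff_ne_bot).2 fun e => h2
      ((map_eq_bot_iff_of_injective _ K.subtype_injective).1 e))
  by_cases h1 : pCore p K = ⊥
  swap
  · haveI := H1.pCoreOf_normal (p := p) K
    exact np_of_O h q (H1.pCoreOf_isPGroup K) fun e => h1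
      ((map_eq_bot_iff_of_injective _ K.subtype_injective).1 e)
  by_cases K1 : K = ⊥
  · subst K1
    intro x hx _ W _ _
    rw [mem_bot.1 hx]; exact one_mem _
  rcases hs with hs | hs
  · obtain ⟨L, l, a, b, c⟩ := simple_case h h1 h2 K1
    exact (hs X L a b c (h.mono l) (q.mono l)).elim
  · haveI := (nontrivial_iff_ne_bot K).2 K1
    exact ((H1.pCore_ne_bot_or_of_isPSolvable hs).elim (· h1) (· h2)).elim

end H4.Cc
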