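import Cfsg.Agent.H4.Cc1

/-! The maximal pair theorem. -/

namespace H4.Cc

open Subgroup Cfsg
open scoped Pointwise

local notation "𝐍" H:max => normalizer (H : Set _)
local notation "𝐂" H:max => centralizer (H : Set _)

universe u

variable {p : ℕ} [hp : Fact p.Prime] {G : Type u} [Group G] [Finite G]

theorem cop_comm {D : Subgroup G} (hD : IsPGroup p D) {x w : G} (hx : (orderOf x).Coprime p)
    (xc : x ∈ 𝐂 D) (h : x * w * x⁻¹ * w⁻¹ ∈ D) : Commute x w := by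
  set d := x * w * x⁻¹ * w⁻¹ with e
  have c : Commute x d := (xc d h).symm
  have k : ∀ n : ℕ, x ^ n * w * (x ^ n)⁻¹ = d ^ n * w := fun n => by
    induction n with
    | zero => simp
    | succ n ih =>
      calc _ = x * (x ^ n * w * (x ^ n)⁻¹) * x⁻¹ := by rw [pow_succ']; group
        _ = (x * d ^ n) * w * x⁻¹ := by rw [ih]; group
        _ = d ^ n * (x * w * x⁻¹ * w⁻¹) * w := by rw [(c.pow_right n).eq]; group
        _ = _ := by rw [← e, pow_succ]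
  have := k (orderOf x)
  rw [pow_orderOf_eq_one, one_mul, inv_one, mul_one, eq_comm, mul_eq_right] at this
  obtain ⟨j, hj⟩ := IsPGroup.iff_orderOf.1 hD ⟨d, h⟩
  rw [orderOf_mk] at hj
  refine cm (orderOf_eq_one_iff.1 ?_)
  exact Nat.eq_one_of_dvd_coprimes (hx.pow_right j) (orderOf_dvd_of_pow_eq_one this) (hj ▸ dvd_rfl)

theorem exists_ord_p {Y : Type*} [Group Y] [Finite Y] {t : Y} (t1 : t ≠ 1) {k : ℕ} (h : t ^ p ^ k = 1) :
    ∃ s ∈ zpowers t, orderOf s = p := by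
  obtain ⟨j, -, e⟩ := (Nat.dvd_prime_pow hp.out).1 (orderOf_dvd_of_pow_eq_one h)
  refine ⟨t ^ (orderOf t / p), npow_mem_zpowers _ _, orderOf_pow_orderOf_div (orderOf_pos t).ne' ?_⟩
  rw [e]
  exact dvd_pow_self p fun j0 => t1 (by rwa [j0, pow_zero, orderOf_eq_one_iff] at e)

theorem step (K : Subgroup G) [K.Normal] (hs : SF.{u} p ∨ IsPSolvable p K) {D : Subgroup G}
    (pD : IsPGroup p D) (hP : ∀ z ∈ K, PP p z → z ∈ 𝐂 D → ∀ U : Subgroup G, IsPGroup p U → D ≤ U →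
      z ∈ 𝐍 U → ∀ w ∈ U, Commute z w → w ∉ D → z ∈ 𝐂 U)
    (hq : ∀ y ∈ K, PP p y → y ∈ 𝐂 D → ∃ T : Subgroup G, IsPGroup p T ∧ D ≤ T ∧ y ∈ 𝐂 T ∧ T ≠ D)
    {x : G} (xK : x ∈ K) (pp : PP p x) (xD : x ∈ 𝐂 D) {V : Subgroup G} (pV : IsPGroup p V)
    (l : V ≤ 𝐍 D) (xn : x ∈ 𝐍 V) : x ∈ 𝐂 V := by
  obtain ⟨H, hH⟩ : ∃ H, H = normalizer (D : Set G) := ⟨_, rfl⟩
  have DH : D ≤ H := hH ▸ le_normalizer
  have CH : 𝐂 D ≤ H := hH ▸ centralizer_le_normalizer _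
  haveI : (D.subgroupOf H).Normal := (normal_subgroupOf_iff_le_normalizer DH).2 hH.le
  obtain ⟨f, sj, f1⟩ : ∃ f : H →* H ⧸ D.subgroupOf H, Function.Surjective f ∧
      ∀ a : H, f a = 1 ↔ (a : G) ∈ D :=
    ⟨QuotientGroup.mk' _, QuotientGroup.mk'_surjective _, fun a => QuotientGroup.eq_one_iff a⟩
  haveI : ((K ⊓ 𝐂 D).subgroupOf H).Normal := ⟨fun a ha g => ⟨Normal.conj_mem inferInstance _ ha.1 _,
    fun d hd => by
      have : _ * (a : G) = a * _ := ha.2 _ ((mem_normalizer_iff.1 (inv_mem (hH.le g.2)) d).1 hd)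
      change d * ((g : G) * a * (g : G)⁻¹) = (g : G) * a * (g : G)⁻¹ * d
      calc _ = g * ((g : G)⁻¹ * d * (g : G)⁻¹⁻¹ * a) * (g : G)⁻¹ := by group
        _ = _ := by rw [this]; group⟩⟩
  haveI := Normal.map (inferInstance : ((K ⊓ 𝐂 D).subgroupOf H).Normal) _ sj
  have ppc : ∀ {a : H}, PP p a → PP p (a : G) := fun b => b.map H.subtype
  have key : ∀ {a w : H}, PP p a → (a : G) ∈ 𝐂 D → Commute (f a) (f w) → Commute (a : G) w :=
    fun {a w} b c d => cop_comm pD (ppc b).coprime c ((f1 (a * w * a⁻¹ * w⁻¹)).1 (by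
      simp only [map_mul, map_inv]; rw [d.eq]; group))
  have h1 : HP p (((K ⊓ 𝐂 D).subgroupOf H).map f) := by
    rintro _ ⟨a, ha, rfl⟩ pa W hW an w hw w1 c
    obtain ⟨z, hz, zp, e⟩ := PP.lift f pa
    have zK : (z : G) ∈ K ⊓ 𝐂 D := zpowers_le.2 ha hz
    obtain ⟨w, rfl⟩ := sj w
    rw [← e] at an c ⊢
    have pU : IsPGroup p ((W.comap f).map H.subtype) := (hW.comap_of_ker_isPGroup f (by
      rw [show f.ker = D.comap H.subtype from Subgroup.ext f1]; exact pD.comap_subtype)).map _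
    have := hP z zK.1 (ppc zp) zK.2 _ pU (fun d hd => ⟨⟨d, DH hd⟩, by
        change f _ ∈ W
        rw [(f1 _).2 hd]; exact one_mem _, rfl⟩)
      (le_normalizer_map _ (mem_map_of_mem _ (le_normalizer_comap f an))) w ⟨w, hw, rfl⟩
      (key zp zK.2 c) fun k => w1 ((f1 w).2 k)
    intro u hu
    obtain ⟨u, rfl⟩ := sj u
    rw [← map_mul, ← map_mul]
    exact congrArg f (Subtype.ext (this u ⟨u, hu, rfl⟩))
  have h2 : HQ p (((K ⊓ 𝐂 D).subgroupOf H).map f) := by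
    rintro _ ⟨a, ha, rfl⟩ pa
    obtain ⟨z, hz, zp, e⟩ := PP.lift f pa
    have zK : (z : G) ∈ K ⊓ 𝐂 D := zpowers_le.2 ha hz
    obtain ⟨T, hT, l, zT, ne⟩ := hq z zK.1 (ppc zp) zK.2
    obtain ⟨t, ⟨tN, tT⟩, tD⟩ := SetLike.exists_of_lt
      (H1.lt_normalizer_inf_of_isPGroup hT (lt_of_le_of_ne l ne.symm))
    obtain ⟨k, hk⟩ := hT ⟨t, tT⟩
    have hk' : t ^ p ^ k = 1 := congrArg Subtype.val hk
    obtain ⟨s, hs, o⟩ := exists_ord_p (p := p) (t := f ⟨t, hH.ge tN⟩) (k := k)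
      (fun e => tD ((f1 _).1 e)) (by
      rw [← map_pow, show (⟨t, hH.ge tN⟩ : H) ^ p ^ k = 1 from Subtype.ext hk', map_one])
    obtain ⟨i, rfl⟩ := mem_zpowers_iff.1 hs
    have c : Commute z ⟨t, hH.ge tN⟩ := Subtype.ext (zT t tT).symm
    exact ⟨_, o, e ▸ (c.map f).zpow_right i⟩
  have np := core _ _ _ rfl (hs.imp_right fun s =>
    H1.isPSolvable_map ((H1.isPSolvable_subgroupOf_iff (inf_le_right.trans CH)).2
      (H1.isPSolvable_of_le inf_le_left s)) f) h1 h2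
  have pp' : PP p (⟨x, CH xD⟩ : H) := by
    obtain ⟨r, k, a, b, c⟩ := pp
    exact ⟨r, k, a, b, (orderOf_mk _ _).trans c⟩
  intro v hv
  refine (key (w := ⟨v, hH.ge (l hv)⟩) pp' xD ?_).eq.symm
  exact (np _ (mem_map_of_mem f (show _ ∈ (K ⊓ 𝐂 D).subgroupOf H from ⟨xK, xD⟩)) (pp'.map f)
    ((V.subgroupOf H).map f) ((pV.comap_subtype).map f) (le_normalizer_map f (mem_map_of_mem f
    (le_normalizer_comap _ xn))) (f ⟨v, hH.ge (l hv)⟩) (mem_map_of_mem f hv)).symm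

theorem maxpair (K : Subgroup G) [K.Normal] (hs : SF.{u} p ∨ IsPSolvable p K)
    (h : ¬ HasNormalPComplement p K) :
    ∃ D V : Subgroup G, ∃ x ∈ K, ∃ y ∈ K, IsPGroup p V ∧ D ≤ V ∧ V ≤ 𝐍 D ∧ PP p x ∧ x ∈ 𝐍 V ∧
      x ∉ 𝐂 V ∧ x ∈ 𝐂 D ∧ (∀ v ∈ V, Commute x v → v ∈ D) ∧ PP p y ∧ y ∈ 𝐂 D ∧
      ∀ T : Subgroup G, IsPGroup p T → D ≤ T → y ∈ 𝐂 T → T = D := by
  obtain ⟨⟨x, V⟩, ⟨xK, pp, hV, xn, xc⟩, hmax⟩ := Set.exists_max_image
    {a : G × Subgroup G | a.1 ∈ K ∧ PP p a.1 ∧ IsPGroup p a.2 ∧ a.1 ∈ 𝐍 a.2 ∧ a.1 ∉ 𝐂 a.2}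
    (fun a => Nat.card (a.2 ⊓ 𝐂 {a.1} : Subgroup G)) (Set.toFinite _) (by
      obtain ⟨x, a, b, W, -, c, d, e⟩ := exists_pair h
      exact ⟨(x, W), a, b, c, d, e⟩)
  dsimp only at xK pp hV xn xc hmax
  obtain ⟨D, hD⟩ : ∃ D, D = V ⊓ 𝐂 {x} := ⟨_, rfl⟩
  rw [← hD] at hmax
  have DV : D ≤ V := hD ▸ inf_le_left
  have pD : IsPGroup p D := hV.to_le DV
  have xD : x ∈ 𝐂 D := fun v hv => mem_centralizer_singleton_iff.1 (hD.le hv).2
  have lt : D < V := lt_of_le_of_ne DV fun e => xc (e ▸ xD)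
  have lt1 := H1.lt_normalizer_inf_of_isPGroup hV lt
  have pV : IsPGroup p (𝐍 D ⊓ V : Subgroup G) := hV.to_le inf_le_right
  have xN : x ∈ 𝐍 D := centralizer_le_normalizer _ xD
  have xn1 : x ∈ 𝐍 (𝐍 D ⊓ V : Subgroup G) := inf_normalizer_le_normalizer_inf ⟨le_normalizer xN, xn⟩
  have inD : ∀ v ∈ 𝐍 D ⊓ V, Commute x v → v ∈ D := fun v hv c =>
    hD.ge ⟨hv.2, mem_centralizer_singleton_iff.2 c.symm.eq⟩
  have xc1 : x ∉ 𝐂 (𝐍 D ⊓ V : Subgroup G) := fun k => lt1.not_ge fun v hv => inD v hv (k v hv).symm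
  by_contra hne
  refine xc1 (step K hs pD (fun z a b c U pU l zU w wU cw wD => ?_) (fun y a b c => ?_) xK pp xD pV
    inf_le_left xn1)
  · by_contra k
    have l : D ≤ U ⊓ 𝐂 {z} := fun d hd => ⟨l hd, mem_centralizer_singleton_iff.2 (c d hd)⟩
    exact wD ((eq_of_le_of_card_ge l (hmax (z, U) ⟨a, b, pU, zU, k⟩)).ge ⟨wU,
      mem_centralizer_singleton_iff.2 cw.symm.eq⟩)
  · by_contra! k
    exact hne ⟨D, _, x, xK, y, a, pV, lt1.le, inf_le_left, pp, xn1, xc1, xD, inD, b, c, k⟩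

end H4.Cc
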