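import Cfsg.Agent.H4.Cc2
import Cfsg.Agent.H2.Coprime
import Cfsg.Agent.H5.Spec

/-! Involutory automorphisms with `2`-nilpotent fixed points: abstract lemmas. -/

namespace H4.Cc

open Subgroup Cfsg
open scoped Pointwise

local notation "𝐍" H:max => normalizer (H : Set _)
local notation "𝐂" H:max => centralizer (H : Set _)

variable {G : Type*} [Group G]

/-- fixed points of an automorphism -/
def Fx (τ : MulAut G) : Subgroup G := τ.toMonoidHom.eqLocus (MonoidHom.id G)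

theorem mem_Fx {τ : MulAut G} {x : G} : x ∈ Fx τ ↔ τ x = x := Iff.rfl

/-- every element of odd prime order is fixed by an involutory automorphism with `2`-nilpotent
fixed points -/
def Bad (G : Type*) [Group G] : Prop := ∀ y : G, (orderOf y).Prime → orderOf y ≠ 2 →
  ∃ τ : MulAut G, τ * τ = 1 ∧ τ y = y ∧ HasNormalPComplement 2 (Fx τ)

variable [Finite G] {τ : MulAut G}

theorem exists_inv (h : τ * τ = 1) (e : 2 ∣ Nat.card G) : ∃ s, orderOf s = 2 ∧ τ s = s := by
  classical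
  haveI := Fintype.ofFinite G
  have c := Equiv.Perm.card_fixedPoints_modEq (p := 2) (n := 1) (f := (fun x : G => x⁻¹ :
    Function.End G)) (funext fun x => inv_inv x)
  let σ : Equiv.Perm (Function.fixedPoints fun x : G => x⁻¹) :=
    Equiv.Perm.subtypePerm τ.toEquiv fun x => by
      change (τ x)⁻¹ = τ x ↔ x⁻¹ = x
      rw [← map_inv, τ.apply_eq_iff_eq]
  obtain ⟨⟨b, hb⟩, e1, e2⟩ := Equiv.Perm.exists_fixed_point_of_prime' (p := 2) (n := 1) (σ := σ)
    ((Nat.modEq_zero_iff_dvd.1 (c.symm.trans (Nat.modEq_zero_iff_dvd.2 (by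
      rwa [← Nat.card_eq_fintype_card]))))) (Equiv.ext fun x => Subtype.ext
      (DFunLike.congr_fun h x.1)) (a := ⟨1, inv_one⟩) (Subtype.ext (map_one τ))
  exact ⟨b, orderOf_eq_prime (by rw [sq]; exact mul_eq_one_iff_inv_eq.2 hb)
    fun k => e2 (Subtype.ext k), congrArg Subtype.val e1⟩

theorem inv_all {K : Subgroup G} {s : G} (hs : s * s = 1) (n : s ∈ 𝐍 K)
    (h : ∀ x ∈ K, Commute s x → x = 1) {y : G} (hy : y ∈ K) : s * y * s⁻¹ = y⁻¹ := by
  let g : K → K := fun x => ⟨x⁻¹ * (s * x * s⁻¹),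
    mul_mem (inv_mem x.2) ((mem_normalizer_iff.1 n _).1 x.2)⟩
  have : Function.Injective g := fun a b e => by
    have e' : (a : G)⁻¹ * (s * a * s⁻¹) = (b : G)⁻¹ * (s * b * s⁻¹) := congrArg Subtype.val e
    refine Subtype.ext (mul_inv_eq_one.1 (h _ (mul_mem a.2 (inv_mem b.2)) (cm ?_)))
    calc _ = a * ((a : G)⁻¹ * (s * a * s⁻¹)) * (s * b * s⁻¹)⁻¹ * b * (a : G)⁻¹ := by group
      _ = _ := by rw [e']; group
  obtain ⟨x, e⟩ := Finite.injective_iff_surjective.1 this ⟨y, hy⟩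
  obtain rfl : (x : G)⁻¹ * (s * x * s⁻¹) = y := congrArg Subtype.val e
  have s' : s⁻¹ = s := inv_eq_of_mul_eq_one_left hs
  rw [s']
  calc _ = s * (x : G)⁻¹ * s * x * (s * s) := by group
    _ = _ := by rw [hs]; simp [s', mul_assoc]

theorem odd_core {F : Subgroup G} (h : HasNormalPComplement 2 F) : ∃ K : Subgroup G,
    (Nat.card K).Coprime 2 ∧ F ≤ 𝐍 K ∧ ∀ x ∈ F, (orderOf x).Coprime 2 → x ∈ K :=
  ⟨(pResidual 2 F).map F.subtype, by
    rw [card_map_of_injective F.subtype_injective]; exact H3.hasNPC_iff_coprime.1 h,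
    H1.le_normalizer_map_subtype _, fun x hx c => ⟨⟨x, hx⟩, subset_closure (by
      rwa [Set.mem_ofPred_eq, orderOf_mk]), rfl⟩⟩

omit [Finite G] in
theorem ord_mul {s x : G} {r : ℕ} (hs : orderOf s = 2) (hx : orderOf x = r) (c : r.Coprime 2)
    (h : Commute s x) : H5.Ord G (2 * r) :=
  ⟨s * x, by rw [h.orderOf_mul_eq_mul_orderOf_of_coprime (by rw [hs, hx]; exact c.symm), hs, hx]⟩

omit [Finite G] in
theorem sq_of_ord {s : G} (hs : orderOf s = 2) : s * s = 1 := by rw [← sq, ← hs, pow_orderOf_eq_one]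

theorem cop_of_mem {K : Subgroup G} {n : ℕ} (h : (Nat.card K).Coprime n) {x : G} (hx : x ∈ K) :
    (orderOf x).Coprime n := h.coprime_dvd_left (orderOf_dvd_natCard K hx)

theorem not_bad_cit (hc : ∀ r, r.Prime → r ≠ 2 → ¬ H5.Ord G (2 * r)) (e : 2 ∣ Nat.card G)
    (hZ : ∀ s : G, orderOf s = 2 → ∃ Z : Subgroup G, (∀ x, x ∈ Z ↔ x * x = 1 ∧ x * s = s * x) ∧
      4 < Nat.card Z) {y : G} (hy : (orderOf y).Prime) (y2 : orderOf y ≠ 2) : ¬ Bad G := fun b => by
  obtain ⟨τ, t2, ty, hF⟩ := b y hy y2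
  obtain ⟨s, s2, ts⟩ := exists_inv t2 e
  obtain ⟨Z, hz, c⟩ := hZ s s2
  obtain ⟨K, oK, nK, mK⟩ := odd_core hF
  have tt : ∀ x, τ (τ x) = x := fun x => DFunLike.congr_fun t2 x
  have yK := mK y ty ((Nat.coprime_primes hy Nat.prime_two).2 y2)
  have inv : ∀ u ∈ Z ⊓ Fx τ, u ≠ 1 → u * y * u⁻¹ = y⁻¹ := fun u hu u1 =>
    inv_all ((hz u).1 hu.1).1 (nK hu.2) (fun x hx k => by
      by_contra x1
      obtain ⟨r, hr, d⟩ := Nat.exists_prime_and_dvd (mt orderOf_eq_one_iff.1 x1)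
      have := (cop_of_mem oK hx).coprime_dvd_left d
      exact hc r hr ((Nat.coprime_primes hr Nat.prime_two).1 this) (ord_mul (orderOf_eq_prime
        (by rw [sq, ((hz u).1 hu.1).1]) u1) (orderOf_pow_orderOf_div (orderOf_pos x).ne' d) this
        (k.pow_right _))) yK
  have tZ : ∀ z ∈ Z, τ z ∈ Z := fun z h => (hz _).2 ⟨by rw [← map_mul, ((hz z).1 h).1, map_one],
    by rw [← ts, ← map_mul, ← map_mul, ((hz z).1 h).2]⟩
  have zi : ∀ z ∈ Z, z⁻¹ = z := fun z h => inv_eq_of_mul_eq_one_left ((hz z).1 h).1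
  have zc : ∀ a ∈ Z, ∀ b ∈ Z, a * b = b * a := fun a ha b hb => by
    rw [← zi _ (mul_mem ha hb), mul_inv_rev, zi a ha, zi b hb]
  let φ : Z →* (Z ⊓ Fx τ : Subgroup G) := MonoidHom.mk' (fun z => ⟨z * τ z, mul_mem z.2 (tZ z z.2), by
    change τ (z * τ z) = z * τ z
    rw [map_mul, tt, zc _ (tZ z z.2) _ z.2]⟩) fun a b => Subtype.ext (by
      change (a * b : G) * τ (a * b) = a * τ a * (b * τ b)
      rw [map_mul, mul_assoc, ← mul_assoc (b : G), zc _ b.2 _ (tZ a a.2)]; group)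
  have k1 : Nat.card φ.ker ≤ Nat.card (Z ⊓ Fx τ : Subgroup G) :=
    Nat.card_le_card_of_injective (fun z => ⟨z.1, z.1.2, by
      have : (z.1 : G) * τ z.1 = 1 := congrArg Subtype.val z.2
      exact (eq_inv_of_mul_eq_one_right this).trans (zi _ z.1.2)⟩)
      fun a b e => Subtype.ext (Subtype.ext (Subtype.mk.inj e))
  have k2 : φ.ker.index ≤ Nat.card (Z ⊓ Fx τ : Subgroup G) := by
    rw [index_ker]; exact card_le_card_group _
  have k3 : 2 < Nat.card (Z ⊓ Fx τ : Subgroup G) := by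
    by_contra! k
    have := φ.ker.card_mul_index
    have := Nat.mul_le_mul (k1.trans k) (k2.trans k)
    omega
  classical
  haveI := Fintype.ofFinite (Z ⊓ Fx τ : Subgroup G)
  rw [Nat.card_eq_fintype_card, Fintype.two_lt_card_iff] at k3
  obtain ⟨a, b, d, ab, ad, bd⟩ := k3
  have m : ∀ a b : (Z ⊓ Fx τ : Subgroup G), a ≠ b → (a * b : G) * y * (a * b : G)⁻¹ = y⁻¹ :=
    fun a b h => inv _ (mul_mem a.2 b.2) fun k => h (Subtype.ext
      ((eq_inv_of_mul_eq_one_left k).trans (zi _ b.2.1)))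
  have h1 := m a d ad
  rw [show (a * d : G) = a * b * (b * d) by
    rw [mul_assoc, ← mul_assoc (b : G), ((hz b).1 b.2.1).1, one_mul]] at h1
  have h2 : y = y⁻¹ := by
    calc y = ((a * b : G) * y * (a * b : G)⁻¹)⁻¹ := by rw [m a b ab, inv_inv]
      _ = (a * b : G) * y⁻¹ * (a * b : G)⁻¹ := by group
      _ = (a * b : G) * ((b * d : G) * y * (b * d : G)⁻¹) * (a * b : G)⁻¹ := by rw [m b d bd]
      _ = _ := by rw [← h1]; group
  exact y2 (orderOf_eq_prime (by rw [sq]; exact mul_eq_one_iff_eq_inv.2 h2)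
    fun k => hy.one_lt.ne (by rw [k, orderOf_one]))

theorem not_bad_seven (hc : Nat.card G = 2520 ∨ Nat.card G = 20160)
    (h7 : ∀ n, H5.Ord G n → 7 ∣ n → n = 7) : ¬ Bad G := fun b => by
  haveI : Fact (Nat.Prime 7) := ⟨by norm_num⟩
  obtain ⟨y, hy⟩ := exists_prime_orderOf_dvd_card' (G := G) 7 (by rcases hc with e | e <;> rw [e] <;> norm_num)
  obtain ⟨τ, t2, ty, hF⟩ := b y (by rw [hy]; norm_num) (by rw [hy]; norm_num)
  obtain ⟨s, s2, ts⟩ := exists_inv t2 (by rcases hc with e | e <;> rw [e] <;> norm_num)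
  obtain ⟨K, oK, nK, mK⟩ := odd_core hF
  have yK := mK y ty (by rw [hy]; norm_num)
  have cc : ∀ x u : G, orderOf x = 7 → Commute u x → u ∈ zpowers x := fun x u hx c => by
    have l : zpowers x ≤ 𝐂 {x} := zpowers_le.2 (mem_centralizer_singleton_iff.2 rfl)
    suffices 𝐂 {x} ≤ zpowers x from this (mem_centralizer_singleton_iff.2 c.eq)
    refine (eq_of_le_of_card_ge l ?_).ge
    obtain ⟨m, hm⟩ := card_dvd_of_le l
    rw [Nat.card_zpowers, hx] at hm ⊢
    by_contra! k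
    obtain ⟨r, hr, d⟩ := Nat.exists_prime_and_dvd (show m ≠ 1 by rintro rfl; omega)
    by_cases r7 : r = 7
    · subst r7
      have := (Nat.mul_dvd_mul_left 7 d).trans (hm ▸ card_subgroup_dvd_card _)
      rcases hc with e | e <;> rw [e] at this <;> norm_num at this
    haveI := Fact.mk hr
    obtain ⟨w, hw⟩ := exists_prime_orderOf_dvd_card' (G := 𝐂 {x}) r (hm ▸ d.mul_left 7)
    rw [← orderOf_coe] at hw
    have := h7 (r * 7) ⟨w * x, by
      rw [(show Commute (w : G) x from mem_centralizer_singleton_iff.1 w.2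
        ).orderOf_mul_eq_mul_orderOf_of_coprime (by
        rw [hw, hx]; exact (Nat.coprime_primes hr Fact.out).2 r7), hw, hx]⟩ (dvd_mul_left _ _)
    have := hr.two_le
    omega
  obtain ⟨R, RK, pR, nd, nR⟩ := H2.exists_invariant_sylow (A := zpowers s) (K := K)
    (zpowers_le.2 (nK ts)) (by rw [Nat.card_zpowers, s2]; exact oK.symm) (.inl inferInstance) 7
  obtain ⟨x, hx⟩ := exists_prime_orderOf_dvd_card' (G := R) 7 (by
    have := orderOf_dvd_natCard K yK
    rw [hy, ← relIndex_bot_left, ← relIndex_mul_relIndex ⊥ R K bot_le RK, relIndex_bot_left] at this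
    exact ((Nat.Prime.dvd_mul Fact.out).1 this).resolve_right nd)
  rw [← orderOf_coe] at hx
  have ns : ∀ x : G, orderOf x = 7 → ¬ Commute s x := fun x hx c => by
    have := orderOf_dvd_natCard _ (cc x s hx c)
    rw [Nat.card_zpowers, hx, s2] at this
    norm_num at this
  have i := inv_all (sq_of_ord s2) (nR (mem_zpowers s)) (fun u hu c => by
    by_contra u1
    obtain ⟨k, e⟩ := pR ⟨u, hu⟩
    obtain ⟨v, hv, o⟩ := exists_ord_p (p := 7) u1 (congrArg Subtype.val e : u ^ 7 ^ k = 1)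
    obtain ⟨j, rfl⟩ := mem_zpowers_iff.1 hv
    exact ns _ o (c.zpow_right j)) x.2
  generalize (x : G) = x at hx i
  obtain ⟨P, hP⟩ := H1.exists_sylow_of_not_dvd_index (H1.isPGroup_zpowers_of_orderOf_eq hx) (fun d => by
    have := (zpowers x).card_mul_index
    rw [Nat.card_zpowers, hx] at this
    have := (Nat.mul_dvd_mul_left 7 d).trans this.dvd
    rcases hc with e | e <;> rw [e] at this <;> norm_num at this)
  have m := card_sylow_modEq_one 7 G
  rw [P.card_eq_index_normalizer, ← Sylow.coe_coe, hP] at m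
  have sN : s ∈ 𝐍 (zpowers x) := mem_normalizer_fintype fun u hu => by
    obtain ⟨j, rfl⟩ := mem_zpowers_iff.1 hu
    rw [← conj_zpow, i]
    exact zpow_mem (inv_mem (mem_zpowers x)) j
  have d := card_subgroup_dvd_card (normalizerMonoidHom (zpowers x)).range
  rw [IsCyclic.card_mulAut, Nat.card_zpowers, hx, ← index_ker, normalizerMonoidHom_ker,
    show 𝐂 (zpowers x) = zpowers x from le_antisymm (fun u hu => cc x u hx (hu x (mem_zpowers x)).symm)
      (le_centralizer _)] at d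
  have e1 := ((zpowers x).subgroupOf (𝐍 (zpowers x))).card_mul_index
  rw [Nat.card_congr (subgroupOfEquivOfLe le_normalizer).toEquiv, Nat.card_zpowers, hx] at e1
  have e2 := (normalizer (zpowers x : Set G)).card_mul_index
  have e3 := orderOf_dvd_natCard _ sN
  rw [s2] at e3
  generalize ((zpowers x).subgroupOf (𝐍 (zpowers x))).index = k at d e1
  rw [← e1] at e2 e3
  have d6 : k ∣ 6 := d
  have := Nat.le_of_dvd (by norm_num) d6
  unfold Nat.ModEq at m
  interval_cases k <;> omega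

theorem not_bad_ti {p : ℕ} [hp : Fact p.Prime] (p2 : p ≠ 2)
    (ti : ∀ P Q : Sylow p G, ∀ u ∈ P, u ≠ 1 → u ∈ Q → P = Q)
    (hc : ∀ P : Sylow p G, Nat.card (Sylow p G) ≤ Nat.card (P : Subgroup G) + 1) (h1 : Nontrivial (Sylow p G))
    (d : p ∣ Nat.card G) : ¬ Bad G := fun b => by
  classical
  obtain ⟨y, hy⟩ := exists_prime_orderOf_dvd_card' (G := G) p d
  obtain ⟨τ, t2, ty, hF⟩ := b y (hy ▸ hp.out) (hy ▸ p2)
  obtain ⟨K, oK, -, mK⟩ := odd_core hF
  have fix : ∀ P Q : Sylow p G, ∀ u ∈ P, u • Q = Q → Q ≠ P → u = 1 := fun P Q u hu e n => by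
    by_contra u1
    exact n (ti P Q u hu u1 ((P.2.inf_normalizer_sylow Q).le
      ⟨hu, Sylow.smul_eq_iff_mem_normalizer.1 e⟩).2).symm
  have own : ∀ P : Sylow p G, ∀ u ∈ P, u • P = P := fun P u hu =>
    Sylow.smul_eq_iff_mem_normalizer.2 (le_normalizer hu)
  have inj : ∀ P Q : Sylow p G, Q ≠ P → ∀ u ∈ P, ∀ v ∈ P, u • Q = v • Q → u = v :=
    fun P Q n u hu v hv e => (inv_mul_eq_one.1 (fix P Q _ (mul_mem (inv_mem hv) hu)
      (by rw [mul_smul, e, inv_smul_smul]) n)).symm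
  have bij : ∀ P Q : Sylow p G, (n : Q ≠ P) → Function.Bijective (fun u : (P : Subgroup G) =>
      (⟨(u : G) • Q, fun e => n (by rw [← inv_smul_smul (u : G) Q, e, own P _ (inv_mem u.2)])⟩ :
        {R : Sylow p G // R ≠ P})) ∧ Nat.card (Sylow p G) = Nat.card (P : Subgroup G) + 1 := fun P Q n => by
    have i : Function.Injective (fun u : (P : Subgroup G) =>
      (⟨(u : G) • Q, fun e => n (by rw [← inv_smul_smul (u : G) Q, e, own P _ (inv_mem u.2)])⟩ :
        {R : Sylow p G // R ≠ P})) := fun u v e => Subtype.ext (inj P Q n _ u.2 _ v.2 (Subtype.mk.inj e))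
    have a := Nat.card_le_card_of_injective _ i
    have c : Nat.card {R : Sylow p G // R ≠ P} + 1 = Nat.card (Sylow p G) := by
      haveI := Fintype.ofFinite (Sylow p G)
      have := Fintype.card_pos_iff.2 ⟨P⟩
      simp only [Nat.card_eq_fintype_card, ne_eq, Fintype.card_subtype_compl, Fintype.card_unique]
      omega
    have := hc P
    exact ⟨i.bijective_of_nat_card_le (by omega), by omega⟩
  have cp : ∀ (g : G) (P : Sylow p G), τ • g • P = τ g • τ • P := fun g P => by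
    rw [Sylow.smul_def, Sylow.smul_def, ← mul_smul, ← mul_smul]
    congr 1
    ext x; simp
  have mt : ∀ P : Sylow p G, τ • P = P → ∀ u ∈ P, τ u ∈ P := fun P e u hu => by
    rw [← e]; exact smul_mem_pointwise_smul u τ _ hu
  have tr : ∀ P Q R : Sylow p G, τ • P = P → τ • Q = Q → τ • R = R → Q ≠ P → R ≠ P →
      ∃ u ∈ K, u ∈ Fx τ ∧ u • P = P ∧ u • Q = R := fun P Q R a b c n m => by
    obtain ⟨u, e⟩ := (bij P Q n).1.2 ⟨R, m⟩
    have e' : (u : G) • Q = R := Subtype.mk.inj e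
    have : τ u = u := inj P Q n _ (mt P a _ u.2) _ u.2 (by rw [← b, ← cp, e', c, b, e'])
    obtain ⟨k, hk⟩ := IsPGroup.iff_orderOf.1 P.2 u
    exact ⟨u, mK _ this (by
      rw [orderOf_coe, hk]; exact ((Nat.coprime_primes hp.out Nat.prime_two).2 p2).pow_left _), this,
      own P _ u.2, e'⟩
  obtain ⟨U, hU⟩ := (H1.isPGroup_zpowers_of_orderOf_eq hy).exists_le_sylow
  have yU : y ∈ U := hU (mem_zpowers y)
  have y1 := ne_one_of_ord hy
  have tU : τ • U = U := ti _ _ y (ty ▸ smul_mem_pointwise_smul y τ _ yU) y1 yU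
  haveI := Fintype.ofFinite (Sylow p G)
  obtain ⟨V, tV, VU⟩ := Equiv.Perm.exists_fixed_point_of_prime' (p := 2) (n := 1)
    (σ := MulAction.toPermHom _ (Sylow p G) τ) (by
      obtain ⟨Q, n⟩ := exists_ne U
      obtain ⟨k, hk⟩ := IsPGroup.iff_card.1 U.2
      rw [← Nat.card_eq_fintype_card, (bij U Q n).2]
      exact (Odd.add_one (hk ▸ (hp.out.odd_of_ne_two p2).pow)).two_dvd)
    (by rw [← map_pow, pow_one, sq, t2, map_one]) (a := U) tU
  change τ • V = V at tV
  have yK := mK y ty (hy ▸ (Nat.coprime_primes hp.out Nat.prime_two).2 p2)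
  have n1 : ∀ u ∈ U, u ≠ 1 → u • V ≠ V := fun u a b c => b (fix U V u a c VU)
  obtain ⟨u, uK, -, u1, u2⟩ := tr V U (y • V) tV tU (by rw [cp, ty, tV]) VU.symm (n1 y yU y1)
  obtain ⟨w, wK, -, w1, w2⟩ := tr V (y⁻¹ • V) U tV (by rw [cp, map_inv, ty, tV]) tU
    (n1 _ (inv_mem yU) (inv_ne_one.2 y1)) VU.symm
  have g1 : (w * y⁻¹ * u) • U = V := by rw [mul_smul, mul_smul, u2, inv_smul_smul, w1]
  have g2 : (w * y⁻¹ * u) • V = U := by rw [mul_smul, mul_smul, u1, w2]
  have gK := mul_mem (mul_mem wK (inv_mem yK)) uK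
  generalize w * y⁻¹ * u = g at g1 g2 gK
  have : g ∈ MulAction.stabilizer G U := by
    obtain ⟨m, hm⟩ := exists_pow_eq_self_of_coprime (cop_of_mem oK gK).symm
    rw [← hm]
    exact pow_mem (by rw [MulAction.mem_stabilizer_iff, sq, mul_smul, g1, g2]) m
  exact VU (g1.symm.trans this)

end H4.Cc
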