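import Cfsg.Agent.H2.CoprimeAbelian
import Cfsg.Agent.H5.Integral
import Cfsg.Agent.H5.Burnside
import Cfsg.Agent.S0105

/-! Groups whose class sizes have at most two prime divisors: counting. -/

namespace H4.Cs

open Subgroup Cfsg
open scoped Pointwise IsMulCommutative

universe u

variable {G : Type u} [Group G]

/-- class size -/
noncomputable def ci (x : G) : ℕ := (centralizer ({x} : Set G)).index

/-- order of the automizer -/
noncomputable def am (P : Subgroup G) : ℕ :=
  (centralizer (P : Set G)).relIndex (normalizer (P : Set G))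

/-- the hypothesis -/
def Hc (G : Type u) [Group G] : Prop := ∀ x : G, (ci x).primeFactors.card ≤ 2

/-- nonidentity elements centralizing a Sylow `r`-subgroup -/
def AA (G : Type u) [Group G] (r : ℕ) : Set G := {x | x ≠ 1 ∧ ¬ r ∣ ci x}

theorem ci_dvd_of_le {x y : G} (h : ∀ g, g * x = x * g → g * y = y * g) : ci y ∣ ci x :=
  index_dvd_of_le fun g hg =>
    mem_centralizer_singleton_iff.2 (h g (mem_centralizer_singleton_iff.1 hg))

theorem ci_pow (x : G) (k : ℕ) : ci (x ^ k) ∣ ci x :=
  ci_dvd_of_le fun _ h => (Commute.pow_right h k)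

theorem ci_of_mem {x y : G} (h : y ∈ zpowers x) : ci y ∣ ci x := by
  obtain ⟨k, rfl⟩ := h
  exact ci_dvd_of_le fun _ h => (Commute.zpow_right h k)

theorem ci_map {K : Type*} [Group K] (f : G →* K) (hf : Function.Surjective f) (x : G) :
    ci (f x) ∣ ci x := by
  unfold ci
  refine (index_dvd_of_le ?_).trans (index_map_dvd _ hf)
  rintro _ ⟨g, hg, rfl⟩
  rw [mem_centralizer_singleton_iff, ← map_mul, ← map_mul,
    mem_centralizer_singleton_iff.1 hg]

variable [Finite G]

theorem ci_ne_zero (x : G) : ci x ≠ 0 := index_ne_zero_of_finite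

omit [Finite G] in
theorem ci_dvd_card (x : G) : ci x ∣ Nat.card G := index_dvd_card _

theorem Hc.three (h : Hc G) (x : G) {p q r : ℕ} (hp : p.Prime) (hq : q.Prime) (hr : r.Prime)
    (pq : p ≠ q) (pr : p ≠ r) (qr : q ≠ r) (a : p ∣ ci x) (b : q ∣ ci x) (c : r ∣ ci x) :
    False := by
  have h1 : ({p, q, r} : Finset ℕ) ⊆ (ci x).primeFactors := by
    intro t ht
    simp only [Finset.mem_insert, Finset.mem_singleton] at ht
    rcases ht with rfl | rfl | rfl <;> simp [*, ci_ne_zero]
  have h2 := (Finset.card_le_card h1).trans (h x)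
  rw [Finset.card_eq_three.2 ⟨p, q, r, pq, pr, qr, rfl⟩] at h2
  omega

theorem Hc.of_dvd {K : Type*} [Group K] (h : Hc G) (hf : ∀ x : K, ∃ y : G, ci x ∣ ci y) :
    Hc K := fun x => by
  obtain ⟨y, hy⟩ := hf x
  exact (Finset.card_le_card (Nat.primeFactors_mono hy (ci_ne_zero _))).trans (h y)

theorem relIndex_dvd_ci (N : Subgroup G) [N.Normal] (x : G) :
    (centralizer ({x} : Set G)).relIndex N ∣ ci x := by
  rw [← H2.relIndex_sup_right_of_le_normalizer (N := N) (by simp [normalizer_eq_top])]
  exact relIndex_dvd_index_of_le le_sup_right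

theorem ci_sub (N : Subgroup G) [N.Normal] (x : N) : ci x ∣ ci (x : G) := by
  have e : centralizer ({x} : Set N) = (centralizer ({(x : G)} : Set G)).subgroupOf N := by
    ext y
    rw [mem_subgroupOf, mem_centralizer_singleton_iff, mem_centralizer_singleton_iff]
    exact Subtype.ext_iff
  conv_lhs => rw [ci, e]
  exact relIndex_dvd_ci N x

theorem Hc.sub (h : Hc G) (N : Subgroup G) [N.Normal] : Hc N :=
  h.of_dvd fun x => ⟨x, ci_sub N x⟩

theorem Hc.map {K : Type*} [Group K] (h : Hc G) (f : G →* K) (hf : Function.Surjective f) :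
    Hc K := h.of_dvd fun x => by
  obtain ⟨y, rfl⟩ := hf x
  exact ⟨y, ci_map f hf y⟩

theorem not_dvd_index_iff {r : ℕ} [Fact r.Prime] {C : Subgroup G} :
    ¬ r ∣ C.index ↔ ∃ R : Sylow r G, (R : Subgroup G) ≤ C := by
  constructor
  · intro h
    obtain ⟨Q⟩ : Nonempty (Sylow r C) := inferInstance
    have h1 : ¬ r ∣ ((Q : Subgroup C).map C.subtype).index := by
      rw [index_map_subtype]
      intro h2
      rcases (Fact.out : r.Prime).dvd_mul.1 h2 with h3 | h3
      · exact Q.not_dvd_index h3
      · exact h h3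
    exact ⟨(Q.isPGroup'.map C.subtype).toSylow h1, map_subtype_le _⟩
  · rintro ⟨R, hR⟩ h
    exact R.not_dvd_index (h.trans (index_dvd_of_le hR))

theorem not_dvd_ci_iff {r : ℕ} [Fact r.Prime] {x : G} :
    ¬ r ∣ ci x ↔ ∃ R : Sylow r G, x ∈ centralizer ((R : Subgroup G) : Set G) := by
  rw [ci, not_dvd_index_iff]
  refine exists_congr fun R => ⟨fun h => mem_centralizer_iff.2 fun g hg =>
    mem_centralizer_singleton_iff.1 (h hg), fun h g hg =>
    mem_centralizer_singleton_iff.2 (mem_centralizer_iff.1 h g hg)⟩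

omit [Finite G] in
theorem card_cent_smul (g : G) (P : Subgroup G) :
    Nat.card (centralizer ((MulAut.conj g • P : Subgroup G) : Set G)) =
      Nat.card (centralizer (P : Set G)) := by
  have e : centralizer ((MulAut.conj g • P : Subgroup G) : Set G) =
      MulAut.conj g • centralizer (P : Set G) := by
    ext x
    rw [mem_pointwise_smul_iff_inv_smul_mem, mem_centralizer_iff, mem_centralizer_iff]
    constructor
    · intro h y hy
      have := h (g * y * g⁻¹) (smul_mem_pointwise_smul y (MulAut.conj g) P hy)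
      simp only [MulAut.smul_def, MulAut.conj_inv_apply]
      calc y * (g⁻¹ * x * g) = g⁻¹ * (g * y * g⁻¹ * x) * g := by group
        _ = _ := by rw [this]; group
    · rintro h y hy
      have h1 := h _ (mem_pointwise_smul_iff_inv_smul_mem.1 hy)
      simp only [MulAut.smul_def, MulAut.conj_inv_apply] at h1
      calc y * x = g * (g⁻¹ * y * g * (g⁻¹ * x * g)) * g⁻¹ := by group
        _ = _ := by rw [h1]; group
  rw [e]
  exact Nat.card_congr (equivSMul _ _).toEquiv.symm

/-- the union of the centralizers of the Sylow subgroups -/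
theorem ncard_le {r : ℕ} [Fact r.Prime] (R : Sylow r G) {s : Set G} (f : Sylow r G → Set G)
    (hf : ∀ Q, (f Q).ncard ≤ Nat.card (centralizer ((Q : Subgroup G) : Set G)))
    (hs : ∀ x ∈ s, ∃ Q, x ∈ f Q) :
    ∃ b, am (R : Subgroup G) * b = Nat.card G ∧ s.ncard ≤ b := by
  classical
  refine ⟨Nat.card (Sylow r G) * Nat.card (centralizer ((R : Subgroup G) : Set G)), ?_, ?_⟩
  · have h := relIndex_mul_index (centralizer_le_normalizer ((R : Subgroup G) : Set G))
    rw [R.card_eq_index_normalizer, ← mul_assoc, ← card_mul_index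
      (centralizer ((R : Subgroup G) : Set G)), ← h, mul_comm]
    rfl
  · have := Fintype.ofFinite (Sylow r G)
    have h1 : s ⊆ ⋃ Q ∈ (Finset.univ : Finset (Sylow r G)), f Q := fun x hx => by
      obtain ⟨Q, hQ⟩ := hs x hx
      exact Set.mem_biUnion (Finset.mem_coe.2 (Finset.mem_univ Q)) hQ
    refine (Set.ncard_le_ncard h1).trans ((Finset.set_ncard_biUnion_le _ _).trans ?_)
    have h2 : ∀ Q ∈ (Finset.univ : Finset (Sylow r G)), (f Q).ncard ≤
        Nat.card (centralizer ((R : Subgroup G) : Set G)) := fun Q _ => by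
      obtain ⟨g, rfl⟩ := MulAction.exists_smul_eq G R Q
      exact (hf _).trans (card_cent_smul g R).le
    refine (Finset.sum_le_sum h2).trans (le_of_eq ?_)
    rw [Finset.sum_const, Finset.card_univ, smul_eq_mul, ← Nat.card_eq_fintype_card]

theorem ncard_AA {r : ℕ} [hr : Fact r.Prime] (R : Sylow r G) :
    ∃ b, am (R : Subgroup G) * b = Nat.card G ∧ (AA G r).ncard + 1 ≤ b := by
  obtain ⟨b, h1, h2⟩ := ncard_le R (s := insert 1 (AA G r))
    (fun Q => centralizer ((Q : Subgroup G) : Set G)) (fun _ => le_rfl) fun x hx =>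
      not_dvd_ci_iff.1 (by
    rcases hx with rfl | hx
    · have : ci (1 : G) = 1 := by
        rw [ci, index_eq_one, eq_top_iff]
        exact fun g _ => mem_centralizer_singleton_iff.2 (by simp)
      rw [this, Nat.dvd_one]
      exact hr.out.ne_one
    · exact hx.2)
  refine ⟨b, h1, ?_⟩
  rwa [Set.ncard_insert_of_notMem (fun h => h.1 rfl)] at h2

omit [Finite G] in
theorem index_center_dvd (P : Subgroup G) : (center P).index ∣ am P := by
  have e : center P = (centralizer (P : Set G)).subgroupOf P := by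
    ext x
    rw [mem_subgroupOf, mem_center_iff, mem_centralizer_iff]
    exact ⟨fun h g hg => congrArg Subtype.val (h ⟨g, hg⟩), fun h g => Subtype.ext (h g g.2)⟩
  rw [e]
  have h1 : ((centralizer (P : Set G)).subgroupOf (normalizer (P : Set G))).Normal := by
    rw [← normalizerMonoidHom_ker]
    infer_instance
  have := relIndex_dvd_index_of_normal ((centralizer (P : Set G)).subgroupOf
    (normalizer (P : Set G))) (P.subgroupOf (normalizer (P : Set G)))
  rwa [relIndex_subgroupOf le_normalizer] at this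

theorem am_ne_zero (P : Subgroup G) : am P ≠ 0 := index_ne_zero_of_finite

theorem le_cent_self {P : Subgroup G} (h : IsMulCommutative P) : P ≤ centralizer (P : Set G) :=
  fun x hx => mem_centralizer_iff.2 fun g hg =>
    congrArg Subtype.val (mul_comm (⟨g, hg⟩ : P) ⟨x, hx⟩)

theorem not_dvd_am {r : ℕ} [Fact r.Prime] (R : Sylow r G) (h : IsMulCommutative R) :
    ¬ r ∣ am (R : Subgroup G) := fun h1 => R.not_dvd_index
  (h1.trans ((relIndex_dvd_index_of_le (centralizer_le_normalizer _)).trans
    (index_dvd_of_le (le_cent_self h))))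

theorem comm_of_index_center {r : ℕ} [hr : Fact r.Prime] (hG : IsPGroup r G)
    (h : ¬ r ^ 2 ∣ (center G).index) : IsMulCommutative G := by
  obtain ⟨k, hk⟩ := hG.index (center G)
  have hc : IsCyclic (G ⧸ center G) := by
    rcases k with _ | _ | k
    · have : Subsingleton (G ⧸ center G) :=
        (Nat.card_eq_one_iff_unique.1 (hk : Nat.card (G ⧸ center G) = 1)).1
      infer_instance
    · exact isCyclic_of_prime_card (p := r) (hk.trans (by simp))
    · exact (h (hk ▸ pow_dvd_pow r (by omega))).elim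
  exact (QuotientGroup.mk' (center G)).isMulCommutative_of_isCyclic_of_ker_le_center (by simp)

/-- commuting elements of coprime orders -/
theorem mix {x y : G} (h : Commute x y) (hc : (orderOf x).Coprime (orderOf y)) :
    x ∈ zpowers (x * y) := by
  have h1 : (x * y) ^ orderOf y = x ^ orderOf y := by
    rw [h.mul_pow, pow_orderOf_eq_one, mul_one]
  have h2 : x ∈ zpowers (x ^ orderOf y) := mem_zpowers_pow_iff.2 (by
    rw [Nat.gcd_comm]; exact hc)
  rw [← h1] at h2
  exact zpowers_le.2 (npow_mem_zpowers _ _) h2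

variable [IsSimpleGroup G]

theorem center_eq_bot (hG : ¬ IsMulCommutative G) : center G = ⊥ :=
  (IsSimpleGroup.eq_bot_or_eq_top_of_normal _ inferInstance).resolve_right fun h =>
    hG ⟨⟨fun x y => mem_center_iff.mp (h ▸ mem_top y) x⟩⟩

theorem inf_eq_bot (hG : ¬ IsMulCommutative G) {r : ℕ} [Fact r.Prime] (R : Sylow r G)
    (h : IsMulCommutative R) :
    (R : Subgroup G) ⊓ centralizer (normalizer ((R : Subgroup G) : Set G) : Set G) = ⊥ := by
  obtain ⟨N, hN, ⟨e⟩⟩ := Cfsg.Agent.S0105.result R h
  rcases hN.eq_bot_or_eq_top with rfl | rfl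
  · refine (hG ⟨⟨fun x y => ?_⟩⟩).elim
    let f := e.toMonoidHom.comp (QuotientGroup.mk' ⊥)
    have hf : Function.Injective f := e.injective.comp
      ((MonoidHom.ker_eq_bot_iff _).1 (QuotientGroup.ker_mk' ⊥))
    refine hf ?_
    rw [map_mul, map_mul]
    exact Subtype.ext (mem_centralizer_iff.1 (le_cent_self h (f y).2.1) _ (f x).2.1)
  · have : Subsingleton (G ⧸ (⊤ : Subgroup G)) := QuotientGroup.subsingleton_quotient_top
    have := e.symm.toEquiv.subsingleton
    exact eq_bot_of_subsingleton _

theorem two_le_am (hG : ¬ IsMulCommutative G) {r : ℕ} [hr : Fact r.Prime] (R : Sylow r G)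
    (h : r ∣ Nat.card G) : 2 ≤ am (R : Subgroup G) := by
  have h0 := am_ne_zero (R : Subgroup G)
  by_contra h1
  have h2 : am (R : Subgroup G) = 1 := by omega
  have h3 : normalizer ((R : Subgroup G) : Set G) ≤ centralizer ((R : Subgroup G) : Set G) :=
    relIndex_eq_one.1 h2
  have h4 : IsMulCommutative R := ⟨⟨fun x y => Subtype.ext
    (mem_centralizer_iff.1 (h3 (le_normalizer y.2)) x x.2)⟩⟩
  have h5 := inf_eq_bot hG R h4
  rw [inf_eq_left.2 (fun x hx => mem_centralizer_iff.2 fun g hg =>
    (mem_centralizer_iff.1 (h3 hg) x hx).symm)] at h5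
  exact R.ne_bot_of_dvd_card h h5

theorem not_prime_pow (hG : ¬ IsMulCommutative G) {x : G} (hx : x ≠ 1) {r : ℕ} (hr : r.Prime)
    (h : ∀ s : ℕ, s.Prime → s ∣ ci x → s = r) : False := by
  have h1 : ci x = r ^ (ci x).primeFactorsList.length :=
    Nat.eq_prime_pow_of_unique_prime_dvd (ci_ne_zero x) fun hs hd => h _ hs hd
  have h2 := H5.comm_of_simple_of_class_prime_pow hr hx h1
  rw [center_eq_bot hG] at h2
  exact hx (mem_bot.1 (h2 ▸ mem_top x))

theorem card_primes (h : Hc G) (hG : ¬ IsMulCommutative G) :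
    (Nat.card G).primeFactors.card = 3 := by
  classical
  have := Fintype.ofFinite G
  set π := (Nat.card G).primeFactors with hπ
  apply le_antisymm
  · by_contra h1
    obtain ⟨t, ht, ht4⟩ := Finset.exists_subset_card_eq (s := π) (n := 4) (by omega)
    have h2 : ∀ r ∈ t, 2 * (Finset.univ.filter fun x : G => x ≠ 1 ∧ ¬ r ∣ ci x).card + 2 ≤
        Nat.card G := fun r hr => by
      have := Fact.mk (Nat.prime_of_mem_primeFactors (ht hr))
      obtain ⟨R⟩ : Nonempty (Sylow r G) := inferInstance
      obtain ⟨b, h3, h4⟩ := ncard_AA R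
      have h5 := two_le_am hG R (Nat.dvd_of_mem_primeFactors (ht hr))
      have h6 : (AA G r).ncard = (Finset.univ.filter fun x : G => x ≠ 1 ∧ ¬ r ∣ ci x).card := by
        rw [← Set.ncard_coe_finset]
        congr 1
        ext x
        simp [AA]
      nlinarith
    have h3 : ∀ x ∈ Finset.univ.erase (1 : G), 2 ≤ (t.filter fun r => x ≠ 1 ∧ ¬ r ∣ ci x).card :=
      fun x hx => by
        have h4 : t ⊆ (t.filter fun r => x ≠ 1 ∧ ¬ r ∣ ci x) ∪ (ci x).primeFactors := by
          intro r hr
          by_cases h5 : r ∣ ci x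
          · exact Finset.mem_union_right _ (Nat.mem_primeFactors.2
              ⟨Nat.prime_of_mem_primeFactors (ht hr), h5, ci_ne_zero x⟩)
          · exact Finset.mem_union_left _ (Finset.mem_filter.2 ⟨hr, Finset.ne_of_mem_erase hx, h5⟩)
        have h5 := (Finset.card_le_card h4).trans (Finset.card_union_le _ _)
        have h6 := h x
        omega
    have h4 : ∑ r ∈ t, (Finset.univ.filter fun x : G => x ≠ 1 ∧ ¬ r ∣ ci x).card =
        ∑ x : G, (t.filter fun r => x ≠ 1 ∧ ¬ r ∣ ci x).card := by
      simp only [Finset.card_filter]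
      exact Finset.sum_comm
    have h5 := Finset.sum_le_sum h2
    have h6 := (Finset.sum_le_sum h3).trans (Finset.sum_le_sum_of_subset (Finset.erase_subset _ _))
    rw [Finset.sum_add_distrib, ← Finset.mul_sum, h4] at h5
    simp only [Finset.sum_const, ht4, smul_eq_mul, Finset.card_erase_of_mem (Finset.mem_univ _),
      Finset.card_univ, ← Nat.card_eq_fintype_card] at h5 h6
    have h7 : 0 < Nat.card G := Nat.card_pos
    omega
  · by_contra h1
    have h2 : Group.IsSolvable G := by
      obtain ⟨t, ht, ht2⟩ := Finset.exists_subsuperset_card_eq (s := π) (t := π ∪ {2, 3}) (n := 2)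
        Finset.subset_union_left (by omega)
        ((Finset.card_le_card Finset.subset_union_right).trans' (by decide))
      obtain ⟨p, q, -, rfl⟩ := Finset.card_eq_two.1 ht2.2
      have h3 : ∀ s ∈ π ∪ {2, 3}, s.Prime := fun s hs => by
        rcases Finset.mem_union.1 hs with hs | hs
        · exact Nat.prime_of_mem_primeFactors hs
        · simp only [Finset.mem_insert, Finset.mem_singleton] at hs
          rcases hs with rfl | rfl <;> decide
      exact H5.isSolvable_of_primes_subset_pair (h3 p (ht2.1 (by simp))) (h3 q (ht2.1 (by simp)))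
        fun r hr hd => by
          simpa using ht (Nat.mem_primeFactors.2 ⟨hr, hd, Nat.card_pos.ne'⟩)
    exact hG ⟨⟨IsSimpleGroup.comm_iff_isSolvable.2 h2⟩⟩

end H4.Cs
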