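import Cfsg.Agent.H4.Cs1
import Cfsg.Agent.H21.BR
import Cfsg.Agent.H21.AbFrob
import Cfsg.Agent.S3784

/-! Abelian Sylow subgroups with automizer of order two: the degrees. -/

namespace H4.Cs

open Subgroup Cfsg Finset H5 H7 H21
open scoped IsMulCommutative

universe u

variable {G : Type u} [Group G] [Finite G]

theorem dvd_of_const (P : Subgroup G) {χ : G → ℂ} (h : IsCharacter G χ) {D : ℕ} {a : ℤ}
    (h1 : χ 1 = D) (h2 : ∀ u : P, u ≠ 1 → χ u = a) : (Nat.card P : ℤ) ∣ D - a := by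
  classical
  have := Fintype.ofFinite P
  obtain ⟨r, hr⟩ := (h.restrict P).exists_classInner_nat isCharacter_one
  have h3 := card_mul_classInner (fun y : P => χ y) (fun _ => 1)
  rw [hr, ← add_sum_erase _ _ (mem_univ 1), sum_congr rfl (g := fun _ => (a : ℂ))
    fun u hu => by simp [h2 u (ne_of_mem_erase hu)], sum_const, card_erase_of_mem (mem_univ _),
    card_univ, ← Nat.card_eq_fintype_card, nsmul_eq_mul, Nat.cast_sub Nat.card_pos] at h3
  refine ⟨r - a, ?_⟩
  have h4 : ((D - a : ℤ) : ℂ) = ((Nat.card P * (r - a) : ℤ) : ℂ) := by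
    simp only [OneMemClass.coe_one, h1, map_one, mul_one] at h3
    push_cast at h3 ⊢
    linear_combination -h3
  exact_mod_cast h4

theorem two_deg (hG : commutator G = ⊤) {r : ℕ} [hr : Fact r.Prime] (R : Sylow r G) (A : AF R)
    (h2 : am (R : Subgroup G) = 2) (h3 : 3 < Nat.card R) :
    ∃ (D e : ℕ) (a : ℤ), (a = 1 ∨ a = -1) ∧ D ∣ Nat.card G ∧ e ∣ Nat.card G ∧ 1 < D ∧ 0 < e ∧
      (e : ℤ) = D + a ∧ (Nat.card R : ℤ) ∣ D - a := by
  classical
  obtain ⟨M, hM⟩ := exists_isPModular hr.out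
  have hE : Nat.card (R : Subgroup G).normalizerMonoidHom.range = 2 :=
    (card_range_normalizerMonoidHom _).trans h2
  obtain ⟨δ, d, ζ, a, Y, h, hn⟩ := A.exists_data hM (by omega)
  have h1 : irrOne G ∈ univ.filter (· ∉ Y) := mem_filter.2 ⟨mem_univ _, h.one_notMem⟩
  rw [hE, ← add_sum_erase _ _ h1, h.a_one] at hn
  have hY : (2 : ℤ) ≤ Y.card := by exact_mod_cast h.two_le_card_Y
  have h4 : 0 ≤ ∑ χ ∈ (univ.filter (· ∉ Y)).erase (irrOne G), a χ ^ 2 :=
    sum_nonneg fun _ _ => sq_nonneg _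
  obtain ⟨η, hη⟩ := card_pos.1 (show 0 < Y.card by omega)
  have h10 := (h.rel_reg (g := 1) (by simpa using hr.out.ne_one) hη).2
  rw [← add_sum_erase _ _ h1, h.a_one, irr_apply_one η, show (irrOne G).1 1 = 1 from rfl] at h10
  have hδ := h.toExcData.mul_self
  have h5 : (Y.card * d - δ = 1 ∨ Y.card * d - δ = -1) ∧
      ∑ χ ∈ (univ.filter (· ∉ Y)).erase (irrOne G), a χ ^ 2 = 1 := by
    by_cases hd : d = 0
    · subst hd
      refine ⟨by rcases h.sign with rfl | rfl <;> simp, ?_⟩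
      push_cast at hn
      linear_combination hn - hδ
    have h6 : d = δ := by
      have h7 : d ^ 2 ≤ (Y.card - 1) * d ^ 2 := by nlinarith [sq_nonneg d]
      have h8 : (d - δ) ^ 2 + d ^ 2 ≤ 2 := by push_cast at hn; omega
      have h9 : -1 ≤ d ∧ d ≤ 1 := by constructor <;> nlinarith [sq_nonneg (d - δ)]
      obtain rfl | rfl : d = 1 ∨ d = -1 := by omega
      all_goals rcases h.sign with rfl | rfl <;> simp at h8 ⊢
    subst h6
    have h7 : d ^ 2 = 1 := by rw [sq, hδ]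
    rw [h7, sub_self, zero_pow two_ne_zero] at hn
    obtain h9 | h9 : Y.card = 2 ∨ Y.card = 3 := by push_cast at hn; omega
    · rw [h9] at hn ⊢
      refine ⟨by rcases h.sign with rfl | rfl <;> simp, ?_⟩
      push_cast at hn; omega
    · exfalso
      have h11 := (sum_eq_zero_iff_of_nonneg fun _ _ => sq_nonneg _).1
        (show ∑ χ ∈ (univ.filter (· ∉ Y)).erase (irrOne G), a χ ^ 2 = 0 by
          rw [h9] at hn; push_cast at hn; omega)
      rw [sum_eq_zero fun χ hχ => by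
        rw [pow_eq_zero_iff two_ne_zero |>.1 (h11 χ hχ)]; simp, h9] at h10
      have h12 : ((2 * (d * charDegree η.1) + 1 : ℤ) : ℂ) = 0 := by
        push_cast at h10 ⊢
        linear_combination h10
      have h13 : 2 * (d * charDegree η.1) + 1 = 0 := by exact_mod_cast h12
      omega
  obtain ⟨h5, h6⟩ := h5
  set T := ((univ.filter (· ∉ Y)).erase (irrOne G)).filter (a · ≠ 0) with hT
  have h7 : ∑ χ ∈ T, a χ ^ 2 = 1 := by
    rw [← h6, hT, sum_filter]
    exact sum_congr rfl fun χ _ => by split_ifs with h <;> simp_all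
  have h8 : ∀ χ ∈ T, a χ = 1 ∨ a χ = -1 := fun χ hχ => by
    have h9 := single_le_sum (f := fun χ => a χ ^ 2) (fun _ _ => sq_nonneg _) hχ
    have h10 := (mem_filter.1 hχ).2
    have h11 : -1 ≤ a χ ∧ a χ ≤ 1 := by constructor <;> nlinarith
    omega
  rw [sum_congr rfl (g := fun _ => 1) fun χ hχ => by rcases h8 χ hχ with h | h <;> simp [h],
    sum_const, nsmul_one] at h7
  obtain ⟨χ, hχ⟩ := card_eq_one.1 (show T.card = 1 by exact_mod_cast h7)
  have h11 : χ ∈ T := by simp [hχ]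
  have h12 : ∑ ψ ∈ (univ.filter (· ∉ Y)).erase (irrOne G), a ψ * ψ.1 1 = a χ * χ.1 1 := by
    rw [← sum_singleton (fun ψ : IrrCharacter G => a ψ * ψ.1 1) χ, ← hχ, hT, sum_filter]
    exact sum_congr rfl fun ψ _ => by split_ifs with h <;> simp_all
  have hχ1 := ne_of_mem_erase (mem_filter.1 h11).1
  have hχY := (mem_filter.1 (mem_of_mem_erase (mem_filter.1 h11).1)).2
  rw [h12, irr_apply_one χ] at h10
  have h13 : (Y.card * d - δ) * charDegree η.1 + (1 + a χ * charDegree χ.1) = 0 := by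
    exact_mod_cast h10
  have h14 := charDegree_pos η
  have h15 : 1 < charDegree χ.1 := lt_of_le_of_ne (charDegree_pos χ)
    fun e => hχ1 (eq_irrOne_of_degree hG e.symm)
  refine ⟨charDegree χ.1, charDegree η.1, a χ, h8 χ h11, χ.2.dvd_card (irr_apply_one χ),
    η.2.dvd_card (irr_apply_one η), h15, h14, ?_, dvd_of_const _ χ.2.isCharacter
    (irr_apply_one χ) fun u hu => ?_⟩
  · rcases h5 with h5 | h5 <;> rcases h8 χ h11 with h9 | h9 <;> rw [h5, h9] at h13 <;> omega
  · have := h.nonexc χ hχY u hu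
    rwa [pb_of_mem ((h.a_ne_zero_iff hχY).1 (mem_filter.1 h11).2)] at this

theorem arith0 {s D e : ℕ} (hs : s.Prime) (s2 : s ≠ 2) (hD : 1 < D) (h : e = D + 1)
    (hp : ∀ t, t.Prime → t ∣ D * e → t = 2 ∨ t = s) :
    D = s ∨ e = s ∨ (D = 8 ∧ s = 3) := by
  have key : ∀ m n : ℕ, 1 < n → m ≠ 0 → m.Coprime n → 2 ∣ m →
      (∀ t, t.Prime → t ∣ m * n → t = 2 ∨ t = s) →
      ∃ i j, 1 ≤ i ∧ 1 ≤ j ∧ m = 2 ^ i ∧ n = s ^ j := by
    intro m n hn hm hc h2 hq
    have a1 : ∀ t, t.Prime → t ∣ n → t = s := fun t ht hd =>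
      (hq t ht (hd.mul_left m)).resolve_left fun e => by
        subst e
        exact absurd (Nat.eq_one_of_dvd_coprimes hc h2 hd) (by decide)
    have a2 : s ∣ n := by
      obtain ⟨t, ht, hd⟩ := Nat.exists_prime_and_dvd hn.ne'
      exact a1 t ht hd ▸ hd
    have a3 : ∀ t, t.Prime → t ∣ m → t = 2 := fun t ht hd =>
      (hq t ht (hd.mul_right n)).resolve_right fun e => by
        subst e
        exact ht.ne_one (Nat.eq_one_of_dvd_coprimes hc hd a2)
    have b1 := Nat.eq_prime_pow_of_unique_prime_dvd hm fun {t} ht hd => a3 t ht hd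
    have b2 := Nat.eq_prime_pow_of_unique_prime_dvd (by omega : n ≠ 0) fun {t} ht hd => a1 t ht hd
    refine ⟨_, _, ?_, ?_, b1, b2⟩
    · refine Nat.one_le_iff_ne_zero.2 fun e => ?_
      rw [e] at b1
      omega
    · refine Nat.one_le_iff_ne_zero.2 fun e => ?_
      rw [e, pow_zero] at b2
      omega
  have hc : D.Coprime e := by subst h; simp
  rcases Nat.even_or_odd D with h1 | h1
  · obtain ⟨i, j, hi, hj, e1, e2⟩ := key D e (by omega) (by omega) hc h1.two_dvd hp
    rcases Cfsg.Agent.S3784.result s 2 j i hs Nat.prime_two hj hi (by omega) with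
      ⟨a, -⟩ | ⟨-, a, -⟩ | ⟨a, b⟩
    · exact (s2 a).elim
    · right; left; rw [e2, a, pow_one]
    · right; right
      refine ⟨by omega, ?_⟩
      exact (Nat.prime_dvd_prime_iff_eq hs Nat.prime_three).1
        (hs.dvd_of_dvd_pow (n := 2) (by rw [show 3 ^ 2 = 9 by rfl, ← a]; exact dvd_pow_self _ (by omega)))
  · obtain ⟨i, j, hi, hj, e1, e2⟩ := key e D hD (by omega) hc.symm (by
      subst h; exact h1.add_one.two_dvd) fun t ht hd => hp t ht (mul_comm e D ▸ hd)
    rcases Cfsg.Agent.S3784.result 2 s i j Nat.prime_two hs hi hj (by omega) with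
      ⟨-, a, -⟩ | ⟨a, -⟩ | ⟨a, b⟩
    · left; rw [e2, a, pow_one]
    · exact (s2 a).elim
    · exfalso
      have : 2 ∣ 9 := a ▸ dvd_pow_self _ (by omega)
      omega

theorem arith {r s D e k : ℕ} {a : ℤ} (hr : r.Prime) (r2 : r ≠ 2) (hs : s.Prime) (s2 : s ≠ 2)
    (ha : a = 1 ∨ a = -1) (hD : 1 < D) (he : 0 < e) (h : (e : ℤ) = D + a) (h3 : 3 < r ^ k)
    (hn : ((r ^ k : ℕ) : ℤ) ∣ D - a) (hp : ∀ t, t.Prime → t ∣ D * e → t = 2 ∨ t = r ∨ t = s) :
    r ^ k ∣ s + 2 ∨ r ^ k ∣ s - 1 ∨ r ^ k ∣ s - 2 ∨ r ^ k ∣ s + 1 ∨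
      (s = 3 ∧ (r ^ k ∣ 7 ∨ r ^ k ∣ 10)) := by
  have k0 : k ≠ 0 := by rintro rfl; simp at h3
  have h1 : (r : ℤ) ∣ D - a := (Int.natCast_dvd_natCast.2 (dvd_pow_self r k0)).trans hn
  have h2 := hs.two_le
  have hq : ∀ t, t.Prime → t ∣ D * e → t = 2 ∨ t = s := fun t ht hd => by
    rcases hp t ht hd with e | rfl | e
    · exact .inl e
    · exfalso
      have h4 : (t : ℤ) ∣ 2 * a := by
        rcases ht.dvd_mul.1 hd with h4 | h4
        · have := (Int.natCast_dvd_natCast.2 h4).sub h1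
          exact Dvd.dvd.mul_left (by simpa using this) 2
        · have := (Int.natCast_dvd_natCast.2 h4).sub h1
          rwa [h, show (D : ℤ) + a - (D - a) = 2 * a by ring] at this
      have h5 : t ∣ 2 := by
        rcases ha with rfl | rfl
        · exact Int.natCast_dvd_natCast.1 (by simpa using h4)
        · exact Int.natCast_dvd_natCast.1 (by simpa using h4)
      exact r2 ((Nat.prime_dvd_prime_iff_eq ht Nat.prime_two).1 h5)
    · exact .inr e
  rcases ha with rfl | rfl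
  · have h4 : r ^ k ∣ D - 1 := Int.natCast_dvd_natCast.1 (by rwa [Nat.cast_sub hD.le])
    rcases arith0 hs s2 hD (by omega : e = D + 1) hq with rfl | rfl | ⟨rfl, rfl⟩
    · exact .inr (.inl h4)
    · exact .inr (.inr (.inl (by convert h4 using 1; omega)))
    · exact .inr (.inr (.inr (.inr ⟨rfl, .inl h4⟩)))
  · have h4 : r ^ k ∣ D + 1 := Int.natCast_dvd_natCast.1 (by simpa using hn)
    have h5 : 1 < e := by
      by_contra h5
      have : D = 2 := by omega
      subst this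
      exact absurd (Nat.le_of_dvd (by decide) h4) (by omega)
    rcases arith0 hs s2 h5 (by omega : D = e + 1) fun t ht hd => hq t ht (mul_comm e D ▸ hd) with
      rfl | rfl | ⟨rfl, rfl⟩
    · exact .inl (by convert h4 using 1; omega)
    · exact .inr (.inr (.inr (.inl h4)))
    · exact .inr (.inr (.inr (.inr ⟨rfl, .inr (by convert h4 using 1; omega)⟩)))

end H4.Cs
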