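import Cfsg.Agent.H4.Cs1
import Cfsg.Prelude.Def_Transfer

/-! The number of primes dividing class sizes. -/

namespace H4.Cs

open Subgroup Cfsg Finset

universe u

variable {G : Type u} [Group G] [Finite G]

theorem two_mul_ncard_le {r : ℕ} [Fact r.Prime] (h : ¬ HasNormalPComplement r G) :
    2 * {x : G | ¬ r ∣ ci x}.ncard ≤ Nat.card G := by
  obtain ⟨R⟩ : Nonempty (Sylow r G) := inferInstance
  obtain ⟨b, h1, h2⟩ := ncard_le R (s := {x : G | ¬ r ∣ ci x})
    (fun Q => centralizer ((Q : Subgroup G) : Set G)) (fun _ => le_rfl)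
    fun x hx => not_dvd_ci_iff.1 hx
  have h3 : am (R : Subgroup G) ≠ 1 := fun e =>
    h ⟨R, _, inferInstance, MonoidHom.ker_transferSylow_isComplement' R (relIndex_eq_one.1 e)⟩
  have h4 := am_ne_zero (R : Subgroup G)
  have h5 : 2 ≤ am (R : Subgroup G) := by omega
  nlinarith

theorem card_le (σ : ℕ) (hσ : ∀ x : G, (ci x).primeFactors.card ≤ σ)
    (hnil : ∀ p q : ℕ, p.Prime → q.Prime → p ∣ Nat.card G → q ∣ Nat.card G →
      HasNormalPComplement p G → HasNormalPComplement q G → p = q)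
    (t : Finset ℕ) (ht : ∀ r ∈ t, r.Prime ∧ ∃ x : G, r ∣ ci x) : t.card ≤ 2 * σ := by
  classical
  have := Fintype.ofFinite G
  set f : ℕ → ℕ := fun r => (univ.filter fun x : G => ¬ r ∣ ci x).card with hf
  have h1 : ∀ r, {x : G | ¬ r ∣ ci x}.ncard = f r := fun r => by
    simp only [hf]
    rw [← Set.ncard_coe_finset]
    congr 1
    ext x
    simp
  have h2 : ∑ r ∈ t, f r = ∑ x : G, (t.filter fun r => ¬ r ∣ ci x).card := by
    simp only [hf, card_filter]
    exact sum_comm
  have h3 : ∀ x ∈ (univ : Finset G), t.card ≤ (t.filter fun r => ¬ r ∣ ci x).card + σ :=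
    fun x _ => by
      have h4 : t ⊆ (t.filter fun r => ¬ r ∣ ci x) ∪ (ci x).primeFactors := fun r hr => by
        by_cases h5 : r ∣ ci x
        · exact mem_union_right _ (Nat.mem_primeFactors.2 ⟨(ht r hr).1, h5, ci_ne_zero x⟩)
        · exact mem_union_left _ (mem_filter.2 ⟨hr, h5⟩)
      have h5 := (card_le_card h4).trans (card_union_le _ _)
      have h6 := hσ x
      omega
  have h4 := sum_le_sum h3
  rw [sum_add_distrib, ← h2, sum_const, sum_const, card_univ, ← Nat.card_eq_fintype_card,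
    smul_eq_mul, smul_eq_mul] at h4
  have h0 : 0 < Nat.card G := Nat.card_pos
  have h5 : ∀ s ⊆ t, (∀ r ∈ s, ¬ HasNormalPComplement r G) →
      2 * ∑ r ∈ s, f r ≤ s.card * Nat.card G := fun s hs h => by
    rw [mul_sum, ← smul_eq_mul, ← sum_const]
    refine sum_le_sum fun r hr => ?_
    have := Fact.mk (ht r (hs hr)).1
    exact h1 r ▸ two_mul_ncard_le (h r hr)
  by_cases h6 : ∃ p ∈ t, HasNormalPComplement p G
  · obtain ⟨p, hp, h6⟩ := h6
    have h7 := h5 (t.erase p) (erase_subset _ _) fun r hr h7 => by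
      obtain ⟨a, x, b⟩ := ht r (mem_of_mem_erase hr)
      obtain ⟨c, y, d⟩ := ht p hp
      exact ne_of_mem_erase hr (hnil r p a c (b.trans (ci_dvd_card x)) (d.trans (ci_dvd_card y))
        h7 h6)
    have h8 : f p < Nat.card G := by
      obtain ⟨-, y, d⟩ := ht p hp
      rw [Nat.card_eq_fintype_card, ← card_univ]
      exact card_lt_card (filter_ssubset.2 ⟨y, mem_univ _, not_not.2 d⟩)
    rw [← add_sum_erase _ _ hp] at h4
    have h9 := card_erase_add_one hp
    rw [← h9] at h4 ⊢
    by_contra h10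
    have h11 : 2 * σ ≤ (t.erase p).card := by omega
    nlinarith
  · have h7 := h5 t Subset.rfl fun r hr h7 => h6 ⟨r, hr, h7⟩
    by_contra h10
    nlinarith

end H4.Cs
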