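import Cfsg.Agent.H10.HH6
import Cfsg.Agent.H4.TwoCyclic
import Cfsg.Agent.H4.Klein
import Cfsg.Agent.H9.PQuot

/-!
2-length and derived length, part 1: iterated commutators `[V, T, T', T'', …]` and `2`-groups
without normal four-subgroups.
-/

set_option autoImplicit false

namespace H4.DL
open Cfsg Subgroup H19 H10.HH
open scoped commutatorElement

universe u

section basic
variable {G : Type*} [Group G] {V W T L B : Subgroup G}

/-- `[V, T, T', …, T^(k-1)]` -/
def dl (V T : Subgroup G) : ℕ → Subgroup G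
  | 0 => V
  | k + 1 => ⁅dl V T k, dS T k⁆

theorem dS_succ' (T : Subgroup G) (k : ℕ) : dS T (k + 1) = dS ⁅T, T⁆ k := by
  induction k with
  | zero => rfl
  | succ k ih => rw [dS, ih]; rfl

theorem dS_le (T : Subgroup G) (k : ℕ) : dS T k ≤ T := (dS_normal T k).le

theorem dS_succ_le (T : Subgroup G) (k : ℕ) : dS T (k + 1) ≤ dS T k := der_le _

theorem dS_anti (T : Subgroup G) {j k : ℕ} (h : j ≤ k) : dS T k ≤ dS T j := by
  induction h with
  | refl => exact le_rfl
  | step _ ih => exact (dS_succ_le _ _).trans ih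

theorem dS_add (T : Subgroup G) (j k : ℕ) : dS (dS T j) k = dS T (j + k) := by
  induction k with
  | zero => rfl
  | succ k ih => rw [dS, ih]; rfl

theorem dl_succ' (V T : Subgroup G) (k : ℕ) : dl V T (k + 1) = dl ⁅V, T⁆ ⁅T, T⁆ k := by
  induction k with
  | zero => rfl
  | succ k ih => rw [dl, ih, dS_succ']; rfl

theorem dl_mono (h1 : V ≤ W) (h2 : T ≤ L) (k : ℕ) : dl V T k ≤ dl W L k := by
  induction k with
  | zero => exact h1
  | succ k ih => exact commutator_mono ih (dS_mono h2 k)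

theorem norms_dS {A : Subgroup G} (h : A ≤ N(T)) (k : ℕ) : A ≤ N(dS T k) := by
  induction k with
  | zero => exact h
  | succ k ih => exact norms_comm ih ih

theorem norms_dl {A : Subgroup G} (h1 : A ≤ N(V)) (h : A ≤ N(T)) (k : ℕ) : A ≤ N(dl V T k) := by
  induction k with
  | zero => exact h1
  | succ k ih => exact norms_comm ih (norms_dS h k)

theorem dl_le (h : T ≤ N(V)) (k : ℕ) : dl V T k ≤ V := by
  induction k with
  | zero => exact le_rfl
  | succ k ih =>
    exact (commg_le_left ((dS_le T k).trans (norms_dl h le_normalizer k))).trans ih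

theorem dl_le_dS (h : V ≤ T) (k : ℕ) : dl V T k ≤ dS T k := by
  induction k with
  | zero => exact h
  | succ k ih => exact commutator_mono ih le_rfl

theorem dl_map {G' : Type*} [Group G'] (f : G →* G') (V T : Subgroup G) (k : ℕ) :
    (dl V T k).map f = dl (V.map f) (T.map f) k := by
  induction k with
  | zero => rfl
  | succ k ih => simp only [dl, map_commutator, ih, dS_map]

theorem cj_dl (g : G) (V T : Subgroup G) (k : ℕ) : cj g (dl V T k) = dl (cj g V) (cj g T) k :=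
  dl_map _ V T k

theorem dS_im {R : Type*} [Group R] {D : Subgroup G} (f : D →* R) (h : T ≤ D) (k : ℕ) :
    im f (dS T k) = dS (im f T) k := by
  induction k with
  | zero => rfl
  | succ k ih => rw [dS, im_comm ((dS_le T k).trans h) ((dS_le T k).trans h), ih]; rfl

theorem dl_le_of_le {D : Subgroup G} (h1 : V ≤ D) (h : T ≤ D) (k : ℕ) : dl V T k ≤ D := by
  induction k with
  | zero => exact h1
  | succ k ih => exact commg_le_of_le ih ((dS_le T k).trans h)

theorem dl_im {R : Type*} [Group R] {D : Subgroup G} (f : D →* R) (h1 : V ≤ D) (h : T ≤ D)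
    (k : ℕ) : im f (dl V T k) = dl (im f V) (im f T) k := by
  induction k with
  | zero => rfl
  | succ k ih => rw [dl, im_comm (dl_le_of_le h1 h k) ((dS_le T k).trans h), ih, dS_im f h]; rfl

/-- commuting a commutator with a centralizing subgroup past `L` -/
theorem comm_swap {X : Subgroup G} (hV : Ab V) (hX : X ≤ V) {b : G} (hb : b ∈ N(X))
    (hbV : b ∈ N(V)) (hL : L ≤ N(V)) (hbL : b ∈ C(L)) :
    ⁅⁅X, zpowers b⁆, L⁆ ≤ ⁅⁅X, L⁆, zpowers b⁆ := by
  refine commutator_le.2 fun w hw l hl => ?_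
  obtain ⟨v, hv, rfl⟩ := (H9.mem_commutator_zpowers_iff
    (comm_iff_le_cent.1 (comm_mono hV hX)) hb).1 hw
  have e : ⁅⁅v, b⁆, l⁆ = ⁅⁅v, l⁆, b⁆ := by
    have c := mem_cent.1 hbL l hl
    have v1 := hX hv
    have v2 := conj_mem_of_norm hbV v1
    have v3 := conj_mem_of_norm (hL hl) v1
    have v4 := conj_mem_of_norm (hL hl) v2
    have e4 : b * (l * v * l⁻¹) * b⁻¹ = l * (b * v * b⁻¹) * l⁻¹ := by
      calc b * (l * v * l⁻¹) * b⁻¹ = (b * l) * v * (b * l)⁻¹ := by group
        _ = (l * b) * v * (l * b)⁻¹ := by rw [c]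
        _ = _ := by group
    have e1 : ⁅⁅v, b⁆, l⁆ = v * (b * v * b⁻¹)⁻¹ * (l * (b * v * b⁻¹) * l⁻¹) * (l * v * l⁻¹)⁻¹ := by
      simp only [commutatorElement_def]; group
    have e2 : ⁅⁅v, l⁆, b⁆ = v * (l * v * l⁻¹)⁻¹ * (b * (l * v * l⁻¹) * b⁻¹) * (b * v * b⁻¹)⁻¹ := by
      simp only [commutatorElement_def]; group
    rw [e1, e2, e4]
    set x := b * v * b⁻¹
    set y := l * v * l⁻¹
    set z := l * x * l⁻¹
    have c1 := mul_comm_of_comm hV (V.inv_mem v2) (V.mul_mem v4 (V.inv_mem v3))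
    have c2 := mul_comm_of_comm hV v4 (V.inv_mem v3)
    calc v * x⁻¹ * z * y⁻¹ = v * (x⁻¹ * (z * y⁻¹)) := by group
      _ = v * (y⁻¹ * z * x⁻¹) := by rw [c1, c2]
      _ = _ := by group
  rw [e]
  exact commutator_mem_commutator (commutator_mem_commutator hv hl) (mem_zpowers b)

theorem dl_comm_le {X : Subgroup G} (hV : Ab V) (hX : X ≤ V) {b : G} (hb : b ∈ N(X))
    (hbV : b ∈ N(V)) (hL : L ≤ N(V)) (hbL : b ∈ C(L)) (k : ℕ) :
    dl ⁅X, zpowers b⁆ L k ≤ ⁅dl X L k, zpowers b⁆ := by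
  induction k with
  | zero => exact le_rfl
  | succ k ih =>
    refine (commutator_mono ih le_rfl).trans (comm_swap hV
      ((dl_mono hX le_rfl k).trans (dl_le hL k)) ?_ hbV ((dS_le L k).trans hL)
      (cent_mono (dS_le L k) hbL))
    exact norms_dl (zpowers_le.2 hb) (norms_of_cents (zpowers_le.2 hbL)) k (mem_zpowers b)

theorem comm_sq {v c : G} (h : ⁅v, c⁆ * ⁅v, c⁆ = 1) : ⁅v, c * c⁆ = ⁅⁅v, c⁆, c⁆ := by
  have e : ⁅v, c⁆⁻¹ = ⁅v, c⁆ := inv_eq_of_mul_eq_one_left h
  rw [commutatorElement_def ⁅v, c⁆, e]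
  simp only [commutatorElement_def]; group

end basic

/-- `2`-groups: a normal four-group, or cyclic derived subgroup generated by a square -/
theorem dich0 {X : Type*} [Group X] [Finite X] (hX : IsPGroup 2 X) :
    (∃ E : Subgroup X, E.Normal ∧ IsElementaryAbelian 2 E ∧ Nat.card E = 2 ^ 2) ∨
    ∃ c : X, (∀ x y : X, ⁅x, y⁆ ∈ zpowers (c * c)) ∧ c * c ∈ commutator X ∧
      (c * c * (c * c) = 1 → ∀ r n : X, ⁅r, n⁆ = 1 ∨ ⁅r, n⁆ = r * r) := by
  haveI : Fact (Nat.Prime 2) := ⟨Nat.prime_two⟩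
  by_cases hn : ∀ A : Subgroup X, A.Normal → IsMulCommutative A → IsCyclic A
  swap
  · push Not at hn
    obtain ⟨A, h1, h2, h3⟩ := hn
    obtain ⟨E, -, e1, e2, e3⟩ := exists_normal_Ep2_of_comm hX h2 h3
    exact Or.inl ⟨E, e1, e2, e3⟩
  right
  rcases normal_rank_one hX hn with hc | ⟨-, m, a, b, hm, ha, hcard, hb, htop, hcase⟩
  · have : ∀ x y : X, ⁅x, y⁆ = 1 := fun x y => by
      rw [commutatorElement_eq_one_iff_mul_comm]
      exact hc.isMulCommutative.is_comm.comm x y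
    exact ⟨1, fun x y => by rw [this]; exact one_mem _, by simp, fun _ r n => Or.inl (this r n)⟩
  have hidx : (zpowers a).index = 2 := by
    have := (zpowers a).card_mul_index
    rw [Nat.card_zpowers, ha, hcard, pow_succ] at this
    exact Nat.eq_of_mul_eq_mul_left (by positivity) this
  haveI : (zpowers a).Normal := normal_of_index_eq_two hidx
  -- `b a b⁻¹ = a ^ (1 - 2 j)`
  obtain ⟨j, hj, hj4⟩ : ∃ j : ℤ, b * a * b⁻¹ = a ^ (1 - 2 * j) ∧ (a ^ (4 * j) = 1 → m = 2) := by
    have odd4 : ∀ j : ℤ, Odd j → a ^ (4 * j) = 1 → m = 2 := fun j hj h => by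
      rw [zpow_eq_one_of_dvd ha] at h
      by_contra hne
      have h3 : (2 : ℤ) ^ 3 ∣ 4 * j := (pow_dvd_pow 2 (by omega)).trans h
      obtain ⟨i, hi⟩ := hj
      omega
    rcases hcase with ⟨-, -, h⟩ | ⟨-, h⟩ | ⟨h3, -, h⟩
    · exact ⟨1, by rw [h]; simp, odd4 1 odd_one⟩
    · exact ⟨1, by rw [h]; simp, odd4 1 odd_one⟩
    · obtain ⟨k, rfl⟩ : ∃ k, m = k + 3 := ⟨m - 3, by omega⟩
      refine ⟨1 - 2 * 2 ^ k, ?_, odd4 _ ⟨-2 ^ k, by ring⟩⟩
      rw [h, ← zpow_natCast]
      congr 1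
      have : 1 ≤ 2 ^ (k + 2) := Nat.one_le_two_pow
      rw [show k + 3 - 1 = k + 2 from rfl, Nat.cast_sub this]
      push_cast
      ring
  have hg : ⁅a, b⁆ = a ^ j * a ^ j := by
    rw [commutatorElement_def, mul_assoc, mul_assoc, ← mul_assoc b, ← conj_inv, hj, ← zpow_neg,
      ← zpow_add, ← zpow_one_add]
    congr 1; ring
  haveI : (zpowers (a ^ j * a ^ j)).Normal := by
    rw [← zpow_add]; exact normal_zpowers_zpow _
  have hle : commutator X ≤ zpowers (a ^ j * a ^ j) :=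
    commutator_le_of_pair htop (hg ▸ mem_zpowers _)
  have hmem : ∀ x y : X, ⁅x, y⁆ ∈ zpowers (a ^ j * a ^ j) := fun x y =>
    hle (commutator_mem_commutator (mem_top x) (mem_top y))
  refine ⟨a ^ j, hmem, hg ▸ commutator_mem_commutator (mem_top _) (mem_top _), fun h4 r n => ?_⟩
  set g := a ^ j * a ^ j with hgd
  have hm2 : m = 2 := hj4 (by rw [← h4, hgd]; simp only [← zpow_add]; congr 1; ring)
  subst hm2
  by_cases h1 : ⁅r, n⁆ = 1
  · exact Or.inl h1
  right
  have g2 : g ^ 2 = 1 := by rw [sq]; exact h4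
  have hrn : ⁅r, n⁆ = g := ((mem_zpowers_of_sq g2).1 (hmem r n)).resolve_left h1
  have g1 : g ≠ 1 := hrn ▸ h1
  have gc : ∀ x, x * g = g * x := fun x => by
    have := (mem_zpowers_of_sq g2).1 (Normal.conj_mem inferInstance g (mem_zpowers g) x)
    rcases this with h | h
    · exact absurd (by simpa using h) g1
    · exact mul_inv_eq_iff_eq_mul.1 h
  let A := zpowers r ⊔ zpowers g
  have hAn : A.Normal := Normal.of_commutator_le _ (hle.trans le_sup_right)
  have hAc : IsCyclic A := hn A hAn (comm_sup (comm_zpowers r) (comm_zpowers g)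
    (zpowers_le.2 (by rw [cent_zpowers, mem_cent1]; exact gc r)))
  have rA : r ∈ A := mem_sup_left (mem_zpowers r)
  have gA : g ∈ A := mem_sup_right (mem_zpowers g)
  have rg : r ≠ g := by
    rintro rfl
    exact h1 (commutatorElement_eq_one_iff_mul_comm.2 (gc n).symm)
  have r1 : r ≠ 1 := by rintro rfl; simp at h1
  have r2 : r * r ≠ 1 := fun h => not_isCyclic_of_two_involutions rA gA r1 g1 rg (by rw [sq, h]) g2 hAc
  have r4 : (r * r) ^ 2 = 1 := by
    have h8 : orderOf r ∣ 2 ^ 3 := hcard ▸ orderOf_dvd_natCard r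
    obtain ⟨i, hi, hr⟩ := (Nat.dvd_prime_pow Nat.prime_two).1 h8
    by_cases h3 : i = 3
    · exfalso
      subst h3
      have : zpowers r = ⊤ := by
        apply eq_top_of_card_eq
        rw [Nat.card_zpowers, hr, hcard]
      have hn : n ∈ zpowers r := this ▸ mem_top n
      obtain ⟨k, rfl⟩ := hn
      exact h1 (commutatorElement_eq_one_iff_commute.2 (Commute.self_zpow r k))
    · rw [← sq, ← pow_mul]
      exact orderOf_dvd_iff_pow_eq_one.1 (hr ▸ pow_dvd_pow 2 (show i ≤ 2 by omega))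
  by_contra hne
  exact not_isCyclic_of_two_involutions (A.mul_mem rA rA) gA r2 g1 (fun h => hne (hrn.trans h.symm))
    r4 g2 hAc

end H4.DL
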