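import Cfsg.Agent.H4.DL1

/-!
2-length and derived length, part 2: a `2`-group `T` acting on a group `Q` of symplectic type
acting on an elementary abelian `2`-group `V`.
-/

set_option autoImplicit false

namespace H4.DL
open Cfsg Subgroup H19 H10.HH
open scoped commutatorElement

universe u

section
variable {G : Type*} [Group G] [Finite G] {Q T V W L B : Subgroup G}

theorem dich (hT : PG 2 T) :
    (∃ E ≤ T, Ab E ∧ ¬ Cyc E ∧ ⁅T, T⁆ ≤ C(E)) ∨
    ∃ c ∈ T, ⁅T, T⁆ ≤ zpowers (c * c) ∧ c * c ∈ ⁅T, T⁆ ∧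
      (c * c * (c * c) = 1 → ∀ r ∈ T, ∀ n ∈ T, ⁅r, n⁆ = 1 ∨ ⁅r, n⁆ = r * r) := by
  rcases dich0 hT.isPGroup with ⟨E, h1, h2, h3⟩ | ⟨c, h1, h2, h3⟩
  · left
    have hE : E.map T.subtype ⊴ T := normalIn_map_subtype E
    have hc : #(E.map T.subtype) = 4 := by rw [card_map_of_injective T.subtype_injective, h3]; rfl
    have ha : Abelem 2 (E.map T.subtype) := ⟨comm_iff_der.2 (by
      rw [← map_commutator, comm_iff_der.1 h2.1, Subgroup.map_bot]), by
      rintro _ ⟨x, hx, rfl⟩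
      rw [← map_pow, h2.2 x hx, map_one]⟩
    refine ⟨_, hE.le, ha.1, not_isCyclic_of_card two_pos ha.2 (by omega), ?_⟩
    set F := E.map T.subtype
    have h4 : ⁅⁅F, T⁆, T⁆ = ⊥ := by
      by_cases h0 : ⁅F, T⁆ = ⊥
      · rw [h0, commutator_bot_left]
      have l1 := (hT.of_le hE.le).commg_lt hT hE.norm (by rintro h; rw [h] at hc; simp at hc)
      have l2 := (hT.of_le (l1.le.trans hE.le)).commg_lt hT (commg_normr _ _) h0
      have c1 := card_lt l1
      have c2 := card_lt l2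
      have c3 := card_dvd l1.le
      rw [hc] at c1 c3
      have : #(⁅F, T⁆) ≤ 2 := by
        by_contra h
        have : #(⁅F, T⁆) = 3 := by omega
        rw [this] at c3
        omega
      have := card_pos ⁅⁅F, T⁆, T⁆
      exact card_eq_one.1 (by omega)
    exact commg_eq_bot.1 (three_subgroup (by rw [commutator_comm T F, h4]) h4)
  · right
    have e : (commutator T).map T.subtype = ⁅T, T⁆ := by
      rw [_root_.commutator_def, map_commutator, ← MonoidHom.range_eq_map, range_subtype]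
    refine ⟨c, c.2, commutator_le.2 fun x hx y hy => ?_, e ▸ mem_map_of_mem T.subtype h2,
      fun h r hr n hn => ?_⟩
    · obtain ⟨k, hk⟩ := h1 ⟨x, hx⟩ ⟨y, hy⟩
      exact ⟨k, (by simpa using congrArg Subtype.val hk : (c * c : G) ^ k = (⁅(⟨x, hx⟩ : T), ⟨y, hy⟩⁆ : T))⟩
    · rcases h3 (Subtype.ext h) ⟨r, hr⟩ ⟨n, hn⟩ with h | h
      · exact Or.inl (congrArg Subtype.val h)
      · exact Or.inr (congrArg Subtype.val h)

/-- the symplectic setup -/
structure Sy (Q T V : Subgroup G) : Prop where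
  ab : Abelem 2 V
  ne : V ≠ ⊥
  odd : PiG {2}ᶜ Q
  nil : Nil Q
  two : PG 2 T
  qv : Q ≤ N(V)
  tv : T ≤ N(V)
  tq : T ≤ N(Q)
  der : ⁅Q, Q⁆ ≤ Z(Q)
  tz : T ≤ C(Z(Q))
  fpf : ∀ z ∈ Z(Q), z ≠ 1 → V ⊓ C[z] = ⊥

theorem faith (hn : Nil Q) (ne : V ≠ ⊥) (qv : Q ≤ N(V))
    (fpf : ∀ z ∈ Z(Q), z ≠ 1 → V ⊓ C[z] = ⊥) : Q ⊓ C(V) = ⊥ := by
  by_contra h
  obtain ⟨z, hz, z1⟩ := exists_ne_one (nil_meet_center hn (inf_cent_normal qv) h)
  refine ne ?_
  rw [← fpf z ⟨hz.1.1, hz.2⟩ z1, left_eq_inf, le_cent1_iff]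
  exact hz.1.2

theorem cent_of (hn : Nil Q) (ne : V ≠ ⊥) (qv : Q ≤ N(V))
    (fpf : ∀ z ∈ Z(Q), z ≠ 1 → V ⊓ C[z] = ⊥) (h1 : B ≤ N(Q)) (h2 : B ≤ C(V)) : B ≤ C(Q) := by
  refine cents_symm (commg_eq_bot.1 (H19.eq_bot_mono (le_inf (commg_le_left h1) ?_)
    (faith hn ne qv fpf)))
  exact (commutator_mono le_rfl h2).trans (commg_le_right (norms_cent qv))

theorem Sy.cent (h : Sy Q T V) (h1 : B ≤ T) (h2 : B ≤ C(V)) : B ≤ C(Q) :=
  cent_of h.nil h.ne h.qv h.fpf (h1.trans h.tq) h2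

theorem Sy.mem_cent (h : Sy Q T V) {x : G} (h1 : x ∈ T) (h2 : x ∈ C(V)) : x ∈ C(Q) :=
  h.cent (zpowers_le.2 h1) (zpowers_le.2 h2) (mem_zpowers x)

theorem Sy.cop (h : Sy Q T V) (h1 : B ≤ T) : (#Q).Coprime #B := h.odd.coprime' (h.two.of_le h1)

theorem Sy.center (h : Sy Q T V) (h1 : B ≤ T) : Z(Q ⊓ C(B)) = Z(Q) := by
  have hz : Z(Q) ≤ C(B) := cents_symm (h1.trans h.tz)
  refine le_antisymm (le_inf (inf_le_left.trans inf_le_left) ?_)
    (le_inf (le_inf inf_le_left hz) (inf_le_right.trans (cent_mono inf_le_left)))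
  have e := commg_sup_cent (h1.trans h.tq) (h.cop h1) (Or.inr (sol_of_nil h.nil))
  have c : ⁅⁅Q, B⁆, Q ⊓ C(B)⁆ = ⊥ := by
    refine three_subgroup ?_ ?_
    · rw [commutator_comm B, commg_eq_bot.2 inf_le_right, commutator_bot_left]
    · exact commg_eq_bot.2 ((commutator_mono inf_le_left le_rfl).trans (h.der.trans hz))
  conv_rhs => rw [← e]
  exact cents_sup (inf_le_left.trans (cents_symm (commg_eq_bot.1 c))) inf_le_right

theorem Sy.sub (h : Sy Q T V) (h1 : B ≤ T) (hL : L ≤ T) (hLB : L ≤ N(B)) (hW : W ≤ V)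
    (ne : W ≠ ⊥) (h2 : Q ⊓ C(B) ≤ N(W)) (h3 : L ≤ N(W)) : Sy (Q ⊓ C(B)) L W where
  ab := abelem_mono h.ab hW
  ne := ne
  odd := h.odd.infl _
  nil := nil_mono h.nil inf_le_left
  two := h.two.of_le hL
  qv := h2
  tv := h3
  tq := norms_inf (hL.trans h.tq) (norms_cent hLB)
  der := by rw [h.center h1]; exact (der_mono inf_le_left).trans h.der
  tz := by rw [h.center h1]; exact hL.trans h.tz
  fpf := by
    rw [h.center h1]
    exact fun z hz z1 => H19.eq_bot_mono (inf_le_inf_right _ hW) (h.fpf z hz z1)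

theorem Sy.mono (h : Sy Q T V) (hL : L ≤ T) (hW : W ≤ V) (ne : W ≠ ⊥) (h2 : Q ≤ N(W))
    (h3 : L ≤ N(W)) : Sy Q L W :=
  ⟨abelem_mono h.ab hW, ne, h.odd, h.nil, h.two.of_le hL, h2, h3, hL.trans h.tq, h.der,
    hL.trans h.tz, fun z hz z1 => H19.eq_bot_mono (inf_le_inf_right _ hW) (h.fpf z hz z1)⟩

theorem Sy.pv (h : Sy Q T V) : PG 2 V := abelem_pg Nat.prime_two h.ab

/-- the piece attached to a non-identity `e` of a four-group -/
theorem Sy.piece (h : Sy Q T V) (hf : T ⊓ C(Q) = ⊥) {e : G} (he : e ∈ T) (e1 : e ≠ 1)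
    (hc : e ∈ C(⁅T, T⁆)) : Sy (Q ⊓ C[e]) ⁅T, T⁆ ⁅V, zpowers e⁆ := by
  have h1 : ⁅T, T⁆ ≤ N(zpowers e) := norms_of_cents (cents_symm (zpowers_le.2 hc))
  have := h.sub (B := zpowers e) (W := ⁅V, zpowers e⁆) (zpowers_le.2 he) (der_le T) h1
    (commg_le_left ((zpowers_le.2 he).trans h.tv)) (fun h0 => e1 ?_)
    (norms_comm (inf_le_left.trans h.qv) (norms_of_cents inf_le_right))
    (norms_comm ((der_le T).trans h.tv) h1)
  · rwa [cent_zpowers] at this
  · have : e ∈ T ⊓ C(Q) := ⟨he, h.mem_cent he (cents_symm (commg_eq_bot.1 h0) (mem_zpowers e))⟩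
    rwa [hf, mem_bot] at this

/-- passing to the faithful quotient -/
theorem Sy.toq (h : Sy Q T V) (hQ : Q ≠ ⊥) {K : Subgroup G} (hK : K = T ⊓ C(Q)) :
    T ≤ N(K) ∧ V ⊓ C(K) ≤ N(K) ∧ Sy (quo K Q) (quo K T) (quo K (V ⊓ C(K))) ∧
      quo K T ⊓ C(quo K Q) = ⊥ := by
  have KT : K ≤ T := hK ▸ inf_le_left
  have KQ : K ≤ C(Q) := hK ▸ inf_le_right
  have tK : T ≤ N(K) := hK ▸ (inf_cent_normal h.tq).norm
  have qK : Q ≤ N(K) := norms_of_cents (cents_symm KQ)
  have vK : V ⊓ C(K) ≤ N(K) := norms_of_cents inf_le_right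
  have pK : PG 2 K := h.two.of_le KT
  have dQ : K ⊓ Q = ⊥ := pK.inf_eq_bot h.odd
  have key : ∀ B, B ≤ N(K) → B ≤ N(Q) → quo K B ≤ C(quo K Q) → B ≤ C(Q) := fun B b1 b2 b3 =>
    commg_eq_bot.1 (H19.eq_bot_mono (le_inf ((quo_cents_iff b1 qK).1 b3) (commg_le_right b2)) dQ)
  have eZ : Z(quo K Q) = quo K Z(Q) := by
    refine le_antisymm ?_ (le_inf (quo_mono K inf_le_left) (quo_cents inf_le_right))
    rw [← quo_inf_qpre]
    exact quo_mono K (le_inf inf_le_left (key _ (inf_le_left.trans qK)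
      (norms_of_le inf_le_left) ((quo_inf_qpre _ _).le.trans inf_le_right)))
  obtain ⟨z0, hz0, z01⟩ := exists_ne_one (nil_center_ne_bot h.nil hQ)
  have dV : V ⊓ C(K) ⊓ K = ⊥ := by
    refine H19.eq_bot_mono ?_ (h.fpf z0 hz0 z01)
    exact le_inf (inf_le_left.trans inf_le_left) (inf_le_right.trans (KQ.trans (cent_le_cent1 hz0.1)))
  refine ⟨tK, vK, ⟨abelem_quo (abelem_mono h.ab inf_le_left) K, fun h0 => ?_, h.odd.quo K,
    nil_quo h.nil K, h.two.quo K, quo_norms (norms_inf h.qv (norms_cent qK)),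
    quo_norms (norms_inf h.tv (norms_cent tK)), quo_norms h.tq, ?_, ?_, ?_⟩, ?_⟩
  · rw [quo_eq_bot_iff vK] at h0
    exact h.pv.meet_cent pK (KT.trans h.tv) h.ne (by rw [← dV, left_eq_inf]; exact h0)
  · rw [eZ, ← quo_comm qK qK]; exact quo_mono K h.der
  · rw [eZ]; exact quo_cents h.tz
  · rw [eZ]
    intro z hz z1
    obtain ⟨x, hx, rfl⟩ := mem_im.1 hz
    have x1 : (x : G) ≠ 1 := fun e => z1 (qmk_eq_one.2 (e ▸ one_mem K))
    rw [← cent_zpowers, ← quo_zpowers x.2, quo_inf_cent (zpowers_le.2 x.2)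
      (zpowers_le.2 (norms_inf h.qv (norms_cent qK) hx.1))
      (by rw [inf_comm, dV]; simp) (Or.inl (sol_zpowers _)), cent_zpowers]
    exact quo_eq_bot
      ((H19.eq_bot_mono (inf_le_inf_right _ inf_le_left) (h.fpf x hx x1)).le.trans bot_le)
  · rw [← quo_inf_qpre]
    refine quo_eq_bot (le_trans (le_inf inf_le_left (key _ (inf_le_left.trans tK)
      (inf_le_left.trans h.tq) ((quo_inf_qpre _ _).le.trans inf_le_right))) hK.ge)

theorem Sy.four (h : Sy Q T V) {c : G} (hc : c ∈ T) (h0 : ⁅⁅V, T⁆, zpowers (c * c)⁆ = ⊥) :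
    c * c * (c * c) ∈ C(V) := by
  rw [H19.mem_cent]
  intro v hv
  have m : ⁅v, c * c⁆ ∈ ⁅V, T⁆ := commutator_mem_commutator hv (T.mul_mem hc hc)
  rw [← commutatorElement_eq_one_iff_mul_comm, comm_sq (by
    rw [← sq]; exact h.ab.2 _ (commg_le_left h.tv m)), ← mem_bot, ← h0]
  exact commutator_mem_commutator m (mem_zpowers _)

theorem Sy.four' (h : Sy Q T V) {c : G} (hc : c ∈ T) (h0 : ⁅⁅⁅V, T⁆, T⁆, zpowers (c * c)⁆ = ⊥) :
    c * c * (c * c) ∈ C(V) := by
  rw [H19.mem_cent]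
  intro v hv
  have m : ⁅v, c * c⁆ ∈ ⁅V, T⁆ := commutator_mem_commutator hv (T.mul_mem hc hc)
  have m' : ⁅v, c⁆ ∈ ⁅V, T⁆ := commutator_mem_commutator hv hc
  rw [← commutatorElement_eq_one_iff_mul_comm, comm_sq (by
    rw [← sq]; exact h.ab.2 _ (commg_le_left h.tv m)), comm_sq (v := v) (c := c) (by
    rw [← sq]; exact h.ab.2 _ (commg_le_left h.tv m')), ← mem_bot, ← h0]
  exact commutator_mem_commutator (commutator_mem_commutator m' hc) (mem_zpowers _)

end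

theorem cent_of_qmk {G : Type*} [Group G] {K Q T : Subgroup G} (hK : K = T ⊓ C(Q))
    (hf : quo K T ⊓ C(quo K Q) = ⊥) {x : N(K)} (hx : (x : G) ∈ T) (h : qmk K x ∈ C(quo K Q)) :
    (x : G) ∈ C(Q) := by
  have : qmk K x ∈ quo K T ⊓ C(quo K Q) := ⟨mem_im_of hx, h⟩
  rw [hf, mem_bot, qmk_eq_one] at this
  exact (hK.le this).2

/-- `[V, T, T, T', …, T^(d)] = 1` forces squares of elements of `T^(d)` to centralize `Q` -/
theorem msq (d : ℕ) : ∀ {G : Type u} [Group G] [Finite G] {Q T V : Subgroup G}, Sy Q T V →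
    dl ⁅V, T⁆ T (d + 1) = ⊥ → ∀ r ∈ dS T d, r * r ∈ C(Q) := by
  induction d with
  | zero =>
    intro G _ _ Q T V h h0 r hr
    refine h.mem_cent (T.mul_mem hr hr) ?_
    rw [← sq]
    exact H9.pow_mem_centralizer_of_quad (fun w hw => h.ab.2 w (commg_le_left h.tv hw)) h0 hr
  | succ d ih =>
    have faithful : ∀ {G : Type u} [Group G] [Finite G] {Q T V : Subgroup G}, Sy Q T V →
        T ⊓ C(Q) = ⊥ → dl ⁅V, T⁆ T (d + 2) = ⊥ → ∀ r ∈ dS T (d + 1), r * r ∈ C(Q) := by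
      intro G _ _ Q T V h hf h0 r hr
      rcases dich h.two with ⟨E, hE, ha, hnc, hc⟩ | ⟨c, hc, h1, h2, -⟩
      · rw [← le_cent1_iff]
        refine le_of_cent1_le ha hnc (hE.trans h.tq) (h.cop hE) fun e he e1 => ?_
        rw [le_cent1_iff]
        refine ih (h.piece hf (hE he) e1 (cents_symm hc he)) (H19.eq_bot_mono ?_ h0) r
          (dS_succ' T d ▸ hr)
        rw [dl_succ' ⁅V, T⁆]
        exact dl_mono (commutator_mono (commutator_mono le_rfl (zpowers_le.2 (hE he)))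
          (der_le T)) le_rfl _
      · rcases d with _ | d
        · have h4 := h.mem_cent (T.mul_mem (T.mul_mem hc hc) (T.mul_mem hc hc))
            (h.four' hc (H19.eq_bot_mono (commutator_mono le_rfl (zpowers_le.2 h2)) h0))
          obtain ⟨k, rfl⟩ := h1 hr
          rw [← (Commute.refl (c * c)).mul_zpow]
          exact zpow_mem h4 k
        · have : r ∈ dS T 2 := dS_anti T (by omega) hr
          have h5 : dS T 2 = ⊥ := comm_iff_der.1 (comm_mono (comm_zpowers _) h1)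
          rw [h5, mem_bot] at this
          rw [this, one_mul]
          exact one_mem _
    intro G _ _ Q T V h h0 r hr
    by_cases hQ : Q = ⊥
    · rw [hQ, cent_bot]; trivial
    obtain ⟨tK, vK, hs, hf⟩ := h.toq hQ rfl
    set K := T ⊓ C(Q) with hK
    have rT := dS_le T _ hr
    have := faithful hs hf (by
      rw [← quo_comm vK tK, ← dl_im _ (commg_le_of_le vK tK) tK,
        H19.eq_bot_mono (dl_mono (commutator_mono inf_le_left le_rfl) le_rfl _) h0, im_bot])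
      (qmk K ⟨r, tK rT⟩) (by rw [← dS_im _ tK]; exact mem_im_of hr)
    rw [← map_mul] at this
    exact cent_of_qmk hK hf (T.mul_mem rT rT) this

/-- the main lemma on `δ_m (V; T) = 1` -/
theorem mm (m : ℕ) : ∀ {G : Type u} [Group G] [Finite G] {Q T V : Subgroup G}, Sy Q T V →
    dl V T (m + 2) = ⊥ → ∀ r ∈ dS T m, ∀ n ∈ dS T m,
      ⁅r, n⁆ ∈ C(Q) ∨ ⁅r, n⁆ * (r * r)⁻¹ ∈ C(Q) := by
  have red : ∀ m, (∀ {G : Type u} [Group G] [Finite G] {Q T V : Subgroup G}, Sy Q T V →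
      T ⊓ C(Q) = ⊥ → dl V T (m + 2) = ⊥ → ∀ r ∈ dS T m, ∀ n ∈ dS T m,
      ⁅r, n⁆ ∈ C(Q) ∨ ⁅r, n⁆ * (r * r)⁻¹ ∈ C(Q)) →
      ∀ {G : Type u} [Group G] [Finite G] {Q T V : Subgroup G}, Sy Q T V →
      dl V T (m + 2) = ⊥ → ∀ r ∈ dS T m, ∀ n ∈ dS T m,
      ⁅r, n⁆ ∈ C(Q) ∨ ⁅r, n⁆ * (r * r)⁻¹ ∈ C(Q) := by
    intro m faithful G _ _ Q T V h h0 r hr n hn
    by_cases hQ : Q = ⊥
    · rw [hQ, cent_bot]; exact Or.inl trivial
    obtain ⟨tK, vK, hs, hf⟩ := h.toq hQ rfl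
    set K := T ⊓ C(Q) with hK
    have rT := dS_le T _ hr
    have nT := dS_le T _ hn
    have cT : ⁅r, n⁆ ∈ T := der_le T (commutator_mem_commutator rT nT)
    have := faithful hs hf (by
      rw [← dl_im _ vK tK, H19.eq_bot_mono (dl_mono inf_le_left le_rfl _) h0, im_bot])
      (qmk K ⟨r, tK rT⟩) (by rw [← dS_im _ tK]; exact mem_im_of hr)
      (qmk K ⟨n, tK nT⟩) (by rw [← dS_im _ tK]; exact mem_im_of hn)
    rw [← map_commutatorElement, ← map_mul, ← map_inv, ← map_mul] at this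
    exact this.imp (cent_of_qmk hK hf cT)
      (cent_of_qmk hK hf (T.mul_mem cT (T.inv_mem (T.mul_mem rT rT))))
  induction m with
  | zero =>
    refine @red 0 ?_
    intro G _ _ Q T V h hf h0 r hr n hn
    rcases dich h.two with ⟨E, hE, ha, hnc, hc⟩ | ⟨c, hc, h1, h2, h3⟩
    · left
      rw [← le_cent1_iff]
      refine le_of_cent1_le ha hnc (hE.trans h.tq) (h.cop hE) fun e he e1 => ?_
      rw [le_cent1_iff]
      refine (h.piece hf (hE he) e1 (cents_symm hc he)).cent le_rfl (cents_symm (commg_eq_bot.1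
        (H19.eq_bot_mono ?_ h0))) (commutator_mem_commutator hr hn)
      exact commutator_mono (commutator_mono le_rfl (zpowers_le.2 (hE he))) le_rfl
    · have t4 := T.mul_mem (T.mul_mem hc hc) (T.mul_mem hc hc)
      have h4 : c * c * (c * c) ∈ T ⊓ C(Q) := ⟨t4, h.mem_cent t4
        (h.four hc (H19.eq_bot_mono (commutator_mono le_rfl (zpowers_le.2 h2)) h0))⟩
      rw [hf, mem_bot] at h4
      rcases h3 h4 r hr n hn with e | e
      · left; rw [e]; exact one_mem _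
      · right; rw [e, mul_inv_cancel]; exact one_mem _
  | succ m ih =>
    refine @red (m + 1) ?_
    intro G _ _ Q T V h hf h0 r hr n hn
    rcases dich h.two with ⟨E, hE, ha, hnc, hc⟩ | ⟨c, hc, h1, -, -⟩
    · by_cases a1 : ⁅r, n⁆ = 1
      · left; rw [a1]; exact one_mem _
      right
      rw [← le_cent1_iff]
      refine le_of_cent1_le ha hnc (hE.trans h.tq) (h.cop hE) fun e he e1 => ?_
      rw [le_cent1_iff]
      have hp := h.piece hf (hE he) e1 (cents_symm hc he)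
      refine (ih hp (H19.eq_bot_mono ?_ h0) r (dS_succ' T m ▸ hr) n (dS_succ' T m ▸ hn)).elim
        (fun hq => mul_mem hq (inv_mem ?_)) id
      · rw [dl_succ' V]
        exact dl_mono (commutator_mono le_rfl (zpowers_le.2 (hE he))) le_rfl _
      -- the element `b`
      have hB : PG 2 (dS T (m + 2) ⊓ C(Q ⊓ C[e])) := (h.two.of_le (dS_le T _)).infl _
      obtain ⟨b, ⟨⟨b1, b2⟩, b3⟩, b4⟩ := exists_ne_one (hB.meet_cent hp.two
        (norms_inf ((der_le T).trans (dS_normal T _).norm) (norms_cent hp.tq))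
        (ne_bot_of_mem ⟨commutator_mem_commutator hr hn, hq⟩ a1))
      have bT := dS_le T _ b1
      have nb : ⁅T, T⁆ ≤ N(zpowers b) := norms_of_cents (cents_symm (zpowers_le.2 b3))
      have tv' := (der_le T).trans h.tv
      have hs : Sy (Q ⊓ C[e]) ⁅T, T⁆ ⁅V, zpowers b⁆ := by
        have := h.sub (B := zpowers e) (W := ⁅V, zpowers b⁆) (zpowers_le.2 (hE he)) (der_le T)
          (norms_of_cents (cents_symm (zpowers_le.2 (cents_symm hc he))))
          (commg_le_left ((zpowers_le.2 bT).trans h.tv)) (fun h0 => b4 ?_)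
          (norms_comm (inf_le_left.trans h.qv) (by
            rw [cent_zpowers]; exact norms_of_cents (cents_symm (zpowers_le.2 b2))))
          (norms_comm tv' nb)
        · rwa [cent_zpowers] at this
        · have : b ∈ T ⊓ C(Q) :=
            ⟨bT, h.mem_cent bT (cents_symm (commg_eq_bot.1 h0) (mem_zpowers b))⟩
          rwa [hf, mem_bot] at this
      refine msq m hs (H19.eq_bot_mono ?_ h0) r (dS_succ' T m ▸ hr)
      refine (dl_mono (comm_swap h.ab.1 le_rfl (h.tv bT) (h.tv bT) tv' b3) le_rfl _).trans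
        ((dl_comm_le h.ab.1 (commg_le_left tv') (norms_comm h.tv (der_normal T).norm bT) (h.tv bT)
          tv' b3 _).trans (commutator_mono ?_ (zpowers_le.2 b1)))
      rw [dl_succ' V]
      exact dl_mono (commutator_mono le_rfl (der_le T)) le_rfl _
    · left
      have h5 : dS T 2 = ⊥ := comm_iff_der.1 (comm_mono (comm_zpowers _) h1)
      have : ⁅r, n⁆ ∈ dS T 2 := commutator_mem_commutator
        (dS_anti T (show 1 ≤ m + 1 by omega) hr) (dS_anti T (show 1 ≤ m + 1 by omega) hn)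
      rw [h5, mem_bot] at this
      rw [this]
      exact one_mem _

end H4.DL
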