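import Cfsg.Agent.H4.DL2
import Cfsg.Agent.H18.G1b

/-!
2-length and derived length, part 3: Clifford reduction to the symplectic setup.
-/

set_option autoImplicit false

namespace H4.DL
open Cfsg Subgroup H19 H10.HH
open scoped commutatorElement

universe u

section
variable {G : Type*} [Group G] {Q T V W L B X K P M : Subgroup G}

/-- elements normalizing `X` and centralizing `K` modulo `X` -/
def ct (X K : Subgroup G) : Subgroup G where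
  carrier := {g | g ∈ N(X) ∧ ∀ k ∈ K, ⁅g, k⁆ ∈ X}
  one_mem' := ⟨one_mem _, fun k _ => by simp⟩
  mul_mem' := by
    rintro g h ⟨g1, g2⟩ ⟨h1, h2⟩
    refine ⟨mul_mem g1 h1, fun k hk => ?_⟩
    have : ⁅g * h, k⁆ = g * ⁅h, k⁆ * g⁻¹ * ⁅g, k⁆ := by simp only [commutatorElement_def]; group
    rw [this]
    exact mul_mem (conj_mem_of_norm g1 (h2 k hk)) (g2 k hk)
  inv_mem' := by
    rintro g ⟨g1, g2⟩
    refine ⟨inv_mem g1, fun k hk => ?_⟩
    have : ⁅g⁻¹, k⁆ = g⁻¹ * ⁅g, k⁆⁻¹ * g := by simp only [commutatorElement_def]; group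
    rw [this]
    exact conj_mem_of_norm' g1 (inv_mem (g2 k hk))

theorem le_ct : B ≤ ct X K ↔ B ≤ N(X) ∧ ⁅B, K⁆ ≤ X :=
  ⟨fun h => ⟨fun g hg => (h hg).1, commutator_le.2 fun g hg => (h hg).2⟩,
    fun h g hg => ⟨h.1 hg, commutator_le.1 h.2 g hg⟩⟩

theorem commg_iSup_le {ι : Sort*} {A : ι → Subgroup G} (h1 : ∀ i, A i ≤ N(X))
    (h2 : ∀ i, ⁅A i, K⁆ ≤ X) : ⁅⨆ i, A i, K⁆ ≤ X :=
  (le_ct.1 (iSup_le fun i => le_ct.2 ⟨h1 i, h2 i⟩)).2

theorem dl_iSup_le {ι : Sort*} {A : ι → Subgroup G} (hV : Ab V) (hA : ∀ i, A i ≤ V)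
    (hL : L ≤ N(V)) (k : ℕ) : dl (⨆ i, A i) L k ≤ ⨆ i, dl (A i) L k := by
  have h : ∀ i k, dl (A i) L k ≤ V := fun i k => (dl_mono (hA i) le_rfl k).trans (dl_le hL k)
  induction k with
  | zero => exact le_rfl
  | succ k ih =>
    exact (commutator_mono ih le_rfl).trans (commg_iSup_le (fun i => norms_of_comm hV (h i k)
      (iSup_le fun i => h i _)) fun i => le_iSup (fun i => dl (A i) L (k + 1)) i)

theorem dl_sup_le {A : Subgroup G} (hV : Ab V) (hA : A ≤ V) (hB : B ≤ V) (hL : L ≤ N(V)) (k : ℕ) :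
    dl (A ⊔ B) L k ≤ dl A L k ⊔ dl B L k := by
  have := dl_iSup_le (A := fun b : Bool => cond b A B) hV (by rintro (_ | _) <;> assumption) hL k
  rwa [iSup_bool_eq, iSup_bool_eq] at this

theorem cj_iSup {ι : Sort*} (g : G) (A : ι → Subgroup G) : cj g (⨆ i, A i) = ⨆ i, cj g (A i) :=
  Subgroup.map_iSup _ _

theorem norms_iSup {ι : Sort*} {A : ι → Subgroup G} (h : ∀ i, B ≤ N(A i)) : B ≤ N(⨆ i, A i) :=
  fun g hg => mem_norm_iff_cj.2 (by
    rw [cj_iSup]; exact iSup_congr fun i => cj_of_mem_norm (h i hg))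

variable [Finite G]

theorem exists_max2 (hT : PG 2 T) (h : B < T) :
    ∃ T₀, B ≤ T₀ ∧ T₀ < T ∧ ⁅T, T⁆ ≤ T₀ ∧ ∀ x ∈ T, x * x ∈ T₀ := by
  obtain ⟨n, hn⟩ := hT.exists_card
  have h1 := hT.card_mul_le h
  rcases n with _ | n
  · have := card_pos B; omega
  obtain ⟨C, c1, c2, c3⟩ := hT.exists_between (k := n) Nat.prime_two h.le
    (by rw [hn, pow_succ] at h1; omega) (by rw [hn, pow_succ]; omega)
  have hi : (C.subgroupOf T).index = 2 := by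
    have := card_mul_relIndex c2
    rw [c3, hn, pow_succ] at this
    exact Nat.eq_of_mul_eq_mul_left (by positivity) this
  refine ⟨C, c1, lt_of_le_of_ne c2 fun e => ?_, commutator_le.2 fun x hx y hy => ?_,
    fun x hx => mul_self_mem_of_index_two hi ⟨x, hx⟩⟩
  · rw [e, hn, pow_succ] at c3
    have : 0 < 2 ^ n := by positivity
    omega
  · have : (⟨x, hx⟩ * ⟨y, hy⟩ * (⟨x, hx⟩⁻¹ * ⟨y, hy⟩⁻¹) : T) ∈ C.subgroupOf T := by
      simp only [mul_mem_iff_of_index_two hi, inv_mem_iff]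
    simpa [mem_subgroupOf, commutatorElement_def, mul_assoc] using this

/-- the setup before the centre is centralized -/
structure Sy0 (Q T V : Subgroup G) : Prop where
  ab : Abelem 2 V
  ne : V ≠ ⊥
  odd : PiG {2}ᶜ Q
  nil : Nil Q
  two : PG 2 T
  qv : Q ≤ N(V)
  tv : T ≤ N(V)
  tq : T ≤ N(Q)
  der : ⁅Q, Q⁆ ≤ Z(Q)
  fpf : ∀ z ∈ Z(Q), z ≠ 1 → V ⊓ C[z] = ⊥

theorem Sy0.cent (h : Sy0 Q T V) (h1 : B ≤ T) (h2 : B ≤ C(V)) : B ≤ C(Q) :=
  cent_of h.nil h.ne h.qv h.fpf (h1.trans h.tq) h2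

theorem Sy0.cop (h : Sy0 Q T V) (h1 : B ≤ Q) : (#V).Coprime #B :=
  (abelem_pg Nat.prime_two h.ab).coprime (h.odd.of_le h1)

theorem Sy0.sy (h : Sy0 Q T V) : Sy Q ⁅T, T⁆ V := by
  have hc : Cyc Z(Q) := by
    by_contra hc
    exact h.ne (le_bot_iff.1 (le_of_cent1_le (comm_center Q) hc (inf_le_left.trans h.qv)
      (h.cop inf_le_left) fun x hx x1 => (h.fpf x hx x1).le))
  exact ⟨h.ab, h.ne, h.odd, h.nil, h.two.of_le (der_le T), h.qv, (der_le T).trans h.tv,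
    (der_le T).trans h.tq, h.der, H18.der1_cent_cyclic hc (h.tq.trans (norm_le_norm_center Q)),
    h.fpf⟩

theorem Sy0.step (h : Sy0 Q T V) (hc : ¬ T ≤ C(Z(Q))) {k : ℕ} (h0 : dl V T (k + 1) = ⊥) :
    dl V ⁅T, T⁆ k = ⊥ := by
  have tz : T ≤ N(Z(Q)) := h.tq.trans (norm_le_norm_center Q)
  have zv : Z(Q) ≤ N(V) := inf_le_left.trans h.qv
  obtain ⟨z, hz, z1⟩ := exists_ne_one (H := ⁅Z(Q), T⁆) fun e => hc (cents_symm (commg_eq_bot.1 e))
  have zZ := commg_le_left tz hz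
  have hv : ∀ y : ↥(Z(Q)), cj (y : G) ⁅V, T⁆ ≤ V := fun y => cj_le_of_mem_norm (zv y.2) (commg_le_left h.tv)
  set X := ⨆ y : ↥(Z(Q)), cj (y : G) ⁅V, T⁆ with hX
  have XV : X ≤ V := iSup_le hv
  have X0 : ⁅V, T⁆ ≤ X := by
    have := le_iSup (fun y : ↥(Z(Q)) => cj (y : G) ⁅V, T⁆) 1
    simpa using this
  have zX : Z(Q) ≤ N(X) := fun g hg => mem_norm_of_cj_le (by
    rw [hX, cj_iSup]
    refine iSup_le fun y => ?_
    rw [cj_cj]
    exact le_iSup (fun y : ↥(Z(Q)) => cj (y : G) ⁅V, T⁆) (⟨g, hg⟩ * y))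
  have tX : T ≤ N(X) := norms_of_commg_le ((commutator_mono XV le_rfl).trans X0)
  have vX : V ≤ N(X) := norms_of_comm h.ab.1 le_rfl XV
  have e : V ≤ X := by
    have h1 : ⁅V, zpowers z⁆ = V := commg_eq_of_cent_eq_bot ((zpowers_le.2 zZ).trans zv)
      (h.cop ((zpowers_le.2 zZ).trans inf_le_left)) (Or.inl (sol_zpowers z))
      (by rw [cent_zpowers]; exact h.fpf z zZ z1)
    have h2 : quo X ⁅Z(Q), T⁆ ≤ C(quo X V) := by
      rw [quo_comm zX tX]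
      exact (commutator_mono le_rfl (cents_symm ((quo_cents_iff vX tX).2 X0))).trans
        (commg_le_right (norms_cent (quo_norms zv)))
    rw [← h1]
    exact (commutator_mono le_rfl (zpowers_le.2 hz)).trans
      ((quo_cents_iff vX (commg_le_of_le zX tX)).1 (cents_symm h2))
  refine le_bot_iff.1 ((dl_mono e le_rfl k).trans ((dl_iSup_le h.ab.1 hv h.sy.tv k).trans
    (iSup_le fun y => ?_)))
  rw [← cj_of_mem_cent (cents_symm h.sy.tz y.2), ← cj_dl, ← dl_succ', h0, cj_bot]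

theorem Sy0.sy' (h : Sy0 Q T V) (hc : T ≤ C(Z(Q))) : Sy Q T V :=
  ⟨h.ab, h.ne, h.odd, h.nil, h.two, h.qv, h.tv, h.tq, h.der, hc, h.fpf⟩

/-- `M` is maximal among the normal subgroups of `P` with a fixed point on `V` -/
structure Mx (P V M : Subgroup G) : Prop where
  nm : M ⊴ P
  ne : V ⊓ C(M) ≠ ⊥
  max : ∀ N, N ⊴ P → M ≤ N → V ⊓ C(N) ≠ ⊥ → N = M

omit [Finite G] in
theorem Mx.J (h : Mx P V M) {g : G} (h1 : g ∈ N(P)) (h2 : g ∈ N(V)) : Mx P V (cj g M) := by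
  refine ⟨cj_of_mem_norm h1 ▸ h.nm.J g, fun e => h.ne ?_, fun N n1 n2 n3 => ?_⟩
  · rwa [← cj_of_mem_norm h2, ← cj_cent, ← cj_inf, cj_eq_bot] at e
  · rw [← cj_eq_iff.symm.1 (h.max (cj g⁻¹ N) (cj_of_mem_norm (inv_mem h1) ▸ n1.J g⁻¹)
      (cj_le_iff.1 n2) fun e => n3 ?_).symm]
    rwa [← cj_of_mem_norm (inv_mem h2), ← cj_cent, ← cj_inf, cj_eq_bot] at e

theorem exists_le_cent (hV : Ab V) (hP : P ≤ N(V)) {Y : Subgroup G} (hY : P ≤ N(Y)) (y1 : Y ≠ ⊥)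
    (hmin : ∀ Y' ≤ Y, P ≤ N(Y') → Y' = ⊥ ∨ Y' = Y) (A : G → Subgroup G) (s : Set G)
    (hA : ∀ t ∈ s, A t ⊴ P) (h : Y ≤ ⨆ t ∈ s, V ⊓ C(A t)) : ∃ t ∈ s, Y ≤ C(A t) := by
  induction s, s.toFinite using Set.Finite.induction_on with
  | empty => exact absurd (le_bot_iff.1 (by simpa using h)) y1
  | @insert a s _ _ ih =>
    rw [iSup_insert] at h
    have ha := hA a (Set.mem_insert a s)
    have hs : ∀ t ∈ s, A t ⊴ P := fun t ht => hA t (Set.mem_insert_of_mem a ht)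
    rcases hmin ⁅Y, A a⁆ (commg_le_left (ha.le.trans hY)) (norms_comm hY ha.norm) with e | e
    · exact ⟨a, Set.mem_insert a s, commg_eq_bot.1 e⟩
    have WV : (⨆ t ∈ s, V ⊓ C(A t)) ≤ V := iSup₂_le fun _ _ => inf_le_left
    obtain ⟨t, ht, h'⟩ := ih hs (e.ge.trans ((commutator_mono h le_rfl).trans (commg_sup_left_le
      ((commg_eq_bot.2 inf_le_right).le.trans bot_le)
      (commg_le_left (ha.le.trans (norms_iSup fun t => norms_iSup fun ht =>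
        norms_inf hP (norms_cent (hs t ht).norm))))
      (norms_of_comm hV inf_le_left WV) le_normalizer)))
    exact ⟨t, Set.mem_insert_of_mem a ht, h'⟩

theorem exists_min_inv {Y : Subgroup G} (hY : P ≤ N(Y)) (y1 : Y ≠ ⊥) :
    ∃ Y₀ ≤ Y, P ≤ N(Y₀) ∧ Y₀ ≠ ⊥ ∧ ∀ Y' ≤ Y₀, P ≤ N(Y') → Y' = ⊥ ∨ Y' = Y₀ := by
  obtain ⟨Y₀, h1, h2⟩ := exists_minimal_le_of_wellFoundedLT
    (fun X : Subgroup G => P ≤ N(X) ∧ X ≠ ⊥) Y ⟨hY, y1⟩
  refine ⟨Y₀, h1, h2.prop.1, h2.prop.2, fun Y' l n => ?_⟩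
  by_cases e : Y' = ⊥
  · exact Or.inl e
  · exact Or.inr (le_antisymm l (h2.le_of_le ⟨n, e⟩ l))

theorem sw (hP : P ≤ N(M)) (k : ℕ) : ∀ {T V : Subgroup G}, PG 2 T → Ab V → P ≤ N(V) → T ≤ N(V) →
    T ≤ N(P) → Mx P V M → dl V T k = ⊥ →
    ∃ j i, k = j + (i + 1) ∧ dS T j ≤ N(M) ∧ dl (V ⊓ C(M)) (dS T j) (i + 1) = ⊥ := by
  induction k with
  | zero => exact fun _ _ _ _ _ h h0 => absurd (H19.eq_bot_mono inf_le_left h0) h.ne
  | succ k ih =>
    intro T V hT hV pv tv tp h h0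
    by_cases hn : T ≤ N(M)
    · exact ⟨0, k, by omega, hn, H19.eq_bot_mono (dl_mono inf_le_left le_rfl _) h0⟩
    obtain ⟨T₀, t1, t2, t3, -⟩ := exists_max2 hT (B := T ⊓ N(M))
      (lt_of_le_of_ne inf_le_left fun e => hn (inf_eq_left.1 e))
    obtain ⟨s, hs, hs0⟩ := SetLike.exists_of_lt t2
    have dT := der_le T
    have hJ : ∀ t ∈ T, Mx P V (cj t M) := fun t ht => h.J (tp ht) (tv ht)
    set V₁ := ⨆ t ∈ (⁅T, T⁆ : Subgroup G), V ⊓ C(cj t M) with hV₁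
    have V1V : V₁ ≤ V := iSup₂_le fun _ _ => inf_le_left
    have cjV : ∀ g ∈ T, cj g V₁ = ⨆ t ∈ (⁅T, T⁆ : Subgroup G), V ⊓ C(cj (g * t) M) := by
      intro g hg
      simp only [hV₁, cj_iSup, cj_inf, cj_cent, cj_cj, cj_of_mem_norm (tv hg)]
    have n1 : ⁅T, T⁆ ≤ N(V₁) := fun g hg => mem_norm_of_cj_le (by
      rw [cjV g (dT hg)]
      exact iSup₂_le fun t ht => le_iSup₂_of_le (g * t) (mul_mem hg ht) le_rfl)
    have p1 : P ≤ N(V₁) := norms_iSup fun t => norms_iSup fun ht =>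
      norms_inf pv (norms_cent (hJ t (dT ht)).nm.norm)
    have n2 : ⁅T, T⁆ ≤ N(cj s V₁) := by
      rw [← cj_norm, ← (der_normal T).cj_eq hs]; exact cj_mono s n1
    have p2 : P ≤ N(cj s V₁) := by
      rw [← cj_norm, ← cj_of_mem_norm (tp hs)]; exact cj_mono s p1
    have V2V : cj s V₁ ≤ V := cj_le_of_mem_norm (tv hs) V1V
    have disj : V₁ ⊓ cj s V₁ = ⊥ := by
      by_contra hne
      obtain ⟨Y, y1, y2, y3, y4⟩ := exists_min_inv (norms_inf p1 p2) hne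
      obtain ⟨t, ht, c1⟩ := exists_le_cent hV pv y2 y3 y4 (fun t => cj t M) (⁅T, T⁆ : Subgroup G)
        (fun t ht => (hJ t (dT ht)).nm) (y1.trans inf_le_left)
      obtain ⟨t', ht', c2⟩ := exists_le_cent hV pv y2 y3 y4 (fun t => cj (s * t) M)
        (⁅T, T⁆ : Subgroup G) (fun t ht => (hJ _ (mul_mem hs (dT ht))).nm)
        (y1.trans (inf_le_right.trans (cjV s hs).le))
      have m1 := hJ t (dT ht)
      have m2 := hJ _ (mul_mem hs (dT ht'))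
      have ne : V ⊓ C(cj t M ⊔ cj (s * t') M) ≠ ⊥ :=
        ne_bot_mono (le_inf (y1.trans (inf_le_left.trans V1V)) (cents_sup c1 c2)) y3
      have e := (m1.max _ (m1.nm.sup m2.nm) le_sup_left ne).symm.trans
        (m2.max _ (m1.nm.sup m2.nm) le_sup_right ne)
      have : t⁻¹ * (s * t') ∈ T₀ := t1 ⟨T.mul_mem (T.inv_mem (dT ht)) (T.mul_mem hs (dT ht')),
        mem_norm_iff_cj.2 (by rw [cj_mul, ← e, cj_inv_cj])⟩
      exact hs0 (by simpa using mul_mem (mul_mem (t3 ht) this) (inv_mem (t3 ht')))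
    have le1 : V₁ ≤ ⁅V, T⁆ ⊔ cj s V₁ := fun u hu => by
      have : u = ⁅u, s⁆ * (s * u * s⁻¹) := by simp only [commutatorElement_def]; group
      rw [this]
      exact mul_mem_sup (commutator_mem_commutator (V1V hu) hs) (conj_mem_cj.2 hu)
    have h1 : dl V₁ ⁅T, T⁆ k = ⊥ := by
      refine H19.eq_bot_mono (le_inf (dl_le n1 k) ((dl_mono le1 le_rfl k).trans
        ((dl_sup_le hV (commg_le_left tv) V2V (dT.trans tv) k).trans ?_))) disj
      rw [← dl_succ', h0, bot_sup_eq]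
      exact dl_le n2 k
    have l0 : V ⊓ C(M) ≤ V₁ := le_iSup₂_of_le 1 (one_mem _) (by rw [cj_one])
    obtain ⟨j, i, e1, e2, e3⟩ := ih (hT.of_le dT) (comm_mono hV V1V) p1 n1 (dT.trans tp)
      ⟨h.nm, ne_bot_mono (le_inf l0 inf_le_right) h.ne, fun N a1 a2 a3 =>
        h.max N a1 a2 (ne_bot_mono (inf_le_inf_right _ V1V) a3)⟩ h1
    rw [← dS_succ'] at e2 e3
    exact ⟨j + 1, i, by omega, e2, H19.eq_bot_mono (dl_mono (le_inf l0 inf_le_right) le_rfl _) e3⟩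

theorem Mx.sy0 (h : Mx P V M) (hV : Abelem 2 V) (odd : PiG {2}ᶜ P) (nil : Nil P) (hT : PG 2 T)
    (pv : P ≤ N(V)) (tv : T ≤ N(V)) (tp : T ≤ N(P)) (der : ⁅P, P⁆ ≤ Z(P)) (tm : T ≤ N(M)) :
    Sy0 (quo M P) (quo M T) (quo M (V ⊓ C(M))) := by
  have pm := h.nm.norm
  have vm : V ⊓ C(M) ≤ N(M) := norms_of_cents inf_le_right
  have dV : M ⊓ (V ⊓ C(M)) = ⊥ :=
    (odd.of_le h.nm.le).inf_eq_bot' ((abelem_pg Nat.prime_two hV).infl _)
  refine ⟨abelem_quo (abelem_mono hV inf_le_left) M, fun h0 => h.ne ?_, odd.quo M, nil_quo nil M,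
    hT.quo M, quo_norms (norms_inf pv (norms_cent pm)), quo_norms (norms_inf tv (norms_cent tm)),
    quo_norms tp, ?_, fun z hz z1 => ?_⟩
  · rw [quo_eq_bot_iff vm] at h0
    rw [← dV, right_eq_inf]; exact h0
  · rw [← quo_comm pm pm]
    exact (quo_mono M der).trans (le_inf (quo_mono M inf_le_left) (quo_cents inf_le_right))
  · obtain ⟨x, hx, rfl⟩ := mem_im.1 hz.1
    have hxP : zpowers (x : G) ≤ P := zpowers_le.2 hx
    have c : ⁅zpowers (x : G), P⁆ ≤ M := (quo_cents_iff (zpowers_le.2 x.2) pm).1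
      (by rw [quo_zpowers x.2]; exact zpowers_le.2 hz.2)
    have hN : M ⊔ zpowers (x : G) ⊴ P := ⟨sup_le h.nm.le hxP, norms_of_commg_le
      ((commg_sup_left_le (h.nm.commg_le le_rfl) c le_normalizer (hxP.trans pm)).trans
        le_sup_left)⟩
    have h0 : V ⊓ C(M ⊔ zpowers (x : G)) = ⊥ := by
      by_contra hne
      exact z1 (qmk_eq_one.2 ((h.max _ hN le_sup_left hne).le (mem_sup_right (mem_zpowers _))))
    rw [← cent_zpowers, ← quo_zpowers x.2, quo_inf_cent (zpowers_le.2 x.2)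
      (hxP.trans (norms_inf pv (norms_cent pm))) (by rw [dV]; simp) (Or.inl (sol_zpowers _)),
      inf_assoc, ← cent_sup, h0]
    exact im_bot

end

theorem Sy0.core {G : Type u} [Group G] [Finite G] {Q T V : Subgroup G} (h : Sy0 Q T V) {m : ℕ}
    (h0 : dl V T (m + 2) = ⊥) {r n : G} (hr : r ∈ dS T m) (hn : n ∈ dS T m) :
    ⁅r, n⁆ ∈ C(Q) ∨ ⁅r, n⁆ * (r * r)⁻¹ ∈ C(Q) := by
  by_cases hc : T ≤ C(Z(Q))
  · exact mm m (h.sy' hc) h0 r hr n hn
  have h1 := h.step hc h0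
  rcases m with _ | m
  · exact Or.inl (h.cent (der_le T) (cents_symm (commg_eq_bot.1 h1))
      (commutator_mem_commutator hr hn))
  · exact mm m h.sy h1 r (dS_succ' T m ▸ hr) n (dS_succ' T m ▸ hn)

/-- the key lemma -/
theorem Mx.key {G : Type u} [Group G] [Finite G] {P V M T : Subgroup G} (h : Mx P V M)
    (hV : Abelem 2 V) (odd : PiG {2}ᶜ P) (nil : Nil P) (hT : PG 2 T) (pv : P ≤ N(V))
    (tv : T ≤ N(V)) (tp : T ≤ N(P)) (der : ⁅P, P⁆ ≤ Z(P)) {k : ℕ} (h0 : dl V T (k + 2) = ⊥)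
    {r n : G} (hr : r ∈ dS T k) (hn : n ∈ dS T k) :
    ⁅r, n⁆ ∈ ct M P ∨ ⁅r, n⁆ * (r * r)⁻¹ ∈ ct M P := by
  obtain ⟨j, i, e1, e2, e3⟩ := sw h.nm.norm _ hT hV.1 pv tv tp h h0
  have l := dS_le T j
  have hs := h.sy0 hV odd nil (hT.of_le l) pv (l.trans tv) (l.trans tp) der e2
  have vm : V ⊓ C(M) ≤ N(M) := norms_of_cents inf_le_right
  have e4 : dl (quo M (V ⊓ C(M))) (quo M (dS T j)) (i + 1) = ⊥ := by
    rw [← dl_im _ vm e2, e3, im_bot]
  have back : ∀ x : N(M), qmk M x ∈ C(quo M P) → (x : G) ∈ ct M P := fun x hx =>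
    le_ct.2 ⟨zpowers_le.2 x.2, (quo_cents_iff (zpowers_le.2 x.2) h.nm.norm).1
      (by rw [quo_zpowers x.2]; exact zpowers_le.2 hx)⟩ (mem_zpowers _)
  rcases i with _ | i
  · obtain rfl : j = k + 1 := by omega
    have ha : ⁅r, n⁆ ∈ dS T (k + 1) := commutator_mem_commutator hr hn
    exact Or.inl (back ⟨_, e2 ha⟩ (hs.cent le_rfl (cents_symm (commg_eq_bot.1 e4)) (mem_im_of ha)))
  · obtain rfl : k = j + i := by omega
    rw [← dS_add] at hr hn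
    have := hs.core e4 (r := qmk M ⟨r, e2 (dS_le _ _ hr)⟩) (n := qmk M ⟨n, e2 (dS_le _ _ hn)⟩)
      (by rw [← dS_im _ e2]; exact mem_im_of hr) (by rw [← dS_im _ e2]; exact mem_im_of hn)
    rw [← map_commutatorElement, ← map_mul, ← map_inv, ← map_mul] at this
    exact this.imp (back _) (back _)

end H4.DL
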