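import Cfsg.Agent.H4.DL3
import Cfsg.Agent.H20.FT

/-!
2-length and derived length, part 4: the induction.
-/

set_option autoImplicit false

namespace H4.DL
open Cfsg Subgroup H19 H10.HH
open scoped commutatorElement

universe u

instance : Fact (Nat.Prime 2) := ⟨Nat.prime_two⟩

theorem noR {G : Type u} [Group G] [Finite G] {V K R U : Subgroup G} {k : ℕ} (hV : Abelem 2 V)
    (kv : K ≤ N(V)) (uv : U ≤ N(V)) (hf : K ⊓ C(V) = ⊥)
    (h0 : ∀ T ≤ U, PG 2 T → dl V T (k + 2) = ⊥) (hK : PiG {2}ᶜ K) (hR : PG 2 R) (uk : U ≤ N(K))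
    (ru : R ⊴ U) (hn : ¬ R ≤ C(K)) :
    ∃ R₁ < R, ∀ T ≤ U, PG 2 T → R ≤ T → dl R T (k + 1) ≤ R₁ := by
  obtain ⟨P, PK, hP⟩ := exists_minAct uk ru.le ru.norm (hK.coprime' hR)
    (H20.sol_of_odd (Nat.coprime_two_right.1 (hK.coprime_prime Nat.prime_two))) hn
  obtain ⟨q, -, pq⟩ := hP.pg
  have pv := PK.trans kv
  have odd := hK.of_le PK
  have WV : ⁅V, P⁆ ≤ V := commg_le_left pv
  have W1 : ⁅V, P⁆ ≠ ⊥ := fun e => hP.not_cent (by
    rw [H19.eq_bot_mono (le_inf PK (cents_symm (commg_eq_bot.1 e))) hf, cent_bot]; exact le_top)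
  have W2 : ⁅V, P⁆ ⊓ C(P) = ⊥ :=
    ab_commg_inf_cent hV.1 pv ((abelem_pg Nat.prime_two hV).coprime odd)
  obtain ⟨M, -, hM⟩ := exists_maximal_ge_of_wellFoundedGT
    (fun N : Subgroup G => N ⊴ P ∧ ⁅V, P⁆ ⊓ C(N) ≠ ⊥) ⊥ ⟨.bot P, by simpa using W1⟩
  have hx : Mx P ⁅V, P⁆ M := ⟨hM.prop.1, hM.prop.2, fun N a1 a2 a3 =>
    le_antisymm (hM.le_of_ge ⟨a1, a3⟩ a2) a2⟩
  have lt : R ⊓ ct M P < R := lt_of_le_of_ne inf_le_left fun e => hx.ne (by
    have h1 := (le_ct.1 (inf_eq_left.1 e)).2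
    rw [commutator_comm, hP.comm] at h1
    rw [le_antisymm hx.nm.le h1, W2])
  obtain ⟨R₁, r1, r2, -, r4⟩ := exists_max2 hR lt
  refine ⟨R₁, r2, fun T tu hT rt => commutator_le.2 fun r hr n hn => ?_⟩
  have tr := tu.trans ru.norm
  have rR := dl_le tr k hr
  have aR : ⁅r, n⁆ ∈ R := commg_le_left tr (commutator_mem_commutator rR (dS_le T k hn))
  rcases hx.key (abelem_mono hV WV) odd pq.nil hT (commg_normr V P)
    (norms_comm (tu.trans uv) (tu.trans hP.norm)) (tu.trans hP.norm) hP.der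
    (H19.eq_bot_mono (dl_mono WV le_rfl _) (h0 T tu hT)) (dl_le_dS rt k hr) hn with h | h
  · exact r1 ⟨aR, h⟩
  · have := mul_mem (r1 ⟨R.mul_mem aR (R.inv_mem (R.mul_mem rR rR)), h⟩) (r4 r rR)
    rwa [inv_mul_cancel_right] at this

/-- the conclusion of `noR` for all subgroups of `X` -/
def Good (X : Type*) [Group X] (k : ℕ) : Prop :=
  ∀ K R U : Subgroup X, PiG {2}ᶜ K → PG 2 R → U ≤ N(K) → R ⊴ U → ¬ R ≤ C(K) →
    ∃ R₁ < R, ∀ T ≤ U, PG 2 T → R ≤ T → dl R T (k + 1) ≤ R₁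

theorem good_of_hom {X G : Type u} [Group X] [Group G] [Finite X] [Finite G] (ψ : X →* G)
    (hψ : Function.Injective ψ) {V : Subgroup G} {k : ℕ} (hV : Abelem 2 V) (xv : ψ.range ≤ N(V))
    (hf : ψ.range ⊓ C(V) = ⊥) (h0 : ∀ T : Subgroup X, PG 2 T → dl V (T.map ψ) (k + 2) = ⊥) :
    Good X k := by
  intro K R U hK hR uk ru hn
  have cm : ∀ A : Subgroup X, #(A.map ψ) = #A := fun A => card_map_of_injective hψ
  have nm : ∀ A B : Subgroup X, A ≤ N(B) → A.map ψ ≤ N(B.map ψ) := fun A B h =>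
    (map_mono h).trans (H9.map_normalizer_le ψ B)
  obtain ⟨R₁, r1, r2⟩ := noR (V := V) (K := K.map ψ) (R := R.map ψ) (U := U.map ψ) (k := k) hV
    ((map_le_range _ _).trans xv) ((map_le_range _ _).trans xv)
    (H19.eq_bot_mono (inf_le_inf_right _ (map_le_range _ _)) hf) (fun T tu hT => by
      have e : (T.comap ψ).map ψ = T := map_comap_eq_self (tu.trans (map_le_range _ _))
      rw [← e]
      refine h0 _ ?_
      rw [PG, PiG, ← cm, e]; exact hT)
    (by rw [PiG, cm]; exact hK) (pg_map hR ψ) (nm _ _ uk) ⟨map_mono ru.le, nm _ _ ru.norm⟩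
    (fun h => hn (commg_eq_bot.1 (by
      rw [← map_eq_bot_iff_of_injective _ hψ, map_commutator]; exact commg_eq_bot.2 h)))
  refine ⟨R₁.comap ψ, lt_of_le_of_ne ((comap_mono r1.le).trans (comap_map_eq_self_of_injective hψ R).le)
    fun e => r1.not_ge ?_, fun T tu hT rt => ?_⟩
  · rw [← e]; exact map_comap_le _ _
  · rw [← map_le_iff_le_comap, dl_map]
    exact r2 _ (map_mono tu) (pg_map hT ψ) (map_mono rt)

theorem good_quo {X : Type u} [Group X] [Finite X] {V C : Subgroup X} [V.Normal] [C.Normal] {k : ℕ}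
    (hC : C = C(V)) (hV : Abelem 2 V) (h0 : ∀ T : Subgroup X, PG 2 T → dl V T (k + 2) = ⊥) :
    Good (X ⧸ C) k := by
  let φ : X →* MulAut V := MulAut.conjNormal
  have kφ : ∀ g, φ g = 1 ↔ g ∈ C := fun g => by
    rw [hC, H19.mem_cent, MulEquiv.ext_iff]
    constructor
    · intro h v hv
      have := congrArg Subtype.val (h ⟨v, hv⟩)
      simp only [φ, MulAut.conjNormal_apply, MulAut.one_apply] at this
      exact (mul_inv_eq_iff_eq_mul.1 this).symm
    · intro h v
      apply Subtype.ext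
      simp only [φ, MulAut.conjNormal_apply, MulAut.one_apply]
      rw [← h v v.2, mul_inv_cancel_right]
  let φ' : X ⧸ C →* MulAut V := QuotientGroup.lift C φ fun g hg => (kφ g).2 hg
  let G := V ⋊[φ'] (X ⧸ C)
  haveI : Finite G := Finite.of_equiv _ SemidirectProduct.equivProd.symm
  let i : V →* G := SemidirectProduct.inl
  let j : X ⧸ C →* G := SemidirectProduct.inr
  have cj' : ∀ (g : X) (v : V), j g * i v * (j g)⁻¹ = i (φ g v) := fun g v => by
    rw [← map_inv]; exact (SemidirectProduct.inl_aut (g : X ⧸ C) v).symm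
  haveI : i.range.Normal := by
    rw [show i.range = SemidirectProduct.rightHom.ker from SemidirectProduct.range_inl_eq_ker_rightHom]
    infer_instance
  refine good_of_hom j SemidirectProduct.inr_injective (V := i.range) ⟨comm_iff_le_cent.2 ?_, ?_⟩
    le_normalizer_of_normal (eq_bot_iff.2 ?_) fun T hT => ?_
  · rintro _ ⟨v, rfl⟩ _ ⟨w, rfl⟩
    rw [← map_mul, ← map_mul]
    congr 1
    exact Subtype.ext (mul_comm_of_comm hV.1 w.2 v.2)
  · rintro _ ⟨v, rfl⟩
    rw [← map_pow, show v ^ 2 = 1 from Subtype.ext (hV.2 v v.2), map_one]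
  · rintro _ ⟨⟨g, rfl⟩, h⟩
    obtain ⟨g, rfl⟩ := QuotientGroup.mk_surjective g
    rw [mem_bot, (QuotientGroup.eq_one_iff g).2 ((kφ g).1 (MulEquiv.ext fun v => ?_)), map_one]
    apply SemidirectProduct.inl_injective (φ := φ')
    rw [← cj' g v, ← H19.mem_cent.1 h (i v) ⟨v, rfl⟩, mul_inv_cancel_right]
    rfl
  · obtain ⟨P, hP, rfl⟩ := lift_pg (QuotientGroup.mk'_surjective C) hT
    have : ∀ n, dl i.range ((P.map (QuotientGroup.mk' C)).map j) n ≤
        ((dl V P n).subgroupOf V).map i := by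
      intro n
      induction n with
      | zero => rintro _ ⟨v, rfl⟩; exact ⟨v, v.2, rfl⟩
      | succ n ih =>
        refine (commutator_mono ih le_rfl).trans (commutator_le.2 ?_)
        rw [← dS_map, ← dS_map]
        rintro _ ⟨v, hv, rfl⟩ _ ⟨_, ⟨g, hg, rfl⟩, rfl⟩
        refine ⟨v * φ g v⁻¹, ?_, ?_⟩
        · have : ((v * φ g v⁻¹ : V) : X) = ⁅(v : X), g⁆ := by
            simp [φ, commutatorElement_def, mul_assoc]
          rw [SetLike.mem_coe, mem_subgroupOf, this]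
          exact commutator_mem_commutator hv hg
        · rw [map_mul, ← cj', map_inv, commutatorElement_def]
          simp only [mul_assoc]
          rfl
    refine H19.eq_bot_mono (this _) ?_
    rw [h0 P hP, bot_subgroupOf, Subgroup.map_bot]

section pl
variable {G : Type*} [Group G] [Finite G] {p n : ℕ} [Fact p.Prime]

theorem pl_prod {G' : Type*} [Group G'] [Finite G'] (h1 : PLengthLE p n G) (h2 : PLengthLE p n G') :
    PLengthLE p n (G × G') := by
  have key : ∀ N : Subgroup (G × G'), N.Normal → PLengthLE p n N →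
      N ≤ (upperPSeries p (G × G') (2 * n + 1)).1 := fun N _ h => by
    have := H1.upsOf_eq_inf_of_normal (p := p) N (2 * n + 1)
    rw [show (upperPSeries p N (2 * n + 1)).1 = ⊤ from h, ← MonoidHom.range_eq_map,
      range_subtype] at this
    exact this.le.trans inf_le_left
  have a := key (MonoidHom.inl G G').range
    ⟨by rintro _ ⟨x, rfl⟩ g; exact ⟨g.1 * x * g.1⁻¹, by ext <;> simp⟩⟩
    (H1.pLengthLE_of_surjective h1 (MonoidHom.rangeRestrict_surjective _))
  have b := key (MonoidHom.inr G G').range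
    ⟨by rintro _ ⟨x, rfl⟩ g; exact ⟨g.2 * x * g.2⁻¹, by ext <;> simp⟩⟩
    (H1.pLengthLE_of_surjective h2 (MonoidHom.rangeRestrict_surjective _))
  refine eq_top_iff.2 fun x _ => ?_
  have := mul_mem (a ⟨x.1, rfl⟩) (b ⟨x.2, rfl⟩)
  simpa using this

theorem pl_of_ker {G₁ G' : Type*} [Group G₁] [Finite G₁] [Group G'] (f₁ : G →* G₁) {f : G →* G'}
    (hf : Function.Surjective f) (hk : f₁.ker ≤ f.ker) (h : PLengthLE p n G₁) :
    PLengthLE p n G' := by
  have h1 : PLengthLE p n (G ⧸ f₁.ker) :=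
    H1.pLengthLE_of_injective h (QuotientGroup.kerLift_injective f₁)
  refine H1.pLengthLE_of_surjective h1 (f := QuotientGroup.lift f₁.ker f hk) fun y => ?_
  obtain ⟨x, rfl⟩ := hf y
  exact ⟨x, rfl⟩

theorem two_relIndex : PiN {p} ((pPrimeCore p G).relIndex (pPrimePCore p G)) := by
  have := H1.upsR_relIndex (G := G) (p := p) 1
  rw [H1.upsR_of_odd (by decide), H1.ups_one, H1.ups_two] at this
  obtain ⟨k, hk⟩ := this
  rw [hk]
  exact PiN.prime_pow Fact.out k

theorem core_le : pPrimeCore p G ≤ pPrimePCore p G := by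
  rw [← H1.ups_one, ← H1.ups_two]; exact H1.ups_le_succ 1

theorem pl_ext {W C : Subgroup G} [W.Normal] [C.Normal] (hC : C = C(W)) (hW : PG p W)
    (h1 : PLengthLE p (n + 1) (G ⧸ W)) (h2 : PLengthLE p n (G ⧸ C)) : PLengthLE p (n + 1) G := by
  have hp : p.Prime := Fact.out
  rw [H1.pLengthLE_succ_iff] at h1 ⊢
  refine pl_of_ker (((QuotientGroup.mk' _).comp (QuotientGroup.mk' W)).prod (QuotientGroup.mk' C))
    (QuotientGroup.mk'_surjective _) ?_ (pl_prod h1 h2)
  rw [MonoidHom.ker_prod, ← MonoidHom.comap_ker, QuotientGroup.ker_mk', QuotientGroup.ker_mk',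
    QuotientGroup.ker_mk']
  set O := (pPrimePCore p (G ⧸ W)).comap (QuotientGroup.mk' W)
  set O' := (pPrimeCore p (G ⧸ W)).comap (QuotientGroup.mk' W)
  have hE : O ⊓ C ⊓ O' ⊴ ⊤ := normalIn_top
  set E := O ⊓ C ⊓ O'
  have hs : Hall {p} (W ⊓ E) E := ⟨inf_le_right, hW.infl _, by
    rw [inf_relIndex_right, ← H1.card_map_mk']
    exact PiN.dvd (PiN.of_coprime H1.pPrimeCore_coprime)
      (card_dvd (map_le_iff_le_comap.2 inf_le_right))⟩
  obtain ⟨H, hH⟩ := hs.exists_compl (norms_inf le_normalizer_of_normal le_normalizer)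
  have hH' := hH.hall_right hs
  have EH : E ≤ N(H) := by
    rw [← hH.sup]
    exact sup_le (norms_of_cents (inf_le_left.trans (cents_symm
      (hH.right_le.trans (inf_le_left.trans (inf_le_right.trans hC.le)))))) le_normalizer
  have HO : H ≤ pPrimeCore p G := by
    have h3 := hE.Oc {p}ᶜ
    rw [← hH'.eq_Oc EH] at h3
    exact H1.le_pPrimeCore h3.normal (hH'.pi.coprime_prime hp)
  rw [← H1.ups_two, H1.le_ups_succ_iff, H1.upsR_of_odd (by decide), H1.ups_one]
  refine PiN.exists_pow (PiN.dvd ?_ (relIndex_dvd_left HO _)) (relIndex_ne_zero' _ _)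
  rw [← relIndex_mul_relIndex H E _ hH.right_le inf_le_left, hH.relIndex_right]
  refine hs.pi.mul ?_
  rw [inf_relIndex_left]
  refine PiN.dvd ?_ (relIndex_dvd_of_norm (M := O) le_normalizer_of_normal
    (comap_mono core_le) inf_le_left)
  rw [relIndex_comap, map_comap_eq_self_of_surjective (QuotientGroup.mk'_surjective W)]
  exact two_relIndex

theorem core_of_min {W C : Subgroup G} [W.Normal] [C.Normal] (hC : C = C(W)) (hW : PG p W)
    (hmin : ∀ M : Subgroup G, M.Normal → M ≤ W → M = ⊥ ∨ M = W) : pCore p (G ⧸ C) = ⊥ := by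
  obtain ⟨P, hP, e⟩ := lift_pg (QuotientGroup.mk'_surjective C)
    (pG_iff.2 (H1.pCore_isPGroup (G := G ⧸ C) (p := p)))
  rw [← e, H1.map_mk'_eq_bot_iff]
  by_cases h0 : W = ⊥
  · rw [hC, h0, cent_bot]; exact le_top
  have hD : (P ⊔ C).Normal := by
    rw [← H1.comap_map_mk', e]; infer_instance
  rcases hmin (W ⊓ C(P ⊔ C)) inferInstance inf_le_left with h | h
  · refine absurd (H19.eq_bot_mono (le_inf inf_le_left (cents_sup inf_le_right
      (inf_le_left.trans (cents_symm hC.le)))) h) (hW.meet_cent hP le_normalizer_of_normal h0)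
  · exact hC ▸ le_sup_left.trans (cents_symm (inf_eq_left.1 h))

end pl

/-- the module statement -/
def StA (k : ℕ) : Prop :=
  ∀ (X : Type u) [Group X] [Finite X] (V C : Subgroup X) [V.Normal] [C.Normal], C = C(V) →
    IsPSolvable 2 X → Abelem 2 V → pCore 2 (X ⧸ C) = ⊥ →
    (∀ T : Subgroup X, PG 2 T → dl V T (k + 1) = ⊥) → PLengthLE 2 k (X ⧸ C)

theorem stA_zero : StA.{u} 0 := by
  intro X _ _ V C _ _ hC _ _ _ h0
  refine plength_zero fun T hT => ?_
  obtain ⟨P, hP, rfl⟩ := lift_pg (QuotientGroup.mk'_surjective C) hT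
  rw [H1.map_mk'_eq_bot_iff, hC]
  exact cents_symm (commg_eq_bot.1 (h0 P hP))

theorem down {k n : ℕ} (ih : StA.{u} k) {X : Type u} [Group X] [Finite X] (hs : IsPSolvable 2 X)
    (hO : pCore 2 X = ⊥) (hg : Good X k) (hk : k ≤ n) (h : PLengthLE 2 (n + 2) X) :
    PLengthLE 2 (n + 1) X := by
  set K := pPrimeCore 2 X with hK
  have KO : K ≤ pPrimePCore 2 X := core_le
  have oddK : PiG {2}ᶜ K := PiN.of_coprime H1.pPrimeCore_coprime
  obtain ⟨Y, YO, hY⟩ := exists_minimal_le_of_wellFoundedLT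
    (fun N : Subgroup X => K ≤ N ∧ ∃ _ : N.Normal, PLengthLE 2 (n + 1) (X ⧸ N)) (pPrimePCore 2 X)
    ⟨KO, inferInstance, H1.pLengthLE_succ_iff.1 h⟩
  obtain ⟨KY, _, plY⟩ := hY.prop
  by_cases e : Y = K
  · subst e
    exact (H1.pLengthLE_quotient_iff _ H1.pPrimeCore_coprime).1 plY
  exfalso
  obtain ⟨R, hR⟩ := exists_syl 2 Y
  have YKR : K ⊔ R = Y := hR.sup_eq KY (PiN.dvd two_relIndex (relIndex_dvd_right KY YO))
  have KU : K ⊔ N(R) = ⊤ := by
    have := hR.frattini (M := ⊤) normalIn_top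
    rwa [top_inf_eq, ← YKR, sup_assoc, sup_eq_right.2 le_normalizer] at this
  obtain ⟨R₁, r1, r2⟩ := hg K R N(R) oddK hR.pi le_normalizer_of_normal (normalIn_norm R)
    fun hc => e (by
      rw [← YKR, sup_eq_left]
      exact hc.trans (H1.centralizer_pPrimeCore_le_of_isPSolvable hs hO))
  set A := ⨆ T : {T : Subgroup X // T ≤ N(R) ∧ PG 2 T ∧ R ≤ T}, dl R T (k + 1) with hA
  have AR : A ≤ R₁ := iSup_le fun T => r2 T T.2.1 T.2.2.1 T.2.2.2
  have UA : N(R) ≤ N(A) := fun g hg => mem_norm_of_cj_le (by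
    rw [hA, cj_iSup]
    refine iSup_le fun T => ?_
    rw [cj_dl, cj_of_mem_norm hg]
    exact le_iSup (fun T : {T : Subgroup X // T ≤ N(R) ∧ PG 2 T ∧ R ≤ T} => dl R T (k + 1))
      ⟨cj g T, cj_le_of_mem hg T.2.1, T.2.2.1.J g, (cj_of_mem_norm hg).ge.trans (cj_mono g T.2.2.2)⟩)
  have n0 : (K ⊔ A).Normal := NormalIn.normal ⟨le_top, KU.ge.trans (sup_le (norms_of_le le_sup_left)
    (norms_sup le_normalizer_of_normal UA))⟩
  have l0 : K ⊔ A < Y := lt_of_le_of_ne (sup_le KY (AR.trans (r1.le.trans hR.le))) fun e' => by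
    have := sup_inf_modr (A := K) (B := A) (H := R) le_normalizer_of_normal (AR.trans r1.le)
    rw [e', inf_eq_right.2 hR.le, oddK.inf_eq_bot' hR.pi, bot_sup_eq] at this
    exact r1.not_ge (this.le.trans AR)
  obtain ⟨Y₁, y1, hY₁⟩ := exists_maximal_ge_of_wellFoundedGT
    (fun N : Subgroup X => N.Normal ∧ N < Y) (K ⊔ A) ⟨n0, l0⟩
  obtain ⟨_, y2⟩ := hY₁.prop
  refine y2.not_ge (hY.le_of_le ⟨le_sup_left.trans y1, inferInstance, ?_⟩ y2.le)
  let f := QuotientGroup.mk' Y₁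
  have hf : Function.Surjective f := QuotientGroup.mk'_surjective Y₁
  haveI : (Y.map f).Normal := Normal.map inferInstance f hf
  have eW : Y.map f = R.map f := by
    rw [← YKR, Subgroup.map_sup, (H1.map_mk'_eq_bot_iff).2 (le_sup_left.trans y1), bot_sup_eq]
  have pW : PG 2 (Y.map f) := eW ▸ pg_map hR.pi f
  have W0 : Y.map f ≠ ⊥ := fun e' => y2.not_ge (H1.map_mk'_eq_bot_iff.1 e')
  have hmin : ∀ M : Subgroup (X ⧸ Y₁), M.Normal → M ≤ Y.map f → M = ⊥ ∨ M = Y.map f := by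
    intro M _ hM
    have l1 : M.comap f ≤ Y := by
      refine (comap_mono hM).trans ?_
      rw [H1.comap_map_mk', sup_eq_left.2 y2.le]
    have l2 : Y₁ ≤ M.comap f := by
      conv_lhs => rw [← QuotientGroup.ker_mk' Y₁]
      exact ker_le_comap _ _
    rw [← map_comap_eq_self_of_surjective hf M]
    rcases l1.eq_or_lt with h1 | h1
    · exact Or.inr (by rw [h1])
    · exact Or.inl (H1.map_mk'_eq_bot_iff.2 (hY₁.le_of_ge ⟨inferInstance, h1⟩ l2))
  obtain ⟨ab, q, hq, hq'⟩ := H1.elementary_of_minimal_normal _ W0 pW.sol hmin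
  obtain rfl : q = 2 := pW.eq_of_dvd hq ((pg_of_pow hq hq').dvd_of_ne_bot W0)
  refine pl_ext (W := Y.map f) rfl pW
    (pl_of_ker (QuotientGroup.mk' Y) (f := (QuotientGroup.mk' (Y.map f)).comp f)
      ((QuotientGroup.mk'_surjective _).comp hf) ?_ plY)
    (H1.pLengthLE_mono (ih _ (Y.map f) _ rfl (H1.isPSolvable_quotient hs _) ⟨ab, hq'⟩
      (core_of_min rfl pW hmin) fun T hT => ?_) hk)
  · rw [← MonoidHom.comap_ker, QuotientGroup.ker_mk', QuotientGroup.ker_mk']
    exact le_comap_map _ _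
  · have hf' : Function.Surjective (f.comp (N(R)).subtype) := by
      rw [← MonoidHom.range_eq_top, MonoidHom.range_comp, range_subtype, eq_top_iff,
        ← map_top_of_surjective f hf, ← KU, Subgroup.map_sup,
        (H1.map_mk'_eq_bot_iff).2 (le_sup_left.trans y1), bot_sup_eq]
    obtain ⟨P, hP, rfl⟩ := lift_pg hf' hT
    have PU : P.map (N(R)).subtype ≤ N(R) := map_subtype_le _
    rw [← map_map, eW]
    refine H19.eq_bot_mono (dl_mono le_rfl (map_mono (le_sup_right (a := R))) _) ?_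
    rw [← dl_map, H1.map_mk'_eq_bot_iff]
    refine le_trans ?_ (le_sup_right.trans y1)
    exact le_iSup (fun T : {T : Subgroup X // T ≤ N(R) ∧ PG 2 T ∧ R ≤ T} => dl R T (k + 1))
      ⟨_, sup_le le_normalizer PU, hR.pi.sup (pg_map hP _) PU, le_sup_left⟩

theorem stA (k : ℕ) : StA.{u} k := by
  induction k with
  | zero => exact stA_zero
  | succ k ih =>
    intro X _ _ V C _ _ hC hs hV hO h0
    have hs' := H1.isPSolvable_quotient hs C
    have hg := good_quo hC hV h0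
    obtain ⟨n, hn⟩ := H1.isPSolvable_iff_exists_pLengthLE.1 hs'
    have : ∀ m, PLengthLE 2 (k + m + 1) (X ⧸ C) → PLengthLE 2 (k + 1) (X ⧸ C) := by
      intro m
      induction m with
      | zero => exact id
      | succ m ihm => exact fun h => ihm (down ih hs' hO hg (by omega) h)
    exact this n (H1.pLengthLE_mono hn (by omega))

/-- the `2`-length is at most the derived length of a Sylow `2`-subgroup -/
theorem plength_of_der_two {G : Type u} [Group G] [Finite G] {d : ℕ} (hs : IsPSolvable 2 G)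
    (he : DerP 2 d G) : PLengthLE 2 d G := by
  rcases d with _ | k
  · exact plength_zero he
  obtain ⟨G', _, _, π, V, _, hπ, h, e⟩ := exists_red hs
  rw [H1.pLengthLE_succ_iff]
  refine pl_of_ker ((QuotientGroup.mk' V).comp π) (QuotientGroup.mk'_surjective _) ?_
    (stA k G' V V (le_antisymm (comm_iff_le_cent.1 h.ab.1) h.cent) h.ps h.ab h.core_quo
      fun T hT => ?_)
  · rw [← MonoidHom.comap_ker, QuotientGroup.ker_mk', QuotientGroup.ker_mk', e]
  · exact H19.eq_bot_mono ((dl_mono le_rfl le_sup_right _).trans (dl_le_dS le_sup_left _))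
      (he.map hπ _ (h.pg_sup hT))

end H4.DL
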