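import Cfsg.Agent.H4.DL3
import Cfsg.Agent.H10.HH14
import Cfsg.Agent.H10.Pass1

/-!
2-length and exponent, part 1: root elements on a symplectic space.
-/

set_option autoImplicit false

namespace H4.EL
open Cfsg Subgroup H19 H10.HH H4.DL
open scoped commutatorElement

universe u

variable {X : Type u} [Group X] {F : Type*} [CommMonoid F] {W G S R P : Subgroup X} {q k : ℕ}
  {β : X → X → F} {u v t g x : X}

/-- a symplectic space `W` with a group `G` of isometries -/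
structure Geo0 (W G : Subgroup X) (q : ℕ) (β : X → X → F) : Prop where
  qp : q.Prime
  q2 : q ≠ 2
  ab : Abelem q W
  gn : G ≤ N(W)
  one : ∀ x ∈ W, β x 1 = 1
  mul : ∀ x ∈ W, ∀ y ∈ W, ∀ w ∈ W, β x (y * w) = β x y * β x w
  symm : ∀ x ∈ W, ∀ y ∈ W, β x y * β y x = 1
  alt : ∀ x ∈ W, β x x = 1
  inv : ∀ g ∈ G, ∀ x ∈ W, ∀ y ∈ W, β (g * x * g⁻¹) (g * y * g⁻¹) = β x y
  nd : ∀ x ∈ W, (∀ y ∈ W, β x y = 1) → x = 1

/-- a symplectic space `W` with a faithful group `G` of isometries -/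
structure Geo (W G : Subgroup X) (q : ℕ) (β : X → X → F) : Prop extends Geo0 W G q β where
  fa : G ⊓ C(W) = ⊥

/-- root elements -/
structure Rr (W G : Subgroup X) (k : ℕ) (u : X) : Prop where
  mem : u ∈ G
  ord : u ^ 2 ^ (k + 2) = 1
  fix : W ⊓ C[u ^ 2 ^ (k + 1)] ≤ C[u]
  card : #(⁅W, zpowers (u ^ 2 ^ (k + 1))⁆) = (2 ^ (k + 2) - 1) ^ 2

/-- the perpendicular of `x` -/
def Geo.pp (h : Geo W G q β) (hx : x ∈ W) : Subgroup X where
  carrier := {y | y ∈ W ∧ β x y = 1}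
  one_mem' := ⟨one_mem _, h.one x hx⟩
  mul_mem' := fun {a b} ha hb => ⟨mul_mem ha.1 hb.1, by rw [h.mul x hx a ha.1 b hb.1, ha.2, hb.2, one_mul]⟩
  inv_mem' := fun {a} ha => ⟨inv_mem ha.1, by
    have := h.mul x hx a ha.1 _ (inv_mem ha.1)
    rwa [mul_inv_cancel, h.one x hx, ha.2, one_mul, eq_comm] at this⟩

theorem Geo.comm_le_pp (h : Geo W G q β) (hx : x ∈ W) (hg : g ∈ G) (hc : x ∈ C[g]) :
    ⁅W, zpowers g⁆ ≤ h.pp hx := by
  refine commutator_le.2 fun w hw y hy => ?_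
  have yG := zpowers_le.2 hg hy
  have c : y * x * y⁻¹ = x := by
    rw [← mem_cent1.1 (cent1_le_cent1_of_mem_zpowers hy hc), mul_inv_cancel_right]
  have m := conj_mem_of_norm (h.gn yG) (inv_mem hw)
  have e : ⁅w, y⁆ = w * (y * w⁻¹ * y⁻¹) := by simp only [commutatorElement_def]; group
  refine ⟨e ▸ mul_mem hw m, ?_⟩
  have := h.inv y yG x hx _ (inv_mem hw)
  rw [c] at this
  rw [e, h.mul x hx w hw _ m, this, ← h.mul x hx w hw _ (inv_mem hw), mul_inv_cancel, h.one x hx]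

variable [Finite X]

theorem Geo.odd (h : Geo W G q β) : PiG {2}ᶜ W := (abelem_pg h.qp h.ab).sing_ne h.q2
theorem Geo.nd2 (h : Geo W G q β) : ¬ 2 ∣ #W := h.odd.not_dvd Nat.prime_two rfl

theorem Geo.eq_one_of_sq (h : Geo W G q β) (hx : x ∈ W) (e : x = x⁻¹) : x = 1 :=
  PiN.e_eq_one (π := {2}) (fun p hp hd => (Nat.prime_dvd_prime_iff_eq hp Nat.prime_two).1
    (hd.trans (orderOf_dvd_of_pow_eq_one (by rw [sq]; exact mul_eq_one_iff_eq_inv.2 e)))) (h.odd.elt hx)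

omit [Finite X] in
theorem Rr.conj (h : Rr W G k u) (hg : g ∈ G) (hW : G ≤ N(W)) : Rr W G k (g * u * g⁻¹) := by
  refine ⟨mul_mem (mul_mem hg h.mem) (inv_mem hg), by rw [conj_pow, h.ord]; simp, ?_, ?_⟩
  · rw [conj_pow, ← cj_cent1, ← cj_cent1, ← cj_of_mem_norm (hW hg), ← cj_inf]
    exact cj_mono g h.fix
  · rw [conj_pow, ← cj_comm_zpowers (hW hg), card_cj, h.card]

theorem Rr.pe (h : Rr W G k u) : PG 2 (zpowers u) := pg_zpowers Nat.prime_two h.ord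

omit [Finite X] in
theorem Rr.zz (h : Rr W G k u) : u ^ 2 ^ (k + 1) * u ^ 2 ^ (k + 1) = 1 := by
  rw [← sq, ← pow_mul, ← pow_succ, h.ord]

omit [Finite X] in
theorem Rr.fixeq (h : Rr W G k u) : W ⊓ C[u ^ 2 ^ (k + 1)] = W ⊓ C[u] :=
  le_antisymm (le_inf inf_le_left h.fix) (inf_le_inf_left _ (cent1_le_cent1_pow _ _))

section geo
variable (hG : Geo W G q β)
include hG

theorem Rr.rt (h : Rr W G k u) : Rt W u := rt_of hG.ab.1 hG.nd2 (hG.gn h.mem) h.ord h.fix h.card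

theorem dp (hg : g ∈ G) (h2 : PiE {2} g) (hP : P ≤ W) (hn : g ∈ N(P)) :
    (P ⊓ C[g]) ⊔ ⁅P, zpowers g⁆ = P ∧ ⁅P, zpowers g⁆ ⊓ C[g] = ⊥ := by
  have c := (hG.odd.of_le hP).coprime' (piG_zpowers.2 h2)
  rw [← cent_zpowers]
  exact ⟨(ab_cent_dprod (comm_mono hG.ab.1 hP) (zpowers_le.2 hn) c).sup,
    ab_commg_inf_cent (comm_mono hG.ab.1 hP) (zpowers_le.2 hn) c⟩

theorem Rr.le (h : Rr W G k u) : ⁅W, zpowers u⁆ ≤ W := commg_le_left (zpowers_le.2 (hG.gn h.mem))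

theorem Rr.sup (h : Rr W G k u) : (W ⊓ C[u]) ⊔ ⁅W, zpowers u⁆ = W :=
  (dp hG h.mem (piG_zpowers.1 h.pe) le_rfl (hG.gn h.mem)).1

theorem Rr.disj (h : Rr W G k u) : ⁅W, zpowers u⁆ ⊓ C[u] = ⊥ :=
  (dp hG h.mem (piG_zpowers.1 h.pe) le_rfl (hG.gn h.mem)).2

theorem Rr.pleq (h : Rr W G k u) : ⁅W, zpowers (u ^ 2 ^ (k + 1))⁆ = ⁅W, zpowers u⁆ := by
  have hle := zpowers_le.2 (npow_mem_zpowers u (2 ^ (k + 1)))
  refine le_antisymm (commutator_mono le_rfl hle) ?_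
  have hz := pow_mem h.mem (2 ^ (k + 1))
  have h3 := norms_comm (zpowers_le.2 (hG.gn h.mem)) (norms_of_comm (comm_zpowers u) le_rfl hle)
  have hA := commg_le_left (zpowers_le.2 (hG.gn hz))
  conv_lhs => rw [← (dp hG hz ((piG_zpowers.1 h.pe).e_pow _) le_rfl (hG.gn hz)).1]
  exact commg_sup_left_le ((commg_eq_bot.2 (h.fix.trans (cent_zpowers u).ge)).le.trans bot_le)
    (commg_le_left h3) (norms_of_comm hG.ab.1 inf_le_left hA) le_normalizer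

theorem Rr.card' (h : Rr W G k u) : q + 1 = 2 ^ (k + 2) ∧ #(⁅W, zpowers u⁆) = q ^ 2 := by
  have c := h.card
  rw [h.pleq hG] at c
  have h2 : 2 < 2 ^ (k + 2) := by
    have : 0 < 2 ^ k := by positivity
    rw [pow_add]; omega
  obtain ⟨d, hd, e⟩ := exists_pow_of_relIndex (K := ⊥) hG.qp
    ((abelem_pg hG.qp hG.ab).of_le (h.le hG)) h2 (by rw [relIndex_bot_left, c])
  obtain rfl := H10.Pass.N1 hG.qp.one_lt hd e
  rw [pow_one] at e
  exact ⟨e, by rw [c, ← e]; simp⟩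

theorem Rr.ne (h : Rr W G k u) : ⁅W, zpowers u⁆ ≠ ⊥ := by
  rw [ne_bot_iff_one_lt_card, (h.card' hG).2]
  exact Nat.one_lt_pow two_ne_zero hG.qp.one_lt

theorem Rr.disjz (h : Rr W G k u) : ⁅W, zpowers u⁆ ⊓ C[u ^ 2 ^ (k + 1)] = ⊥ :=
  H19.eq_bot_mono (le_inf inf_le_left ((inf_le_inf_right _ (h.le hG)).trans h.fix)) (h.disj hG)

theorem Rr.zinv (h : Rr W G k u) : ∀ w ∈ ⁅W, zpowers u⁆,
    u ^ 2 ^ (k + 1) * w * (u ^ 2 ^ (k + 1))⁻¹ = w⁻¹ :=
  (inv_of_fpf (pow_mem (commg_normr W _ (mem_zpowers u)) _) (h.zz ▸ one_mem _) (h.disjz hG)).1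

theorem Rr.not_cent (h : Rr W G k u) : u ^ 2 ^ (k + 1) ∉ C(⁅W, zpowers u⁆) := fun e =>
  h.ne hG (by rw [← h.disjz hG, left_eq_inf, le_cent1_iff]; exact e)

theorem Rr.ext (h : Rr W G k u) (hg : g ∈ G) (h1 : g ∈ C(W ⊓ C[u])) (h2 : g ∈ C(⁅W, zpowers u⁆)) :
    g = 1 := by
  have : g ∈ G ⊓ C(W) := ⟨hg, by
    rw [← h.sup hG, cent_sup]; exact ⟨h1, h2⟩⟩
  rwa [hG.fa, mem_bot] at this

theorem Rr.iso (h : Rr W G k u) (hx : x ∈ ⁅W, zpowers u⁆)
    (e : ⁅W, zpowers u⁆ ≤ hG.pp (h.le hG hx)) : x = 1 := by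
  suffices H : W ⊓ C[u] ≤ hG.pp (h.le hG hx) from
    hG.nd x (h.le hG hx) fun y hy => ((h.sup hG).ge.trans (sup_le H e) hy).2
  refine fun w hw => ⟨hw.1, ?_⟩
  have h1 := (hG.comm_le_pp hw.1 h.mem hw.2 hx).2
  have := hG.symm w hw.1 x (h.le hG hx)
  rwa [h1, one_mul] at this

theorem Rr.h1 (h : Rr W G k u) (hg : g ∈ G) (h2 : PiE {2} g) (hn : g ∈ N(⁅W, zpowers u⁆)) :
    g ∈ C(⁅W, zpowers u⁆) ∨ ⁅W, zpowers u⁆ ⊓ C[g] = ⊥ := by
  by_cases hc : g ∈ C(⁅W, zpowers u⁆)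
  · exact Or.inl hc
  right
  have lt : ⁅W, zpowers u⁆ ⊓ C[g] < ⁅W, zpowers u⁆ :=
    lt_of_le_of_ne inf_le_left fun e => hc (le_cent1_iff.1 (inf_eq_left.1 e))
  have cy : Cyc (⁅W, zpowers u⁆ ⊓ C[g]) := by
    have hW := (h.card' hG).2
    obtain ⟨j, hj, e⟩ := (Nat.dvd_prime_pow hG.qp).1 (hW ▸ card_dvd lt.le)
    interval_cases j
    · exact card_eq_one.1 e ▸ cyc_bot
    · exact isCyclic_of_prime_card (hp := ⟨hG.qp⟩) (e.trans (pow_one q))
    · exact absurd (eq_of_le_of_card_ge lt.le (hW.trans e.symm).le) lt.ne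
  obtain ⟨a, ha⟩ := cyc_iff.1 cy
  have am : a ∈ ⁅W, zpowers u⁆ ⊓ C[g] := ha ▸ mem_zpowers a
  have aW := h.le hG am.1
  rw [← ha, h.iso hG am.1 ((dp hG hg h2 (h.le hG) hn).1.ge.trans (sup_le (ha.ge.trans
    (zpowers_le.2 ⟨aW, hG.alt a aW⟩)) ((commutator_mono (h.le hG) le_rfl).trans
    (hG.comm_le_pp aW hg am.2)))), zpowers_one_eq_bot]

theorem Rr.h2 (h : Rr W G 0 u) (hg : g ∈ G) (hn : g ∈ N(⁅W, zpowers u⁆))
    (h4 : ∀ w ∈ ⁅W, zpowers u⁆, g ^ 4 * w * (g ^ 4)⁻¹ = w⁻¹) : False := by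
  obtain ⟨q3, c9⟩ := h.card' hG
  obtain rfl : q = 3 := by omega
  set P := ⁅W, zpowers u⁆ with hP
  have PW : P ≤ W := h.le hG
  let f : MulAut X := MulAut.conj g
  have fP : ∀ w ∈ P, f w ∈ P := fun w hw => conj_mem_of_norm hn hw
  have f4 : ∀ w ∈ P, f (f (f (f w))) = w⁻¹ := fun w hw => by
    rw [← h4 w hw, show g ^ 4 = g * g * g * g by simp [pow_succ]]
    simp only [f, MulAut.conj_apply, mul_assoc, mul_inv_rev]
  have z3 : ∀ w ∈ P, ∀ y ∈ zpowers w, y = 1 ∨ y = w ∨ y = w⁻¹ := by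
    rintro w hw _ ⟨i, rfl⟩
    have h3 : w ^ (3 : ℤ) = 1 := by exact_mod_cast hG.ab.2 w (PW hw)
    have : i % 3 = 0 ∨ i % 3 = 1 ∨ i % 3 = 2 := by omega
    simp only [zpow_eq_zpow_emod i h3]
    rcases this with e | e | e <;> rw [e]
    · simp
    · simp
    · right; right
      rw [eq_inv_iff_mul_eq_one, ← zpow_add_one]; exact h3
  obtain ⟨w, hw, w1⟩ := exists_ne_one (h.ne hG)
  have ni : w ≠ w⁻¹ := fun e => w1 (hG.eq_one_of_sq (PW hw) e)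
  have w'P := fP w hw
  have nz : f w ∉ zpowers w := fun e => by
    have := f4 w hw
    rcases z3 w hw _ e with e | e | e
    · exact w1 (by simpa using e)
    · rw [e, e, e, e] at this; exact ni this
    · simp only [e, map_inv, inv_inv] at this; exact ni this
  have cm : zpowers (f w) ≤ N(zpowers w) :=
    norms_of_comm hG.ab.1 (zpowers_le.2 (PW w'P)) (zpowers_le.2 (PW hw))
  have top : zpowers w ⊔ zpowers (f w) = P := by
    have l : zpowers w ⊔ zpowers (f w) ≤ P := sup_le (zpowers_le.2 hw) (zpowers_le.2 w'P)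
    have lt : zpowers w < zpowers w ⊔ zpowers (f w) :=
      lt_of_le_of_ne le_sup_left fun e => nz (e.ge (mem_sup_right (mem_zpowers _)))
    have c3 : #(zpowers w) = 3 := by
      rw [Nat.card_zpowers]; exact orderOf_of_pow hG.qp (hG.ab.2 w (PW hw)) w1
    have c1 := card_lt lt
    obtain ⟨j, hj, e⟩ := (Nat.dvd_prime_pow hG.qp).1 (c9 ▸ card_dvd l)
    refine eq_of_le_of_card_eq l ?_
    interval_cases j <;> omega
  have cne : β w (f w) ≠ 1 := fun e => w1 (h.iso hG hw (top.ge.trans (sup_le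
    (zpowers_le.2 ⟨PW hw, hG.alt w (PW hw)⟩) (zpowers_le.2 ⟨PW w'P, e⟩))))
  obtain ⟨x, hx, y, hy, e⟩ := (mem_sup_of_norm cm).1 (top.ge (fP _ w'P))
  have xW := zpowers_le.2 (PW hw) hx
  have e1 : β w (f w) = β (f w) x := by
    rw [← hG.inv g hg w (PW hw) _ (PW w'P)]
    change β (f w) (f (f w)) = _
    rw [e, hG.mul _ (PW w'P) x xW y (zpowers_le.2 (PW w'P) hy),
      (zpowers_le.2 (show f w ∈ hG.pp (PW w'P) from ⟨PW w'P, hG.alt _ (PW w'P)⟩) hy).2, mul_one]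
  have f4w := f4 w hw
  have cc := mul_comm_of_comm hG.ab.1 (inv_mem (PW hw)) (PW w'P)
  rcases z3 w hw x hx with rfl | rfl | rfl
  · exact cne (e1.trans (hG.one _ (PW w'P)))
  · have s := hG.symm x (PW hw) _ (PW w'P)
    have c3 := hG.one x (PW hw)
    rw [← hG.ab.2 _ (PW w'P), pow_succ, sq, hG.mul x (PW hw) _ (mul_mem (PW w'P) (PW w'P)) _ (PW w'P),
      hG.mul x (PW hw) _ (PW w'P) _ (PW w'P)] at c3
    rw [← e1] at s
    rw [s, one_mul] at c3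
    exact cne c3
  · rcases z3 _ w'P y hy with rfl | rfl | rfl
    · rw [mul_one] at e
      simp only [e, map_inv, inv_inv] at f4w
      exact ni f4w
    · have e3 : f (f (f w)) = w⁻¹ := by
        rw [e, map_mul, map_inv, e, cc, inv_mul_cancel_left]
      rw [e3, map_inv, inv_inj] at f4w
      exact nz (by rw [f4w]; exact mem_zpowers _)
    · have e3 : f (f (f w)) = w := by
        rw [e, map_mul, map_inv, map_inv, e, mul_inv_rev, inv_inv, inv_inv, inv_mul_cancel_left]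
      rw [e3] at f4w
      exact nz (by rw [f4w]; exact inv_mem (mem_zpowers _))

end geo

end H4.EL
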