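import Cfsg.Agent.H4.EL1

/-!
2-length and exponent, part 2: root involutions do not generate.
-/

set_option autoImplicit false

namespace H4.EL
open Cfsg Subgroup H19 H10.HH H4.DL
open scoped commutatorElement

universe u

variable {X : Type u} [Group X] [Finite X] {F : Type*} [CommMonoid F] {W G S R P : Subgroup X}
  {q k j : ℕ} {β : X → X → F} {s w u v t g x τ : X}

theorem step2 (hW : Ab W) (hc : (#W).Coprime #S) (hS : S ≤ N(W)) (hs : s ∈ S) (hw : w ∈ S)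
    (h : Rt W s) (h2 : Rt W w) (hcard : #(⁅W, zpowers w⁆) = #(⁅W, zpowers s⁆))
    (h1 : ∀ x ∈ zpowers w, cj x ⁅W, zpowers s⁆ = ⁅W, zpowers s⁆ ∨ cj x ⁅W, zpowers s⁆ ≤ C[s]) :
    ⁅W, zpowers s⁆ ≤ C[w] ∨ ⁅W, zpowers w⁆ = ⁅W, zpowers s⁆ := by
  have hle : ∀ x ∈ S, ⁅W, zpowers x⁆ ≤ W := fun x hx => commg_le_left (zpowers_le.2 (hS hx))
  have hcop : ∀ A ≤ W, ∀ x ∈ S, (#A).Coprime #(zpowers x) := fun A hA x hx =>
    (hc.coprime_dvd_left (card_dvd hA)).coprime_dvd_right (card_dvd (zpowers_le.2 hx))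
  have hsup : ∀ x ∈ S, x ∈ N(⁅W, zpowers s⁆) → ⁅⁅W, zpowers s⁆, zpowers x⁆ ⊔
      (⁅W, zpowers s⁆ ⊓ C[x]) = ⁅W, zpowers s⁆ := fun x hx hx' => by
    rw [← cent_zpowers]
    exact commg_sup_cent (zpowers_le.2 hx') (hcop _ (hle s hs) x hx) (Or.inl (sol_zpowers x))
  have h0 : ⁅W, zpowers s⁆ ⊓ C[s] = ⊥ := by
    rw [← cent_zpowers]; exact ab_commg_inf_cent hW (zpowers_le.2 h.norm) (hcop _ le_rfl s hs)
  by_cases hn : w ∈ N(⁅W, zpowers s⁆)
  · refine (h2.irr ⁅⁅W, zpowers s⁆, zpowers w⁆ (commutator_mono (hle s hs) le_rfl)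
      (commg_normr _ _ (mem_zpowers w))).imp (fun e => ?_) fun e => eq_of_le_of_card_eq
      (e.ge.trans (commg_le_left (zpowers_le.2 hn))) hcard
    rw [← cent_zpowers]; exact commg_eq_bot.1 e
  have h3 := (h1 w (mem_zpowers w)).resolve_left (mt mem_norm_iff_cj.2 hn)
  have hU : ∀ x ∈ zpowers w, cj x ⁅W, zpowers s⁆ ≤ C[s] → cj x ⁅W, zpowers s⁆ =
      (⁅W, zpowers s⁆ ⊔ ⁅W, zpowers w⁆) ⊓ C[s] := fun x hx e => by
    have a1 : ⁅W, zpowers s⁆ ⊔ ⁅W, zpowers w⁆ ≤ W := sup_le (hle s hs) (hle w hw)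
    refine H4.eq_of_le_of_card_le (le_inf (cj_le_of_mem_norm (norms_of_commg_le
      ((commutator_mono a1 le_rfl).trans le_sup_right) hx) le_sup_left) e) ?_
    have a2 := card_sup_of_disjoint (A := ⁅W, zpowers s⁆) (B := (⁅W, zpowers s⁆ ⊔
      ⁅W, zpowers w⁆) ⊓ C[s]) (norms_of_comm hW (inf_le_left.trans a1) (hle s hs))
      (H19.eq_bot_mono (inf_le_inf_left _ inf_le_right) h0)
    have a3 := (card_le (sup_le le_sup_left (inf_le_left (b := C[s])))).trans (Nat.le_of_dvd (by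
      have := card_pos ⁅W, zpowers s⁆; have := card_pos ⁅W, zpowers w⁆; positivity)
      (card_sup_dvd (norms_of_comm hW (hle w hw) (hle s hs))))
    rw [a2, hcard] at a3
    rw [card_cj]
    exact Nat.le_of_mul_le_mul_left a3 (card_pos _)
  have h4 : w ^ 2 ∈ N(⁅W, zpowers s⁆) := mem_norm_iff_cj.2 ((h1 _ (npow_mem_zpowers w 2)).resolve_right
    fun e => hn (mem_norm_iff_cj.2 (cj_inj.1 (by
      rw [cj_cj, ← sq, hU _ (npow_mem_zpowers w 2) e, hU _ (mem_zpowers w) h3]))))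
  have h5 := hsup _ (pow_mem hw 2) h4
  rw [H19.eq_bot_mono (H := ⁅W, zpowers s⁆ ⊓ C[w ^ 2]) (le_inf inf_le_left fun a ha => h3 (by
    rw [mem_cj, mul_assoc, mem_cent1.1 (h2.fpf ⟨hle s hs ha.1, ha.2⟩), inv_mul_cancel_left]
    exact ha.1)) h0, sup_bot_eq] at h5
  exact Or.inr (eq_of_le_of_card_eq (h5.ge.trans (commutator_mono (hle s hs)
    (zpowers_le.2 (npow_mem_zpowers w 2)))) hcard.symm).symm

section geo
variable (hG : Geo W G q β) (hS : S ≤ G) (pS : PG 2 S)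
include hG hS pS

theorem Rr.compat (h : Rr W G k u) (hu : u ∈ S) : ∀ y ∈ S,
    cj y ⁅W, zpowers u⁆ = ⁅W, zpowers u⁆ ∨ cj y ⁅W, zpowers u⁆ ≤ C[u] :=
  (h.rt hG).compat hG.ab.1 (hG.odd.coprime' pS) (hS.trans hG.gn) pS.nil hu

theorem Rr.two (h : Rr W G k u) (h' : Rr W G j v) (hu : u ∈ S) (hv : v ∈ S) :
    ⁅W, zpowers u⁆ ≤ C[v] ∨ ⁅W, zpowers v⁆ = ⁅W, zpowers u⁆ :=
  step2 hG.ab.1 (hG.odd.coprime' pS) (hS.trans hG.gn) hu hv (h.rt hG) (h'.rt hG)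
    (by rw [(h.card' hG).2, (h'.card' hG).2])
    fun x hx => h.compat hG hS pS hu x (zpowers_le.2 hv hx)

theorem Rr.peq (h : Rr W G k u) (h' : Rr W G j v) (hu : u ∈ S) (hv : v ∈ S)
    (e : ⁅W, zpowers v⁆ = ⁅W, zpowers u⁆) : v ^ 2 ^ (j + 1) = u ^ 2 ^ (k + 1) := by
  have m := mul_mem (pow_mem hv (2 ^ (j + 1))) (pow_mem hu (2 ^ (k + 1)))
  have c : ∀ {i y}, Rr W G i y → ⁅W, zpowers y⁆ = ⁅W, zpowers u⁆ →
      y ^ 2 ^ (i + 1) ∈ ct ⁅W, zpowers u⁆ W := fun {i y} hy e => by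
    rw [← e]
    exact pow_mem (le_ct.2 ⟨commg_normr _ _, (commutator_comm _ _).le⟩ (mem_zpowers y)) _
  have h1 : zpowers (v ^ 2 ^ (j + 1) * u ^ 2 ^ (k + 1)) ≤ C(W) := cents_of_stable
    ((hG.odd.of_le (h.le hG)).coprime' (pS.of_le (zpowers_le.2 m)))
    (zpowers_le.2 (H19.mem_cent.2 fun a ha => by
      have e1 := h.zinv hG a ha
      have e2 := h'.zinv hG a⁻¹ (e ▸ inv_mem ha)
      rw [inv_inv] at e2
      calc a * (v ^ 2 ^ (j + 1) * u ^ 2 ^ (k + 1))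
          = (v ^ 2 ^ (j + 1) * a⁻¹ * (v ^ 2 ^ (j + 1))⁻¹) * (v ^ 2 ^ (j + 1) * u ^ 2 ^ (k + 1)) := by
            rw [e2]
        _ = _ := by rw [← e1]; group))
    (by rw [commutator_comm]; exact (le_ct.1 (zpowers_le.2 (mul_mem (c h' e) (c h rfl)))).2)
  have : v ^ 2 ^ (j + 1) * u ^ 2 ^ (k + 1) ∈ G ⊓ C(W) := ⟨hS m, h1 (mem_zpowers _)⟩
  rw [hG.fa, mem_bot] at this
  exact (eq_inv_of_mul_eq_one_left this).trans (inv_eq_of_mul_eq_one_left h.zz)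

theorem Rr.zc (h : Rr W G k u) (hu : u ∈ S) (hg : g ∈ S) (hn : g ∈ N(⁅W, zpowers u⁆)) :
    g * u ^ 2 ^ (k + 1) * g⁻¹ = u ^ 2 ^ (k + 1) := by
  rw [← conj_pow]
  exact h.peq hG hS pS (h.conj (hS hg) hG.gn) hu (mul_mem (mul_mem hg hu) (inv_mem hg))
    (by rw [← cj_comm_zpowers (hG.gn (hS hg)), cj_of_mem_norm hn])

theorem Rr.lc (h : Rr W G k u) (hu : u ∈ S) (hg : g ∈ S) (hn : g ∈ N(⁅W, zpowers u⁆)) :
    ⁅g, u⁆ ∈ C(W ⊓ C[u]) := by
  have e := (h.conj (hS hg) hG.gn).fixeq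
  rw [conj_pow, h.zc hG hS pS hu hg hn, h.fixeq] at e
  exact mul_mem (le_cent1_iff.1 (e.le.trans inf_le_right)) (inv_mem (le_cent1_iff.1 inf_le_right))

theorem Rr.comm (h : Rr W G k u) (hu : u ∈ S) (hg : g ∈ S) (hc : g ∈ C(⁅W, zpowers u⁆)) :
    ⁅g, u⁆ = 1 :=
  h.ext hG (hS (der_le S (commutator_mem_commutator hg hu)))
    (h.lc hG hS pS hu hg (cent_le_norm _ hc))
    (commg_le_left (norms_cent (commg_normr W _))
      (commutator_mem_commutator hc (mem_zpowers u)))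

omit hS pS in
theorem Rr.mulz (h : Rr W G k u) (hg : g ∈ G) (g2 : g * g = 1) (hn : g ∈ N(⁅W, zpowers u⁆)) :
    g ∈ C(⁅W, zpowers u⁆) ∨ g * u ^ 2 ^ (k + 1) ∈ C(⁅W, zpowers u⁆) := by
  refine (h.h1 hG hg (piG_zpowers.1 (pg_zpowers (n := 1) Nat.prime_two (by simpa [sq] using g2)))
    hn).imp id fun e => H19.mem_cent.2 fun a ha => ?_
  have e1 := h.zinv hG a ha
  have e2 := (inv_of_fpf hn (g2 ▸ one_mem _) e).1 a⁻¹ (inv_mem ha)
  rw [inv_inv] at e2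
  calc a * (g * u ^ 2 ^ (k + 1)) = (g * a⁻¹ * g⁻¹) * (g * u ^ 2 ^ (k + 1)) := by rw [e2]
    _ = _ := by rw [← e1]; group

omit hS pS in
theorem Rr.zuniq (h : Rr W G k u) (hg : g ∈ G) (g1 : g ≠ 1) (g2 : g * g = 1)
    (hn : g ∈ N(⁅W, zpowers u⁆)) (hc : g ∈ C(W ⊓ C[u])) : g = u ^ 2 ^ (k + 1) := by
  rcases h.mulz hG hg g2 hn with e | e
  · exact absurd (h.ext hG hg hc e) g1
  · have := h.ext hG (mul_mem hg (pow_mem h.mem _))
      (mul_mem hc (pow_mem (le_cent1_iff.1 inf_le_right) _)) e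
    exact (eq_inv_of_mul_eq_one_left this).trans (inv_eq_of_mul_eq_one_left h.zz)

theorem Rr.l1 (h : Rr W G k u) (hu : u ∈ S) (hR : R ≤ S) (un : u ∈ N(R)) (hn : u * t⁻¹ ∈ R)
    (ht : t ^ 2 ^ (k + 1) = 1) (tn : t ∈ N(⁅W, zpowers u⁆)) : ∃ x ∈ R, x * x = u ^ 2 ^ (k + 1) := by
  have un' : u ∈ N(⁅W, zpowers u⁆) := commg_normr W _ (mem_zpowers u)
  have tS : t ∈ S := by simpa using mul_mem (inv_mem (hR hn)) hu
  have nn := mul_mem un' (inv_mem tn)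
  have cR : ⁅u * t⁻¹, u⁆ ∈ R := commg_le_left (zpowers_le.2 un)
    (commutator_mem_commutator hn (mem_zpowers u))
  have cc := h.lc hG hS pS hu (hR hn) nn
  have cn : ⁅u * t⁻¹, u⁆ ∈ N(⁅W, zpowers u⁆) := der_le _ (commutator_mem_commutator nn un')
  have sq' : ∀ y : X, ∀ i, y ^ 2 ^ i * y ^ 2 ^ i = y ^ 2 ^ (i + 1) := fun y i => by
    rw [← sq, ← pow_mul, ← pow_succ]
  by_cases c1 : ⁅u * t⁻¹, u⁆ = 1
  · have c : Commute u t⁻¹ := by
      have := commutatorElement_eq_one_iff_mul_comm.1 c1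
      rw [mul_assoc] at this
      exact (mul_left_cancel this).symm
    exact ⟨_, pow_mem hn (2 ^ k), by rw [sq', c.mul_pow, inv_pow, ht, inv_one, mul_one]⟩
  obtain ⟨i, hi⟩ := (pS.elt (hR cR)).exists_pow (orderOf_pos _).ne'
  rcases i with _ | i
  · exact absurd (orderOf_eq_one_iff.1 hi) c1
  have e := h.zuniq hG (g := ⁅u * t⁻¹, u⁆ ^ 2 ^ i) (pow_mem (hS (hR cR)) _)
    (pow_ne_one_of_lt_orderOf (by positivity) (by rw [hi]; exact Nat.pow_lt_pow_right one_lt_two (by omega)))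
    (by rw [sq', ← hi, pow_orderOf_eq_one]) (pow_mem cn _) (pow_mem cc _)
  rcases i with _ | i
  swap
  · exact ⟨_, pow_mem cR (2 ^ i), by rw [sq', e]⟩
  rw [pow_zero, pow_one] at e
  have zt := h.zc hG hS pS hu tS tn
  have zz := h.zz
  set z := u ^ 2 ^ (k + 1) with hz
  have zu : Commute z u := Commute.pow_self u _
  have zt' : Commute z t := (mul_inv_eq_iff_eq_mul.1 zt).symm
  have e1 : t⁻¹ * u * t = z * u := by
    have : u * (t⁻¹ * u * t) * u⁻¹ * u⁻¹ = z := by rw [← e]; simp only [commutatorElement_def]; group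
    calc t⁻¹ * u * t = u⁻¹ * (u * (t⁻¹ * u * t) * u⁻¹ * u⁻¹) * u * u := by group
      _ = u⁻¹ * (z * u) * u := by rw [this]; group
      _ = z * u := by rw [zu.eq, inv_mul_cancel_left, zu.eq]
  rcases k with _ | k
  · exfalso
    have t2 : t * t = 1 := by simpa [sq] using ht
    have ti : t⁻¹ = t := inv_eq_of_mul_eq_one_left t2
    have key : ∀ y ∈ C(⁅W, zpowers u⁆), ⁅y, u⁆ ∈ C(⁅W, zpowers u⁆) := fun y hy =>
      commg_le_left (norms_cent (commg_normr W _)) (commutator_mem_commutator hy (mem_zpowers u))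
    have e2 : ⁅t, u⁆ = z := by
      rw [commutatorElement_def, ti]
      nth_rewrite 1 [← ti]
      rw [e1, mul_inv_cancel_right]
    refine h.not_cent hG ?_
    rcases h.mulz hG (hS tS) t2 tn with a | a
    · have := key _ a
      rwa [e2] at this
    · have := key _ a
      rwa [show ⁅t * z, u⁆ = ⁅t, u⁆ by
        rw [commutatorElement_def, commutatorElement_def, mul_assoc t, zu.eq]; group, e2] at this
  · refine ⟨_, pow_mem hn (2 ^ (k + 1)), ?_⟩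
    have e2 : (u * t⁻¹) ^ 2 = z * (u ^ 2 * (t ^ 2)⁻¹) := by
      calc (u * t⁻¹) ^ 2 = u * (t⁻¹ * u * t) * (t ^ 2)⁻¹ := by simp only [sq]; group
        _ = (u * z) * u * (t ^ 2)⁻¹ := by rw [e1]; group
        _ = _ := by rw [← zu.eq]; simp only [sq]; group
    have c2 : Commute (u ^ 2) t := by
      have : t⁻¹ * u ^ 2 * t = u ^ 2 := by
        calc t⁻¹ * u ^ 2 * t = (t⁻¹ * u * t) * (t⁻¹ * u * t) := by simp only [sq]; group
          _ = z * (u * z) * u := by rw [e1]; group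
          _ = (z * z) * u ^ 2 := by rw [← zu.eq]; simp only [sq]; group
          _ = _ := by rw [zz, one_mul]
      rw [mul_assoc, inv_mul_eq_iff_eq_mul] at this
      exact this
    have z2 : z ^ 2 ^ (k + 1) = 1 := by rw [pow_succ', pow_mul, sq, zz, one_pow]
    rw [sq', pow_succ' 2 (k + 1), pow_mul, e2,
      ((zu.pow_right 2).mul_right (zt'.pow_right 2).inv_right).mul_pow, z2, one_mul,
      (c2.pow_right 2).inv_right.mul_pow, inv_pow, ← pow_mul, ← pow_mul, ← pow_succ', ht, inv_one,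
      mul_one]

end geo

/-- the data of a bad root involution -/
structure Bad (W G R : Subgroup X) (k : ℕ) (u t : X) : Prop where
  rr : Rr W G k u
  un : u ∈ N(R)
  zr : u ^ 2 ^ (k + 1) ∈ R
  nr : u * t⁻¹ ∈ R
  ht : t ^ 2 ^ (k + 1) = 1
  tn : t ∉ N(⁅W, zpowers u⁆)

theorem pS_of (pR : PG 2 R) (h : Rr W G k u) (un : u ∈ N(R)) : PG 2 (R ⊔ zpowers u) :=
  pR.sup h.pe (zpowers_le.2 un)

theorem extract (hG : Geo W G q β) (RG : R ≤ G) (pR : PG 2 R) (h3 : Rr W G j v) (vn : v ∈ N(R))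
    (hτ : τ = v ^ 2 ^ (j + 1)) (PW : P ≤ W) (hd : P ⊓ cj τ P = ⊥) (hx : x ∈ R) :
    (∀ w ∈ P, ∀ a ∈ P, ∀ b ∈ P, x * ⁅w, τ⁆ * x⁻¹ = a * (τ * b * τ⁻¹) → b = a) ∨
    (∀ w ∈ P, ∀ a ∈ P, ∀ b ∈ P, x * ⁅w, τ⁆ * x⁻¹ = a * (τ * b * τ⁻¹) → b = a⁻¹) := by
  have t2 : τ * τ = 1 := hτ ▸ h3.zz
  have ti : τ⁻¹ = τ := inv_eq_of_mul_eq_one_left t2
  have τW : τ ∈ N(W) := hτ ▸ hG.gn (pow_mem h3.mem _)
  have m : ∀ w ∈ P, x * ⁅w, τ⁆ * x⁻¹ ∈ cj x ⁅W, zpowers v⁆ := fun w hw => conj_mem_cj.2 (by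
    rw [← h3.pleq hG, ← hτ]; exact commutator_mem_commutator (PW hw) (mem_zpowers τ))
  have key : ∀ c ∈ P, c = τ * c * τ⁻¹ ∨ c = τ * c⁻¹ * τ⁻¹ → c = 1 := fun c hc e => by
    rw [← mem_bot, ← hd]
    refine ⟨hc, ?_⟩
    rcases e with e | e <;> rw [e]
    · exact conj_mem_cj.2 hc
    · exact conj_mem_cj.2 (inv_mem hc)
  have cτ : ∀ a b : X, τ * (a * (τ * b * τ⁻¹)) * τ⁻¹ = τ * a * τ⁻¹ * b := fun a b => by
    calc τ * (a * (τ * b * τ⁻¹)) * τ⁻¹ = τ * a * τ * b * (τ * τ)⁻¹ := by group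
      _ = _ := by rw [t2, ti]; group
  have cm := fun {a b : X} (ha : a ∈ W) (hb : b ∈ W) => mul_comm_of_comm hG.ab.1 ha hb
  rcases h3.compat hG (sup_le RG (zpowers_le.2 h3.mem)) (pS_of pR h3 vn)
    (mem_sup_right (mem_zpowers v)) x (mem_sup_left hx) with e | e
  · right
    intro w hw a ha b hb e1
    have := h3.zinv hG _ (e ▸ m w hw)
    rw [← hτ, e1, cτ] at this
    refine eq_inv_of_mul_eq_one_left (key _ (mul_mem hb ha) (Or.inr ?_))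
    calc b * a = (τ * a * τ⁻¹)⁻¹ * (τ * a * τ⁻¹ * b) * a := by group
      _ = τ * (b * a)⁻¹ * τ⁻¹ := by rw [this]; group
  · left
    intro w hw a ha b hb e1
    have : x * ⁅w, τ⁆ * x⁻¹ ∈ C[τ] := by
      have := cent1_le_cent1_pow v (2 ^ (j + 1)) (e (m w hw))
      rwa [← hτ] at this
    rw [mem_cent1, ← eq_mul_inv_iff_mul_eq, e1, cτ] at this
    refine (inv_mul_eq_one.1 (key _ (mul_mem (inv_mem ha) hb) (Or.inl ?_))).symm
    have aW := conj_mem_of_norm τW (PW ha)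
    calc a⁻¹ * b = a⁻¹ * (τ * a * τ⁻¹)⁻¹ * (τ * a * τ⁻¹ * b) := by group
      _ = (τ * a * τ⁻¹)⁻¹ * a⁻¹ * (a * (τ * b * τ⁻¹)) := by
          rw [← this, cm (inv_mem (PW ha)) (inv_mem aW)]
      _ = _ := by group

theorem Bad.norm (hG : Geo W G q β) (RG : R ≤ G) (pR : PG 2 R) (h : Bad W G R k u t)
    (h3 : Rr W G j v) (vn : v ∈ N(R)) (hτ : τ = v ^ 2 ^ (j + 1)) (τR : τ ∈ R) :
    τ ∈ N(⁅W, zpowers u⁆) := by
  by_contra τn
  have h1 := h.rr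
  have SG : R ⊔ zpowers u ≤ G := sup_le RG (zpowers_le.2 h1.mem)
  have pS := pS_of pR h1 h.un
  have uS : u ∈ R ⊔ zpowers u := mem_sup_right (mem_zpowers u)
  have tS : t ∈ R ⊔ zpowers u := by simpa using mul_mem (inv_mem (mem_sup_left h.nr)) uS
  have τS : τ ∈ R ⊔ zpowers u := mem_sup_left τR
  have cp := h1.compat hG SG pS uS
  set P := ⁅W, zpowers u⁆ with hP
  have PW : P ≤ W := h1.le hG
  have un : u ∈ N(P) := commg_normr W _ (mem_zpowers u)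
  have t2 : τ * τ = 1 := hτ ▸ h3.zz
  have ti : τ⁻¹ = τ := inv_eq_of_mul_eq_one_left t2
  have c1 : cj τ P ≤ C[u] := (cp τ τS).resolve_left (mt mem_norm_iff_cj.2 τn)
  have c2 : cj t P ≤ C[u] := (cp t tS).resolve_left (mt mem_norm_iff_cj.2 h.tn)
  have c3 : cj t⁻¹ P ≤ C[u] := (cp _ (inv_mem tS)).resolve_left
    (mt mem_norm_iff_cj.2 fun e => h.tn (inv_mem_iff.1 e))
  have hd : P ⊓ cj τ P = ⊥ := H19.eq_bot_mono (inf_le_inf_left _ c1) (h1.disj hG)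
  have ex := fun {x} (hx : x ∈ R) => extract hG RG pR h3 vn hτ PW hd hx
  have cm := fun {a b : X} (ha : a ∈ W) (hb : b ∈ W) => mul_comm_of_comm hG.ab.1 ha hb
  have τW := hG.gn (SG τS)
  have fx : ∀ {y w : X}, cj y P ≤ C[u] → w ∈ P → u * (y * w * y⁻¹) * u⁻¹ = y * w * y⁻¹ :=
    fun e hw => by rw [← mem_cent1.1 (e (conj_mem_cj.2 hw)), mul_inv_cancel_right]
  have no2 : ¬ ∀ w ∈ P, u * (u * w * u⁻¹) * u⁻¹ = w := fun e => h1.ne hG (by
    rw [← h1.disj hG, left_eq_inf]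
    refine fun w hw => (h1.rt hG).fpf ⟨PW hw, mem_cent1.2 ?_⟩
    nth_rewrite 1 [← e w hw]
    simp only [sq]; group)
  -- `u ^ 2` inverts `P`
  have i2 : ∀ w ∈ P, u * (u * w * u⁻¹) * u⁻¹ = w⁻¹ := by
    have e : ∀ w ∈ P, ⁅u, τ⁆ * ⁅w, τ⁆ * ⁅u, τ⁆⁻¹ =
        (u * w * u⁻¹) * (τ * (u⁻¹ * w⁻¹ * u) * τ⁻¹) := fun w hw => by
      have a1 := fx c1 hw
      have a2 := fx c1 (conj_mem_of_norm' un (inv_mem hw))
      calc ⁅u, τ⁆ * ⁅w, τ⁆ * ⁅u, τ⁆⁻¹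
          = u * τ * u⁻¹ * (τ⁻¹ * w * τ * w⁻¹) * u * τ⁻¹ * u⁻¹ := by
            simp only [commutatorElement_def]; group
        _ = u * τ * u⁻¹ * (u * (τ * w * τ⁻¹) * u⁻¹ * w⁻¹) * u * τ⁻¹ * u⁻¹ := by rw [a1, ti]
        _ = u * ((τ * τ) * w * (τ * τ)⁻¹) * u⁻¹ * (u * (τ * (u⁻¹ * w⁻¹ * u) * τ⁻¹) * u⁻¹) := by
            group
        _ = _ := by rw [a2, t2]; group
    rcases ex (commg_le_right (zpowers_le.2 h.un) (commutator_mem_commutator (mem_zpowers u) τR))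
      with e1 | e1
    · intro w hw
      rw [← e1 w hw _ (conj_mem_of_norm un hw) _ (conj_mem_of_norm' un (inv_mem hw)) (e w hw)]
      group
    · refine absurd (fun w hw => ?_) no2
      rw [← inv_inj.1 ((inv_inv _).trans
        (e1 w hw _ (conj_mem_of_norm un hw) _ (conj_mem_of_norm' un (inv_mem hw)) (e w hw)))]
      group
  obtain rfl : k = 0 := by
    rcases k with _ | k
    · rfl
    exfalso
    have : u ^ 4 ∈ C(P) := H19.mem_cent.2 fun w hw => by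
      have := i2 _ (conj_mem_of_norm un (conj_mem_of_norm un hw))
      nth_rewrite 2 [i2 w hw] at this
      rw [inv_inv] at this
      nth_rewrite 1 [← this]
      rw [show u ^ 4 = u * u * u * u by simp [pow_succ]]
      simp only [mul_assoc, inv_mul_cancel_left, inv_mul_cancel, mul_one]
    refine h1.not_cent hG ?_
    rw [show 2 ^ (k + 1 + 1) = 4 * 2 ^ k by ring, pow_mul]
    exact pow_mem this _
  have tt : t * t = 1 := by simpa [sq] using h.ht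
  have tti : t⁻¹ = t := inv_eq_of_mul_eq_one_left tt
  rcases cp _ (mul_mem (inv_mem tS) τS) with e | e
  · -- `σ = t τ` normalizes `P`
    have σn : t * τ ∈ N(P) := tti ▸ mem_norm_iff_cj.2 e
    have e0 : ∀ w ∈ P, u * t⁻¹ * ⁅w, τ⁆ * (u * t⁻¹)⁻¹ =
        (u * (t * τ * w⁻¹ * (t * τ)⁻¹) * u⁻¹) * (τ * ((t * τ)⁻¹ * w * (t * τ)) * τ⁻¹) := fun w hw => by
      have a1 := fx c2 hw
      have a2 : τ * ((t * τ)⁻¹ * w * (t * τ)) * τ⁻¹ = t * w * t⁻¹ := by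
        calc τ * ((t * τ)⁻¹ * w * (t * τ)) * τ⁻¹ = t⁻¹ * w * t := by group
          _ = _ := by rw [tti]
      have m1 : u * (t * τ * w⁻¹ * (t * τ)⁻¹) * u⁻¹ ∈ W :=
        PW (conj_mem_of_norm un (conj_mem_of_norm σn (inv_mem hw)))
      rw [a2, cm m1 (conj_mem_of_norm (hG.gn (SG tS)) (PW hw)), ← a1]
      nth_rewrite 1 [tti]
      nth_rewrite 1 [tti]
      simp only [commutatorElement_def]; group
    generalize hσ : t * τ = σ at *
    have σG : σ ∈ G := hσ ▸ SG (mul_mem tS τS)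
    refine h1.h2 hG (inv_mem σG) (inv_mem σn) fun w hw => ?_
    have e4 : σ⁻¹ ^ 4 * w * (σ⁻¹ ^ 4)⁻¹ = σ⁻¹ * (σ⁻¹ * (σ⁻¹ * (σ⁻¹ * w * σ) * σ) * σ) * σ := by
      rw [show σ⁻¹ ^ 4 = σ⁻¹ * σ⁻¹ * σ⁻¹ * σ⁻¹ by simp [pow_succ]]
      simp only [mul_assoc, mul_inv_rev, inv_inv]
    rw [e4, ← i2 w hw]
    rcases ex h.nr with e1 | e1
    · have : ∀ w ∈ P, σ⁻¹ * (σ⁻¹ * w * σ) * σ = u * w⁻¹ * u⁻¹ := fun w hw => by
        have w' := conj_mem_of_norm' σn hw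
        rw [e1 _ w' _ (conj_mem_of_norm un (conj_mem_of_norm σn (inv_mem w'))) _
          (conj_mem_of_norm' σn w') (e0 _ w')]
        group
      rw [this w hw, this _ (conj_mem_of_norm un (inv_mem hw))]
      group
    · have : ∀ w ∈ P, σ⁻¹ * (σ⁻¹ * w * σ) * σ = u * w * u⁻¹ := fun w hw => by
        have w' := conj_mem_of_norm' σn hw
        rw [e1 _ w' _ (conj_mem_of_norm un (conj_mem_of_norm σn (inv_mem w'))) _
          (conj_mem_of_norm' σn w') (e0 _ w')]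
        group
      rw [this w hw, this _ (conj_mem_of_norm un hw)]
  · have vR : ⁅u, t⁆ ∈ R := by
      have := mul_mem (conj_mem_of_norm h.un (inv_mem h.nr)) h.nr
      rwa [show u * (u * t⁻¹)⁻¹ * u⁻¹ * (u * t⁻¹) = ⁅u, t⁆ by
        simp only [commutatorElement_def]; group] at this
    have e0 : ∀ w ∈ P, ⁅u, t⁆ * ⁅w, τ⁆ * ⁅u, t⁆⁻¹ = (u * w * u⁻¹) * (τ * w⁻¹ * τ⁻¹) := fun w hw => by
      have a1 := fx c3 (inv_mem hw)
      have a2 := fx e hw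
      have a3 := fx c1 (inv_mem hw)
      have b1 : u⁻¹ * (t⁻¹ * w * t) * u = t⁻¹ * w * t := by
        have := congrArg (fun y => u⁻¹ * y⁻¹ * u) a1
        simpa [mul_assoc] using this.symm
      have b2 : u⁻¹ * (t⁻¹ * τ * w⁻¹ * τ⁻¹ * t) * u = t⁻¹ * τ * w⁻¹ * τ⁻¹ * t := by
        have := congrArg (fun y => u⁻¹ * y⁻¹ * u) a2
        simpa [mul_assoc] using this.symm
      calc ⁅u, t⁆ * ⁅w, τ⁆ * ⁅u, t⁆⁻¹ = u * t * (u⁻¹ * (t⁻¹ * w * t) * u) *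
            (u⁻¹ * (t⁻¹ * τ * w⁻¹ * τ⁻¹ * t) * u) * t⁻¹ * u⁻¹ := by
            simp only [commutatorElement_def]; group
        _ = u * w * u⁻¹ * (u * (τ * w⁻¹ * τ⁻¹) * u⁻¹) := by rw [b1, b2]; group
        _ = _ := by rw [a3]
    refine no2 fun w hw => ?_
    rcases ex vR with e1 | e1
    · have : ∀ w ∈ P, u * w * u⁻¹ = w⁻¹ := fun w hw =>
        (e1 w hw _ (conj_mem_of_norm un hw) _ (inv_mem hw) (e0 w hw)).symm
      rw [this w hw, this _ (inv_mem hw), inv_inv]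
    · have : ∀ w ∈ P, u * w * u⁻¹ = w := fun w hw =>
        (inv_inj.1 (e1 w hw _ (conj_mem_of_norm un hw) _ (inv_mem hw) (e0 w hw))).symm
      rw [this w hw, this w hw]

/-- `t ^ 2 ^ m` is trivial or `t` is a root element -/
def Gd (W G : Subgroup X) (m : ℕ) (t : X) : Prop :=
  t ^ 2 ^ m = 1 ∨ ∃ k, m = k + 1 ∧ Rr W G k t

omit [Finite X] in
theorem pw {t' : X} (ht : t ∈ N(R)) (h : t' * t⁻¹ ∈ R) (n : ℕ) : t' ^ n * (t ^ n)⁻¹ ∈ R := by
  induction n with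
  | zero => simp
  | succ n ih =>
    have := mul_mem ih (conj_mem_of_norm (pow_mem ht n) h)
    rwa [show t' ^ n * (t ^ n)⁻¹ * (t ^ n * (t' * t⁻¹) * (t ^ n)⁻¹) = t' ^ (n + 1) * (t ^ (n + 1))⁻¹ by
      rw [pow_succ t', pow_succ' t]; group] at this

theorem geo_main (hG : Geo W G q β) (RG : R ≤ G) (pR : PG 2 R) (R1 : R ≠ ⊥) :
    ∃ R₁ < R, ∀ m t t', t ∈ N(R) → t' * t⁻¹ ∈ R → Gd W G m t → Gd W G m t' →
      t' ^ 2 ^ m * (t ^ 2 ^ m)⁻¹ ∈ R₁ := by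
  let J := closure {z | ∃ k u t, Bad W G R k u t ∧ z = u ^ 2 ^ (k + 1)}
  have JR : J ≤ R := (closure_le _).2 (by rintro _ ⟨k, u, t, h, rfl⟩; exact h.zr)
  have lt : J < R := lt_of_le_of_ne JR fun e => by
    by_cases hb : ∃ k u t, Bad W G R k u t
    · obtain ⟨k, u, t, h⟩ := hb
      have : J ≤ N(⁅W, zpowers u⁆) := (closure_le _).2 (by
        rintro _ ⟨j, v, t', h', rfl⟩
        exact h.norm hG RG pR h'.rr h'.un rfl h'.zr)
      have a := mul_mem (inv_mem (this (e.ge h.nr))) (commg_normr W _ (mem_zpowers u))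
      exact h.tn (by simpa using a)
    · refine R1 (e ▸ le_bot_iff.1 ((closure_le _).2 ?_))
      rintro _ ⟨k, u, t, h, rfl⟩
      exact absurd ⟨k, u, t, h⟩ hb
  obtain ⟨R₁, r1, r2, -, r4⟩ := exists_max2 pR lt
  have one : ∀ {k u t}, Rr W G k u → t ∈ N(R) → u * t⁻¹ ∈ R → t ^ 2 ^ (k + 1) = 1 →
      u ^ 2 ^ (k + 1) ∈ R₁ := by
    intro k u t h ht hn h1
    have un : u ∈ N(R) := by simpa using mul_mem (le_normalizer hn) ht
    by_cases tn : t ∈ N(⁅W, zpowers u⁆)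
    · obtain ⟨x, hx, e⟩ := h.l1 hG (sup_le RG (zpowers_le.2 h.mem)) (pS_of pR h un)
        (mem_sup_right (mem_zpowers u)) le_sup_left un hn h1 tn
      exact e ▸ r4 x hx
    · exact r1 (subset_closure ⟨k, u, t, ⟨h, un, by simpa [h1] using pw ht hn (2 ^ (k + 1)), hn, h1,
        tn⟩, rfl⟩)
  refine ⟨R₁, r2, fun m t t' ht hn g g' => ?_⟩
  have ht' : t' ∈ N(R) := by simpa using mul_mem (le_normalizer hn) ht
  rcases g with g | ⟨k, rfl, g⟩ <;> rcases g' with g' | ⟨j, e, g'⟩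
  · rw [g, g']; simpa using one_mem R₁
  · subst e
    rw [g, inv_one, mul_one]
    exact one g' ht hn g
  · rw [g', one_mul]
    exact inv_mem (one g ht' (by simpa using inv_mem hn) g')
  · obtain rfl : k = j := by omega
    have SG : R ⊔ zpowers t ≤ G := sup_le RG (zpowers_le.2 g.mem)
    have pS := pS_of pR g ht
    have tS : t ∈ R ⊔ zpowers t := mem_sup_right (mem_zpowers t)
    have tS' : t' ∈ R ⊔ zpowers t := by simpa using mul_mem (mem_sup_left hn) tS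
    rcases g.two hG SG pS g' tS tS' with e | e
    · have c : Commute t' t :=
        commutatorElement_eq_one_iff_commute.1 (g.comm hG SG pS tS tS' (le_cent1_iff.1 e))
      have := r4 _ (pow_mem hn (2 ^ k))
      rwa [← sq, ← pow_mul, ← pow_succ, c.inv_right.mul_pow, inv_pow] at this
    · rw [g.peq hG SG pS g' tS tS' e, mul_inv_cancel]
      exact one_mem _

end H4.EL
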