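import Cfsg.Agent.H4.EL2
import Cfsg.Agent.H10.HH11
import Cfsg.Agent.H20.FT

/-!
2-length and exponent, part 3: transfer to representations.
-/

set_option autoImplicit false

namespace H4.EL
open Cfsg Subgroup H19 H18 H10.HH H4.DL Module Polynomial
open scoped commutatorElement

universe u

theorem pull {X Y : Type*} [Group X] [Group Y] {D R : Subgroup X} (f : D →* Y)
    {R₁ : Subgroup Y} (h : R₁ < im f R) : R ⊓ pre f R₁ < R :=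
  lt_of_le_of_ne inf_le_left fun e =>
    h.not_ge (im_le_iff'.2 (inf_le_left.trans (inf_eq_left.1 e)))

/-- `t ^ 2 ^ m` acts trivially or `t` is a root element -/
def Gd0 {X : Type u} [Group X] (W G : Subgroup X) (m : ℕ) (t : X) : Prop :=
  t ^ 2 ^ m ∈ C(W) ∨ ∃ k, m = k + 1 ∧ Rr W G k t

theorem geo_nf {Y : Type u} [Group Y] [Finite Y] {F : Type*} [CommMonoid F] {W G R : Subgroup Y}
    {q : ℕ} {β : Y → Y → F} (hG : Geo0 W G q β) (RG : R ≤ G) (pR : PG 2 R) (R1 : ¬ R ≤ C(W)) :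
    ∃ R₁ < R, ∀ m t t', t ∈ G → t ∈ N(R) → t' * t⁻¹ ∈ R → Gd0 W G m t → Gd0 W G m t' →
      t' ^ 2 ^ m * (t ^ 2 ^ m)⁻¹ ∈ R₁ := by
  let φ : N(W) →* MulAut W := W.normalizerMonoidHom
  have hφ : ∀ (g : N(W)) (w : W), (φ g w : Y) = g * w * (g : Y)⁻¹ := fun _ _ => rfl
  let Γ := W ⋊[MonoidHom.id _] MulAut W
  haveI : Finite Γ := Finite.of_equiv _ SemidirectProduct.equivProd.symm
  let i : W →* Γ := SemidirectProduct.inl
  have hi : Function.Injective i := SemidirectProduct.inl_injective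
  let ψ : N(W) →* Γ := SemidirectProduct.inr.comp φ
  have cj' : ∀ (g : N(W)) (v : W), ψ g * i v * (ψ g)⁻¹ = i (φ g v) := fun g v => by
    rw [← map_inv]
    exact (congrArg (fun a => ψ g * i v * SemidirectProduct.inr a) (map_inv φ g)).trans
      (SemidirectProduct.inl_aut (φ := MonoidHom.id _) (φ g) v).symm
  haveI : i.range.Normal := by
    rw [show i.range = SemidirectProduct.rightHom.ker from SemidirectProduct.range_inl_eq_ker_rightHom]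
    infer_instance
  have k2 : ∀ (g : N(W)) (w : W), i w ∈ C[ψ g] ↔ (w : Y) ∈ C[(g : Y)] := fun g w => by
    rw [mem_cent1, mem_cent1, eq_comm, ← mul_inv_eq_iff_eq_mul, cj', hi.eq_iff, Subtype.ext_iff, hφ,
      mul_inv_eq_iff_eq_mul, eq_comm]
  have k1 : ∀ g : N(W), (g : Y) ∈ C(W) → ψ g = 1 := fun g h => by
    rw [show ψ g = SemidirectProduct.inr (φ g) from rfl, show φ g = 1 from MulEquiv.ext fun w =>
      Subtype.ext (by rw [hφ, ← H19.mem_cent.1 h w w.2, mul_inv_cancel_right]; rfl), map_one]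
  have k0 : ∀ g : N(W), ψ g ∈ C(i.range) → (g : Y) ∈ C(W) := fun g h =>
    le_cent1_iff.1 fun w hw => (k2 g ⟨w, hw⟩).1 (le_cent1_iff.2 h ⟨_, rfl⟩)
  have ab : Ab i.range := comm_iff_le_cent.2 (by
    rintro _ ⟨v, rfl⟩ _ ⟨w, rfl⟩
    rw [← map_mul, ← map_mul]
    congr 1
    exact Subtype.ext (mul_comm_of_comm hG.ab.1 w.2 v.2))
  have cm : ∀ g : N(W), #(⁅i.range, zpowers (ψ g)⁆) = #(⁅W, zpowers (g : Y)⁆) := fun g => by
    have a1 := H9.card_centralizer_mul_card_commutator (comm_iff_le_cent.1 ab) (a := ψ g)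
      (le_normalizer_of_normal (mem_top _))
    have a2 := H9.card_centralizer_mul_card_commutator (comm_iff_le_cent.1 hG.ab.1) g.2
    have a3 : i.range ⊓ C(zpowers (ψ g)) = (C(zpowers (g : Y)).subgroupOf W).map i := by
      rw [cent_zpowers, cent_zpowers]
      refine le_antisymm ?_ ?_
      · rintro _ ⟨⟨w, rfl⟩, h⟩
        exact ⟨w, (k2 g w).1 h, rfl⟩
      · rintro _ ⟨w, h, rfl⟩
        exact ⟨⟨w, rfl⟩, (k2 g w).2 h⟩
    rw [a3, card_map_of_injective hi, H19.card_subgroupOf, inf_comm, MonoidHom.range_eq_map,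
      card_map_of_injective hi, card_top, ← a2, ← MonoidHom.range_eq_map] at a1
    exact Nat.eq_of_mul_eq_mul_left (card_pos _) a1
  have geo : Geo i.range (im ψ G) q fun x y => β x.left y.left := by
    refine ⟨⟨hG.qp, hG.q2, ⟨ab, ?_⟩, le_normalizer_of_normal, ?_, ?_, ?_, ?_, ?_, ?_⟩, eq_bot_iff.2 ?_⟩
    · rintro _ ⟨v, rfl⟩
      rw [← map_pow, show v ^ q = 1 from Subtype.ext (hG.ab.2 v v.2), map_one]
    · rintro _ ⟨v, rfl⟩
      exact hG.one v v.2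
    · rintro _ ⟨v, rfl⟩ _ ⟨w, rfl⟩ _ ⟨x, rfl⟩
      rw [← map_mul]
      exact hG.mul v v.2 w w.2 x x.2
    · rintro _ ⟨v, rfl⟩ _ ⟨w, rfl⟩
      exact hG.symm v v.2 w w.2
    · rintro _ ⟨v, rfl⟩
      exact hG.alt v v.2
    · rintro g hg _ ⟨v, rfl⟩ _ ⟨w, rfl⟩
      obtain ⟨g, hg', rfl⟩ := mem_im.1 hg
      rw [cj', cj']
      exact hG.inv g hg' v v.2 w w.2
    · rintro _ ⟨v, rfl⟩ h
      rw [show v = 1 from Subtype.ext (hG.nd v v.2 fun y hy => h (i ⟨y, hy⟩) ⟨_, rfl⟩), map_one]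
    · rintro g ⟨hg, h⟩
      obtain ⟨g, hg, rfl⟩ := mem_im.1 hg
      exact k1 g (k0 g h)
  have gd : ∀ {m} (t : N(W)), Gd0 W G m t → Gd i.range (im ψ G) m (ψ t) := by
    rintro m t (h | ⟨k, rfl, h⟩)
    · exact Or.inl (by rw [← map_pow]; exact k1 _ h)
    · refine Or.inr ⟨k, rfl, mem_im_of h.mem, ?_, ?_, ?_⟩
      · rw [← map_pow, show t ^ 2 ^ (k + 2) = 1 from Subtype.ext h.ord, map_one]
      · rintro _ ⟨⟨w, rfl⟩, hw⟩
        rw [← map_pow] at hw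
        exact (k2 t w).2 (h.fix ⟨w.2, (k2 _ w).1 hw⟩)
      · rw [← map_pow, cm]; exact h.card
  obtain ⟨R₁, r1, r2⟩ := geo_main geo (im_mono RG) (pR.im ψ) fun e => R1 fun r hr =>
    k0 ⟨r, hG.gn (RG hr)⟩ (by
      rw [mem_bot.1 (e.le (mem_im_of (x := ⟨r, hG.gn (RG hr)⟩) hr))]; exact one_mem _)
  refine ⟨_, pull ψ r1, fun m t t' tG tn h g g' => ⟨pw tn h _, ?_⟩⟩
  have tG' : t' ∈ G := by simpa using mul_mem (RG h) tG
  have := r2 m (ψ ⟨t, hG.gn tG⟩) (ψ ⟨t', hG.gn tG'⟩) (im_norm_le (mem_im_of tn))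
    (by rw [← map_inv, ← map_mul]; exact mem_im_of h) (gd _ g) (gd _ g')
  rw [← map_pow, ← map_pow, ← map_inv, ← map_mul] at this
  exact coe_mem_pre.2 this

section rep
variable {F : Type*} [Field F] {X : Type u} [Group X] [Finite X] {U : Type*} [AddCommGroup U]
  [Module F U] {ρ : X →* End F U} {Q Z : Subgroup X} {l : X → F} {n q : ℕ} {f : F[X]} {g : X}

omit [Finite X] in
theorem geo0 (h : WS ρ Q Z ⊤ l) (hZ : Z ≤ C(Q)) (hq : q.Prime) (q2 : q ≠ 2)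
    (ab : Abelem q (quo h.R Q)) : Geo0 (quo h.R Q) (quo h.R (St Z l ⊓ N(Q))) q
      fun x y => l ⁅(x.out : X), (y.out : X)⁆ := by
  have cz : ∀ {a b}, a ∈ Q → b ∈ Q → ⁅a, b⁆ ∈ Z := fun ha hb => h.der (commutator_mem_commutator ha hb)
  have mr : ∀ {a b c}, a ∈ Q → b ∈ Q → c ∈ Q → l ⁅a, b * c⁆ = l ⁅a, b⁆ * l ⁅a, c⁆ := by
    intro a b c ha hb hc
    rw [← h.wt.mul _ (cz ha hb) _ (cz ha hc)]
    congr 1
    calc ⁅a, b * c⁆ = ⁅a, b⁆ * (b * ⁅a, c⁆) * b⁻¹ := by simp only [commutatorElement_def]; group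
      _ = _ := by rw [H19.mem_cent.1 (hZ (cz ha hc)) b hb]; group
  have sy : ∀ {a b}, a ∈ Q → b ∈ Q → l ⁅a, b⁆ * l ⁅b, a⁆ = 1 := fun {a b} ha hb => by
    rw [← h.wt.mul _ (cz ha hb) _ (cz hb ha), ← commutatorElement_inv a, mul_inv_cancel, h.wt.one]
  have wr : ∀ {a b j}, a ∈ Q → b ∈ Q → j ∈ h.R → l ⁅a, b * j⁆ = l ⁅a, b⁆ := fun {a b j} ha hb hj => by
    have := sy (rad_le _ hj) ha
    rw [(h.mem_R.1 hj).2 a ha, one_mul] at this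
    rw [mr ha hb (rad_le _ hj), this, mul_one]
  have wl : ∀ {a b j}, a ∈ Q → b ∈ Q → j ∈ h.R → l ⁅a * j, b⁆ = l ⁅a, b⁆ := fun {a b j} ha hb hj => by
    have a1 := sy (mul_mem ha (rad_le _ hj)) hb
    rw [wr hb ha hj] at a1
    rw [← mul_one (l ⁅a * j, b⁆), ← sy hb ha, ← mul_assoc, a1, one_mul]
  have wd : ∀ (a b : N(h.R)), (a : X) ∈ Q → (b : X) ∈ Q →
      l ⁅((qmk h.R a).out : X), ((qmk h.R b).out : X)⁆ = l ⁅(a : X), (b : X)⁆ := fun a b ha hb => by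
    obtain ⟨i, hi⟩ := QuotientGroup.mk_out_eq_mul (h.R.subgroupOf N(h.R)) a
    obtain ⟨j, hj⟩ := QuotientGroup.mk_out_eq_mul (h.R.subgroupOf N(h.R)) b
    erw [hi, hj]
    exact (wl ha (mul_mem hb (rad_le h.invW j.2)) i.2).trans (wr ha hb j.2)
  refine ⟨hq, q2, ab, quo_norms inf_le_right, fun x hx => ?_, fun x hx y hy w hw => ?_,
    fun x hx y hy => ?_, fun x hx => ?_, fun g hg x hx y hy => ?_, fun x hx e => ?_⟩
  all_goals obtain ⟨x, hx', rfl⟩ := mem_im.1 hx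
  · rw [← map_one (qmk h.R), wd _ _ hx' (one_mem Q)]
    simpa using h.wt.one
  · obtain ⟨y, hy', rfl⟩ := mem_im.1 hy
    obtain ⟨w, hw', rfl⟩ := mem_im.1 hw
    rw [← map_mul, wd _ _ hx' (mul_mem hy' hw'), wd _ _ hx' hy', wd _ _ hx' hw']
    exact mr hx' hy' hw'
  · obtain ⟨y, hy', rfl⟩ := mem_im.1 hy
    rw [wd _ _ hx' hy', wd _ _ hy' hx']
    exact sy hx' hy'
  · simpa using h.wt.one
  · obtain ⟨y, hy', rfl⟩ := mem_im.1 hy
    obtain ⟨g, hg', rfl⟩ := mem_im.1 hg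
    rw [← map_inv, ← map_mul, ← map_mul, ← map_mul, ← map_mul, wd _ _ hx' hy',
      wd _ _ (conj_mem_of_norm hg'.2 hx') (conj_mem_of_norm hg'.2 hy'),
      ← ((St Z l).inv_mem hg'.1).2 _ (cz hx' hy')]
    congr 1
    simp only [commutatorElement_def, Subgroup.coe_mul, Subgroup.coe_inv]; group
  · refine qmk_eq_one.2 (h.mem_R.2 ⟨hx', fun w hw => ?_⟩)
    rw [← wd x ⟨w, h.norm_R hw⟩ hx' hw]
    exact e _ (mem_im_of hw)

variable [IsAlgClosed F] [FiniteDimensional F U]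

theorem gd_of (hl : WS ρ Q Z ⊤ l) (hF : ((2 : ℕ) : F) = 0) (hQ2 : ¬ 2 ∣ #Q) (h0 : f ≠ 0)
    (hd : f.natDegree < 2 ^ (n + 1)) (hg : g ∈ N(Q)) (hgZ : g ∈ N(Z)) (hn : g ^ 2 ^ (n + 1) = 1)
    (hf : Ann ρ g f ⊤) : ∃ a k, n = a + k ∧ (∀ i : ℕ, g ^ i ∈ St Z l ↔ 2 ^ a ∣ i) ∧
      ∀ hs : g ^ 2 ^ a ∈ N(hl.R),
        Gd0 (quo hl.R Q) (quo hl.R (St Z l ⊓ N(Q))) k (qmk _ ⟨g ^ 2 ^ a, hs⟩) := by
  have hp := Nat.prime_two
  have hcent : ∀ {A x} (hx : x ∈ N(hl.R)), A ≤ Q →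
      (qmk _ ⟨x, hx⟩ ∈ C(quo hl.R A) ↔ ⁅A, zpowers x⁆ ≤ hl.R) := fun hx hA => by
    rw [← quo_cents_iff (hA.trans hl.norm_R) (zpowers_le.2 hx), quo_zpowers hx, cent_zpowers,
      le_cent1_iff]
  obtain ⟨a, k, rfl, a1, a2, a3⟩ := hl.main hp hQ2 hg hgZ (fun _ _ => trivial) hn h0 hf hd
  refine ⟨a, k, rfl, a1, fun hsR => ?_⟩
  obtain ⟨f', b1, b2, b3⟩ := (hf.mono inf_le_left).induce
    (cast_card_ne_zero_of_le hl.card hl.le) hl.wt hgZ (pow_pos two_pos a) a1 h0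
  have b4 : f'.natDegree < 2 ^ (k + 1) := Nat.lt_of_mul_lt_mul_left (a := 2 ^ a)
    (by rw [← pow_add]; exact b2.trans_lt hd)
  have hs := (a1 _).2 dvd_rfl
  have hsQ := pow_mem hg (2 ^ a)
  rw [add_assoc, pow_add, pow_mul] at hn
  rw [pow_add 2 a k, pow_mul] at a2 a3
  generalize g ^ 2 ^ a = s at *
  have hx := pow_mem hsR (2 ^ k)
  have hxQ := zpowers_le.2 (pow_mem hsQ (2 ^ k))
  by_cases hP : ⁅Q, zpowers (s ^ 2 ^ k)⁆ ≤ hl.R
  · exact Or.inl (by rw [← map_pow]; exact (hcent hx le_rfl).2 hP)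
  obtain ⟨c1, c2, -⟩ := a3.resolve_left fun e => hP (hl.le_R_of_le (commg_le_left hxQ) e)
  obtain ⟨k, rfl⟩ : ∃ k', k = k' + 1 := ⟨k - 1, by rcases k with _ | k <;> simp at c2 ⊢⟩
  have c3 := quo_zpowers hx
  have hc : (#Q).Coprime #(zpowers (s ^ 2 ^ (k + 1))) := ((PiN.of_not_dvd hQ2).coprime'
    ((pg_zpowers hp hn).of_le (zpowers_le.2 (npow_mem_zpowers _ _))))
  refine Or.inr ⟨k, rfl, mem_im_of ⟨hs, hsQ⟩, ?_, ?_, ?_⟩
  · rw [← map_pow, show (⟨s, hsR⟩ : N(hl.R)) ^ _ = 1 from Subtype.ext hn, map_one]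
  · rw [← map_pow, ← cent_zpowers]
    erw [← c3]
    rw [quo_inf_cent (zpowers_le.2 hx) hxQ (hc.coprime_dvd_left
      (card_dvd inf_le_right)) (Or.inl (sol_zpowers _)), le_cent1_iff, hcent _ inf_le_left,
      cent_zpowers]
    exact hl.cent_fix hp hF hQ2 hsQ hs hn b1 b3 b4 a2 hP
  · rw [← card_quo (commg_le_of_le hl.norm_R (zpowers_le.2 hx)),
      quo_comm hl.norm_R (zpowers_le.2 hx), c3] at c1
    rw [← map_pow]; exact c1

/-- the `2 ^ n`-th power map does not generate -/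
def Good (X : Type*) [Group X] (n : ℕ) : Prop :=
  ∀ K R B : Subgroup X, PiG {2}ᶜ K → PG 2 R → B ≤ N(K) → R ⊴ B → ¬ R ≤ C(K) →
    ∃ R₁ < R, ∀ y ∈ B, PiE {2} y → ∀ r ∈ R, (r * y) ^ 2 ^ n * (y ^ 2 ^ n)⁻¹ ∈ R₁

theorem good_closed (hρ : ρ.ker = ⊥) (hF : ((2 : ℕ) : F) = 0) (h0 : f ≠ 0)
    (hd : f.natDegree < 2 ^ (n + 1))
    (h : ∀ g, PiE {2} g → g ^ 2 ^ (n + 1) = 1 ∧ aeval (ρ g) f = 0) : Good X n := by
  intro K R B hK hR bk rb hn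
  have hp := Nat.prime_two
  obtain ⟨Q, QK, hQ⟩ := exists_minAct bk rb.le rb.norm (hK.coprime' hR)
    (H20.sol_of_odd (Nat.coprime_two_right.1 (hK.coprime_prime hp))) hn
  have hQ2 : ¬ 2 ∣ #Q := (hK.of_le QK).not_dvd hp rfl
  have hQ0 : (#Q : F) ≠ 0 := by
    obtain ⟨j, hj⟩ := Nat.not_even_iff_odd.1 (mt even_iff_two_dvd.1 hQ2)
    rw [hj, Nat.cast_add, Nat.cast_mul, hF, zero_mul, zero_add, Nat.cast_one]; exact one_ne_zero
  have hf : ∀ g, PiE {2} g → Ann ρ g f ⊤ := fun g hg v _ => by rw [(h g hg).2]; rfl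
  have p2 : ∀ {y r}, y ∈ B → PiE {2} y → r ∈ R → PiE {2} (r * y) := fun hy y2 hr =>
    (hR.sup (piG_zpowers.2 y2) (zpowers_le.2 (rb.norm hy))).elt (mul_mem_sup hr (mem_zpowers _))
  have pw' : ∀ {y r}, y ∈ B → r ∈ R → ∀ i : ℕ, (r * y) ^ i * (y ^ i)⁻¹ ∈ R := fun hy hr =>
    pw (rb.norm hy) (by simpa using hr)
  by_cases hab : Ab Q
  · have c : ∀ g ∈ B, PiE {2} g → g ^ 2 ^ n ∈ C(Q) := fun g hg g2 =>
      zpowers_le.1 (cents_symm (commg_eq_bot.1 (le_bot_iff.1 (((hf g g2).abelian hp hQ0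
        (hQ.norm hg) (h g g2).1 RInv.top ((comm_iff_der.1 hab).le.trans bot_le) h0 hd).trans
        (stabS_top hρ).le))))
    exact ⟨R ⊓ C(Q), lt_of_le_of_ne inf_le_left fun e => hQ.not_cent (inf_eq_left.1 e),
      fun y hy y2 r hr => ⟨pw' hy hr _, Subgroup.mul_mem _ (c _ (mul_mem (rb.le hr) hy) (p2 hy y2 hr))
        (Subgroup.inv_mem _ (c y hy y2))⟩⟩
  obtain ⟨l, nw, e⟩ := exists_nw hρ hQ0 hQ
  have hl := nw.ws
  replace e : ¬ Q ≤ hl.R := e.resolve_left hab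
  have hZ := hQ.norm.trans (norm_le_norm_center Q)
  have RS : R ≤ St Z(Q) l := fun g hg => ⟨hZ (rb.le hg), fun a ha => by
    rw [mul_assoc, H19.mem_cent.1 (hQ.cent_center hab hg) a ha, inv_mul_cancel_left]⟩
  have RG : R ≤ St Z(Q) l ⊓ N(Q) := le_inf RS (rb.le.trans hQ.norm)
  have hL : St Z(Q) l ⊓ N(Q) ≤ N(hl.R) := hl.st_norm_R inf_le_right inf_le_left
  obtain ⟨q, hq, pq⟩ := hQ.pg
  obtain ⟨R₁, r1, r2⟩ := geo_nf (geo0 hl inf_le_right hq (by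
      rintro rfl; exact hQ2 (pq.dvd_of_ne_bot fun e => hab (e ▸ comm_bot)))
    (hQ.abelem hq pq hl.le_R hl.norm_R)) (quo_mono _ RG) (hR.quo _) fun hc => e (hQ.comm.ge.trans
      ((commutator_comm _ _).le.trans ((quo_cents_iff (RG.trans hL) hl.norm_R).1 hc)))
  refine ⟨_, pull _ r1, fun y hy y2 r hr => ⟨pw' hy hr _, ?_⟩⟩
  have hy' := mul_mem (rb.le hr) hy
  obtain ⟨a, k, e1, a1, a2⟩ := gd_of hl hF hQ2 h0 hd (hQ.norm hy) (hZ hy) (h y y2).1 (hf y y2)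
  obtain ⟨a', k', e2, b1, b2⟩ := gd_of hl hF hQ2 h0 hd (hQ.norm hy') (hZ hy')
    (h _ (p2 hy y2 hr)).1 (hf _ (p2 hy y2 hr))
  have iff : ∀ i : ℕ, 2 ^ a ∣ i ↔ 2 ^ a' ∣ i := fun i => by
    rw [← a1, ← b1, ← mul_mem_cancel_left (RS (pw' hy hr i)), inv_mul_cancel_right]
  obtain rfl : a = a' := Nat.pow_right_injective le_rfl
    (Nat.dvd_antisymm ((iff _).2 dvd_rfl) ((iff _).1 dvd_rfl))
  obtain rfl : k = k' := by omega
  have m1 : y ^ 2 ^ a ∈ St Z(Q) l ⊓ N(Q) := ⟨(a1 _).2 dvd_rfl, pow_mem (hQ.norm hy) _⟩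
  have m2 : (r * y) ^ 2 ^ a ∈ St Z(Q) l ⊓ N(Q) := ⟨(b1 _).2 dvd_rfl, pow_mem (hQ.norm hy') _⟩
  have := r2 k _ _ (mem_im_of m1) (im_norm_le (mem_im_of (pow_mem (rb.norm hy) _)))
    (by rw [← map_inv, ← map_mul]; exact mem_im_of (pw' hy hr _)) (a2 (hL m1)) (b2 (hL m2))
  rw [← map_pow, ← map_pow, ← map_inv, ← map_mul] at this
  rw [e1, pow_add, pow_mul, pow_mul]
  exact coe_mem_pre.2 this

end rep

end H4.EL
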