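import Cfsg.Agent.H4.EL3
import Cfsg.Agent.H4.DL4

/-!
2-length and exponent, part 4: the induction.
-/

set_option autoImplicit false

namespace H4.EL
open Cfsg Subgroup H19 H10.HH H4.DL Module Polynomial
open scoped commutatorElement

universe u

theorem good_quo {X : Type u} [Group X] [Finite X] {V C : Subgroup X} [V.Normal] [C.Normal] {n : ℕ}
    (hC : C = C(V)) (hV : Abelem 2 V)
    (h0 : ∀ y, PiE {2} y → ∀ v ∈ V, (v * y) ^ 2 ^ (n + 1) = y ^ 2 ^ (n + 1)) : Good (X ⧸ C) n := by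
  have e1 := fun g : X => H9.EA.rep_eq_one_iff hV (H := ⊤) le_normalizer_of_normal ⟨g, trivial⟩
  let ρ : X ⧸ C →* End (ZMod 2) (H9.EA hV) :=
    QuotientGroup.lift C ((H9.EA.rep hV (H := ⊤) le_normalizer_of_normal).comp
      (topEquiv (G := X)).symm.toMonoidHom) fun g hg => (e1 g).2 (hC.le hg)
  have val : ∀ (g : X) x, (ρ g x).val = g * x.val * g⁻¹ := fun _ _ => rfl
  have ker : ρ.ker = ⊥ := eq_bot_iff.2 fun x hx => by
    obtain ⟨x, rfl⟩ := QuotientGroup.mk_surjective x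
    exact (QuotientGroup.eq_one_iff _).2 (hC.ge ((e1 x).1 hx))
  have mp : ∀ (g : X) (x : H9.EA hV) (m : ℕ), (x.val * g) ^ m =
      (aeval (ρ g) (∑ i ∈ Finset.range m, Polynomial.X ^ i : (ZMod 2)[X]) x).val * g ^ m := by
    intro g x m
    induction m with
    | zero => simp [H9.EA.val_zero]
    | succ m ih =>
      rw [geom_sum_succ, map_add, map_mul, aeval_X, map_one, LinearMap.add_apply,
        add_comm _ ((1 : End _ _) x), H9.EA.val_add, End.mul_apply, val, _root_.pow_succ', ih,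
        End.one_apply]
      group
  refine good_closed (bc_ker.trans ker) (CharP.cast_eq_zero _ 2)
    (Polynomial.map_ne_zero (f := algebraMap (ZMod 2) _) (gs_ne (n + 1)))
    (by rw [natDegree_map]; exact gs_deg _) fun g hg => ?_
  obtain ⟨P, hP, e⟩ := lift_pg (QuotientGroup.mk'_surjective C) (piG_zpowers.2 hg)
  obtain ⟨g, h1, rfl⟩ := e.ge (mem_zpowers g)
  have z : aeval (ρ g) (∑ i ∈ Finset.range (2 ^ (n + 1)), Polynomial.X ^ i : (ZMod 2)[X]) = 0 :=
    LinearMap.ext fun x => H9.EA.ext (by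
      have := mp g x (2 ^ (n + 1))
      rw [h0 g (hP.elt h1) _ x.val_mem, eq_comm, mul_eq_right] at this
      exact this)
  refine ⟨?_, bc_aeval z⟩
  have := geom_sum_mul (ρ g) (2 ^ (n + 1))
  simp only [map_sum, map_pow, aeval_X] at z
  rw [z, zero_mul, eq_comm, sub_eq_zero, ← map_pow, ← MonoidHom.mem_ker, ker] at this
  exact this

/-- the module statement -/
def StA (k : ℕ) : Prop :=
  ∀ (X : Type u) [Group X] [Finite X] (V C : Subgroup X) [V.Normal] [C.Normal], C = C(V) →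
    IsPSolvable 2 X → Abelem 2 V → pCore 2 (X ⧸ C) = ⊥ →
    (∀ y, PiE {2} y → ∀ v ∈ V, (v * y) ^ 2 ^ (k + 1) = y ^ 2 ^ (k + 1)) → PLengthLE 2 k (X ⧸ C)

theorem stA_zero : StA.{u} 0 := by
  intro X _ _ V C _ _ hC _ hV _ h0
  refine plength_zero fun T hT => ?_
  obtain ⟨P, hP, rfl⟩ := lift_pg (QuotientGroup.mk'_surjective C) hT
  rw [H1.map_mk'_eq_bot_iff, hC]
  refine fun y hy => H19.mem_cent.2 fun v hv => ?_
  have a := h0 y (hP.elt hy) v hv
  have b := hV.2 v hv
  rw [zero_add, pow_one, sq, sq, ← mul_assoc] at a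
  rw [sq] at b
  calc v * y = v * (v * y * v) := by rw [mul_right_cancel a]
    _ = _ := by rw [← mul_assoc, ← mul_assoc, b, one_mul]

theorem down {k n : ℕ} (ih : StA.{u} k) {X : Type u} [Group X] [Finite X] (hs : IsPSolvable 2 X)
    (hO : pCore 2 X = ⊥) (hg : Good X (k + 1)) (hk : k ≤ n) (h : PLengthLE 2 (n + 2) X) :
    PLengthLE 2 (n + 1) X := by
  set K := pPrimeCore 2 X with hK
  have KO : K ≤ pPrimePCore 2 X := H4.DL.core_le
  have oddK : PiG {2}ᶜ K := PiN.of_coprime H1.pPrimeCore_coprime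
  obtain ⟨Y, YO, hY⟩ := exists_minimal_le_of_wellFoundedLT
    (fun N : Subgroup X => K ≤ N ∧ ∃ _ : N.Normal, PLengthLE 2 (n + 1) (X ⧸ N)) (pPrimePCore 2 X)
    ⟨KO, inferInstance, H1.pLengthLE_succ_iff.1 h⟩
  obtain ⟨KY, _, plY⟩ := hY.prop
  by_cases e : Y = K
  · subst e
    exact (H1.pLengthLE_quotient_iff _ H1.pPrimeCore_coprime).1 plY
  exfalso
  obtain ⟨R, hR⟩ := exists_syl 2 Y
  have YKR : K ⊔ R = Y := hR.sup_eq KY (PiN.dvd two_relIndex (relIndex_dvd_right KY YO))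
  have KU : K ⊔ N(R) = ⊤ := by
    have := hR.frattini (M := ⊤) normalIn_top
    rwa [top_inf_eq, ← YKR, sup_assoc, sup_eq_right.2 le_normalizer] at this
  obtain ⟨R₁, r1, r2⟩ := hg K R N(R) oddK hR.pi le_normalizer_of_normal (normalIn_norm R)
    fun hc => e (by
      rw [← YKR, sup_eq_left]
      exact hc.trans (H1.centralizer_pPrimeCore_le_of_isPSolvable hs hO))
  set A := closure {x | ∃ y ∈ N(R), PiE {2} y ∧ ∃ r ∈ R, x = (r * y) ^ 2 ^ (k + 1) * (y ^ 2 ^ (k + 1))⁻¹}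
    with hA
  have AR : A ≤ R₁ := (closure_le _).2 (by rintro _ ⟨y, hy, y2, r, hr, rfl⟩; exact r2 y hy y2 r hr)
  have UA : N(R) ≤ N(A) := fun g hg => mem_norm_of_cj_le (cj_le_iff.2 ((closure_le _).2 (by
    rintro _ ⟨y, hy, y2, r, hr, rfl⟩
    refine mem_cj_inv.2 (subset_closure ⟨g * y * g⁻¹, mul_mem (mul_mem hg hy) (inv_mem hg), y2.e_conj g,
      g * r * g⁻¹, conj_mem_of_norm hg hr, ?_⟩)
    rw [show g * r * g⁻¹ * (g * y * g⁻¹) = g * (r * y) * g⁻¹ by group, conj_pow, conj_pow]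
    group)))
  have n0 : (K ⊔ A).Normal := NormalIn.normal ⟨le_top, KU.ge.trans (sup_le (norms_of_le le_sup_left)
    (norms_sup le_normalizer_of_normal UA))⟩
  have l0 : K ⊔ A < Y := lt_of_le_of_ne (sup_le KY (AR.trans (r1.le.trans hR.le))) fun e' => by
    have := sup_inf_modr (A := K) (B := A) (H := R) le_normalizer_of_normal (AR.trans r1.le)
    rw [e', inf_eq_right.2 hR.le, oddK.inf_eq_bot' hR.pi, bot_sup_eq] at this
    exact r1.not_ge (this.le.trans AR)
  obtain ⟨Y₁, y1, hY₁⟩ := exists_maximal_ge_of_wellFoundedGT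
    (fun N : Subgroup X => N.Normal ∧ N < Y) (K ⊔ A) ⟨n0, l0⟩
  obtain ⟨_, y2⟩ := hY₁.prop
  refine y2.not_ge (hY.le_of_le ⟨le_sup_left.trans y1, inferInstance, ?_⟩ y2.le)
  let f := QuotientGroup.mk' Y₁
  have hf : Function.Surjective f := QuotientGroup.mk'_surjective Y₁
  haveI : (Y.map f).Normal := Normal.map inferInstance f hf
  have eW : Y.map f = R.map f := by
    rw [← YKR, Subgroup.map_sup, (H1.map_mk'_eq_bot_iff).2 (le_sup_left.trans y1), bot_sup_eq]
  have pW : PG 2 (Y.map f) := eW ▸ pg_map hR.pi f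
  have W0 : Y.map f ≠ ⊥ := fun e' => y2.not_ge (H1.map_mk'_eq_bot_iff.1 e')
  have hmin : ∀ M : Subgroup (X ⧸ Y₁), M.Normal → M ≤ Y.map f → M = ⊥ ∨ M = Y.map f := by
    intro M _ hM
    have l1 : M.comap f ≤ Y := by
      refine (comap_mono hM).trans ?_
      rw [H1.comap_map_mk', sup_eq_left.2 y2.le]
    have l2 : Y₁ ≤ M.comap f := by
      conv_lhs => rw [← QuotientGroup.ker_mk' Y₁]
      exact ker_le_comap _ _
    rw [← map_comap_eq_self_of_surjective hf M]
    rcases l1.eq_or_lt with h1 | h1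
    · exact Or.inr (by rw [h1])
    · exact Or.inl (H1.map_mk'_eq_bot_iff.2 (hY₁.le_of_ge ⟨inferInstance, h1⟩ l2))
  obtain ⟨ab, q, hq, hq'⟩ := H1.elementary_of_minimal_normal _ W0 pW.sol hmin
  obtain rfl : q = 2 := pW.eq_of_dvd hq ((pg_of_pow hq hq').dvd_of_ne_bot W0)
  refine pl_ext (W := Y.map f) rfl pW
    (pl_of_ker (QuotientGroup.mk' Y) (f := (QuotientGroup.mk' (Y.map f)).comp f)
      ((QuotientGroup.mk'_surjective _).comp hf) ?_ plY)
    (H1.pLengthLE_mono (ih _ (Y.map f) _ rfl (H1.isPSolvable_quotient hs _) ⟨ab, hq'⟩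
      (core_of_min rfl pW hmin) fun y y2 v hv => ?_) hk)
  · rw [← MonoidHom.comap_ker, QuotientGroup.ker_mk', QuotientGroup.ker_mk']
    exact le_comap_map _ _
  · have hf' : Function.Surjective (f.comp (N(R)).subtype) := by
      rw [← MonoidHom.range_eq_top, MonoidHom.range_comp, range_subtype, eq_top_iff,
        ← map_top_of_surjective f hf, ← KU, Subgroup.map_sup,
        (H1.map_mk'_eq_bot_iff).2 (le_sup_left.trans y1), bot_sup_eq]
    obtain ⟨P, hP, e⟩ := lift_pg hf' (piG_zpowers.2 y2)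
    obtain ⟨y, hy, rfl⟩ := e.ge (mem_zpowers y)
    obtain ⟨r, hr, rfl⟩ := eW.le hv
    rw [← mul_inv_eq_one, MonoidHom.comp_apply, ← map_mul, ← map_pow, ← map_pow, ← map_inv, ← map_mul]
    exact (QuotientGroup.eq_one_iff _).2 (y1 (mem_sup_right (subset_closure
      ⟨y, y.2, (pg_map hP (N(R)).subtype).elt ⟨y, hy, rfl⟩, r, hr, rfl⟩)))

theorem stA (k : ℕ) : StA.{u} k := by
  induction k with
  | zero => exact stA_zero
  | succ k ih =>
    intro X _ _ V C _ _ hC hs hV hO h0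
    have hs' := H1.isPSolvable_quotient hs C
    have hg := good_quo hC hV h0
    obtain ⟨n, hn⟩ := H1.isPSolvable_iff_exists_pLengthLE.1 hs'
    have : ∀ m, PLengthLE 2 (k + m + 1) (X ⧸ C) → PLengthLE 2 (k + 1) (X ⧸ C) := by
      intro m
      induction m with
      | zero => exact id
      | succ m ihm => exact fun h => ihm (down ih hs' hO hg (by omega) h)
    exact this n (H1.pLengthLE_mono hn (by omega))

/-- the `2`-length is at most the exponent of a Sylow `2`-subgroup -/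
theorem plength_of_exp_two {G : Type u} [Group G] [Finite G] {d : ℕ} (hs : IsPSolvable 2 G)
    (he : ExpP 2 d G) : PLengthLE 2 d G := by
  rcases d with _ | k
  · exact he.zero
  obtain ⟨G', _, _, π, V, _, hπ, h, e⟩ := exists_red hs
  rw [H1.pLengthLE_succ_iff]
  refine pl_of_ker ((QuotientGroup.mk' V).comp π) (QuotientGroup.mk'_surjective _) ?_
    (stA k G' V V (le_antisymm (comm_iff_le_cent.1 h.ab.1) h.cent) h.ps h.ab h.core_quo
      fun y hy v hv => ?_)
  · rw [← MonoidHom.comap_ker, QuotientGroup.ker_mk', QuotientGroup.ker_mk', e]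
  · have := he.map hπ _ (h.pg_sup (piG_zpowers.2 hy))
    rw [this _ (mul_mem_sup hv (mem_zpowers y)), this _ (mem_sup_right (mem_zpowers y))]

end H4.EL
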