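import Cfsg.Agent.H4.Hy6
import Cfsg.Agent.H23.BinPSL
import Cfsg.Agent.H11.SylSL2

/-!
# Facts on `PSL₂(3^(2f+1))`
-/

set_option autoImplicit false

namespace H4.Hp

open Subgroup hiding pi
open H19 H23.S2
open scoped MatrixGroups

variable {K : Type*} [Field K]

theorem u_mul (a b : K) : u a * u b = u (a + b) := by simp only [u, m_mul, m_inj]; grind
theorem u_zero : u (0 : K) = 1 := m_one.symm
theorem u_inv (a : K) : (u a)⁻¹ = u (-a) := by simp only [u, m_inv, m_inj]; grind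

variable (K) in
def S0 : Subgroup PSL(2, K) := Subgroup.ofDiv {g | ∃ a, pi K (u a) = g} ⟨1, 0, by rw [u_zero, map_one]⟩ (by
  rintro _ ⟨a, rfl⟩ _ ⟨b, rfl⟩; exact ⟨a + -b, by rw [← map_inv, ← map_mul, u_inv, u_mul]⟩)

theorem mem_S0 {g : PSL(2, K)} : g ∈ S0 K ↔ ∃ a, pi K (u a) = g := Iff.rfl

def lo (c : K) : SL(2, K) := m 1 0 c 1 (by simp)

variable (h3 : (3 : K) = 0)
include h3

theorem two_ne : (2 : K) ≠ 0 := fun h => one_ne_zero (by linear_combination h3 - h)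

theorem pu_inj {a b : K} (h : pi K (u a) = pi K (u b)) : a = b := by
  have := two_ne h3
  simp only [pi_eq, u, m_neg, m_inj] at h; grind

theorem c1 {a : K} (ha : a ≠ 0) : C[pi K (u a)] ≤ S0 K := fun y hy => by
  have := two_ne h3
  obtain ⟨A, rfl⟩ := pi_surj y
  obtain ⟨p, q, r, s, e, rfl⟩ := m_surj A
  simp only [mem_cent1, ← map_mul, pi_eq, u, m_neg, m_mul, m_inj] at hy
  have h1 : r = 0 := by grind
  have h2 : s = p := by grind
  subst h1 h2
  rcases mul_self_eq_one_iff.1 (by simpa using e) with rfl | rfl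
  · exact ⟨q, rfl⟩
  · exact ⟨-q, by simp only [pi_eq, u, m_neg, m_inj]; grind⟩

theorem c1' {a : K} (ha : a ≠ 0) {y : PSL(2, K)} (hy : y ∈ C[pi K (lo a)]) : ∃ c, pi K (lo c) = y := by
  have := two_ne h3
  obtain ⟨A, rfl⟩ := pi_surj y
  obtain ⟨p, q, r, s, e, rfl⟩ := m_surj A
  simp only [mem_cent1, ← map_mul, pi_eq, lo, m_neg, m_mul, m_inj] at hy
  have h1 : q = 0 := by grind
  have h2 : s = p := by grind
  subst h1 h2
  rcases mul_self_eq_one_iff.1 (by simpa using e) with rfl | rfl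
  · exact ⟨r, rfl⟩
  · exact ⟨-r, by simp only [pi_eq, lo, m_neg, m_inj]; grind⟩

theorem nab : pi K (u 1) * pi K (lo 1) ≠ pi K (lo 1) * pi K (u 1) := by
  have := two_ne h3
  simp only [Ne, ← map_mul, pi_eq, lo, u, m_neg, m_mul, m_inj]; grind

omit h3 in
theorem mem_norm_S0 [Finite K] {A : SL(2, K)} (h : A 1 0 = 0) : pi K A ∈ N(S0 K) := mem_norm_of_cj_le fun _ k => by
  obtain ⟨_, ⟨a, rfl⟩, rfl⟩ := mem_cj'.1 k
  obtain ⟨p, q, r, s, e, rfl⟩ := m_surj A
  obtain rfl : r = 0 := h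
  exact ⟨p * p * a, by simp only [← map_inv, ← map_mul, pi_eq, u, m_inv, m_mul, m_inj]; grind⟩

omit h3 in
theorem gen [Finite K] {H : Subgroup PSL(2, K)} (h1 : S0 K ≤ H) (h2 : ¬ H ≤ N(S0 K)) : H = ⊤ := by
  obtain ⟨y, hy, k⟩ := SetLike.not_le_iff_exists.1 h2
  obtain ⟨A, rfl⟩ := pi_surj y
  rw [← map_comap_eq_self_of_surjective pi_surj H, eq_top_of (K := H.comap (pi K)) (fun t => h1 ⟨t, rfl⟩) hy
    fun e => k (mem_norm_S0 e), map_top_of_surjective _ pi_surj]

theorem inv_tr {A : SL(2, K)} (h : pi K A * pi K A = 1) (h1 : pi K A ≠ 1) : tr A = 0 := by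
  obtain ⟨a, b, c, e, k⟩ := lift_invol (two_ne h3) h1 h
  rcases pi_eq.1 k with rfl | rfl <;> simp [m_neg]

theorem aut (σ : PSL(2, K) ≃* PSL(2, K)) (h : ∀ s ∈ S0 K, σ s = s) : ∃ a ∈ S0 K, ∀ x, σ x = a * x * a⁻¹ := by
  have h2 := two_ne h3
  have k1 : ∀ (τ : PSL(2, K) ≃* PSL(2, K)), (∀ s ∈ S0 K, τ s = s) → ∀ {c : K} {A}, c ≠ 0 → τ (pi K (lo c)) = pi K A →
      tr (u c⁻¹ * A) = 0 := fun τ h c A hc e => by
    have e1 : pi K (u c⁻¹ * A) = τ (pi K (u c⁻¹ * lo c)) := by rw [map_mul, map_mul, map_mul, e, h _ ⟨_, rfl⟩]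
    refine inv_tr h3 ?_ ?_ <;> rw [e1]
    · rw [← map_mul, ← map_mul, map_eq_one_iff _ τ.injective]
      simp only [pi_eq_one, lo, u, m_one, m_neg, m_mul, m_inj]; grind
    · rw [Ne, map_eq_one_iff _ τ.injective]
      simp only [pi_eq_one, lo, u, m_one, m_neg, m_mul, m_inj]; grind
  obtain ⟨A, hA⟩ := pi_surj (σ (pi K (lo 1)))
  have e3 : pi K (A * A * A) = 1 := by
    rw [map_mul, map_mul, hA, ← map_mul, ← map_mul, ← map_mul, ← map_mul, map_eq_one_iff _ σ.injective]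
    simp only [pi_eq_one, lo, m_one, m_neg, m_mul, m_inj]; grind
  have e4 : pi K A ≠ 1 := by
    rw [hA, Ne, map_eq_one_iff _ σ.injective]
    simp only [pi_eq_one, lo, m_one, m_neg, m_inj]; grind
  obtain ⟨B, hB, e5⟩ : ∃ B, pi K B = σ (pi K (lo 1)) ∧ tr B = 2 := by
    obtain ⟨p, q, r, s, e, rfl⟩ := m_surj A
    simp only [Ne, pi_eq_one, m_one, m_neg, m_mul, m_inj] at e3 e4
    have : (p + s - 2) * (p + s + 2) = 0 := by
      by_contra n
      have hq : q = 0 := by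
        refine mul_left_cancel₀ n ?_
        rcases e3 with e3 | e3 <;> linear_combination e3.2.1 + q * e - q * h3
      have hr : r = 0 := by
        refine mul_left_cancel₀ n ?_
        rcases e3 with e3 | e3 <;> linear_combination e3.2.2.1 + r * e - r * h3
      have hp : p = s := by
        refine mul_left_cancel₀ n ?_
        rcases e3 with e3 | e3 <;> linear_combination e3.1 - e3.2.2.2 + (p - s) * e - (p - s) * h3
      subst hq hr hp
      rcases mul_self_eq_one_iff.1 (by simpa using e) with rfl | rfl <;> simp at e4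
    rcases mul_eq_zero.1 this with k | k
    · exact ⟨_, hA, by simpa [sub_eq_zero] using k⟩
    · exact ⟨-m p q r s e, (pi_eq.2 (.inr rfl)).trans hA, by rw [m_neg, tr_m]; linear_combination -k⟩
  have e6 := k1 σ h one_ne_zero hB.symm
  obtain ⟨p, q, r, s, e, rfl⟩ := m_surj B
  simp only [u, m_mul, tr_m] at e5 e6
  have e7 : m p q r s e = u (p - 1) * lo 1 * (u (p - 1))⁻¹ := by
    simp only [u, lo, m_mul, m_inv, m_inj]; grind
  let τ := σ.trans (MulAut.conj (pi K (u (p - 1)))⁻¹)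
  have t1 : ∀ s ∈ S0 K, τ s = s := by
    rintro _ ⟨a, rfl⟩
    simp only [τ, MulEquiv.trans_apply, h _ ⟨a, rfl⟩, MulAut.conj_apply, ← map_inv, ← map_mul, u_inv, u_mul]
    congr 2; ring
  have t2 : τ (pi K (lo 1)) = pi K (lo 1) := by
    simp only [τ, MulEquiv.trans_apply, ← hB, MulAut.conj_apply]
    rw [e7, map_mul, map_mul, map_inv]; group
  have t3 : ∀ c, τ (pi K (lo c)) = pi K (lo c) := fun c => by
    by_cases hc : c = 0
    · rw [hc, show lo (0 : K) = 1 from m_one.symm, map_one, map_one]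
    obtain ⟨c', e⟩ := c1' h3 one_ne_zero (y := τ (pi K (lo c))) (by
      rw [mem_cent1, ← t2, ← map_mul, ← map_mul, ← map_mul, ← map_mul]; congr 2
      simp only [lo, m_mul, m_inj]; grind)
    have := k1 τ t1 hc e.symm
    simp only [u, lo, m_mul, tr_m] at this
    rw [← e]; congr 2; grind
  have t4 := eq_top_of (K := (τ.toMonoidHom.eqLocus (MonoidHom.id _)).comap (pi K)) (fun t => t1 _ ⟨t, rfl⟩)
    (g := lo 1) t2 one_ne_zero
  refine ⟨_, ⟨p - 1, rfl⟩, fun x => ?_⟩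
  obtain ⟨X, rfl⟩ := pi_surj x
  have : τ (pi K X) = pi K X := t4.ge (mem_top X)
  simp only [τ, MulEquiv.trans_apply, MulAut.conj_apply] at this
  calc _ = pi K (u (p - 1)) * ((pi K (u (p - 1)))⁻¹ * σ (pi K X) * (pi K (u (p - 1)))⁻¹⁻¹) * (pi K (u (p - 1)))⁻¹ := by
        group
    _ = _ := by rw [this]

variable [Finite K]

omit h3 in
theorem c2 (hq : Nat.card K % 4 = 3) {a b : K} (ha : a ≠ 0) (hb : b ≠ 0) :
    ∃ g, g * pi K (u a) * g⁻¹ = pi K (u b) ∨ g * pi K (u a) * g⁻¹ = (pi K (u b))⁻¹ := by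
  have k : ∀ {e : K} (he : e ≠ 0), pi K (m e 0 0 e⁻¹ (by simp [he])) * pi K (u a) * (pi K (m e 0 0 e⁻¹ (by simp [he])))⁻¹
      = pi K (u (e * e * a)) := fun he => by
    simp only [← map_inv, ← map_mul, pi_eq, u, m_inv, m_mul, m_inj]; grind
  rcases Hy.sq_or_neg hq (b / a) with ⟨e, he⟩ | ⟨e, he⟩
  all_goals have e0 : e ≠ 0 := by rintro rfl; simp [ha, hb] at he
  · exact ⟨_, .inl (by rw [k e0, ← he, div_mul_cancel₀ _ ha])⟩
  · exact ⟨_, .inr (by rw [k e0, ← he, ← map_inv, u_inv, neg_mul, div_mul_cancel₀ _ ha])⟩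

theorem syl_S0 : Syl 3 (S0 K) ⊤ := by
  have := Fintype.ofFinite K
  have : CharP K 3 := (CharP.charP_iff_prime_eq_zero Nat.prime_three).2 (by simpa using h3)
  have c : #(S0 K) = Nat.card K := Hy.card_of_param (fun a => pi K (u a)) (fun _ _ => pu_inj h3) fun _ => mem_S0
  refine syl_mk le_top (by simpa [PG, PiG, c] using Hy.pq (F := K) 3 1) fun k => Hy.not_dvd_q (F := K) 3 two_pos ?_
  have e1 := card_mul_relIndex (le_top (a := S0 K))
  have e2 := H11.card_psl_two (F := K)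
  rw [card_top, c] at e1
  rw [← e1, ← Nat.card_eq_fintype_card, mul_left_comm] at e2
  exact Nat.eq_of_mul_eq_mul_left Nat.card_pos e2 ▸ k.mul_left _

theorem four (hq : Nat.card K % 8 = 3) : ∃ V : Subgroup PSL(2, K), Syl 2 V ⊤ ∧ C(V) ≤ V ∧ V ≠ ⊥ ∧ ∀ v ∈ V, v * v = 1 := by
  have := Fintype.ofFinite K
  have h2 := two_ne h3
  let i : SL(2, K) := m 0 1 (-1) 0 (by simp)
  let j : SL(2, K) := m 1 1 1 (-1) (by linear_combination -h3)
  have e1 : pi K i ^ 2 = 1 := by simp only [sq, i, ← map_mul, pi_eq_one, m_one, m_neg, m_mul, m_inj]; grind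
  have e2 : pi K j ^ 2 = 1 := by simp only [sq, j, ← map_mul, pi_eq_one, m_one, m_neg, m_mul, m_inj]; grind
  have e3 : pi K i * pi K j = pi K j * pi K i := by
    simp only [i, j, ← map_mul, pi_eq, m_neg, m_mul, m_inj]; grind
  obtain ⟨V, hV, k⟩ := (abelem_pg Nat.prime_two (abelem_sup (abelem_zpowers e1) (abelem_zpowers e2)
    (by rw [cent_zpowers, zpowers_le]; exact mem_cent1.2 e3))).exists_syl le_top
  have hi : pi K i ∈ V := k (mem_sup_left (mem_zpowers _))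
  have hj : pi K j ∈ V := k (mem_sup_right (mem_zpowers _))
  obtain ⟨P, rfl⟩ := hV.exists_sylow_top
  have := H11.sylow_two_psl2_kleinFour (.inl (Nat.card_eq_fintype_card (α := K) ▸ hq)) P
  refine ⟨_, hV, fun y hy => ?_, ne_bot_of_mem hi ?_, fun v hv => congrArg Subtype.val
    (IsKleinFour.mul_self (⟨v, hv⟩ : (P : Subgroup PSL(2, K))))⟩
  · have k1 := hy _ hi
    have k2 := hy _ hj
    obtain ⟨A, rfl⟩ := pi_surj y
    obtain ⟨p, q, r, s, e, rfl⟩ := m_surj A
    simp only [i, j, ← map_mul, pi_eq, m_neg, m_mul, m_inj] at k1 k2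
    have k : ∀ {B}, pi K B ∈ (P : Subgroup _) → m p q r s e = B ∨ m p q r s e = -B → pi K (m p q r s e) ∈ (P : Subgroup _) :=
      fun h k => pi_eq.2 k ▸ h
    rcases k1 with k1 | k1 <;> rcases k2 with k2 | k2
    · refine k (B := 1) (by rw [map_one]; exact one_mem _) ?_
      have : p = 1 ∨ p = -1 := mul_self_eq_one_iff.1 (by grind)
      simp only [m_one, m_neg, m_inj]; grind
    · refine k hi ?_
      have : q = 1 ∨ q = -1 := mul_self_eq_one_iff.1 (by grind)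
      simp only [i, m_neg, m_inj]; grind
    · refine k hj ?_
      have : p = 1 ∨ p = -1 := mul_self_eq_one_iff.1 (by grind)
      simp only [j, m_neg, m_inj]; grind
    · refine k (B := i * j) (by rw [map_mul]; exact mul_mem hi hj) ?_
      have : p = 1 ∨ p = -1 := mul_self_eq_one_iff.1 (by grind)
      simp only [i, j, m_mul, m_neg, m_inj]; grind
  · simp only [Ne, i, pi_eq_one, m_one, m_neg, m_inj]; grind

end H4.Hp
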