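import Cfsg.Agent.H4.Hy2
import Cfsg.Agent.H11.PrSp

/-!
# `Sp₄(q)` as an amalgam of the Jacobi group and the Levi factor of the Siegel parabolic
-/

set_option autoImplicit false

namespace H4.Hy

open Subgroup Matrix H14 H14.RootSys H13.SL2 H11 H11.C2 H11.Md
open Jac hiding rho x y
open scoped MatrixGroups commutatorElement

variable {F : Type*} [Field F] {G G' : Type*} [Group G] [Group G']

local notation "Sp4" => symplecticGroup (Fin 2) F

structure Rel (φ : Jac F →* G) (α : SL(2, F) →* G) : Prop where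
  r1 : ∀ t, α (x t) = φ (v 0 0 (-t))
  r2 : ∀ a b c, α (w 1) * φ (m a b c) = φ (m c (-b) a) * α (w 1)
  r3 : ∀ (d : Fˣ) t, φ (h d) * α (y t) = α (y (d * t)) * φ (h d)
  r4 : ∀ (d : Fˣ) z, φ (h d) * α (dd d) * φ (sl z) = φ (sl z) * (φ (h d) * α (dd d))
  r5 : ∀ t, α (w 1) * (φ n * α (y t) * φ n⁻¹) = φ n * α (y (-t)) * φ n⁻¹ * α (w 1)
  r6 : ∀ z, φ n * (α (w 1) * φ (sl z) * α (w 1)⁻¹) = α (w 1) * φ (sl z) * α (w 1)⁻¹ * φ n

theorem Rel.prod {φ : Jac F →* G} {α : SL(2, F) →* G} {φ' : Jac F →* G'} {α' : SL(2, F) →* G'} (r : Rel φ α)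
    (r' : Rel φ' α') : Rel (φ.prod φ') (α.prod α') :=
  ⟨fun t => Prod.ext (r.r1 t) (r'.r1 t), fun a b c => Prod.ext (r.r2 a b c) (r'.r2 a b c),
    fun d t => Prod.ext (r.r3 d t) (r'.r3 d t), fun d t => Prod.ext (r.r4 d t) (r'.r4 d t),
    fun t => Prod.ext (r.r5 t) (r'.r5 t), fun t => Prod.ext (r.r6 t) (r'.r6 t)⟩

theorem spE_val (z : SL(2, F)) : (spE z).1 = fromBlocks !![z 0 0, z 0 1; z 1 0, z 1 1] 0 0
    !![z 1 1, -z 1 0; -z 0 1, z 0 0] := by
  change fromBlocks z.1 0 0 (z⁻¹).1ᵀ = _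
  congr 1 <;> ext i j <;> fin_cases i <;> fin_cases j <;> simp [adjugate_fin_two]

theorem coe_w1 : (w (1 : F)).1 = !![0, 1; -1, 0] := by simpa using coe_w (one_ne_zero (α := F))
theorem coe_w1' : (w (1 : F))⁻¹.1 = !![0, -1; 1, 0] := by simp [coe_w1, adjugate_fin_two]
theorem coe_dd' (d : Fˣ) : (dd (d : F)).1 = !![(d : F), 0; 0, (d : F)⁻¹] := by
  have e : (w (1 : F))⁻¹ = w (-1) := ((r1_sl2 (K := F)).W_neg 1).symm
  rw [dd, e]
  ext a b; fin_cases a <;> fin_cases b <;> simp [H13.SL2.mul_apply', coe_w]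
theorem sl_w : sl (w (1 : F)) = n := by ext <;> simp [coe_w1]
theorem sl_dd (d : Fˣ) : sl (dd (d : F)) = h d := by ext <;> simp [coe_dd']
theorem sl_x' (t : F) : sl (x t) = m 0 0 t := by ext <;> simp

theorem rel_sp : Rel (Jac.rho (F := F)) spE := by
  refine ⟨fun t => ?_, fun a b c => ?_, fun d t => ?_, fun d z => ?_, fun t => ?_, fun z => ?_⟩ <;>
    refine Subtype.ext ?_ <;>
    simp only [Submonoid.coe_mul, rho_val, spE_val, coe_w1, coe_w1', coe_dd', fromBlocks_multiply, fromBlocks_inj] <;>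
    simp [mul_comm, z2, z1]
where
  z1 : ![(0 : F), 0] = 0 := by ext i; fin_cases i <;> rfl
  z2 : (of ![0, 0] : Matrix (Fin 2) (Fin 2) F) = 0 := by ext i j; fin_cases i <;> fin_cases j <;> rfl

instance finite_range [Finite F] (α : SL(2, F) →* G) : Finite α.range := Finite.Set.finite_range α

theorem rho_inj (h2 : (2 : F) ≠ 0) : Function.Injective (Jac.rho : Jac F → _) := fun _ _ h =>
  psi_inj h2 (congrArg (QuotientGroup.mk' _) h)

theorem nz {α : SL(2, F) →* G} [Finite F] {g : G} (h1 : ∀ t, g * α (x t) * g⁻¹ ∈ α.range)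
    (h2 : ∀ t, g * α (y t) * g⁻¹ ∈ α.range) : g ∈ normalizer (α.range : Set G) := nz_of (by
  rintro _ ⟨z, rfl⟩; exact sl2_mem (φ := (MulAut.conj g).toMonoidHom.comp α) h1 h2 z)

theorem nd_a : Nd (spSt 2 F) (MonoidHom.id _) ((wbC 2).R.simple 0) spE := by
  have hr : IsRt (wbC 2).μ (wbC 2).N (μ2 (.inl 0) - μ2 (.inl 1)) := (wbC 2).rt_pq 0
  refine ⟨fun t => Eq.trans (congrArg spE ?_) (spE_tv zero_ne_one hr t), fun t => Eq.trans (congrArg spE ?_)
    ((spE_tv one_ne_zero hr.neg' t).trans (congrArg (fun r => (spSt _ F).x r t)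
      (Subtype.ext (by rw [Wd.neg_val]; exact (neg_sub _ _).symm)))), fun _ _ h => spE_inj h⟩ <;>
  · ext i j; fin_cases i <;> fin_cases j <;> simp [SpecialLinearGroup.transvection_coe]

theorem nd_b (h2 : (2 : F) ≠ 0) : Nd (spSt 2 F) (MonoidHom.id _) ((wbC 2).R.simple 1) (Jac.rho.comp sl) := by
  have hr : IsRt (wbC 2).μ (wbC 2).N (μ2 (.inl 1) - μ2 (.inr 1)) := (wbC 2).rt_pq 1
  have k : ∀ a b (h' : IsRt (wbC 2).μ (wbC 2).N (μ2 a - μ2 b)) (g : Sp4) t, b = a.swap → g.1 = 1 + single a b t →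
      g = (spSt 2 F).x ((wbC 2).rt h') t := fun a b h' g t e1 e2 => by
    apply spToGL_injective
    rw [spSt_isHom]
    apply Units.ext
    refine Matrix.ext_of_mulVec_single fun c => ?_
    refine Eq.trans ?_ ((wbC 2).X_mulVec h' (μ2_ne _) t _).symm
    change g.1 *ᵥ _ = _
    subst e1
    rw [e2]
    ext i
    rcases a with a | a <;> simp [wbC, barC, μ2_ne, Pi.single_apply, Matrix.one_apply, Matrix.single_apply] <;>
      split_ifs <;> simp_all
  refine ⟨fun t => k _ _ hr _ t rfl ?_, fun t => (k _ _ hr.neg' _ t rfl ?_).trans (congrArg (fun r => (spSt _ F).x r t)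
      (Subtype.ext (by rw [Wd.neg_val]; exact (neg_sub _ _).symm))),
    fun _ _ h => sl_inj (rho_inj h2 h)⟩ <;>
  · ext (i | i) (j | j) <;> fin_cases i <;> fin_cases j <;> simp [rho_val]

theorem Rel.exists_hom [Finite F] (h2 : (2 : F) ≠ 0) {φ : Jac F →* G} {α : SL(2, F) →* G} (r0 : Rel φ α) :
    ∃ ψ : Sp4 →* G, (∀ z, ψ (spE z) = α z) ∧ ∀ z, ψ (Jac.rho (sl z)) = φ (sl z) := by
  have r := rel_sp.prod r0
  set φ' := Jac.rho.prod φ
  set α' := spE.prod α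
  let β' := φ'.comp sl
  let θ := MonoidHom.fst Sp4 G
  have hA : ∀ i j, (wbC 2).R.A i j = (wbC 2).wd.φ (μ2 (.inl j) - μ2 ((wbC 2).q j)) i := fun _ _ => rfl
  have pab : (wbC 2).R.pair ((wbC 2).R.simple 0) ((wbC 2).R.simple 1) = -2 := by
    rw [pair_simple_simple, hA, φC, dif_pos (by simp)]; simp [μ2_apply, wbC, nx]
  have pba : (wbC 2).R.pair ((wbC 2).R.simple 1) ((wbC 2).R.simple 0) = -1 := by
    rw [pair_simple_simple, hA, φC, dif_neg (by simp)]; simp [μ2_apply, wbC, nx]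
  have hall : ∀ r, ∃ k, rho (wbC 2).R ((wbC 2).R.simple 0) ((wbC 2).R.simple 1) k = r := fun r => by
    refine (wbC 2).R.root_induction (P := fun r => ∃ k, rho _ _ _ k = r) (fun i => ?_) ?_ r
    · fin_cases i; exacts [⟨0, rfl⟩, ⟨3, rfl⟩]
    · rintro i _ ⟨l, rfl⟩
      fin_cases i; exacts [⟨_, (refl_a pab pba l).symm⟩, ⟨_, (refl_b pab pba l).symm⟩]
  have na : Nd (spSt 2 F) θ _ α' := ⟨nd_a.hx, nd_a.hy, nd_a.inj⟩
  have nb : Nd (spSt 2 F) θ _ β' := ⟨(nd_b h2).hx, (nd_b h2).hy, (nd_b h2).inj⟩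
  have bw : β' (w 1) = φ' n := congrArg φ' sl_w
  have p : P2 (spSt 2 F) θ _ _ α' β' := ⟨na, nb, by rw [pab, pba]; rfl, fun t ht => by
      lift t to Fˣ using Ne.isUnit ht
      rw [show β' (dd t) = φ' (h t) from congrArg φ' (sl_dd t)]
      refine nz (fun s => ⟨x ((t : F)⁻¹ * s), ?_⟩) fun s => ⟨_, by rw [r.r3, mul_inv_cancel_right]⟩
      rw [r.r1, r.r1, ← map_inv, ← map_mul, ← map_mul]; congr 1; ext <;> simp, fun t ht => by
      lift t to Fˣ using Ne.isUnit ht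
      refine nz_of ?_
      rintro _ ⟨z, rfl⟩
      refine ⟨(dd (t : F))⁻¹ * z * dd (t : F), ?_⟩
      have := r.r4 t z
      rw [← sl_dd] at this
      change β' _ * _ * β' _ = β' _ * (β' _ * _) at this
      rw [map_mul, map_mul, map_inv, eq_mul_inv_iff_mul_eq, mul_assoc, mul_assoc, ← this]; group, by
      rw [bw]
      refine nz (fun s => ⟨x (-s), ?_⟩) fun s => ⟨y (-s), ?_⟩
      · have e : ∀ s, φ' n * α' (x s) * (φ' n)⁻¹ = φ' (m 0 (-s) 0) := fun s => by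
          rw [r.r1, ← map_inv, ← map_mul, ← map_mul]; congr 1; ext <;> simp
        calc _ = (φ' n)⁻¹ * (φ' n * α' (x (-s)) * (φ' n)⁻¹ * α' (w 1)) * (α' (w 1))⁻¹ * φ' n := by group
          _ = (φ' n)⁻¹ * (α' (w 1) * (φ' n * α' (x s) * (φ' n)⁻¹)) * (α' (w 1))⁻¹ * φ' n := by rw [e, e, r.r2]
          _ = _ := by group
      · calc _ = (φ' n)⁻¹ * (φ' n * α' (y (-s)) * (φ' n)⁻¹ * α' (w 1)) * (α' (w 1))⁻¹ * φ' n := by group
          _ = _ := by rw [← map_inv φ' n, ← r.r5, map_inv φ' n]; group, by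
      rw [bw]
      refine nz_of ?_
      rintro _ ⟨z, rfl⟩
      refine ⟨z, ?_⟩
      change φ' _ = _ * φ' _ * _
      calc _ = (α' (w 1))⁻¹ * (α' (w 1) * φ' (sl z) * (α' (w 1))⁻¹ * φ' n) * (φ' n)⁻¹ * α' (w 1) := by group
        _ = _ := by rw [← map_inv α' (w 1), ← r.r6, map_inv α' (w 1)]; group⟩
  set Y := YY (wbC 2).C ((wbC 2).R.simple 0) ((wbC 2).R.simple 1) α' β'
  have k1 : ∀ k : Fin 8, k ≤ 3 → ∀ t, Y k t ∈ φ'.range := fun k hk t => by
    obtain rfl | rfl | rfl | rfl : k = 0 ∨ k = 1 ∨ k = 2 ∨ k = 3 := by omega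
    · exact ⟨_, (r.r1 t).symm⟩
    · exact ⟨_, eq_mul_inv_of_mul_eq ((r.r2 0 0 _).symm.trans (congrArg (_ * φ' ·) (sl_x' _).symm))⟩
    · exact mul_mem (mul_mem ⟨_, rfl⟩ ⟨_, (r.r1 _).symm⟩) (inv_mem ⟨_, rfl⟩)
    · exact ⟨_, rfl⟩
  have k2 : ∀ k d : Fin 8, (d = 1 ∨ d = 2 ∨ d = 3) → k.1 + d.1 ≤ 3 → ⁅Y k 1, Y (k + d) 1⁆ ∈ MM Y k d := fun k d hd e => by
    have := wk_base pab pba hall (spSt 2 F).toPreSt k hd 1 1
    rw [show (fun k => (spSt 2 F).x (rho _ _ _ k)) = fun k t => θ (Y k t) from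
      funext fun k => funext fun t => (theta_YY na nb k t).symm, ← map_MM, ← map_commutatorElement] at this
    obtain ⟨g, h1, h3⟩ := this
    obtain ⟨j, rfl⟩ : g ∈ φ'.range := (closure_le _).2 (by rintro _ ⟨e, -, h, t, rfl⟩; exact k1 _ (by omega) t) h1
    obtain ⟨j', e⟩ : ⁅Y k 1, Y (k + d) 1⁆ ∈ φ'.range := by
      have a := k1 k (by omega) 1
      have b := k1 (k + d) (by omega) 1
      exact mul_mem (mul_mem (mul_mem a b) (inv_mem a)) (inv_mem b)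
    rw [← e] at h3 ⊢
    exact rho_inj h2 h3 ▸ h1
  obtain ⟨ζ, h0, -, h3⟩ := exists_gen F
  have hs := surj_sq h0 h3
  have hS := spSt_sep 2 F
  have W1 := p.wk1 hS pab pba h0 hs (k2 0 1 (by simp) (by simp))
  have W2 := p.wk2 hS pab pba h0 hs W1 (k2 0 2 (by simp) (by simp)) (k2 1 2 (by simp) (by simp))
  have W3 := p.wk3 hS pab pba h0 hs W1 W2 (k2 0 3 (by simp) (by simp))
  obtain ⟨S', hS'⟩ := exists_preSt hS pab pba hall YY_add (theta_YY na nb) (by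
    rintro k _ (rfl | rfl | rfl); exacts [W1 k, W2 k, W3 k])
  obtain ⟨f, hf⟩ := exists_section connC hS (spSt_top _ F) (spSt_tor _ F) S'
  refine ⟨(MonoidHom.snd _ _).comp f, DFunLike.congr_fun (sl2_ext (φ := ((MonoidHom.snd _ _).comp f).comp spE)
    (fun t => ?_) fun t => ?_), DFunLike.congr_fun (sl2_ext (φ := ((MonoidHom.snd _ _).comp f).comp (Jac.rho.comp sl))
    (ψ := φ.comp sl) (fun t => ?_) fun t => ?_)⟩
  · exact congrArg Prod.snd ((congrArg f (na.hx t)).trans ((hf _ t).trans (congrFun (hS' 0) t)))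
  · exact congrArg Prod.snd ((congrArg f (na.hy t)).trans ((hf _ t).trans (congrFun (hS' 4) t)))
  · exact congrArg Prod.snd ((congrArg f (nb.hx t)).trans ((hf _ t).trans (congrFun (hS' 3) t)))
  · exact congrArg Prod.snd ((congrArg f (nb.hy t)).trans ((hf _ t).trans (congrFun (hS' 7) t)))

end H4.Hy
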