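import Mathlib

/-! Limits of subspaces under a quadratic one-parameter group. -/

set_option autoImplicit false
set_option linter.unusedSectionVars false

namespace H4
namespace Lim
open Polynomial Module

variable {F R : Type*} [Field F] [Ring R] [Algebra F R] {β x y : R} {U U' W : Submodule F R}
  {f g : R[X]} {n m d : ℕ}

/-- conjugation by `1 + X β` -/
noncomputable def Ph (F : Type*) [Field F] [Algebra F R] (β : R) : R[X] →ₗ[F] R[X] :=
  LinearMap.mulLeft F (1 - X * C β) ∘ₗ LinearMap.mulRight F (1 + X * C β)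

theorem Ph_apply : Ph F β f = (1 - X * C β) * (f * (1 + X * C β)) := rfl

theorem Ph_eq : Ph F β f = f + X * (f * C β - C β * f) - X * (X * (C β * f * C β)) := by
  have h : ∀ a b : R[X], a * (X * b) = X * (a * b) := fun a b => by
    rw [← mul_assoc, ← X_mul, mul_assoc]
  simp only [Ph_apply, mul_add, sub_mul, mul_sub, mul_one, one_mul, mul_assoc, h _ (C β), h (C β)]
  abel

theorem Ph_X : Ph F β (X * f) = X * Ph F β f := by
  rw [Ph_apply, Ph_apply, mul_assoc X, ← mul_assoc, ← X_mul, mul_assoc]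

theorem Ph_zero : Ph F (0 : R) f = f := by simp [Ph_apply]

theorem PQ (h : β * β = 0) : (1 + X * C β) * (1 - X * C β) = 1 := by
  have : X * C β * (X * C β) = 0 := by
    rw [mul_assoc, ← mul_assoc (C β), ← X_mul, mul_assoc, ← C_mul, h]; simp
  rw [mul_sub, mul_one, add_mul, one_mul, this]; simp

theorem Ph_mul (h : β * β = 0) : Ph F β f * Ph F β g = Ph F β (f * g) := by
  simp only [Ph_apply, mul_assoc]
  rw [← mul_assoc (1 + X * C β), PQ h, one_mul]

theorem Ph_neg (h : β * β = 0) : Ph F β (Ph F (-β) f) = f := by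
  have h1 := PQ (β := -β) (by simpa using h)
  have h2 := PQ h
  simp only [Ph_apply, C_neg, mul_neg, sub_neg_eq_add, ← sub_eq_add_neg] at h1 ⊢
  rw [← mul_assoc, ← mul_assoc, h1, one_mul, mul_assoc, h1, mul_one]

/-- polynomials with coefficients in `U` -/
def po (U : Submodule F R) : Submodule F R[X] where
  carrier := {f | ∀ k, f.coeff k ∈ U}
  add_mem' := fun ha hb k => by rw [coeff_add]; exact add_mem (ha k) (hb k)
  zero_mem' := fun k => by simp
  smul_mem' := fun c f hf k => by rw [coeff_smul]; exact U.smul_mem c (hf k)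

theorem X_mem (h : f ∈ po U) : X * f ∈ po U := fun k => by
  cases k with
  | zero => simp
  | succ k => rw [coeff_X_mul]; exact h k

theorem C_mem (h : x ∈ U) : C x ∈ po U := fun k => by
  rw [coeff_C]; split_ifs; exacts [h, zero_mem _]

theorem Ph_mem (hf : f ∈ po U) (h0 : U ≤ W) (h1 : ∀ u ∈ U, u * β - β * u ∈ W) (h2 : ∀ u ∈ U, β * u * β ∈ W) :
    Ph F β f ∈ po W := by
  rw [Ph_eq]
  refine sub_mem (add_mem (fun k => h0 (hf k)) (X_mem fun k => ?_)) (X_mem (X_mem fun k => ?_))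
  · simpa using h1 _ (hf k)
  · simpa using h2 _ (hf k)

theorem po_mul (h : ∀ u ∈ U, ∀ v ∈ U', u * v = 0) (hf : f ∈ po U) (hg : g ∈ po U') : f * g = 0 := by
  ext k
  rw [coeff_mul]
  exact Finset.sum_eq_zero fun c _ => h _ (hf _) _ (hg _)

/-- elements whose image has degree `< d` -/
def Td (β : R) (U : Submodule F R) (d : ℕ) : Submodule F R[X] where
  carrier := {f | f ∈ po U ∧ ∀ k, d ≤ k → (Ph F β f).coeff k = 0}
  add_mem' := fun ha hb => ⟨add_mem ha.1 hb.1, fun k hk => by simp [ha.2 k hk, hb.2 k hk]⟩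
  zero_mem' := ⟨zero_mem _, by simp⟩
  smul_mem' := fun c f hf => ⟨(po U).smul_mem c hf.1, fun k hk => by simp [hf.2 k hk]⟩

theorem X_Td (h : f ∈ Td β U d) : X * f ∈ Td β U (d + 1) := ⟨X_mem h.1, fun k hk => by
  obtain ⟨k, rfl⟩ := Nat.exists_eq_add_of_le' (le_of_add_le_right hk)
  rw [Ph_X, coeff_X_mul]; exact h.2 k (by omega)⟩

theorem wit (h : ∃ f ∈ Td β U (n + 1), (Ph F β f).coeff n = x) (m : ℕ) :
    ∃ f ∈ Td β U (n + m + 1), (Ph F β f).coeff (n + m) = x := by
  induction m with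
  | zero => exact h
  | succ m ih =>
    obtain ⟨f, h1, h2⟩ := ih
    exact ⟨X * f, X_Td h1, by rw [Ph_X, ← add_assoc, coeff_X_mul, h2]⟩

/-- the limit of `U` -/
def lc (β : R) (U : Submodule F R) : Submodule F R where
  carrier := {x | ∃ n, ∃ f ∈ Td β U (n + 1), (Ph F β f).coeff n = x}
  add_mem' := by
    rintro a b ⟨n, ha⟩ ⟨m, hb⟩
    obtain ⟨f, h1, h2⟩ := wit ha m
    obtain ⟨g, h3, h4⟩ := wit hb n
    rw [add_comm m] at h3 h4
    exact ⟨n + m, f + g, add_mem h1 h3, by simp [h2, h4]⟩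
  zero_mem' := ⟨0, 0, zero_mem _, by simp⟩
  smul_mem' := by
    rintro c _ ⟨n, f, h, rfl⟩
    exact ⟨n, c • f, Submodule.smul_mem _ c h, by simp⟩

theorem lc_mono (h : U ≤ U') : lc β U ≤ lc β U' := fun _ ⟨n, f, h1, h2⟩ =>
  ⟨n, f, ⟨fun k => h (h1.1 k), h1.2⟩, h2⟩

theorem lc_le (h0 : U ≤ W) (h1 : ∀ u ∈ U, u * β - β * u ∈ W) (h2 : ∀ u ∈ U, β * u * β ∈ W) :
    lc β U ≤ W := by
  rintro _ ⟨n, f, h, rfl⟩
  exact Ph_mem h.1 h0 h1 h2 n

theorem lc_mul (hβ : β * β = 0) (h : ∀ u ∈ U, ∀ v ∈ U', u * v = 0) (hx : x ∈ lc β U) (hy : y ∈ lc β U') :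
    x * y = 0 := by
  obtain ⟨n, f, h1, rfl⟩ := hx
  obtain ⟨m, g, h2, rfl⟩ := hy
  rw [← coeff_mul_add_eq_of_natDegree_le (natDegree_le_iff_coeff_eq_zero.2 h1.2)
    (natDegree_le_iff_coeff_eq_zero.2 h2.2), Ph_mul hβ, po_mul h h1.1 h2.1]
  simp

variable [FiniteDimensional F R]

/-- top coefficient -/
noncomputable def tc (β : R) (U : Submodule F R) (d : ℕ) : Td β U (d + 1) →ₗ[F] R :=
  (lcoeff R d).restrictScalars F ∘ₗ Ph F β ∘ₗ (Td β U (d + 1)).subtype

theorem Td_le : Td β U d ≤ Td β U (d + 1) := fun _ h => ⟨h.1, fun k hk => h.2 k (by omega)⟩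

theorem ker_tc : LinearMap.ker (tc β U d) = (Td β U d).comap (Td β U (d + 1)).subtype := by
  ext ⟨f, hf⟩
  refine ⟨fun h => ⟨hf.1, fun k hk => ?_⟩, fun h => h.2 d le_rfl⟩
  rcases hk.eq_or_lt with rfl | hk
  exacts [h, hf.2 k hk]

theorem Td_zero (h : β * β = 0) : Td β U 0 = ⊥ := eq_bot_iff.2 fun f hf => by
  have : Ph F β f = 0 := by ext k; exact hf.2 k (Nat.zero_le _)
  have h2 := Ph_neg (F := F) (β := -β) (f := f) (by simpa using h)
  rw [neg_neg, this, map_zero] at h2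
  exact h2.symm

theorem fin_Td (h : β * β = 0) (d : ℕ) : FiniteDimensional F (Td β U d) := by
  induction d with
  | zero => rw [Td_zero h]; infer_instance
  | succ d ih =>
    have : FiniteDimensional F (LinearMap.ker (tc β U d)) := by
      rw [ker_tc]; exact (Submodule.comapSubtypeEquivOfLe Td_le).symm.finiteDimensional
    have := (tc β U d).quotKerEquivRange.symm.finiteDimensional
    exact .of_submodule_quotient (LinearMap.ker (tc β U d))

theorem rk_Td (h : β * β = 0) : finrank F (Td β U (d + 1)) =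
    finrank F (LinearMap.range (tc β U d)) + finrank F (Td β U d) := by
  have := fin_Td (U := U) h (d + 1)
  rw [← (tc β U d).finrank_range_add_finrank_ker, ker_tc, (Submodule.comapSubtypeEquivOfLe Td_le).finrank_eq]

theorem rk_le (h : β * β = 0) : finrank F U ≤ finrank F (lc β U) := by
  have h1 : ∀ d, finrank F (Td β U d) ≤ d * finrank F (lc β U) := fun d => by
    induction d with
    | zero => rw [Td_zero h]; simp
    | succ d ih =>
      have : LinearMap.range (tc β U d) ≤ lc β U := by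
        rintro _ ⟨f, rfl⟩; exact ⟨d, f, f.2, rfl⟩
      have := Submodule.finrank_mono this
      rw [rk_Td h, add_mul]; omega
  have h2 : ∀ d, d * finrank F U ≤ finrank F (Td 0 U d) := fun d => by
    induction d with
    | zero => simp
    | succ d ih =>
      have : U ≤ LinearMap.range (tc 0 U d) := fun u hu => ⟨⟨monomial d u, fun k => by
        rw [coeff_monomial]; split_ifs; exacts [hu, zero_mem _], fun k hk => by
        rw [Ph_zero, coeff_monomial, if_neg (by omega)]⟩, by simp [tc, Ph_zero]⟩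
      have := Submodule.finrank_mono this
      rw [rk_Td (mul_zero 0), add_mul]; omega
  have h3 : ∀ d, Td 0 U d ≤ Td β U (d + 2) := fun d f hf => ⟨hf.1, fun k hk => by
    obtain ⟨k, rfl⟩ := Nat.exists_eq_add_of_le' (le_of_add_le_right hk)
    have := fun k hk => Ph_zero (F := F) (f := f) ▸ hf.2 k hk
    simp [Ph_eq, coeff_X_mul, this (k + 2) (by omega), this (k + 1) (by omega), this k (by omega)]⟩
  by_contra! hn
  have := fin_Td (U := U) h (2 * finrank F (lc β U) + 1 + 2)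
  have := (h2 _).trans ((Submodule.finrank_mono (h3 (2 * finrank F (lc β U) + 1))).trans (h1 _))
  nlinarith

theorem le_lc (h : β * β = 0) (h1 : ∀ u ∈ U, u * β - β * u ∈ U) (h2 : ∀ u ∈ U, β * u * β ∈ U) (hx : x ∈ U) :
    Ph F (-β) (C x) ∈ po U ∧ x ∈ lc β U := by
  have := Ph_mem (β := -β) (C_mem hx) le_rfl (fun u hu => by
    convert neg_mem (h1 u hu) using 1; noncomm_ring) (fun u hu => by simpa using h2 u hu)
  exact ⟨this, 0, _, ⟨this, fun k hk => by rw [Ph_neg h, coeff_C, if_neg (by omega)]⟩, by simp [Ph_neg h]⟩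

/-- if the limit is not deeper in the filtration then `U` is invariant -/
theorem stable (h : β * β = 0) (W : ℕ → Submodule F R) (a : ∀ i, W (i + 1) ≤ W i) (hn : W n = ⊥)
    (l : ∀ i, ∀ u ∈ W i, β * u ∈ W (i + 1)) (r : ∀ i, ∀ u ∈ W i, u * β ∈ W (i + 1))
    (e : ∀ i ≤ n, finrank F (lc β U ⊓ W i : Submodule F R) ≤ finrank F (U ⊓ W i : Submodule F R)) (i : ℕ)
    (hi : i ≤ n) : (∀ u ∈ U ⊓ W i, u * β - β * u ∈ U ⊓ W i) ∧ ∀ u ∈ U ⊓ W i, β * u * β ∈ U ⊓ W i := by
  induction hi using Nat.decreasingInduction with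
  | self => simp +contextual [hn]
  | of_succ i hi ih =>
    have k := fun x => le_lc (x := x) h ih.1 ih.2
    have e1 : U ⊓ W (i + 1) = lc β U ⊓ W (i + 1) := Submodule.eq_of_le_of_finrank_le
      (fun u hu => ⟨lc_mono inf_le_left (k u hu).2, hu.2⟩) (e _ hi)
    have c2 : ∀ u ∈ U ⊓ W i, β * u * β ∈ U ⊓ W (i + 1) := fun u hu => by
      rw [e1]
      refine ⟨(neg_mem_iff).1 ⟨2, C u, ⟨C_mem hu.1, fun k hk => ?_⟩, ?_⟩, a _ (r _ _ (l _ _ hu.2))⟩
      · obtain ⟨k, rfl⟩ := Nat.exists_eq_add_of_le' hk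
        simp [Ph_eq, coeff_X_mul, coeff_C]
      · simp [Ph_eq, coeff_X_mul, coeff_C]
    refine ⟨fun u hu => inf_le_inf_left U (a i) ?_, fun u hu => inf_le_inf_left U (a i) (c2 u hu)⟩
    rw [e1]
    have e2 : Ph F β (C u + X * (X * Ph F (-β) (C (β * u * β)))) = C u + X * C (u * β - β * u) := by
      rw [map_add, Ph_X, Ph_X, Ph_neg h, Ph_eq]; simp
    refine ⟨⟨1, _, ⟨add_mem (C_mem hu.1) (X_mem (X_mem fun j => ((k _ (c2 u hu)).1 j).1)), fun k hk => ?_⟩, ?_⟩,
      sub_mem (r _ _ hu.2) (l _ _ hu.2)⟩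
    · obtain ⟨k, rfl⟩ := Nat.exists_eq_add_of_le' hk
      rw [e2, coeff_add, coeff_X_mul]; simp [coeff_C]
    · rw [e2, coeff_add, coeff_X_mul]; simp [coeff_C]

end Lim
end H4
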