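import Cfsg.Agent.H4.Meta
import Cfsg.Agent.H28.CD

/-!
# Centrally large subgroups of metacyclic `p`-groups
-/

set_option autoImplicit false

namespace H4.MetaP

open Subgroup

variable {G : Type*} [Group G] {p : ℕ} [Finite G] [hp : Fact p.Prime] (h : MetaP p G)
include h

theorem index_center' : (center G).index = Nat.card (commutator G) ^ 2 := by
  obtain ⟨n, hn⟩ := exists_card_eq_pow h.pg (commutator G)
  rw [h.index_center hn, hn, ← pow_mul, mul_comm]

theorem card_mul_center : Nat.card G * Nat.card (center G) = (commutator G).index ^ 2 := by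
  have h1 := (center G).card_mul_index
  have h2 := (commutator G).card_mul_index
  rw [h.index_center'] at h1
  refine Nat.eq_of_mul_eq_mul_left (pow_pos (Nat.card_pos (α := commutator G)) 2) ?_
  rw [← mul_pow, h2, mul_left_comm, mul_comm _ (Nat.card (center G)), h1, sq]

theorem card_mul_center_of_not_comm {R : Subgroup G} (hR : ¬ IsMulCommutative R) :
    Nat.card R * Nat.card (center R) = (commutator G).index ^ 2 := by
  obtain ⟨n, hn⟩ := exists_card_eq_pow h.pg (commutator G)
  obtain ⟨i, h1, h2⟩ := h.card_comm hn R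
  rw [h.comm_iff hn, h1, Nat.pow_le_pow_iff_right hp.out.one_lt, not_le] at hR
  rw [← map_subtype_commutator, card_map_of_injective R.subtype_injective] at h2
  rw [(h.sub R).card_mul_center]
  congr 1
  have h3 := (commutator R).card_mul_index
  have h4 := R.card_mul_index
  rw [← h3, ← (commutator G).card_mul_index, h1, h2, hn, mul_right_comm, ← pow_add,
    Nat.sub_add_cancel hR.le] at h4
  exact Nat.eq_of_mul_eq_mul_left (pow_pos hp.out.pos n) h4

omit h in
theorem card_center_of_comm {R : Subgroup G} (hR : IsMulCommutative R) :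
    Nat.card (center R) = Nat.card R := by
  rw [(eq_top_iff' (center R)).2 fun x => mem_center_iff.2 fun y => mul_comm' y x, card_top]

theorem card_mul_center_le (R : Subgroup G) :
    Nat.card R * Nat.card (center R) ≤ (commutator G).index ^ 2 := by
  by_cases hR : IsMulCommutative R
  · rw [card_center_of_comm hR, ← sq]
    exact Nat.pow_le_pow_left ((h.comm_iff' R).1 hR) 2
  · exact (h.card_mul_center_of_not_comm hR).le

theorem maxCentralProduct_eq : Cfsg.maxCentralProduct G = (commutator G).index ^ 2 := by
  refine IsGreatest.csSup_eq ⟨⟨⊤, ?_⟩, ?_⟩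
  · rw [← h.card_mul_center, card_top, H28.card_center_eq, top_inf_eq, coe_top, centralizer_univ]
  · rintro _ ⟨R, rfl⟩
    exact h.card_mul_center_le R

theorem cd_of_center_le {R : Subgroup G} (hR : center G ≤ R) : H28.CD R := by
  obtain ⟨Q, hQ⟩ := H28.exists_cl G
  refine hQ.cd.of_le ?_
  have h1 := h.card_mul_center_le Q
  rw [H28.card_center_eq, inf_eq_right.2 hQ.le, ← h.card_mul_center] at h1
  refine h1.trans ?_
  obtain ⟨x, y, h2, -, h3⟩ := ((h.quot (center G)).sub (R.map (QuotientGroup.mk' _))).exists_basis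
  obtain ⟨⟨_, x, hx, rfl⟩, rfl⟩ : ∃ x', x' = x := ⟨x, rfl⟩
  obtain ⟨⟨_, y, hy, rfl⟩, rfl⟩ : ∃ y', y' = y := ⟨y, rfl⟩
  have h4 : ∀ g : G, (centralizer ({g} : Set G)).index ≤ orderOf (g : G ⧸ center G) := fun g => by
    obtain ⟨j, hj⟩ := exists_card_eq_pow (h.quot (center G)).pg (zpowers (g : G ⧸ center G))
    rw [Nat.card_zpowers] at hj
    rw [hj]
    refine h.index_cent_le ?_
    rw [← QuotientGroup.eq_one_iff, QuotientGroup.mk_pow, ← hj, pow_orderOf_eq_one]
  have h5 : centralizer ({x} : Set G) ⊓ centralizer {y} ≤ centralizer (R : Set G) := by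
    have h6 := congrArg (fun K => (map (R.map (QuotientGroup.mk' (center G))).subtype K).comap
      (QuotientGroup.mk' (center G))) h2
    simp only [Subgroup.map_sup, MonoidHom.map_zpowers, coe_subtype, ← MonoidHom.range_eq_map,
      range_subtype] at h6
    rw [← MonoidHom.map_zpowers, ← MonoidHom.map_zpowers, ← Subgroup.map_sup, comap_map_eq, comap_map_eq,
      QuotientGroup.ker_mk', sup_eq_left.2 hR] at h6
    rw [← h6, centralizer_sup, centralizer_sup, centralizer_zpowers, centralizer_zpowers]
    exact le_inf le_rfl fun g _ z hz => (mem_center_iff.1 hz g).symm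
  have h6 := (index_antitone h5).trans (index_inf_le.trans (Nat.mul_le_mul (h4 x) (h4 y)))
  rw [← orderOf_coe, ← orderOf_coe, card_map_mk] at h3
  rw [← (centralizer (R : Set G)).card_mul_index, ← card_mul_relIndex hR, ← h3]
  calc _ ≤ Nat.card (centralizer (R : Set G)) * (orderOf (x : G ⧸ center G) *
      orderOf (y : G ⧸ center G)) * Nat.card (center G) := by gcongr
    _ = _ := by simp only [QuotientGroup.mk'_apply]; ring

end H4.MetaP
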