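import Cfsg.Agent.H24.ND0

/-! S4780: the faithful case of `H24.ND.DA`. -/

set_option autoImplicit false
set_option linter.unusedVariables false

open Subgroup MulAction H19 H6

namespace H4.ND

universe u

def DAF : Prop := ∀ {G : Type u} [Group G] [Finite G] {B : Subgroup G} [B.Normal] (V : Type u) [AddCommGroup V]
  [Finite V] [Nontrivial V] [DistribMulAction G V], Ab B → (∃ g, B ⊔ zpowers g = ⊤) → B ≠ ⊤ → ¬ B ≤ center G →
  (∀ x, x ∉ B → Fpf B (center G) x) →
  (∀ U : AddSubgroup V, (∀ (g : G), ∀ v ∈ U, g • v ∈ U) → U = ⊥ ∨ U = ⊤) →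
  (∀ x ∈ B, x ≠ 1 → ∀ v : V, x • v = v → v = 0) →
  (∀ v : V, v ≠ 0 → Ab (stabilizer G v) ∧ ¬ B.index ∣ (stabilizer G v).index ∧
    ∀ w : V, w ≠ 0 → (stabilizer G v).index ∣ (stabilizer G w).index →
      (stabilizer G v).index = (stabilizer G w).index) → B.index.Prime

end H4.ND
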