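import Cfsg.Agent.H4.ND0

/-! S4780: proof of the faithful case `DAF`. -/

set_option autoImplicit false
set_option linter.unusedVariables false
set_option linter.unusedSectionVars false

open Subgroup MulAction H19 H6

namespace H4.ND

universe u
variable {G : Type u} [Group G] [Finite G] {B : Subgroup G} [B.Normal] {V : Type u} [AddCommGroup V]
  [Finite V] [DistribMulAction G V]

structure Hy (B : Subgroup G) (V : Type u) [AddCommGroup V] [DistribMulAction G V] : Prop where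
  ab : ∀ a ∈ B, ∀ b ∈ B, a * b = b * a
  nz : ∃ b ∈ B, b ∉ center G
  fp : ∀ x, x ∉ B → Fpf B (center G) x
  sr : ∀ x ∈ B, x ≠ 1 → ∀ v : V, x • v = v → v = 0

theorem cjB {b : G} (hb : b ∈ B) (g : G) : g * b * g⁻¹ ∈ B := (inferInstance : B.Normal).conj_mem b hb g

theorem Hy.cen (h : Hy B V) {x b : G} (hx : x ∉ B) (hb : b ∈ B) (e : b⁻¹ * x * b * x⁻¹ ∈ center G) :
    b ∈ center G := by
  refine h.fp x hx b hb ?_
  have := h.ab _ (B.inv_mem hb) _ (cjB hb x)
  have e2 : x * b * x⁻¹ * b⁻¹ = b⁻¹ * x * b * x⁻¹ := by rw [← this]; group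
  rwa [e2]

theorem Hy.cmB {x b : G} (hb : b ∈ B) : b⁻¹ * x * b * x⁻¹ ∈ B := by
  have := B.mul_mem (B.inv_mem hb) (cjB hb x)
  simpa [mul_assoc] using this

/-- if `u ≠ 0` and `d • u` are fixed by `x ∉ B`, then `d` is central -/
theorem Hy.two (h : Hy B V) {x d : G} (hx : x ∉ B) (hd : d ∈ B) {u : V} (hu : u ≠ 0) (h1 : x • u = u)
    (h2 : x • d • u = d • u) : d ∈ center G := by
  refine h.cen hx hd ?_
  by_contra hc
  have hne : d⁻¹ * x * d * x⁻¹ ≠ 1 := fun e => hc (e ▸ (center G).one_mem)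
  refine hu (h.sr _ (Hy.cmB hd) hne u ?_)
  have h3 : x⁻¹ • u = u := by rw [inv_smul_eq_iff, h1]
  simp only [mul_smul, h3, h2, inv_smul_smul]

noncomputable def tr (B : Subgroup G) [Fintype B] (g : G) (v : V) : V := ∑ b : B, ((b : G)⁻¹ * g * b) • v

variable [Fintype B]

theorem tr_one (v : V) : tr B (1 : G) v = Nat.card B • v := by
  simp [tr]

theorem Hy.tr0 (h : Hy B V) {g : G} (hg : g ∉ B) (v : V) : tr B g v = 0 := by
  obtain ⟨b0, hb0, hz⟩ := h.nz
  have hne : b0⁻¹ * g * b0 * g⁻¹ ≠ 1 := fun e => hz (h.cen hg hb0 (e ▸ (center G).one_mem))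
  refine h.sr _ (Hy.cmB hb0) hne _ ?_
  unfold tr
  rw [Finset.smul_sum]
  refine Fintype.sum_equiv (Equiv.mulRight (⟨b0, hb0⟩ : B)) _ _ fun b => ?_
  rw [← mul_smul]
  congr 1
  simp only [Equiv.coe_mulRight, coe_mul]
  have e1 := h.ab _ (cjB hb0 g) _ (B.inv_mem b.2)
  have e2 := h.ab _ hb0 _ b.2
  calc b0⁻¹ * g * b0 * g⁻¹ * ((b : G)⁻¹ * g * b) = b0⁻¹ * (g * b0 * g⁻¹ * (b : G)⁻¹) * g * b := by group
    _ = b0⁻¹ * (b : G)⁻¹ * g * (b0 * b) := by rw [e1]; group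
    _ = _ := by rw [e2]; group

theorem Hy.cop (h : Hy B V) {v : V} (e : Nat.card B • v = 0) : v = 0 := by
  by_contra hv
  have h1 : addOrderOf v ≠ 1 := by simpa using hv
  obtain ⟨p, hp, hd⟩ := Nat.exists_prime_and_dvd h1
  have := Fact.mk hp
  obtain ⟨b, hb⟩ := exists_prime_orderOf_dvd_card' (G := B) p (hd.trans (addOrderOf_dvd_of_nsmul_eq_zero e))
  have hb' : orderOf (b : G) = p := by simpa using hb
  have hP : IsPGroup p (zpowers (b : G)) := IsPGroup.of_card (n := 1) (by simp [hb'])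
  obtain ⟨w, hw, hne⟩ := hP.exists_fixed_point_of_prime_dvd_card_of_fixed_point V
    (hd.trans (addOrderOf_dvd_natCard v)) (a := 0) (fun g => smul_zero g)
  refine hne (h.sr b b.2 ?_ w (hw ⟨b, mem_zpowers _⟩)).symm
  intro e1
  rw [e1, orderOf_one] at hb'
  exact hp.one_lt.ne hb'

theorem Hy.trs (h : Hy B V) {y : G} {n : ℕ} (hn : 0 < n) (hy : ∀ i, 0 < i → i < n → y ^ i ∉ B) (w : ℕ → V) :
    ∑ i ∈ Finset.range n, tr B (y ^ i) (w i) = Nat.card B • w 0 := by
  rw [Finset.sum_eq_single 0]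
  · rw [pow_zero, tr_one]
  · intro i hi h0
    exact h.tr0 (hy i (Nat.pos_of_ne_zero h0) (Finset.mem_range.1 hi)) _
  · intro h0
    exact absurd (Finset.mem_range.2 hn) h0

/-- the norm of `y` -/
noncomputable def nm (y : G) (v : V) : V := ∑ i ∈ Finset.range (orderOf y), y ^ i • v

theorem nm_fix (y : G) (v : V) : y • nm y v = nm y v := by
  unfold nm
  rw [Finset.smul_sum]
  have := Finset.sum_range_succ' (fun i => y ^ i • v) (orderOf y)
  rw [Finset.sum_range_succ, pow_orderOf_eq_one, pow_zero] at this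
  rw [add_right_cancel this]
  exact Finset.sum_congr rfl fun i _ => by rw [pow_succ', mul_smul]

theorem sum_nm (x y : G) (v : V) : ∑ b : B, (b : G)⁻¹ • x • nm y ((b : G) • v) =
    ∑ i ∈ Finset.range (orderOf y), tr B (x * y ^ i) v := by
  unfold nm tr
  rw [Finset.sum_comm]
  refine Finset.sum_congr rfl fun b _ => ?_
  simp only [Finset.smul_sum, mul_smul]

theorem Hy.nm1 (h : Hy B V) {y : G} (hy : ∀ i : ℕ, y ^ i ∈ B → y ^ i = 1) (v : V) :
    ∑ b : B, (b : G)⁻¹ • nm y ((b : G) • v) = Nat.card B • v := by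
  have := sum_nm (B := B) 1 y v
  simp only [one_smul, one_mul] at this
  rw [this]
  exact h.trs (orderOf_pos y) (fun i h0 hi hB => pow_ne_one_of_lt_orderOf h0.ne' hi (hy i hB)) fun _ => v

theorem Hy.fixv [Nontrivial V] (h : Hy B V) {y : G} (hy : ∀ i : ℕ, y ^ i ∈ B → y ^ i = 1) :
    ∃ w : V, w ≠ 0 ∧ y • w = w := by
  by_contra hc
  push Not at hc
  have h0 : ∀ v : V, nm y v = 0 := fun v => by
    by_contra h1
    exact hc _ h1 (nm_fix y v)
  obtain ⟨v, hv⟩ := exists_ne (0 : V)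
  refine hv (h.cop ?_)
  rw [← h.nm1 hy]
  simp [h0]

theorem Hy.strict [Nontrivial V] (h : Hy B V) {x y : G} (hy : ∀ i : ℕ, y ^ i ∈ B → y ^ i = 1)
    (hx : ∀ i : ℕ, x * y ^ i ∉ B) (hf : ∀ w : V, y • w = w → x • w = w) : False := by
  obtain ⟨v, hv⟩ := exists_ne (0 : V)
  refine hv (h.cop ?_)
  rw [← h.nm1 hy]
  have := sum_nm (B := B) x y v
  simp only [hf _ (nm_fix y _)] at this
  rw [this]
  exact Finset.sum_eq_zero fun i _ => h.tr0 (hx i) v

/-- the centralizer of an element outside `B` is abelian -/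
theorem Hy.cab (h : Hy B V) [IsCyclic (G ⧸ B)] {y a c : G} (hy : y ∉ B) (ha : a * y = y * a)
    (hc : c * y = y * c) : a * c = c * a := by
  let N : Subgroup G := centralizer {y}
  have key := commutative_of_cyclic_center_quotient ((QuotientGroup.mk' B).comp N.subtype) (by
    intro z hz
    have hB : (z : G) ∈ B := by simpa using hz
    have hzy : (z : G) * y = y * z := (mem_centralizer_singleton_iff.1 z.2)
    have : (z : G) ∈ center G := h.fp y hy z hB (by rw [← hzy]; simp)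
    exact mem_center_iff.2 fun w => Subtype.ext (mem_center_iff.1 this w))
    ⟨a, mem_centralizer_singleton_iff.2 ha⟩ ⟨c, mem_centralizer_singleton_iff.2 hc⟩
  exact congrArg Subtype.val key

/-- elements of order `r` in `B x` are conjugate under `B` -/
theorem Hy.cj (h : Hy B V) {x c : G} {r : ℕ} (hx : x ∉ B) (hr : r.Coprime (Nat.card B)) (hxr : x ^ r = 1)
    (hc : c ∈ B) (hcr : (c * x) ^ r = 1) : ∃ b ∈ B, b * x * b⁻¹ = c * x := by
  let K := {c : G // c ∈ B ∧ (c * x) ^ r = 1}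
  let φ : K → K := fun k => ⟨k.1 * x * k.1⁻¹ * x⁻¹, by
    have := B.mul_mem k.2.1 (cjB (B.inv_mem k.2.1) x)
    simpa [mul_assoc] using this, by
    rw [inv_mul_cancel_right, conj_pow, hxr]; simp⟩
  have hi : Function.Injective φ := by
    intro k k' e
    have e1 : k.1 * x * k.1⁻¹ * x⁻¹ = k'.1 * x * k'.1⁻¹ * x⁻¹ := congrArg Subtype.val e
    have hz : k.1⁻¹ * k'.1 ∈ B := B.mul_mem (B.inv_mem k.2.1) k'.2.1
    have hz' : k.1⁻¹ * k'.1 ∈ center G := by
      refine h.cen hx hz ?_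
      have e2 := mul_right_cancel e1
      have : (k.1⁻¹ * k'.1)⁻¹ * x * (k.1⁻¹ * k'.1) * x⁻¹ = 1 := by
        calc _ = k'.1⁻¹ * (k.1 * x * k.1⁻¹) * k'.1 * x⁻¹ := by group
          _ = 1 := by rw [e2]; group
      rw [this]; exact one_mem _
    have e3 : k'.1 * x = (k.1 * x) * (k.1⁻¹ * k'.1) := by
      rw [mul_assoc, mem_center_iff.1 hz' x]; group
    have hcm : Commute (k.1 * x) (k.1⁻¹ * k'.1) := mem_center_iff.1 hz' _
    have e4 := k'.2.2
    rw [e3, hcm.mul_pow, k.2.2, one_mul] at e4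
    have e5 : (k.1⁻¹ * k'.1) ^ Nat.card B = 1 := by
      have := pow_card_eq_one' (x := (⟨_, hz⟩ : B))
      exact congrArg Subtype.val this
    have e6 : k.1⁻¹ * k'.1 = 1 := by
      have := pow_gcd_eq_one.2 ⟨e4, e5⟩
      rwa [hr, pow_one] at this
    exact Subtype.ext (inv_mul_eq_one.1 e6)
  obtain ⟨k, hk⟩ := Finite.surjective_of_injective hi ⟨c, hc, hcr⟩
  have e1 : k.1 * x * k.1⁻¹ * x⁻¹ = c := congrArg Subtype.val hk
  exact ⟨k.1, k.2.1, by rw [← e1]; group⟩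

/-- `V` is simple for `B` once the `B`-translates of the fixed space of `x` cover it -/
theorem Hy.simp (h : Hy B V) {x : G} (hx : x ∉ B)
    (hs : ∀ U : AddSubgroup V, (∀ (g : G), ∀ v ∈ U, g • v ∈ U) → U = ⊥ ∨ U = ⊤)
    (hc : ∀ w : V, w ≠ 0 → ∃ b ∈ B, ∃ u : V, x • u = u ∧ w = b • u)
    (W : AddSubgroup V) (hW : ∀ b ∈ B, ∀ v ∈ W, b • v ∈ W) (h0 : W ≠ ⊥) : W = ⊤ := by
  let P : AddSubgroup V → Prop := fun W => (∀ b ∈ B, ∀ v ∈ W, b • v ∈ W) ∧ W ≠ ⊥
  have hu : ∀ W : AddSubgroup V, (∀ b ∈ B, ∀ v ∈ W, b • v ∈ W) → ∀ b ∈ B, ∀ u : V, b • u ∈ W → u ∈ W :=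
    fun W hW b hb u e => by
      have := hW _ (B.inv_mem hb) _ e
      rwa [inv_smul_smul] at this
  have hxW : ∀ W : AddSubgroup V, (∀ b ∈ B, ∀ v ∈ W, b • v ∈ W) → ∀ w ∈ W, x • w ∈ W := fun W hW w hw => by
    by_cases hw0 : w = 0
    · simp [hw0]
    obtain ⟨b, hb, u, h1, rfl⟩ := hc w hw0
    have : x • b • u = (x * b * x⁻¹) • u := by
      conv_rhs => rw [← h1]
      simp [mul_smul]
    rw [this]
    exact hW _ (cjB hb x) _ (hu W hW b hb u hw)
  have hI : ∀ W W', P W → P W' → W ⊓ W' ≠ ⊥ := by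
    intro W W' hW hW' e
    have ez : ∀ v, v ∈ W → v ∈ W' → v = 0 := fun v a b => by
      have : v ∈ W ⊓ W' := ⟨a, b⟩
      rwa [e] at this
    obtain ⟨⟨w, hw⟩, hw0⟩ := AddSubgroup.ne_bot_iff_exists_ne_zero.1 hW.2
    have hw1 : w ≠ 0 := fun e => hw0 (Subtype.ext e)
    obtain ⟨b, hb, u, h1, rfl⟩ := hc w hw1
    have huW := hu W hW.1 b hb u hw
    have hu0 : u ≠ 0 := fun e => hw1 (by simp [e])
    have hall : ∀ w' ∈ W', x • w' = w' := by
      intro w' hw'
      have hne : u + w' ≠ 0 := fun e => hu0 (ez u huW (by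
        rw [eq_neg_of_add_eq_zero_left e]; exact W'.neg_mem hw'))
      obtain ⟨c, hcB, t, h2, h3⟩ := hc _ hne
      have h4 : c • x • c⁻¹ • (u + w') = u + w' := by rw [h3]; simp [h2]
      have m1 : c • x • c⁻¹ • u ∈ W := hW.1 _ hcB _ (hxW W hW.1 _ (hW.1 _ (B.inv_mem hcB) _ huW))
      have m2 : c • x • c⁻¹ • w' ∈ W' := hW'.1 _ hcB _ (hxW W' hW'.1 _ (hW'.1 _ (B.inv_mem hcB) _ hw'))
      simp only [smul_add] at h4
      have h5 : c • x • c⁻¹ • u - u = w' - c • x • c⁻¹ • w' := by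
        rw [sub_eq_sub_iff_add_eq_add, h4, add_comm]
      have h6 : c • x • c⁻¹ • u - u = 0 := ez _ (W.sub_mem m1 huW) (h5 ▸ W'.sub_mem hw' m2)
      have h7 : c • x • c⁻¹ • w' = w' := by rw [h6] at h5; exact (sub_eq_zero.1 h5.symm).symm
      have h8 : c⁻¹ ∈ center G := h.two hx (B.inv_mem hcB) hu0 h1 (by
        rw [eq_inv_smul_iff]; exact sub_eq_zero.1 h6)
      rw [← mul_smul x, mem_center_iff.1 h8 x, mul_smul, smul_inv_smul] at h7
      exact h7
    obtain ⟨⟨w', hw'⟩, hw0'⟩ := AddSubgroup.ne_bot_iff_exists_ne_zero.1 hW'.2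
    obtain ⟨b0, hb0, hz⟩ := h.nz
    exact hz (h.two hx hb0 (fun e => hw0' (Subtype.ext e)) (hall _ hw') (hall _ (hW'.1 _ hb0 _ hw')))
  obtain ⟨M, hMW, hM⟩ := exists_minimal_le_of_wellFoundedLT P W ⟨hW, h0⟩
  have hG : ∀ (g : G), ∀ v ∈ M, g • v ∈ M := by
    intro g
    let Mg := M.comap (DistribSMul.toAddMonoidHom V g)
    have hg : ∀ v, v ∈ Mg ↔ g • v ∈ M := fun v => Iff.rfl
    have hP : P Mg := ⟨fun b hb v hv => by
      rw [hg] at hv ⊢
      have := hM.1.1 _ (cjB hb g) _ hv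
      simpa [mul_smul] using this, by
      obtain ⟨⟨w, hw⟩, hw0⟩ := AddSubgroup.ne_bot_iff_exists_ne_zero.1 hM.1.2
      intro e
      have : g⁻¹ • w ∈ Mg := by rw [hg]; simpa using hw
      rw [e, AddSubgroup.mem_bot, smul_eq_zero_iff_eq] at this
      exact hw0 (Subtype.ext this)⟩
    have := hM.2 (y := M ⊓ Mg) ⟨fun b hb v hv => ⟨hM.1.1 b hb v hv.1, hP.1 b hb v hv.2⟩, hI _ _ hM.1 hP⟩
      inf_le_left
    exact fun v hv => (hg v).1 (this hv).2
  rcases hs M hG with e | e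
  · exact absurd e hM.1.2
  · exact top_le_iff.1 (e ▸ hMW)

/-- the final contradiction -/
theorem Hy.fin (h : Hy B V) {x Y : G} {m : ℕ} (hx : x ∉ B) (hY : Y ∉ B) (hxY : Y * x = x * Y) (hm : 0 < m)
    (hYm : Y ^ m ∈ B) (hi : ∀ i, 0 < i → i < m → Y ^ i ∉ B) (hxi : ∀ i : ℕ, x * Y ^ i ∉ B)
    (hs : ∀ U : AddSubgroup V, (∀ (g : G), ∀ v ∈ U, g • v ∈ U) → U = ⊥ ∨ U = ⊤)
    (hc : ∀ w : V, w ≠ 0 → ∃ b ∈ B, ∃ u : V, x • u = u ∧ w = b • u) {u : V} (hu : u ≠ 0) (hxu : x • u = u) :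
    False := by
  let a : G → V → V := fun b v => ∑ i ∈ Finset.range m, (Y ^ i * b * (Y ^ i)⁻¹) • v
  have aB : ∀ b ∈ B, ∀ c ∈ B, ∀ v, a b (c • v) = c • a b v := fun b hb c hc v => by
    simp only [a, Finset.smul_sum, ← mul_smul]
    exact Finset.sum_congr rfl fun i _ => by rw [h.ab _ (cjB hb _) _ hc]
  have aY : ∀ b ∈ B, ∀ v, a b (Y • v) = Y • a b v := fun b hb v => by
    simp only [a, Finset.smul_sum, ← mul_smul]
    have := Finset.sum_range_succ' (fun i => (Y ^ i * b * (Y ^ i)⁻¹ * Y) • v) m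
    rw [Finset.sum_range_succ, h.ab _ hYm _ hb] at this
    simp only [mul_inv_cancel_right, pow_zero, one_mul, inv_one, mul_one] at this
    rw [add_right_cancel this]
    exact Finset.sum_congr rfl fun i _ => by congr 1; rw [pow_succ]; group
  have aadd : ∀ b v w, a b (v + w) = a b v + a b w := fun b v w => by
    simp only [a, smul_add, Finset.sum_add_distrib]
  have key : ∀ b ∈ B, x • a b u = a b u := by
    intro b hb
    by_cases h0 : a b u = 0
    · simp [h0]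
    obtain ⟨c, hcB, t, ht, e⟩ := hc _ h0
    have ht0 : t ≠ 0 := fun e0 => h0 (by simp [e, e0])
    let W : AddSubgroup V :=
      { carrier := {v | x • c⁻¹ • a b v = c⁻¹ • a b (x • v)}
        zero_mem' := by simp [a]
        add_mem' := fun {v w} hv hw => by
          simp only [Set.mem_ofPred_eq, smul_add, aadd] at hv hw ⊢
          rw [hv, hw]
        neg_mem' := fun {v} hv => by
          simp only [Set.mem_ofPred_eq, a, smul_neg, Finset.sum_neg_distrib] at hv ⊢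
          rw [hv] }
    have hW : ∀ v, v ∈ W ↔ x • c⁻¹ • a b v = c⁻¹ • a b (x • v) := fun v => Iff.rfl
    have hT : W = ⊤ := h.simp hx hs hc W (fun d hd v hv => by
      rw [hW] at hv ⊢
      have e1 : ∀ z : V, x • d • z = (x * d * x⁻¹) • x • z := fun z => by simp [mul_smul]
      rw [aB b hb d hd, ← mul_smul c⁻¹, h.ab _ (B.inv_mem hcB) _ hd, mul_smul, e1, hv, e1,
        aB b hb _ (cjB hd x), ← mul_smul, ← mul_smul, h.ab _ (B.inv_mem hcB) _ (cjB hd x)]) (by
        intro e0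
        have : u ∈ W := by rw [hW, hxu, e]; simp [ht]
        rw [e0] at this
        exact hu this)
    have h1 : Y • u ∈ W := hT ▸ AddSubgroup.mem_top _
    have hxY' : ∀ z : V, x • z = z → x • Y • z = Y • z := fun z hz => by
      rw [← mul_smul, ← hxY, mul_smul, hz]
    rw [hW, hxY' u hxu, aY b hb, e] at h1
    have e2 : c⁻¹ • Y • c • t = (c⁻¹ * Y * c * Y⁻¹) • Y • t := by simp [mul_smul]
    rw [e2] at h1
    have h2 := h.cen hY hcB (h.two hx (Hy.cmB hcB) (fun e0 => ht0 ((smul_eq_zero_iff_eq Y).1 e0)) (hxY' t ht) h1)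
    rw [e, ← mul_smul, mem_center_iff.1 h2 x, mul_smul, ht]
  have s1 : ∀ z : G, ∑ b : B, (b : G)⁻¹ • z • a b u =
      ∑ i ∈ Finset.range m, tr B (z * Y ^ i) ((Y ^ i)⁻¹ • u) := fun z => by
    simp only [a, tr]
    rw [Finset.sum_comm]
    refine Finset.sum_congr rfl fun b _ => ?_
    simp only [Finset.smul_sum, mul_smul]
  have s2 := s1 1
  simp only [one_smul, one_mul] at s2
  rw [h.trs hm hi] at s2
  have s3 := s1 x
  rw [Finset.sum_eq_zero (s := Finset.range m) fun i _ => h.tr0 (hxi i) _] at s3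
  simp only [key _ (Subtype.prop _)] at s3
  rw [s3] at s2
  exact hu (h.cop (by simpa using s2.symm))

theorem cyc_mem {Q : Type u} [Group Q] [Finite Q] [IsCyclic Q] {x y : Q} (h : x ^ orderOf y = 1) :
    x ∈ zpowers y := by
  classical
  have := Fintype.ofFinite Q
  have h1 := IsCyclic.card_pow_eq_one_le (α := Q) (orderOf_pos y)
  have hs : (zpowers y : Set Q).toFinset ⊆ Finset.univ.filter fun a => a ^ orderOf y = 1 := by
    intro a ha
    obtain ⟨k, rfl⟩ := Set.mem_toFinset.1 ha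
    simp only [Finset.mem_filter, Finset.mem_univ, true_and]
    rw [← zpow_natCast, ← zpow_mul, mul_comm, zpow_mul, zpow_natCast, pow_orderOf_eq_one, one_zpow]
  have := Finset.eq_of_subset_of_card_le hs (h1.trans (by
    rw [Set.toFinset_card, ← Nat.card_eq_fintype_card]; exact (Nat.card_zpowers y).ge))
  exact Set.mem_toFinset.1 (this ▸ Finset.mem_filter.2 ⟨Finset.mem_univ _, h⟩)

theorem daf : DAF.{u} := by
  intro G _ _ B _ V _ _ _ _ hab ⟨g, hg⟩ hne hnz hfp hs hsr hst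
  classical
  have := Fintype.ofFinite B
  have h : Hy B V := ⟨fun a ha b hb => congrArg Subtype.val (hab.is_comm.comm (⟨a, ha⟩ : B) ⟨b, hb⟩),
    SetLike.not_le_iff_exists.1 hnz, hfp, hsr⟩
  have hgen : ∀ q : G ⧸ B, q ∈ zpowers (g : G ⧸ B) := by
    intro q
    obtain ⟨a, rfl⟩ := QuotientGroup.mk_surjective q
    obtain ⟨b, hb, c, ⟨k, rfl⟩, rfl⟩ := mem_sup_of_normal_left.1 (hg ▸ mem_top a)
    exact ⟨k, by simp [(QuotientGroup.eq_one_iff b).2 hb]⟩
  have hcy : IsCyclic (G ⧸ B) := ⟨⟨_, hgen⟩⟩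
  have hq : ∀ (y : G) (k : ℕ), y ^ k ∈ B ↔ orderOf (y : G ⧸ B) ∣ k := fun y k => by
    rw [orderOf_dvd_iff_pow_eq_one, ← QuotientGroup.mk_pow, QuotientGroup.eq_one_iff]
  have hgk : ∀ k : ℕ, g ^ k ∈ B ↔ B.index ∣ k := fun k => by
    rw [hq, orderOf_eq_card_of_forall_mem_zpowers hgen]; rfl
  have AC : ∀ v w : V, v ≠ 0 → w ≠ 0 → stabilizer G v ≤ stabilizer G w → stabilizer G v = stabilizer G w := by
    intro v w hv hw hle
    have e := (hst w hw).2.2 v hv (index_dvd_of_le hle)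
    refine eq_of_le_of_card_ge hle (le_of_eq ?_)
    have e1 := (stabilizer G v).card_mul_index
    rw [← (stabilizer G w).card_mul_index, ← e] at e1
    exact (Nat.eq_of_mul_eq_mul_right (Nat.pos_of_ne_zero FiniteIndex.index_ne_zero) e1).symm
  have SB : ∀ v : V, v ≠ 0 → ∀ y ∈ stabilizer G v, y ∈ B → y = 1 := fun v hv y hy hB => by
    by_contra h1
    exact hv (hsr y hB h1 v hy)
  have EQ : ∀ (y : G) (w w' : V), y ∉ B → w ≠ 0 → w' ≠ 0 → y • w = w → y • w' = w' →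
      stabilizer G w = stabilizer G w' := by
    intro y w w' hy hw hw' h1 h2
    by_contra hc
    have P : ∀ t : V, stabilizer G w ≤ stabilizer G t → stabilizer G w' ≤ stabilizer G t → t = 0 := by
      intro t a b
      by_contra ht
      exact hc ((AC w t hw ht a).trans (AC w' t hw' ht b).symm)
    have cm : ∀ t : V, t ≠ 0 → y • t = t → ∀ a ∈ stabilizer G t, a * y = y * a := fun t ht e a ha =>
      congrArg Subtype.val ((hst t ht).1.is_comm.comm (⟨a, ha⟩ : stabilizer G t) ⟨y, e⟩)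
    have hs0 : w + w' ≠ 0 := fun e => hw (P w le_rfl fun a ha => by
      rw [mem_stabilizer_iff] at ha ⊢
      rw [eq_neg_of_add_eq_zero_left e, smul_neg, ha])
    have hle : ∀ z ∈ stabilizer G (w + w'), z • w = w ∧ z • w' = w' := by
      intro z hz
      have hzy := cm _ hs0 (by rw [smul_add, h1, h2]) z hz
      rw [mem_stabilizer_iff, smul_add] at hz
      have e : z • w - w = w' - z • w' := by rw [sub_eq_sub_iff_add_eq_add, hz, add_comm]
      have e0 : z • w - w = 0 := P _ (fun a ha => by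
        have hc := h.cab hy (cm w hw h1 a ha) hzy
        rw [mem_stabilizer_iff] at ha ⊢
        rw [smul_sub, ← mul_smul, hc, mul_smul, ha]) (fun a ha => by
        have hc := h.cab hy (cm w' hw' h2 a ha) hzy
        rw [mem_stabilizer_iff] at ha ⊢
        rw [e, smul_sub, ← mul_smul, hc, mul_smul, ha])
      exact ⟨sub_eq_zero.1 e0, (sub_eq_zero.1 (e ▸ e0)).symm⟩
    exact hc ((AC _ _ hs0 hw fun z hz => (hle z hz).1).symm.trans (AC _ _ hs0 hw' fun z hz => (hle z hz).2))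
  have PR : ∀ v : V, v ≠ 0 → ∃ (y : G) (r : ℕ), r.Prime ∧ orderOf y = r ∧ stabilizer G v = zpowers y ∧ y ∉ B ∧
      r.Coprime (Nat.card B) ∧ orderOf (y : G ⧸ B) = r := by
    intro v hv
    have hc := (stabilizer G v).card_mul_index
    rw [← B.card_mul_index] at hc
    have h1 : Nat.card (stabilizer G v) ≠ 1 := fun e => (hst v hv).2.1 (by
      rw [e, one_mul] at hc; exact hc ▸ Dvd.intro_left _ rfl)
    obtain ⟨r, hr, hd⟩ := Nat.exists_prime_and_dvd h1
    have := Fact.mk hr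
    obtain ⟨⟨y, hy⟩, hy0⟩ := exists_prime_orderOf_dvd_card' r hd
    have hy1 : orderOf y = r := by simpa using hy0
    have hyB : y ∉ B := fun hB => by
      rw [SB v hv y hy hB, orderOf_one] at hy1
      exact hr.one_lt.ne hy1
    have hz : stabilizer G v = zpowers y := by
      refine le_antisymm (fun x hx => ?_) (zpowers_le.2 hy)
      by_contra hxy
      refine h.strict (x := x) (y := y) (fun i hi => SB v hv _ (pow_mem hy i) hi) (fun i hi => hxy ?_)
        fun w hw => ?_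
      · rw [eq_inv_of_mul_eq_one_left (SB v hv _ (mul_mem hx (pow_mem hy i)) hi)]
        exact inv_mem (pow_mem (mem_zpowers y) i)
      · by_cases hw0 : w = 0
        · simp [hw0]
        · exact (EQ y v w hyB hv hw0 hy hw ▸ hx : x ∈ stabilizer G w)
    refine ⟨y, r, hr, hy1, hz, hyB, (Nat.Prime.coprime_iff_not_dvd hr).2 ?_, ?_⟩
    · rintro ⟨k, hk⟩
      refine (hst v hv).2.1 ⟨k, ?_⟩
      rw [hz, Nat.card_zpowers, hy1, hk, mul_assoc, ← hz] at hc
      rw [Nat.eq_of_mul_eq_mul_left hr.pos hc, mul_comm]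
    · refine orderOf_eq_prime ?_ (fun e => hyB ((QuotientGroup.eq_one_iff y).1 e))
      rw [← QuotientGroup.mk_pow, ← hy1, pow_orderOf_eq_one]; rfl
  have D : ∀ d : ℕ, d ∣ B.index → d.Coprime (Nat.card B) → ∃ r : ℕ, r.Prime ∧ d ∣ r := by
    rintro d ⟨k, hk⟩ hco
    have hk0 : 0 < k := Nat.pos_of_ne_zero fun e => FiniteIndex.index_ne_zero (H := B) (by rw [hk, e, mul_zero])
    have h1 : ∀ i : ℕ, (g ^ (k * Nat.card B)) ^ i ∈ B → d ∣ i := fun i hi => by
      rw [← pow_mul, hgk, hk, mul_comm d, mul_assoc] at hi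
      exact hco.dvd_of_dvd_mul_left (Nat.dvd_of_mul_dvd_mul_left hk0 hi)
    have h2 : (g ^ (k * Nat.card B)) ^ d = 1 := by
      have hB := (hgk B.index).2 dvd_rfl
      have := congrArg Subtype.val (pow_card_eq_one' (x := (⟨_, hB⟩ : B)))
      rw [← pow_mul, show k * Nat.card B * d = B.index * Nat.card B by rw [hk]; ring, pow_mul]
      exact this
    obtain ⟨w, hw, e⟩ := h.fixv (y := g ^ (k * Nat.card B)) fun i hi => by
      obtain ⟨j, rfl⟩ := h1 i hi
      rw [pow_mul, h2, one_pow]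
    obtain ⟨y, r, hr, hy1, hz, -⟩ := PR w hw
    refine ⟨r, hr, h1 r ?_⟩
    obtain ⟨j, hj⟩ : g ^ (k * Nat.card B) ∈ zpowers y := hz ▸ e
    rw [← hj, ← zpow_natCast, ← zpow_mul, mul_comm, zpow_mul, zpow_natCast, ← hy1, pow_orderOf_eq_one, one_zpow]
    exact B.one_mem
  obtain ⟨v, hv⟩ := exists_ne (0 : V)
  obtain ⟨x, r, hr, hx1, hxz, hxB, hco, hxq⟩ := PR v hv
  have hxr : x ^ r = 1 := hx1 ▸ pow_orderOf_eq_one x
  have dv : ∀ y : G, orderOf (y : G ⧸ B) ∣ B.index := fun y => orderOf_dvd_natCard _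
  have two : ∀ r' : ℕ, r'.Prime → r * r' ∣ B.index → ¬ r'.Coprime (Nat.card B) := fun r' hr' hd hc => by
    obtain ⟨s, hs, hd⟩ := D _ hd (Nat.Coprime.mul_left hco hc)
    rcases (Nat.dvd_prime hs).1 hd with e | e
    · exact hr.one_lt.ne' (Nat.eq_one_of_mul_eq_one_right e)
    · exact Nat.not_prime_mul hr.one_lt.ne' hr'.one_lt.ne' (e ▸ hs)
  obtain ⟨m, hm⟩ : r ∣ B.index := hxq ▸ dv x
  have hrm : r.Coprime m := (Nat.Prime.coprime_iff_not_dvd hr).2 fun hd =>
    two r hr (hm ▸ Nat.mul_dvd_mul_left r hd) hco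
  have hc : ∀ w : V, w ≠ 0 → ∃ b ∈ B, ∃ u : V, x • u = u ∧ w = b • u := by
    intro w hw
    obtain ⟨y, r', hr', hy1, hz, hyB, hco', hyq⟩ := PR w hw
    have e : r' = r := by
      by_contra hne
      exact two r' hr' (((Nat.coprime_primes hr hr').2 (Ne.symm hne)).mul_dvd_of_dvd_of_dvd ⟨m, hm⟩
        (hyq ▸ dv y)) hco'
    subst e
    have hmem : (x : G ⧸ B) ∈ zpowers (y : G ⧸ B) := cyc_mem (by rw [hyq, ← hxq, pow_orderOf_eq_one])
    obtain ⟨k, hk⟩ := hmem
    have hcB : y ^ k * x⁻¹ ∈ B := by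
      rw [← QuotientGroup.eq_one_iff]; simp [show (y : G ⧸ B) ^ k = x from hk]
    obtain ⟨b, hb, e⟩ := h.cj hxB hco hxr hcB (by
      rw [inv_mul_cancel_right, ← zpow_natCast, ← zpow_mul, mul_comm, zpow_mul, zpow_natCast, ← hy1,
        pow_orderOf_eq_one, one_zpow])
    rw [inv_mul_cancel_right] at e
    have hf : y ^ k • w = w := (hz ▸ zpow_mem (mem_zpowers y) k : y ^ k ∈ stabilizer G w)
    refine ⟨b, hb, b⁻¹ • w, ?_, by simp⟩
    rw [← e, mul_smul, mul_smul, smul_eq_iff_eq_inv_smul] at hf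
    exact hf
  by_contra hnp
  have hm1 : m ≠ 1 := fun e => hnp (by rw [hm, e, mul_one]; exact hr)
  have hm0 : 0 < m := Nat.pos_of_ne_zero fun e => FiniteIndex.index_ne_zero (H := B) (by rw [hm, e, mul_zero])
  have hcB : g ^ r * x * (g ^ r)⁻¹ * x⁻¹ ∈ B := by
    rw [← QuotientGroup.eq_one_iff]
    have := hcy.isMulCommutative.is_comm.comm ((g : G ⧸ B) ^ r) x
    simp [this]
  obtain ⟨b, hb, e⟩ := h.cj hxB hco hxr hcB (by rw [inv_mul_cancel_right, conj_pow, hxr]; simp)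
  rw [inv_mul_cancel_right] at e
  have hYq : ((b⁻¹ * g ^ r : G) : G ⧸ B) = (g : G ⧸ B) ^ r := by simp [(QuotientGroup.eq_one_iff b).2 hb]
  have hY : ∀ i : ℕ, (b⁻¹ * g ^ r) ^ i ∈ B ↔ m ∣ i := fun i => by
    rw [← QuotientGroup.eq_one_iff, QuotientGroup.mk_pow, hYq, ← pow_mul, ← QuotientGroup.mk_pow,
      QuotientGroup.eq_one_iff, hgk, hm, Nat.mul_dvd_mul_iff_left hr.pos]
  refine h.fin (Y := b⁻¹ * g ^ r) hxB (fun hB => hm1 (Nat.dvd_one.1 ((hY 1).1 (by simpa using hB)))) ?_ hm0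
    ((hY m).2 dvd_rfl) (fun i h0 hi hB => absurd (Nat.le_of_dvd h0 ((hY i).1 hB)) (not_le.2 hi)) ?_ hs hc hv
    (hxz ▸ mem_zpowers x : x ∈ stabilizer G v)
  · calc b⁻¹ * g ^ r * x = b⁻¹ * (g ^ r * x * (g ^ r)⁻¹) * g ^ r := by group
      _ = _ := by rw [← e]; group
  · intro i hi
    rw [← QuotientGroup.eq_one_iff, QuotientGroup.mk_mul, mul_eq_one_iff_eq_inv] at hi
    have h1 : (x : G ⧸ B) ^ m = 1 := by
      rw [hi, inv_pow, ← QuotientGroup.mk_pow, ← pow_mul, (QuotientGroup.eq_one_iff _).2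
        ((hY _).2 (Dvd.intro_left i rfl)), inv_one]
    have := orderOf_dvd_of_pow_eq_one h1
    rw [hxq] at this
    exact hr.one_lt.ne' (hrm.eq_one_of_dvd this)

end H4.ND
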