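import Cfsg.Agent.H4.ND1

/-! S4780: `DA` from its faithful case. -/

set_option autoImplicit false
set_option linter.unusedVariables false

open Subgroup MulAction H19 H6

namespace H4.ND

universe u

theorem da : H24.ND.DA.{u} := by
  intro G _ _ B _ V _ _ _ _ hab ⟨g, hg⟩ hne hnz hfp _ hs hsr hst
  let φ := DistribMulAction.toAddAut G V
  let f := φ.rangeRestrict
  have hf : Function.Surjective f := φ.rangeRestrict_surjective
  have act : ∀ (x : G) (v : V), f x • v = x • v := fun _ _ => rfl
  have hZ : center G ≤ B := fun z hz => by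
    by_contra h
    exact hnz fun b hb => hfp z h b hb (by rw [← mem_center_iff.1 hz b]; simp)
  obtain ⟨v0, hv0⟩ := exists_ne (0 : V)
  obtain ⟨b0, hb0, hb0z⟩ := SetLike.not_le_iff_exists.1 hnz
  have hkB : ∀ x, f x = 1 → x ∈ B := fun x hx => by
    by_contra h
    have h1 : x * b0 * x⁻¹ * b0⁻¹ ∈ B := B.mul_mem (cjB hb0 x) (B.inv_mem hb0)
    refine hv0 (hsr _ h1 (fun hz => hb0z (hfp x h b0 hb0 hz)) v0 ?_)
    rw [← act]; simp [hx]
  have hkZ : ∀ x, f x = 1 → x ∈ center G := fun x hx => by
    by_contra h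
    exact hv0 (hsr x (hkB x hx) h v0 (by rw [← act, hx, one_smul]))
  have hmem : ∀ x, f x ∈ B.map f ↔ x ∈ B := fun x => ⟨fun ⟨b, hb, e⟩ => by
    have := B.mul_mem hb (hkB (b⁻¹ * x) (by simp [e]))
    simpa using this, fun h => ⟨x, h, rfl⟩⟩
  have hcen : ∀ x, f x ∈ center φ.range ↔ x ∈ center G := fun x => ⟨fun h => by
    have hc : ∀ y, y * x * y⁻¹ * x⁻¹ ∈ center G := fun y => hkZ _ (by
      simp only [map_mul, map_inv]; rw [mem_center_iff.1 h (f y)]; simp)
    have hxB : x ∈ B := by
      by_contra hx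
      refine hb0z (hfp x hx b0 hb0 ?_)
      simpa [mul_assoc] using (center G).inv_mem (hc b0)
    obtain ⟨y, hy⟩ : ∃ y, y ∉ B := by
      by_contra hc
      push Not at hc
      exact hne (eq_top_iff.2 fun y _ => hc y)
    exact hfp y hy x hxB (hc y), fun h => mem_center_iff.2 fun y => by
      obtain ⟨y, rfl⟩ := hf y
      rw [← map_mul, mem_center_iff.1 h y, map_mul]⟩
  have : (B.map f).Normal := (inferInstance : B.Normal).map f hf
  have hcm : (B.map f).comap f = B := by ext x; exact hmem x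
  have hi : (B.map f).index = B.index := by
    rw [← index_comap_of_surjective _ hf, hcm]
  have hsi : ∀ v : V, (stabilizer φ.range v).index = (stabilizer G v).index := fun v => by
    rw [← index_comap_of_surjective _ hf]; rfl
  have : Finite φ.range := Finite.of_surjective f hf
  rw [← hi]
  refine daf V inferInstance ⟨f g, ?_⟩ ?_ ?_ ?_ (fun U hU => hs U fun x v hv => hU (f x) v hv) ?_ ?_
  · rw [← MonoidHom.map_zpowers, ← Subgroup.map_sup, hg, map_top_of_surjective _ hf]
  · intro e
    exact hne (eq_top_iff.2 fun y _ => (hmem y).1 (e ▸ mem_top _))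
  · exact fun e => hb0z ((hcen b0).1 (e ((hmem b0).2 hb0)))
  · intro x hx w hw e
    obtain ⟨x, rfl⟩ := hf x
    obtain ⟨w, hw, rfl⟩ := hw
    exact (hcen w).2 (hfp x (fun h => hx ((hmem x).2 h)) w hw ((hcen _).1 (by simpa using e)))
  · rintro _ ⟨x, hx, rfl⟩ h1 v e
    by_contra hv
    have hz : x ∈ center G := by
      by_contra hz
      exact hv (hsr x hx hz v e)
    let U : AddSubgroup V :=
      { carrier := {w | x • w = w}
        zero_mem' := smul_zero x
        add_mem' := fun {a b} (ha : x • a = a) (hb : x • b = b) => show x • (a + b) = a + b by rw [smul_add, ha, hb]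
        neg_mem' := fun {a} (ha : x • a = a) => show x • (-a) = -a by rw [smul_neg, ha] }
    rcases hs U (fun y w (hw : x • w = w) => show x • y • w = y • w by
      rw [← mul_smul, ← mem_center_iff.1 hz y, mul_smul, hw]) with e1 | e1
    · exact hv (AddSubgroup.mem_bot.1 (e1 ▸ (e : v ∈ U)))
    · refine h1 (Subtype.ext ?_)
      ext w
      exact (e1 ▸ AddSubgroup.mem_top w : w ∈ U)
  · intro v hv
    simp only [hi, hsi]
    refine ⟨⟨⟨fun a b => ?_⟩⟩, (hst v hv).2⟩
    obtain ⟨a, ha⟩ := a
    obtain ⟨b, hb⟩ := b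
    obtain ⟨a, rfl⟩ := hf a
    obtain ⟨b, rfl⟩ := hf b
    have := congrArg Subtype.val ((hst v hv).1.is_comm.comm (⟨a, ha⟩ : stabilizer G v) ⟨b, hb⟩)
    exact Subtype.ext (by simpa using congrArg f this)

end H4.ND
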