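import Cfsg.Agent.H4.Pc2

/-! Extremely closed abelian `p`-subgroups. -/

namespace H4.Pc

open Subgroup Cfsg H5 H7
open scoped commutatorElement Pointwise

universe u

variable {G : Type u} [Group G] {p : ℕ} {H : Subgroup G}

variable (p H) in
/-- any two conjugates lie in a fixed-point-free extension -/
def EC : Prop := ∀ g : G, ∃ K : Subgroup G, (Nat.card K).Coprime p ∧ H ≤ normalizer (K : Set G) ∧
  (∀ w ∈ H, g * w * g⁻¹ ∈ K ⊔ H) ∧ K ⊓ centralizer (H : Set G) = ⊥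

variable [Finite G] [hp : Fact p.Prime]

theorem EC.map (h : EC p H) (hH : IsPGroup p H) {Q : Type*} [Group Q] {f : G →* Q}
    (hf : Function.Surjective f) : EC p (H.map f) := fun g => by
  obtain ⟨g, rfl⟩ := hf g
  obtain ⟨K, c1, n1, h1, h2⟩ := h g
  refine ⟨K.map f, c1.coprime_dvd_left (card_map_dvd _ _),
    (map_mono n1).trans (le_normalizer_map f), ?_, eq_bot_iff.2 ?_⟩
  · rintro _ ⟨w, hw, rfl⟩
    simpa only [map_mul, map_inv, Subgroup.map_sup] using mem_map_of_mem f (h1 w hw)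
  · rintro _ ⟨⟨k, hk, rfl⟩, hc⟩
    obtain ⟨n, hn, h3⟩ := H2.exists_mul_mem_centralizer (A := H) (N := K ⊓ f.ker) (k := k)
      (H2.le_normalizer_inf n1 le_normalizer_of_normal)
      (H2.coprime_card_of_isPGroup hH (c1.coprime_dvd_left (card_dvd_of_le inf_le_left))).symm
      (.inl (H2.isSolvable_of_isPGroup hH)) fun a ha =>
        ⟨mul_mem (H2.conj_mem_of_le_normalizer n1 ha hk) (K.inv_mem hk), by
          have := hc _ (mem_map_of_mem f ha)
          change f _ = 1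
          simp only [map_mul, map_inv, this, mul_inv_cancel_right, mul_inv_cancel]⟩
    have h4 : n * k = 1 := mem_bot.1 (h2 ▸ ⟨mul_mem hn.1 hk, h3⟩)
    rw [mem_bot, eq_inv_of_mul_eq_one_right h4, map_inv, inv_eq_one]
    exact hn.2

omit hp in
theorem EC.sub (h : EC p H) {L : Subgroup G} (hL : H ≤ L) : EC p (H.subgroupOf L) := fun g => by
  obtain ⟨K, c1, n1, h1, h2⟩ := h g
  refine ⟨K.subgroupOf L, c1.coprime_dvd_left (card_comap_dvd_of_injective K L.subtype
    Subtype.coe_injective), fun w hw =>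
    H2.mem_normalizer_of_conj_mem fun x hx => H2.conj_mem_of_le_normalizer n1 hw hx,
    fun w hw => ?_, eq_bot_iff.2 fun k hk => ?_⟩
  · obtain ⟨x, hx, v, hv, e⟩ := (H2.mem_sup_of_le_normalizer n1).1 (h1 w hw)
    have h3 : x ∈ L := by
      simpa [← e] using mul_mem (g * w * g⁻¹).2 (inv_mem (hL hv))
    rw [show g * w * g⁻¹ = ⟨x, h3⟩ * ⟨v, hL hv⟩ from Subtype.ext e.symm]
    exact mul_mem_sup hx hv
  · exact Subtype.ext (mem_bot.1 (h2 ▸ ⟨hk.1, fun w hw =>
      congrArg Subtype.val (hk.2 ⟨w, hL hw⟩ hw)⟩ : (k : G) ∈ (⊥ : Subgroup G)))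

theorem EC.norm_aux (n : ℕ) : ∀ (G : Type u) [Group G] [Finite G] (H : Subgroup G),
    Nat.card G = n → IsPGroup p H → (∀ x ∈ H, H ≤ centralizer {x}) → EC p H →
    ∀ g : G, ∀ w ∈ H, g * w * g⁻¹ ∈ pPrimeCore p G ⊔ H := by
  induction n using Nat.strong_induction_on with
  | _ n ih =>
  intro G _ _ H hn hH hab h
  have hq : ∀ (N : Subgroup G) [N.Normal], N ≠ ⊥ → pPrimeCore p (G ⧸ N) = ⊥ →
      ∀ g : G, ∀ w ∈ H, g * w * g⁻¹ ∈ N ⊔ H := fun N _ h1 h2 g w hw => by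
    have := ih _ (by
      rw [← hn, ← N.card_mul_index]
      exact lt_mul_of_one_lt_left Nat.card_pos ((N.one_lt_card_iff_ne_bot).2 h1)) _
      (H.map (QuotientGroup.mk' N)) rfl (hH.map _) (by
        rintro _ ⟨x, hx, rfl⟩ _ ⟨y, hy, rfl⟩
        rw [mem_centralizer_singleton_iff, ← map_mul, ← map_mul,
          mem_centralizer_singleton_iff.1 (hab x hx hy)])
      (h.map hH (QuotientGroup.mk'_surjective N)) (g : G ⧸ N) _ (mem_map_of_mem _ hw)
    rw [h2, bot_sup_eq] at this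
    rw [sup_comm, ← QuotientGroup.ker_mk' N, ← comap_map_eq]
    exact this
  by_cases hO : pPrimeCore p G = ⊥
  swap
  · exact hq _ hO H1.pPrimeCore_quotient_pPrimeCore
  intro g w hw
  refine mem_sup_right ?_
  by_cases hZ : H ⊓ center G = ⊥
  swap
  · have : (H ⊓ center G).Normal := ⟨fun x hx g => by
      rwa [mem_center_iff.1 hx.2 g, mul_inv_cancel_right]⟩
    exact (sup_le inf_le_left le_rfl : H ⊓ center G ⊔ H ≤ H)
      (hq _ hZ (pPrimeCore_quotient_center hO inf_le_right) g w hw)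
  refine (Loc.normal ⟨hH, hab, fun K hK K1 m hm w hw => ?_, fun g => ?_⟩ hO
    fun u h1 h2 => mem_bot.1 (hZ ▸ ⟨h1, h2⟩)).conj_mem w hw g
  · have := ih _ (hn ▸ (H28.card_lt_of_lt (lt_top_iff_ne_top.2 K1)).trans_eq card_top) _
      (H.subgroupOf K) rfl (hH.of_equiv (subgroupOfEquivOfLe hK).symm) (fun x hx y hy =>
        mem_centralizer_singleton_iff.2 (Subtype.ext
          (mem_centralizer_singleton_iff.1 (hab x hx hy)))) (h.sub hK) ⟨m, hm⟩ ⟨w, hK hw⟩ hw
    have h1 := mem_map_of_mem K.subtype this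
    rwa [Subgroup.map_sup, map_subgroupOf_eq_of_le hK] at h1
  · obtain ⟨K, c1, n1, h1, h2⟩ := h g
    exact ⟨K, c1, n1, h1, h2 ▸ bot_le⟩

theorem EC.norm (h : EC p H) (hH : IsPGroup p H) (hab : ∀ x ∈ H, H ≤ centralizer {x}) :
    normalizer (H : Set G) ⊔ pPrimeCore p G = ⊤ := eq_top_iff.2 fun g _ => by
  obtain ⟨k, hk, h1⟩ := exists_conj' hH H1.pPrimeCore_coprime le_normalizer_of_normal
    (EC.norm_aux _ G H rfl hH hab h g)
  rw [← mul_inv_cancel_left k g]
  exact mul_mem (mem_sup_right hk) (mem_sup_left h1)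

theorem EC.fpf (h : EC p H) (hH : IsPGroup p H) (hab : ∀ x ∈ H, H ≤ centralizer {x})
    (p2 : p ≠ 2) (n : ℕ) : ∀ X : Subgroup G, Nat.card X = n → (Nat.card X).Coprime p →
    H ≤ normalizer (X : Set G) → ⁅X, H⁆ ⊓ centralizer (H : Set G) = ⊥ := by
  induction n using Nat.strong_induction_on with
  | _ n ih =>
  intro X hn hX nX
  let Λ : Set G := {x | ∃ K ≤ X, H ≤ normalizer (K : Set G) ∧ K ⊓ centralizer (H : Set G) = ⊥ ∧
    x ∈ K}
  have cp : ∀ K ≤ X, (Nat.card K).Coprime p := fun K hK => hX.coprime_dvd_left (card_dvd_of_le hK)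
  have hΛ : ∀ w ∈ H, ∀ x ∈ Λ, w * x * w⁻¹ ∈ Λ := fun w hw x ⟨K, a1, a2, a3, a4⟩ =>
    ⟨K, a1, a2, a3, H2.conj_mem_of_le_normalizer a2 hw a4⟩
  have c1 : Nat.card X ≤ Nat.card Λ * Nat.card (X ⊓ centralizer (H : Set G) : Subgroup G) := by
    rw [← Nat.card_prod]
    refine Nat.card_le_card_of_surjective (fun z => (⟨z.1 * z.2, mul_mem
      (z.1.2.choose_spec.1 z.1.2.choose_spec.2.2.2) z.2.2.1⟩ : X)) fun x => ?_
    obtain ⟨K, c1, n1, h1, h2⟩ := h x
    have n2 := H2.le_normalizer_inf n1 nX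
    obtain ⟨k, hk, h3⟩ := exists_conj' hH (cp _ inf_le_right) n2 (g := x) fun w hw => by
      obtain ⟨y, hy, v, hv, e⟩ := (H2.mem_sup_of_le_normalizer n1).1 (h1 w hw)
      rw [← e]
      refine mul_mem_sup (mem_inf.2 ⟨hy, mem_of_reg hH nX ?_ (reg_of_mem c1 hy)⟩) hv
      rw [eq_mul_inv_of_mul_eq e]
      exact mul_mem (mul_mem (mul_mem (mem_sup_left x.2) (mem_sup_right hw))
        (mem_sup_left (inv_mem x.2))) (mem_sup_right (inv_mem hv))
    have h4 := X.mul_mem (X.inv_mem hk.2) x.2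
    exact ⟨(⟨k, _, inf_le_right, n2, eq_bot_iff.2 (h2 ▸ inf_le_inf_right _ inf_le_left), hk⟩,
      ⟨_, h4, cent_of_norm hH hX nX h4 h3⟩), Subtype.ext (mul_inv_cancel_left _ _)⟩
  have key : ∀ a ∈ H, ¬ X ≤ centralizer {a} → ∀ g ∈ X, ∀ x ∈ Λ,
      a⁻¹ * (g * (a * x) * g⁻¹) ∈ Λ := fun a ha a1 => by
    set D := X ⊓ centralizer {a} with hD
    have nD : H ≤ normalizer (D : Set G) := H2.le_normalizer_inf nX ((hab a ha).trans le_normalizer)
    have hL := ih _ (hn ▸ H28.card_lt_of_lt (lt_of_le_of_ne inf_le_left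
      fun e => a1 (inf_eq_left.1 e))) D rfl (cp _ inf_le_left) nD
    have LD : ⁅D, H⁆ ≤ D := H2.commutator_le_of_le_normalizer nD
    have nL : D ≤ normalizer ((⁅D, H⁆ : Subgroup G) : Set G) := normalizer_commutator_ge_left _ _
    have CD : X ⊓ centralizer (H : Set G) ≤ D := fun x hx =>
      ⟨hx.1, mem_centralizer_singleton_iff.2 (hx.2 a ha).symm⟩
    let S : Set G := {s | ∃ g ∈ X, ∃ l ∈ ⁅D, H⁆, s = g * (a * l) * g⁻¹}
    have s1 : (a * ·) '' Λ ⊆ S := by
      rintro _ ⟨x, ⟨K, a1, a2, a3, a4⟩, rfl⟩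
      obtain ⟨l, hl, c, hc, e⟩ := exists_part hH (cp K a1) a2 ha (a := a * x)
        (H2.conj_mem_of_le_normalizer a2 ha a4)
      refine ⟨l, a1 hl, c, ?_, by rw [← e]; group⟩
      have n3 := H2.le_normalizer_inf a2 ((hab a ha).trans le_normalizer)
      rw [← H2.commutator_sup_centralizer n3 (H2.coprime_card_of_isPGroup hH
        (cp _ (inf_le_left.trans a1))).symm (.inl (H2.isSolvable_of_isPGroup hH))] at hc
      exact sup_le (commutator_mono (inf_le_inf_right _ a1) le_rfl)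
        ((inf_le_inf_right _ inf_le_left).trans (a3 ▸ bot_le)) hc
    have s2 : Nat.card S * Nat.card D ≤ Nat.card X * Nat.card (⁅D, H⁆ : Subgroup G) := by
      choose g hg l hl e using fun s : S => s.2
      rw [← Nat.card_prod, ← Nat.card_prod]
      refine Nat.card_le_card_of_injective (fun z => ((⟨g z.1 * z.2, mul_mem (hg _) z.2.2.1⟩,
        ⟨(z.2 : G)⁻¹ * l z.1 * z.2, H2.conj_mem_of_le_normalizer' nL z.2.2 (hl _)⟩) :
          X × (⁅D, H⁆ : Subgroup G))) fun z z' hz => ?_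
      have e1 : g z.1 * z.2 = g z'.1 * z'.2 := congrArg (fun t => (t.1 : G)) hz
      have e2 : (z.2 : G)⁻¹ * l z.1 * z.2 = (z'.2 : G)⁻¹ * l z'.1 * z'.2 :=
        congrArg (fun t => (t.2 : G)) hz
      have e3 : ∀ z : S × D, (z.1 : G) =
          g z.1 * z.2 * (a * ((z.2 : G)⁻¹ * l z.1 * z.2)) * (g z.1 * z.2)⁻¹ := fun z => by
        rw [e z.1, mul_assoc (g z.1) z.2, ← mul_assoc (z.2 : G) a,
          mem_centralizer_singleton_iff.1 z.2.2.2]
        group
      have e4 : z.1 = z'.1 := Subtype.ext (by rw [e3 z, e3 z', e1, e2])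
      rw [e4] at e1
      exact Prod.ext e4 (Subtype.ext (mul_left_cancel e1))
    have s3 : Nat.card (⁅D, H⁆ : Subgroup G) *
        Nat.card (X ⊓ centralizer (H : Set G) : Subgroup G) ≤ Nat.card D := by
      have e : ⁅D, H⁆ ⊓ (X ⊓ centralizer (H : Set G)) = ⊥ :=
        eq_bot_iff.2 (hL ▸ inf_le_inf_left _ inf_le_right)
      rw [← H2.card_sup_mul_card_inf (CD.trans nL), e, card_bot, mul_one]
      exact card_le_of_le (sup_le LD CD)
    have s4 : Nat.card S ≤ Nat.card Λ := Nat.le_of_mul_le_mul_right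
      (s2.trans ((Nat.mul_le_mul_right _ c1).trans (by
        rw [mul_assoc, mul_comm _ (Nat.card (⁅D, H⁆ : Subgroup G))]
        exact Nat.mul_le_mul_left _ s3))) Nat.card_pos
    have s5 := Set.eq_of_subset_of_ncard_le s1 (by
      rwa [Set.ncard_image_of_injective _ (mul_right_injective a)])
    intro g hg x hx
    obtain ⟨g', hg', l, hl, e⟩ := s1 ⟨x, hx, rfl⟩
    obtain ⟨y, hy, e'⟩ : g * (a * x) * g⁻¹ ∈ (a * ·) '' Λ :=
      s5 ▸ ⟨g * g', mul_mem hg hg', l, hl, by rw [show a * x = _ from e]; group⟩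
    rwa [← e', inv_mul_cancel_left]
  have h1 : ⁅H, X⁆ ≤ MulAction.stabilizer G Λ := commutator_le.2 fun a ha g hg => by
    by_cases a1 : X ≤ centralizer {a}
    · rw [commutatorElement_eq_one_iff_mul_comm.2 (mem_centralizer_singleton_iff.1 (a1 hg)).symm]
      exact one_mem _
    replace ha := inv_mem ha
    have a2 : ¬ X ≤ centralizer {a⁻¹} := fun e => a1 fun x hx => mem_centralizer_singleton_iff.2
      (Commute.inv_right_iff.1 (mem_centralizer_singleton_iff.1 (e hx)))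
    have a3 : ¬ X ≤ centralizer {a⁻¹ * a⁻¹} := fun e => a2 fun x hx => by
      obtain ⟨k, hk⟩ := isPElt_of_mem hH ha
      obtain ⟨m, hm⟩ := exists_pow_eq_self_of_coprime (x := a⁻¹) (n := 2) (by
        rw [hk]; exact ((Nat.coprime_primes Nat.prime_two hp.out).2 p2.symm).pow_right k)
      rw [← hm, sq]
      exact mem_centralizer_singleton_iff.2
        (Commute.pow_right (mem_centralizer_singleton_iff.1 (e hx)) m)
    refine (MulAction.mem_stabilizer_set_iff_smul_set_subset Λ.toFinite).2 ?_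
    rintro _ ⟨x, hx, rfl⟩
    have := hΛ _ ha _ (key _ (mul_mem ha ha) a3 g hg _
      (key _ ha a2 _ (inv_mem hg) _ (hΛ _ (inv_mem ha) x hx)))
    rwa [show a⁻¹ * ((a⁻¹ * a⁻¹)⁻¹ * (g * (a⁻¹ * a⁻¹ * (a⁻¹⁻¹ * (g⁻¹ * (a⁻¹ * (a⁻¹⁻¹ * x * a⁻¹⁻¹⁻¹)) *
      g⁻¹⁻¹))) * g⁻¹)) * a⁻¹⁻¹ = ⁅a, g⁆ • x by rw [commutatorElement_def, smul_eq_mul]; group] at this
  refine eq_bot_iff.2 fun x hx => ?_
  have h2 : x • (1 : G) ∈ Λ := by
    rw [← MulAction.mem_stabilizer_iff.1 (h1 (commutator_comm X H ▸ hx.1))]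
    exact Set.smul_mem_smul_set ⟨⊥, bot_le, le_normalizer_of_normal, bot_inf_eq _, one_mem _⟩
  obtain ⟨K, -, -, a3, a4⟩ := h2
  exact a3 ▸ ⟨by simpa using a4, hx.2⟩

theorem EC.closure (h : EC p H) (hH : IsPGroup p H) (hab : ∀ x ∈ H, H ≤ centralizer {x})
    (p2 : p ≠ 2) : normalClosure (H : Set G) ⊓ normalizer (H : Set G) = H := by
  refine le_antisymm ?_ (le_inf le_normalClosure le_normalizer)
  have c1 : (Nat.card (pPrimeCore p G)).Coprime p := H1.pPrimeCore_coprime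
  have h1 := h.fpf hH hab p2 _ _ rfl c1 le_normalizer_of_normal
  have h2 := h.norm hH hab
  generalize hX : pPrimeCore p G = X at c1 h1 h2
  have : X.Normal := hX ▸ inferInstance
  have nL : H ≤ normalizer ((⁅X, H⁆ : Subgroup G) : Set G) := normalizer_commutator_ge_right _ _
  have : (⁅X, H⁆ ⊔ H).Normal := normalizer_eq_top_iff.1 (eq_top_iff.2 (h2 ▸ sup_le
    (H2.le_normalizer_sup (H2.le_normalizer_commutator le_normalizer_of_normal le_rfl) le_rfl)
    (le_normalizer_iff_commutator_le_right.2 (by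
      refine commutator_le.2 fun x hx y hy => mem_sup_left ?_
      obtain ⟨a, ha, b, hb, rfl⟩ := (H2.mem_sup_of_le_normalizer nL).1 hy
      have := mul_mem (mul_mem (H2.conj_mem_of_le_normalizer (normalizer_commutator_ge_left _ _) hx ha)
        (commutator_mem_commutator hx hb)) (inv_mem ha)
      rwa [show x * a * x⁻¹ * ⁅x, b⁆ * a⁻¹ = ⁅x, a * b⁆ by
        simp only [commutatorElement_def]; group] at this))))
  intro x hx
  obtain ⟨a, ha, b, hb, rfl⟩ := (H2.mem_sup_of_le_normalizer nL).1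
    (normalClosure_le_normal (N := ⁅X, H⁆ ⊔ H) (fun y hy => mem_sup_right hy) hx.1)
  have h3 : a = 1 := mem_bot.1 (h1 ▸ ⟨ha, cent_of_norm hH c1 le_normalizer_of_normal
    (commutator_le_left X H ha) (by simpa using mul_mem hx.2 (le_normalizer (inv_mem hb)))⟩)
  rwa [h3, one_mul]

end H4.Pc
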