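import Cfsg.Agent.H4.PairSS
import Cfsg.Agent.H27.Dickson

/-! Groups with Sylow subgroup `p^{1+2}_+` and several radical planes: bounds on `p`. -/

set_option autoImplicit false
set_option linter.unusedSectionVars false

namespace H4
namespace RV
open Cfsg Subgroup H28 H9 H27
open scoped commutatorElement

variable {p : ℕ} [hp : Fact p.Prime]

theorem three {h : PG (ZMod p)} {x y z : P1 (ZMod p)} (hx : h • x = x) (hy : h • y = y) (hz : h • z = z)
    (hxy : x ≠ y) (hxz : x ≠ z) (hyz : y ≠ z) : h = 1 := by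
  by_contra h1
  by_cases e : h ^ p = 1
  · exact hxy ((fix_unip_of_fixed p h1 e hx y).1 hy).symm
  · obtain ⟨w, -, hw⟩ := fix_ss_of_fixed p e hx
    exact hyz ((((hw y).1 hy).resolve_left hxy.symm).trans (((hw z).1 hz).resolve_left hxz.symm).symm)

theorem sq_fix {h k : PG (ZMod p)} {x : P1 (ZMod p)} (hx : h • x = x) (h1 : h ≠ 1) (c : h * k = k * h) :
    (k ^ 2) • x = x := by
  have f : ∀ y : P1 (ZMod p), h • y = y → h • k • y = k • y := fun y e => by rw [← mul_smul, c, mul_smul, e]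
  by_contra e
  rw [sq, mul_smul] at e
  exact h1 (three hx (f x hx) (f _ (f x hx)) (fun e' => e (by rw [← e', ← e'])) (Ne.symm e)
    fun e' => e (by rw [← smul_left_cancel k e', ← smul_left_cancel k e']))

/-- the point `x` is fixed by an element of `H` of large order -/
def Tp (H : Subgroup (PG (ZMod p))) (x : P1 (ZMod p)) : Prop :=
  ∃ h ∈ H, h • x = x ∧ ∀ k : ℕ, h ^ k = 1 → p - 1 ∣ 3 * k

theorem d4 : ∀ g : Equiv.Perm (Fin 4), g ^ 3 = 1 ∨ g ^ 4 = 1 := by decide +kernel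
theorem d4' : ∀ g : Equiv.Perm (Fin 4), Equiv.Perm.sign g = 1 → g ^ 2 = 1 ∨ g ^ 3 = 1 := by decide +kernel
theorem d5 : ∀ g : Equiv.Perm (Fin 5), Equiv.Perm.sign g = 1 → g ^ 2 = 1 ∨ g ^ 3 = 1 ∨ g ^ 5 = 1 := by
  decide +kernel
theorem d6 : (Finset.univ.filter fun g : Equiv.Perm (Fin 4) => g ^ 2 ≠ 1 ∧ g ^ 3 ≠ 1).card = 6 := by
  decide +kernel

theorem nd (h : 11 ≤ p) : ¬ p - 1 ∣ 3 * 2 ∧ ¬ p - 1 ∣ 3 * 3 ∧ ¬ p - 1 ∣ 3 * 5 ∧ (p - 1 ∣ 3 * 4 → p = 13) := by
  have := hp.out.eq_two_or_odd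
  refine ⟨fun e => ?_, fun e => ?_, fun e => ?_, fun e => ?_⟩ <;> have := Nat.le_of_dvd (by norm_num) e
  · omega
  · omega
  · obtain rfl | rfl | rfl : p = 11 ∨ p = 13 ∨ p = 15 := by omega
    all_goals omega
  · obtain rfl | rfl : p = 11 ∨ p = 13 := by omega
    all_goals omega

theorem core {H : Subgroup (PG (ZMod p))} [Finite H] (h : 11 ≤ p) (hH : ¬ p ∣ Nat.card H) {x y z : P1 (ZMod p)}
    (hx : Tp H x) (hy : Tp H y) (hz : Tp H z) (hxy : x ≠ y) (hxz : x ≠ z) (hyz : y ≠ z) :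
    p = 13 ∧ Nonempty (H ≃* Equiv.Perm (Fin 4)) := by
  obtain ⟨n2, n3, n5, n4⟩ := nd h
  obtain ⟨a, ha, a1, a2⟩ := hx
  obtain ⟨b, hb, b1, b2⟩ := hy
  obtain ⟨c, hc, c1, c2⟩ := hz
  have o : ∀ {g : PG (ZMod p)}, (∀ k : ℕ, g ^ k = 1 → p - 1 ∣ 3 * k) → g ≠ 1 := fun e e' =>
    n2 (e 2 (by simp [e']))
  have ab : a * b = b * a → a * c = c * a → False := fun e1 e2 => n2 (a2 2 (three
    (by rw [sq, mul_smul, a1, a1]) (sq_fix b1 (o b2) e1.symm) (sq_fix c1 (o c2) e2.symm) hxy hxz hyz))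
  have tr : ∀ {X : Type} [Group X] (e : H ≃* X) (k : ℕ), e ⟨a, ha⟩ ^ k = 1 → p - 1 ∣ 3 * k :=
    fun e k h => a2 k (congrArg Subtype.val (e.injective (by rwa [map_pow, map_one]) : (⟨a, ha⟩ : H) ^ k = 1))
  rcases dickson_hom p H.subtype H.subtype_injective with ⟨e, -⟩ | ⟨e, -⟩ | ⟨d, -, -, e⟩ |
    ⟨-, ⟨⟨e⟩⟩ | ⟨⟨e⟩⟩ | ⟨⟨e⟩⟩⟩ | ⟨e, -⟩ | ⟨-, F, e1, e2, -⟩
  · exact (ab (congrArg Subtype.val (mul_comm' (⟨a, ha⟩ : H) ⟨b, hb⟩))
      (congrArg Subtype.val (mul_comm' (⟨a, ha⟩ : H) ⟨c, hc⟩))).elim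
  · exact (hH e).elim
  · have m : ∀ {g} (hg : g ∈ H), (∀ k : ℕ, g ^ k = 1 → p - 1 ∣ 3 * k) → ∃ i : ℤ, (d : PG (ZMod p)) ^ i = g :=
      fun {g} hg h => by
        obtain ⟨i, hi⟩ : (⟨g, hg⟩ : H) ∈ zpowers d := by_contra fun e' =>
          n2 (h 2 (by rw [sq]; exact congrArg Subtype.val (e _ e')))
        exact ⟨i, congrArg Subtype.val hi⟩
    obtain ⟨i, rfl⟩ := m ha a2
    obtain ⟨j, rfl⟩ := m hb b2
    obtain ⟨k, rfl⟩ := m hc c2
    exact (ab (zpow_mul_comm _ _ _) (zpow_mul_comm _ _ _)).elim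
  · exact ((d4' _ (e ⟨a, ha⟩).2).elim (fun h => n2 (tr e 2 (Subtype.ext h)))
      fun h => n3 (tr e 3 (Subtype.ext h))).elim
  · exact ⟨(d4 (e ⟨a, ha⟩)).elim (fun h => (n3 (tr e 3 h)).elim) fun h => n4 (tr e 4 h), ⟨e⟩⟩
  · exact ((d5 _ (e ⟨a, ha⟩).2).elim (fun h => n2 (tr e 2 (Subtype.ext h))) fun h => h.elim
      (fun h => n3 (tr e 3 (Subtype.ext h))) fun h => n5 (tr e 5 (Subtype.ext h))).elim
  · omega
  · rw [e2, Nat.factorization_eq_zero_of_not_dvd hH] at e1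
    exact absurd e1 (by norm_num)

theorem core_all {H : Subgroup (PG (ZMod p))} [Finite H] (h : 11 ≤ p) (hH : ¬ p ∣ Nat.card H) (hx : ∀ x, Tp H x) :
    False := by
  classical
  obtain ⟨n2, n3, -⟩ := nd h
  obtain ⟨rfl, ⟨e⟩⟩ := core h hH (hx (inf _)) (hx (aff 0)) (hx (aff 1)) (inf_ne_aff _) (inf_ne_aff _)
    fun e => zero_ne_one (aff_inj.1 e)
  choose f f1 f2 f3 using hx
  have t : ∀ x k, e ⟨f x, f1 x⟩ ^ k = 1 → 13 - 1 ∣ 3 * k := fun x k h =>
    f3 x k (congrArg Subtype.val (e.injective (by rwa [map_pow, map_one]) : (⟨f x, f1 x⟩ : H) ^ k = 1))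
  obtain ⟨g, -, hg⟩ := Finset.exists_lt_card_fiber_of_mul_lt_card_of_maps_to (s := Finset.univ)
    (t := Finset.univ.filter fun g : Equiv.Perm (Fin 4) => g ^ 2 ≠ 1 ∧ g ^ 3 ≠ 1) (n := 2)
    (f := fun s : ZMod 13 => e ⟨f (aff s), f1 _⟩)
    (fun s _ => Finset.mem_filter.2 ⟨Finset.mem_univ _, fun h => n2 (t _ 2 h), fun h => n3 (t _ 3 h)⟩)
    (by rw [d6]; simp)
  obtain ⟨a, b, c, ha, hb, hc, h1, h2, h3⟩ := Finset.two_lt_card_iff.1 hg
  simp only [Finset.mem_filter, Finset.mem_univ, true_and] at ha hb hc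
  have e1 : f (aff b) = f (aff a) := congrArg Subtype.val (e.injective (hb.trans ha.symm))
  have e2 : f (aff c) = f (aff a) := congrArg Subtype.val (e.injective (hc.trans ha.symm))
  exact n2 (f3 (aff a) 2 (by rw [three (f2 _) (e1 ▸ f2 (aff b)) (e2 ▸ f2 (aff c)) (aff_inj.ne.2 h1)
    (aff_inj.ne.2 h2) (aff_inj.ne.2 h3), one_pow]))

theorem exists_gl (Q : Type*) [Group Q] (hc : ∀ a b : Q, a * b = b * a) (he : ∀ a : Q, a ^ p = 1)
    (h : Nat.card Q = p ^ 2) : ∃ (κ : Q ≃* Multiplicative (Fin 2 → ZMod p))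
      (ρ : MulAut Q →* GL (Fin 2) (ZMod p)), ∀ α x, (κ (α x)).toAdd = ρ α • (κ x).toAdd := by
  letI : CommGroup Q := { (inferInstance : Group Q) with mul_comm := hc }
  letI := AddCommGroup.zmodModule (G := Additive Q) (n := p) he
  have : Finite Q := Nat.finite_of_card_ne_zero (h ▸ (pow_pos hp.out.pos 2).ne')
  have hr : Module.finrank (ZMod p) (Additive Q) = 2 := by
    have := Module.natCard_eq_pow_finrank (K := ZMod p) (V := Additive Q)
    rw [Nat.card_zmod] at this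
    exact (Nat.pow_right_injective hp.out.two_le (h.symm.trans this)).symm
  let b := Module.finBasisOfFinrankEq (ZMod p) (Additive Q) hr
  let L : MulAut Q →* Module.End (ZMod p) (Additive Q) :=
    { toFun := fun α => (MonoidHom.toAdditive α.toMonoidHom).toZModLinearMap p
      map_one' := rfl
      map_mul' := fun _ _ => rfl }
  exact ⟨AddEquiv.toMultiplicativeRight b.equivFun.toAddEquiv,
    ((LinearMap.toMatrixAlgEquiv b).toMonoidHom.comp L).toHomUnits,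
    fun α x => (LinearMap.toMatrix_mulVec_repr b b (L α) (.ofMul x)).symm⟩

theorem torus {Γ M F : Type*} [Group Γ] [Field F] [AddCommGroup M] [Module F M] (ρ : Γ →* Module.End F M)
    {a z : M} (hu : ∀ t : F, ∃ g, ρ g a = a + t • z ∧ ρ g z = z)
    (hl : ∀ t : F, ∃ g, ρ g z = z + t • a ∧ ρ g a = a) {t : F} (ht : t ≠ 0) :
    ∃ g, ρ g a = t⁻¹ • a ∧ ρ g z = t • z := by
  choose u u1 u2 using hu
  choose l l1 l2 using hl
  refine ⟨u t * l (-t⁻¹) * u t * (u (-1) * l 1 * u (-1)), ?_, ?_⟩ <;>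
  · simp only [map_mul, Module.End.mul_apply, u1, u2, l1, l2, map_add, map_smul]
    match_scalars <;> field_simp <;> ring

theorem transv {Γ M : Type*} [Group Γ] [AddCommGroup M] [Module (ZMod p) M]
    (ρ : Γ →* Module.End (ZMod p) M) {a z : M} {g : Γ} {j : ZMod p} (hj : j ≠ 0)
    (h1 : ρ g a = a + j • z) (h2 : ρ g z = z) (t : ZMod p) : ∃ g, ρ g a = a + t • z ∧ ρ g z = z := by
  have : ∀ n : ℕ, ρ (g ^ n) a = a + (n * j) • z ∧ ρ (g ^ n) z = z := fun n => by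
    induction n with
    | zero => simp
    | succ n ih =>
      simp only [pow_succ, map_mul, Module.End.mul_apply, h1, h2, map_add, map_smul, ih.1, ih.2, and_true]
      push_cast; module
  exact ⟨g ^ (t / j).val, by simpa [hj] using this (t / j).val⟩

variable {G : Type*} [Group G] [Finite G] {P : Subgroup G} {a l z : G}

/-- ambient form of the hypotheses -/
structure Es (p : ℕ) (P : Subgroup G) (z : G) : Prop where
  syl : IsSylowIn p P ⊤
  card : Nat.card P = p ^ 3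
  exp : ∀ x ∈ P, x ^ p = 1
  ord : orderOf z = p
  cen : P ⊓ 𝐂 P = zpowers z
  com : ⁅P, P⁆ ≤ zpowers z

namespace Es
variable (h : Es p P z)
include h

theorem zP : zpowers z ≤ P := h.cen.ge.trans inf_le_left
theorem zC : zpowers z ≤ 𝐂 P := h.cen.ge.trans inf_le_right

theorem change {w : G} (hw : w ∈ zpowers z) (h1 : w ≠ 1) : Es p P w := by
  have e := JT.eq_zp (h.syl.isPGroup.to_le h.zP) (by rw [Nat.card_zpowers, h.ord]) hw h1
  exact ⟨h.syl, h.card, h.exp, by rw [← Nat.card_zpowers, ← e, Nat.card_zpowers, h.ord], e ▸ h.cen, e ▸ h.com⟩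

theorem exists_comm (ha : a ∈ P) (ha' : a ∉ zpowers z) : ∃ y ∈ P, ⁅y, a⁆ ≠ 1 := by
  by_contra! H
  exact ha' (h.cen.le ⟨ha, fun y hy => commutatorElement_eq_one_iff_mul_comm.1 (H y hy)⟩)

theorem tor (ha : a ∈ P) (ha' : a ∉ zpowers z) (h1 : l * a * l⁻¹ = a) (h2 : l * z * l⁻¹ = z * a)
    {t : ZMod p} (ht : t ≠ 0) :
    ∃ n ∈ 𝐍 P, n * z * n⁻¹ = z ^ t.val ∧ (a ^ t⁻¹.val)⁻¹ * (n * a * n⁻¹) ∈ zpowers z := by
  have zz := mem_zpowers z
  set A := zpowers z ⊔ zpowers a with hA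
  have AP : A ≤ P := sup_le h.zP (zpowers_le.2 ha)
  have c1 : zpowers z ≤ 𝐂 A := h.zC.trans (centralizer_anti AP)
  have hE : IsElementaryAbelian p A := isElementaryAbelian_iff.2 ⟨sup_le c1 (by
    rw [hA, centralizer_sup]
    exact le_inf (le_centralizer_comm.1 (c1.trans (centralizer_anti le_sup_right)))
      (le_centralizer_iff_isMulCommutative.2 inferInstance)), fun x hx => h.exp x (AP hx)⟩
  have zA : z ∈ A := mem_sup_left zz
  have aA : a ∈ A := mem_sup_right (mem_zpowers a)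
  have nz : ∀ g : G, g * z * g⁻¹ ∈ A → g * a * g⁻¹ ∈ A → g ∈ 𝐍 A := fun g e1 e2 =>
    mem_normalizer_of_cj_le (by
      rw [hA, Subgroup.map_sup, cj_zpowers, cj_zpowers]; exact sup_le (zpowers_le.2 e1) (zpowers_le.2 e2))
  obtain ⟨y, hy, y1⟩ := h.exists_comm ha ha'
  obtain ⟨j, hj⟩ := mem_powers_iff_mem_zpowers.2 (h.com (commutator_mem_commutator hy ha))
  have y2 : y * z * y⁻¹ = z := by rw [h.zC zz y hy, mul_inv_cancel_right]
  have y3 : y * a * y⁻¹ = a * z ^ j := by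
    rw [h.zC (npow_mem_zpowers z j) a ha, show z ^ j = _ from hj, commutatorElement_def,
      inv_mul_cancel_right]
  let ρ := EA.rep hE le_rfl
  obtain ⟨g, g1, g2⟩ := torus ρ (a := EA.mk hE a aA) (z := EA.mk hE z zA)
    (transv ρ (g := ⟨y, nz y (y2.symm ▸ zA) (y3.symm ▸ mul_mem aA (pow_mem zA j))⟩) (j := j)
      (fun e => y1 (by
        rw [← show z ^ j = _ from hj, ← orderOf_dvd_iff_pow_eq_one, h.ord]
        exact (ZMod.natCast_eq_zero_iff _ _).1 e))
      (EA.ext (by rw [Nat.cast_smul_eq_nsmul]; simpa [ρ] using y3)) (EA.ext (by simpa [ρ] using y2)))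
    (transv ρ (g := ⟨l, nz l (h2.symm ▸ mul_mem zA aA) (h1.symm ▸ aA)⟩) one_ne_zero
      (EA.ext (by simpa [ρ] using h2)) (EA.ext (by simpa [ρ] using h1))) ht
  replace g1 := congrArg EA.val g1
  replace g2 := congrArg EA.val g2
  simp only [ρ, EA.val_rep, PSS.val_smul, EA.val_mk] at g1 g2
  have gz : (g : G) ∈ 𝐍 (zpowers z) := mem_normalizer_of_cj_le (by
    rw [cj_zpowers, zpowers_le, g2]; exact npow_mem_zpowers _ _)
  have PK : P ≤ H29.cmod A (zpowers z) ⊓ 𝐂 (zpowers z) := le_inf (H29.le_cmod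
    (le_normalizer_of_le_centralizer (le_centralizer_comm.1 h.zC)) ((commutator_mono AP le_rfl).trans h.com))
    (le_centralizer_comm.1 h.zC)
  obtain ⟨k, hk, n, hn, e⟩ := (h.syl.mono PK le_top).frattini (le_normalizer_inf (H29.le_normalizer_cmod
    (zpowers_le.2 g.2) (zpowers_le.2 gz)) ((zpowers_le.2 gz).trans (normalizer_le_normalizer_centralizer _))
    (mem_zpowers (g : G)))
  obtain rfl : n = k⁻¹ * g := by rw [e, inv_mul_cancel_left]
  refine ⟨_, hn, ?_, ?_⟩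
  · rw [mul_inv_rev, inv_inv, mul_assoc, mul_assoc, ← mul_assoc z, ← mul_assoc (g : G), ← mul_assoc (g : G),
      g2, hk.2 _ (npow_mem_zpowers z _), inv_mul_cancel_left]
  · have := (H29.mem_cmod.1 (inv_mem hk.1)).2 _ (inv_mem (pow_mem aA t⁻¹.val))
    rw [← g1] at this ⊢
    simpa [commutatorElement_def, mul_assoc] using this

theorem exists_rep : ∃ (κ : G → Fin 2 → ZMod p) (H : Subgroup (PG (ZMod p))) (_ : Finite H),
    ¬ p ∣ Nat.card H ∧ (∀ x ∈ P, κ x = 0 ↔ x ∈ zpowers z) ∧ (∀ v, ∃ x ∈ P, κ x = v) ∧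
    (∀ x ∈ P, ∀ y ∈ P, (∃ c : ZMod p, c • κ y = κ x) ↔ x ∈ zpowers z ⊔ zpowers y) ∧
    ∀ a ∈ P, ∀ w ∈ zpowers z, w ≠ 1 → ∀ l : G, l * a * l⁻¹ = a → l * w * l⁻¹ = w * a →
      ∀ h0 : κ a ≠ 0, Tp H (Projectivization.mk _ (κ a) h0) := by
  classical
  have cz : center P = (zpowers z).subgroupOf P := by
    rw [← h.cen]; ext x
    exact ⟨fun e => ⟨x.2, fun y hy => congrArg Subtype.val (mem_center_iff.1 e ⟨y, hy⟩)⟩,
      fun e => mem_center_iff.2 fun y => Subtype.ext (e.2 y y.2)⟩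
  obtain ⟨κ, ρ, hρ⟩ := exists_gl (p := p) (P ⧸ center P) (fun a b => by
      obtain ⟨a, rfl⟩ := QuotientGroup.mk_surjective a
      obtain ⟨b, rfl⟩ := QuotientGroup.mk_surjective b
      rw [← commutatorElement_eq_one_iff_mul_comm, ← QuotientGroup.mk'_apply, ← QuotientGroup.mk'_apply,
        ← map_commutatorElement, QuotientGroup.mk'_apply, QuotientGroup.eq_one_iff, cz]
      exact h.com (commutator_mem_commutator a.2 b.2))
    (fun a => by
      obtain ⟨a, rfl⟩ := QuotientGroup.mk_surjective a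
      rw [← QuotientGroup.mk_pow, show a ^ p = 1 from Subtype.ext (h.exp a a.2), QuotientGroup.mk_one])
    (by
      have := card_eq_card_quotient_mul_card_subgroup (center P)
      rw [h.card, show Nat.card (center P) = p by
        rw [cz, Nat.card_congr (subgroupOfEquivOfLe h.zP).toEquiv, Nat.card_zpowers, h.ord], pow_succ] at this
      exact (Nat.eq_of_mul_eq_mul_right hp.out.pos this).symm)
  let σ := ρ.comp (H2.quotAut P.normalizerMonoidHom (center P)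
    fun a n hn => H2.map_mem_of_characteristic _ _ hn)
  let k : G → Fin 2 → ZMod p := fun x => if hx : x ∈ P then (κ (⟨x, hx⟩ : P)).toAdd else 0
  have k1 : ∀ x ∈ P, ∀ y ∈ P, k (x * y) = k x + k y := fun x hx y hy => by
    simp only [k, dif_pos, hx, hy, mul_mem hx hy, ← toAdd_mul, ← map_mul]; rfl
  have k0 : ∀ x ∈ P, k x = 0 ↔ x ∈ zpowers z := fun x hx => by
    simp only [k, dif_pos hx, toAdd_eq_zero, EmbeddingLike.map_eq_one_iff, QuotientGroup.eq_one_iff, cz]; rfl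
  have k2 : ∀ x ∈ P, ∀ n : ℕ, k (x ^ n) = (n : ZMod p) • k x := fun x hx n => by
    induction n with
    | zero => simpa using (k0 1 (one_mem _)).2 (one_mem _)
    | succ n ih => rw [pow_succ, k1 _ (pow_mem hx n) _ hx, ih]; push_cast; module
  have k3 : ∀ x ∈ P, ∀ y ∈ P, k x = k y ↔ y⁻¹ * x ∈ zpowers z := fun x hx y hy => by
    have := k1 y hy _ (mul_mem (inv_mem hy) hx)
    rw [mul_inv_cancel_left] at this
    rw [← k0 _ (mul_mem (inv_mem hy) hx), this, add_eq_left]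
  have k4 : ∀ (n : 𝐍 P), ∀ x ∈ P, k (n * x * (n : G)⁻¹) = σ n • k x := fun n x hx => by
    simp only [k, dif_pos, hx, conj_mem_of_mem_normalizer n.2 hx]
    exact hρ (H2.quotAut P.normalizerMonoidHom (center P) (fun a n hn => H2.map_mem_of_characteristic _ _ hn) n)
      ((⟨x, hx⟩ : P) : P ⧸ center P)
  let ψ := (pgm).comp σ
  refine ⟨k, ψ.range, .of_surjective _ ψ.rangeRestrict_surjective, fun e => ?_, k0, fun v => ?_, fun x hx y hy => ⟨?_, fun e => ?_⟩, ?_⟩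
  · refine (h.syl.mono le_normalizer le_top).not_dvd_relIndex (e.trans ?_)
    rw [← index_ker]
    refine index_dvd_of_le fun x hx => ?_
    have : H2.quotAut P.normalizerMonoidHom (center P) (fun a n hn => H2.map_mem_of_characteristic _ _ hn)
        x = 1 := by
      ext y
      obtain ⟨y, rfl⟩ := QuotientGroup.mk_surjective y
      rw [H2.quotAut_mk, MulAut.one_apply, eq_comm, QuotientGroup.eq, cz]
      have := h.com (commutator_mem_commutator (inv_mem y.2) hx)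
      simpa [commutatorElement_def, mul_assoc, mem_subgroupOf] using this
    simp [ψ, σ, this]
  · obtain ⟨x, hx⟩ := QuotientGroup.mk_surjective (κ.symm (.ofAdd v))
    exact ⟨x, x.2, by simp [k, hx]⟩
  · rintro ⟨c, e⟩
    rw [← ZMod.natCast_zmod_val c, ← k2 y hy, eq_comm, k3 x hx _ (pow_mem hy _)] at e
    rw [← mul_inv_cancel_left (y ^ c.val) x]
    exact mul_mem (mem_sup_right (npow_mem_zpowers _ _)) (mem_sup_left e)
  · obtain ⟨u, hu, v, hv, rfl⟩ := (mem_sup_of_le_normalizer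
      (le_normalizer_of_le_centralizer (h.zC.trans (centralizer_anti (zpowers_le.2 hy))))).1 e
    obtain ⟨n, rfl⟩ := mem_powers_iff_mem_zpowers.2 hv
    exact ⟨n, by rw [k1 _ (h.zP hu) _ (pow_mem hy n), (k0 _ (h.zP hu)).2 hu, zero_add, k2 y hy]⟩
  intro a ha w hw w1 l l1 l2 h0
  have h' := h.change hw w1
  have ez : zpowers w = zpowers z := h'.cen.symm.trans h.cen
  obtain ⟨t, ht⟩ := IsCyclic.exists_ofOrder_eq_natCard (α := (ZMod p)ˣ)
  have a' := (k0 a ha).not.1 h0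
  obtain ⟨n, hn, n1, n2⟩ := h'.tor ha (ez ▸ a') l1 l2 t.ne_zero
  have n3 : σ ⟨n, hn⟩ • k a = (t : ZMod p)⁻¹ • k a := by
    rw [← k4 _ a ha, (k3 _ (conj_mem_of_mem_normalizer hn ha) _ (pow_mem ha _)).2 (ez ▸ n2), k2 a ha,
      ZMod.natCast_zmod_val]
  refine ⟨ψ ⟨n, hn⟩, ⟨_, rfl⟩, (Projectivization.mk_eq_mk_iff' _ _ _
    ((smul_ne_zero_iff_ne _).2 h0) h0).2 ⟨_, n3.symm⟩, fun m hm => ?_⟩
  rw [← map_pow] at hm
  obtain ⟨e1, e2, e3⟩ := (pg_mk_eq_one_iff _).1 hm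
  set N := (⟨n, hn⟩ : 𝐍 P) ^ m with hN
  have s : ∀ v : Fin 2 → ZMod p, σ N • v = σ N 0 0 • v := fun v => by
    ext i; fin_cases i
    · simp [gl_smul_apply, e1]
    · simp [gl_smul_apply, e2]; simp [e3]
  have s1 : σ N 0 0 = (t : ZMod p)⁻¹ ^ m := by
    have : ∀ m : ℕ, σ ⟨n, hn⟩ ^ m • k a = (t : ZMod p)⁻¹ ^ m • k a := fun m => by
      induction m with
      | zero => rw [pow_zero, pow_zero, one_smul, one_smul]
      | succ m ih => rw [pow_succ, mul_smul, n3, smul_comm, ih, smul_smul, pow_succ']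
    exact smul_left_injective _ h0 ((s _).symm.trans (by rw [hN, map_pow]; exact this m))
  obtain ⟨y, hy, y1⟩ := h.exists_comm ha a'
  have hc := h.com (commutator_mem_commutator hy ha)
  have s2 : ∀ x ∈ P, ∃ u ∈ zpowers z, N * x * (N : G)⁻¹ = x ^ (σ N 0 0).val * u := fun x hx =>
    ⟨_, (k3 _ (conj_mem_of_mem_normalizer N.2 hx) _ (pow_mem hx (σ N 0 0).val)).1 (by
      rw [k4 N x hx, s, k2 x hx, ZMod.natCast_zmod_val]), (mul_inv_cancel_left _ _).symm⟩
  obtain ⟨u, hu, e4⟩ := s2 y hy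
  obtain ⟨v, hv, e5⟩ := s2 a ha
  have s3 : N * ⁅y, a⁆ * (N : G)⁻¹ = ⁅y, a⁆ ^ t.1.val ^ m := by
    obtain ⟨j, hj⟩ := mem_powers_iff_mem_zpowers.2 (ez ▸ hc : ⁅y, a⁆ ∈ zpowers w)
    rw [← show w ^ j = _ from hj, hN, SubmonoidClass.coe_pow, ← conj_pow, ← pow_mul, mul_comm j, pow_mul]
    congr 1
    clear * - n1
    induction m with
    | zero => simp
    | succ m ih =>
      rw [pow_succ', pow_succ', pow_mul, ← n1, conj_pow, ← ih]; simp [mul_assoc]
  have cc : ∀ g ∈ P, Commute g ⁅y, a⁆ := fun g hg => h.zC hc g hg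
  rw [H29.conj_comm, e4, e5, JT.comm_mul_cz (h.zC hv) (mul_mem (pow_mem hy _) (h.zP hu)),
    ← commutatorElement_inv, JT.comm_mul_cz (h.zC hu) (pow_mem ha _), commutatorElement_inv,
    commutator_pow_pow (cc y hy) (cc a ha), pow_eq_pow_iff_modEq, (h.change hc y1).ord,
    ← ZMod.natCast_eq_natCast_iff] at s3
  push_cast [ZMod.natCast_zmod_val] at s3
  rw [Nat.card_eq_fintype_card, ZMod.card_units] at ht
  rw [← ht, orderOf_dvd_iff_pow_eq_one]
  ext
  rw [s1] at s3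
  have := t.ne_zero
  push_cast
  rw [inv_pow, ← sq, inv_pow, inv_eq_iff_eq_inv] at s3
  rw [mul_comm, pow_mul, pow_succ _ 2, s3, inv_mul_cancel₀ (pow_ne_zero _ this)]

theorem conj (g : G) : Es p (cj g P) (g * z * g⁻¹) :=
  ⟨cj_top g ▸ h.syl.conj g, (card_cj g P).trans h.card, fun x hx => by
    obtain ⟨y, hy, rfl⟩ := hx
    rw [← map_pow, h.exp y hy, map_one], by
    rw [← h.ord]; exact (MulAut.conj g).orderOf_eq z,
    by rw [← cj_centralizer, ← cj_inf, h.cen, cj_zpowers],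
    by rw [← cj_commutator, ← cj_zpowers]; exact cj_mono g h.com⟩

theorem zp_eq {w : G} (hw : w ∈ zpowers z) (h1 : w ≠ 1) : zpowers w = zpowers z :=
  (h.change hw h1).cen.symm.trans h.cen

theorem ne_one : z ≠ 1 := fun e => hp.out.ne_one (by rw [← h.ord, e, orderOf_one])

theorem all_conj (hc : ∀ x ∈ P, x ≠ 1 → ∃ g : G, g * z * g⁻¹ = x) : p ≤ 7 := by
  by_contra! h7
  have h11 : 11 ≤ p := by
    by_contra! e
    have := hp.out
    interval_cases p <;> norm_num at this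
  obtain ⟨κ, H, _, hH, k0, ks, kc, kt⟩ := h.exists_rep
  refine core_all h11 hH fun x => ?_
  induction x using Projectivization.ind with
  | h v hv =>
  obtain ⟨a, ha, rfl⟩ := ks v
  have a' := (k0 a ha).not.1 hv
  obtain ⟨g, rfl⟩ := hc a ha fun e => a' (e ▸ one_mem _)
  have zz := mem_zpowers z
  have hg := h.conj g
  obtain ⟨k, hk, e⟩ := (hg.syl.mono (le_centralizer_comm.1 hg.zC) le_top).exists_le_conj
    (h.syl.isPGroup.to_le h.zP) (h.zC.trans (centralizer_anti (zpowers_le.2 ha)))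
  have h1 := hg.conj k
  rw [← hk _ (mem_zpowers _), mul_inv_cancel_right] at h1
  obtain ⟨y, hy, y1⟩ := h1.exists_comm (e zz) fun e' => a' (h1.zp_eq e' h.ne_one ▸ mem_zpowers _)
  have c := h1.com (commutator_mem_commutator hy (e zz))
  have cP : ⁅y, z⁆ ∈ P := zpowers_le.2 ha c
  have c0 : κ ⁅y, z⁆ ≠ 0 := (k0 _ cP).not.2 fun e' =>
    a' (zpowers_le.2 e' (h1.zp_eq c y1 ▸ mem_zpowers _))
  rw [← (Projectivization.mk_eq_mk_iff' _ _ _ c0 hv).2 ((kc _ cP _ ha).2 (mem_sup_right c))]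
  exact kt _ cP z zz h.ne_one y (by rw [h1.zC c y hy, mul_inv_cancel_right])
    (by rw [← h.zC zz _ cP, commutatorElement_def, inv_mul_cancel_right]) c0

end Es

theorem exists_tv (A : Type*) [Group A] (hc : Nat.card A = p ^ 2) (he : ∀ x : A, x ^ p = 1) {w : A}
    (hw : w ≠ 1) : ∃ a ∉ zpowers w, ∃ φ : MulAut A, orderOf φ = p ∧ φ a = a ∧ φ w = w * a := by
  have : Finite A := Nat.finite_of_card_ne_zero (hc ▸ (pow_pos hp.out.pos 2).ne')
  letI : CommGroup A := IsPGroup.commGroupOfCardEqPrimeSq hc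
  have o : ∀ {x : A}, x ≠ 1 → Nat.card (zpowers x) = p := fun e => by
    rw [Nat.card_zpowers, orderOf_eq_prime (he _) e]
  have zp : ∀ {x y : A}, x ≠ 1 → y ≠ 1 → y ∈ zpowers x → x ∈ zpowers y := fun e1 e2 e3 =>
    (eq_of_le_of_card_le (zpowers_le.2 e3) ((o e1).trans (o e2).symm).le).ge (mem_zpowers _)
  obtain ⟨b, hb⟩ : ∃ b, b ∉ zpowers w := by
    by_contra! e
    have := o hw
    rw [(eq_top_iff' _).2 e, card_top, hc] at this
    nlinarith [hp.out.two_le]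
  have b1 : b ≠ 1 := fun e => hb (e ▸ one_mem _)
  have hq : Nat.card (A ⧸ zpowers b) = p := by
    have := card_eq_card_quotient_mul_card_subgroup (zpowers b)
    rw [o b1, hc, sq] at this
    exact (Nat.eq_of_mul_eq_mul_right hp.out.pos this).symm
  let θ : A →* A := (zpowers b).subtype.comp ((mulEquivOfPrimeCardEq hq (o b1)).toMonoidHom.comp
    (QuotientGroup.mk' _))
  have t1 : ∀ x, θ x = 1 ↔ x ∈ zpowers b := fun x => by simp [θ]
  have t2 : ∀ x, θ (θ x) = 1 := fun x => (t1 _).2 (Subtype.prop _)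
  let φ : MulAut A :=
    { toFun := fun x => x * θ x
      invFun := fun x => x * (θ x)⁻¹
      left_inv := fun x => by simp [t2]
      right_inv := fun x => by simp [t2]
      map_mul' := fun x y => by rw [map_mul, mul_mul_mul_comm] }
  have t3 : ∀ (n : ℕ) x, (φ ^ n) x = x * θ x ^ n := fun n x => by
    induction n with
    | zero => simp
    | succ n ih => rw [pow_succ', MulAut.mul_apply, ih]; simp [φ, t2, pow_succ, mul_assoc]
  have w1 : θ w ≠ 1 := (t1 w).not.2 fun e => hb (zp b1 hw e)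
  refine ⟨θ w, fun e => hb (zpowers_le.2 e (zp b1 w1 (Subtype.prop _))), φ, orderOf_eq_prime
    (by ext x; rw [t3, he, mul_one]; rfl) fun e => w1 (mul_eq_left.1 (DFunLike.congr_fun e w)),
    by simp [φ, t2], rfl⟩

theorem Es.three (h : Es p P z) (A : Fin 3 → Subgroup G) (hA : Function.Injective A) (hAP : ∀ i, A i ≤ P)
    (hc : ∀ i, Nat.card (A i) = p ^ 2)
    (hSL : ∀ i, ∀ φ : MulAut (A i), orderOf φ = p → ∃ g : G, ∀ a : A i, (φ a : G) = g * a * g⁻¹) : p ≤ 13 := by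
  by_contra! h13
  obtain ⟨κ, H, _, hH, k0, ks, kc, kt⟩ := h.exists_rep
  have : ∀ i, zpowers z ≤ A i ∧ ∃ a ∈ A i, ∃ h0 : κ a ≠ 0, Tp H (Projectivization.mk _ (κ a) h0) := fun i => by
    have n : ((A i).subgroupOf P).Normal := normal_of_index_prime h.syl.isPGroup (by
      have := card_mul_index ((A i).subgroupOf P)
      rw [Nat.card_congr (subgroupOfEquivOfLe (hAP i)).toEquiv, hc, h.card, pow_succ _ 2] at this
      exact Nat.eq_of_mul_eq_mul_left (pow_pos hp.out.pos 2) this)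
    obtain ⟨⟨w, hw, hw'⟩, w1⟩ := ne_bot_iff_exists_ne_one.1 (inf_centralizer_ne_bot h.syl.isPGroup
      (h.syl.isPGroup.to_le (hAP i)) ((normal_subgroupOf_iff_le_normalizer (hAP i)).1 n) fun e => by
        have := hc i
        rw [e, card_bot] at this
        nlinarith [hp.out.two_le])
    replace w1 : w ≠ 1 := fun e => w1 (Subtype.ext e)
    have wz := h.cen.le ⟨hAP i hw, hw'⟩
    obtain ⟨a, ha, φ, e1, e2, e3⟩ := exists_tv (A i) (hc i) (fun x => Subtype.ext (h.exp _ (hAP i x.2)))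
      (w := ⟨w, hw⟩) fun e => w1 (congrArg Subtype.val e)
    obtain ⟨l, hl⟩ := hSL i φ e1
    have a0 : κ a ≠ 0 := (k0 _ (hAP i a.2)).not.2 fun e => by
      obtain ⟨n, e⟩ := h.zp_eq wz w1 ▸ e
      exact ha ⟨n, Subtype.ext e⟩
    exact ⟨h.zp_eq wz w1 ▸ zpowers_le.2 hw, a, a.2, a0, kt a (hAP i a.2) w wz w1 l (by rw [← hl, e2])
      ((hl ⟨w, hw⟩).symm.trans (by rw [e3]; rfl)) a0⟩
  choose zA a aA a0 aT using this
  have d : ∀ {i j}, i ≠ j → Projectivization.mk _ (κ (a i)) (a0 i) ≠ Projectivization.mk (ZMod p) (κ (a j)) (a0 j) :=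
    fun {i j} hij e => by
      have e1 := sup_le (zA j) (zpowers_le.2 (aA j)) ((kc _ (hAP i (aA i)) _ (hAP j (aA j))).1
        ((Projectivization.mk_eq_mk_iff' _ _ _ _ _).1 e))
      have e2 := card_lt_of_lt (lt_of_le_of_ne (le_inf (zA i) (zA j)) fun e =>
        (k0 _ (hAP i (aA i))).not.1 (a0 i) (e.ge ⟨aA i, e1⟩))
      obtain ⟨n, hn, e3⟩ := (Nat.dvd_prime_pow hp.out).1 (hc i ▸ card_dvd_of_le (inf_le_left : A i ⊓ A j ≤ _))
      rw [Nat.card_zpowers, h.ord, e3] at e2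
      obtain rfl : n = 2 := by
        have := (Nat.pow_lt_pow_iff_right hp.out.one_lt).1 ((pow_one p).trans_lt e2)
        omega
      exact hij (hA ((eq_of_le_of_card_le inf_le_left ((hc i).trans e3.symm).le).symm.trans
        (eq_of_le_of_card_le inf_le_right ((hc j).trans e3.symm).le)))
  have := (core (by omega) hH (aT 0) (aT 1) (aT 2) (d (by decide)) (d (by decide)) (d (by decide))).1
  omega

theorem Es.of (P : Sylow p G) (hE : IsExtraspecial p P) (hc : Nat.card P = p ^ 3)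
    (he : Monoid.exponent P = p) : ∃ z, Es p (P : Subgroup G) z := by
  have c : Nat.card ((P : Subgroup G) ⊓ 𝐂 (P : Subgroup G) : Subgroup G) = p := by
    rw [← H28.map_subtype_center, card_map_of_injective (subtype_injective _), hE.2]
  obtain ⟨z, hz, e⟩ := exists_orderOf_eq_of_dvd_card c.symm.dvd
  have e' := eq_of_le_of_card_le (zpowers_le.2 hz) (by rw [c, Nat.card_zpowers, e])
  refine ⟨z, isSylowIn_top P, hc, fun x hx => congrArg Subtype.val
    (show (⟨x, hx⟩ : P) ^ p = 1 from Monoid.exponent_dvd_iff_forall_pow_eq_one.1 he.dvd _), e, e'.symm, ?_⟩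
  rw [e', ← H28.map_subtype_center, ← hE.1.2.2, map_subtype_commutator]

end RV
end H4
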