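import Cfsg.Agent.H1.SN0
import Cfsg.Agent.H21.DL7

/-! Simple groups with few Sylow subgroups: the pieces LI and M2. -/

open Cfsg MonoidAlgebra
open H5 H7 H8 H21 H1.SN

namespace H4.SN

open Subgroup Finset Module
open scoped ComplexConjugate

universe u

local notation "𝐍" x:max => normalizer (SetLike.coe (zpowers x))
local notation "𝐂" x:max => centralizer ({x} : Set _)

theorem li : LI.{u} := fun G _ _ _ D S c h0 h1 => by
  classical
  have := Fintype.ofFinite G
  have h := D.pd
  have k : ∀ g, D.p ∣ orderOf g → ∑ χ, c χ * χ.1 g = ∑ χ, c χ * D.a χ ∧ ∑ η ∈ D.Y, η.1 g = -D.δ := fun g hg => by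
    obtain ⟨k, hk⟩ := S.exists_conj_mem (S.orderOf_eq_of_dvd hg)
    have n : (⟨_, hk⟩ : zpowers D.x) ≠ 1 := fun e => h.not_dvd_one (by
      have : g = 1 := by simpa [mul_assoc] using congrArg (fun y : zpowers D.x => k * y * k⁻¹) e
      rwa [this] at hg)
    have e : ∀ χ : IrrCharacter G, χ.1 g = χ.1 (k⁻¹ * g * k) := fun χ => (χ.2.isClassFunction.conj_apply' k g).symm
    refine ⟨sum_congr rfl fun χ _ => ?_, by simp only [e]; exact h.sum_Y n⟩
    by_cases a : D.a χ = 0
    · simp [h0 χ a]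
    · rw [e, h.nonexc χ a ⟨_, hk⟩ n]
  have i : classInner (∑ χ, c χ • χ.1) (∑ η ∈ D.Y, η.1) = 0 := by
    rw [classInner_sum_right]
    exact sum_eq_zero fun η m => by rw [classInner_sum_irr_left, h0 _ (h.zero η m)]
  rw [classInner_def, mul_eq_zero, or_iff_right (inv_ne_zero (card_ne_zero_complex G)),
    sum_congr rfl (g := fun g => if D.p ∣ orderOf g then (∑ χ, c χ * D.a χ) * -D.δ else 0) fun g _ => ?_,
    ← sum_filter, sum_const, nsmul_eq_mul, mul_eq_zero, mul_eq_zero, or_iff_right (Nat.cast_ne_zero.2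
      (card_ne_zero.2 ⟨D.x, by simp [h.ord]⟩)), or_iff_left (by rcases h.sign with e | e <;> simp [e])] at i
  · have : ∑ χ, c χ • χ.1 = 0 := funext fun g => by
      simp only [Finset.sum_apply, Pi.smul_apply, smul_eq_mul, Pi.zero_apply]
      by_cases hg : D.p ∣ orderOf g
      exacts [(k g hg).1.trans i, h1 g hg]
    exact fun χ => by rw [← classInner_sum_irr_left c χ, this, classInner_zero_left]
  · simp only [Finset.sum_apply, Pi.smul_apply, smul_eq_mul]
    split_ifs with hg
    · rw [(k g hg).1, (k g hg).2]; simp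
    · rw [h1 g hg, zero_mul]

variable {G : Type u} [Group G] [Finite G] [DecidableEq (IrrCharacter G)] (D : Dat G)

theorem two_le_n : 2 ≤ D.n := by
  have := D.nm; have := D.mv; have := D.upos; nlinarith [Nat.zero_le (D.m * D.u)]

theorem noSm : DL.NoSm (kk D.M) D.p D.x := by
  by_contra hN
  have := Fact.mk D.pd.prime
  have := charP_kk D.pd.hM
  obtain ⟨V, H, U⟩ := exists_UC ((isPGroup_zpowers_of_orderOf D.pd.ord).toSylow D.pd.index)
    (cent_of_card_prime D.pd.prime ((Nat.card_zpowers _).trans D.pd.ord))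
  have := D.simple
  have := (DL.small0 U D.pd.ord (fun R n e => ?_) hN).2
  · rw [D.hN] at this; nlinarith [two_le_n D, D.pd.prime.pos]
  · rcases n.eq_bot_or_eq_top with rfl | rfl
    · exact bot_le
    · exact absurd (by rw [card_top, ← D.pd.ord]; exact orderOf_dvd_natCard _) e

variable (W : Wed G D.M)

theorem triv {j : Fin W.L} (h : 2 * W.n j < D.p) (g : G) : DL.ws W j g = 1 := by
  have := Fact.mk D.pd.prime
  have := charP_kk D.pd.hM
  have := charP_of_injective_algebraMap (algebraMap (kk D.M) (End (kk D.M) (Fin (W.n j) → kk D.M))).injective D.p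
  have := D.simple
  have e := noSm D _ (DL.ws W j) (W.n j) (by
    have := DL.pow_finrank (n := D.p) (y := DL.ws W j D.x - 1) (by
      rw [sub_pow_char_of_commute _ (Commute.one_right _), ← map_pow, ← D.pd.ord, pow_orderOf_eq_one, map_one, one_pow,
        sub_self])
    rwa [Module.finrank_fin_fun] at this) h
  exact ((MonoidHom.normal_ker (DL.ws W j).toHomUnits).eq_bot_or_eq_top.resolve_left fun b =>
    D.pd.ne_one (b.le (Units.ext e))).ge (mem_top g) |> congrArg Units.val

theorem uniq {j l : Fin W.L} (h : 2 * W.n j < D.p) (h' : 2 * W.n l < D.p) : j = l := by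
  by_contra n
  obtain ⟨a, e, e'⟩ := DL.exists_wa j 1
  obtain ⟨c, p, q⟩ : ∃ c : kk D.M, DL.wa W j a = c • 1 ∧ DL.wa W l a = c • 1 := by
    clear e e'
    induction a using MonoidAlgebra.induction_linear with
    | zero => exact ⟨0, by simp⟩
    | add a b ha hb =>
      obtain ⟨c, p, q⟩ := ha; obtain ⟨d, r, s⟩ := hb
      exact ⟨c + d, by simp [p, q, r, s, add_smul]⟩
    | single g c => exact ⟨c, by simp [triv D W h, triv D W h']⟩
  rw [e' l (Ne.symm n), eq_comm, smul_eq_zero, or_iff_left one_ne_zero] at q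
  rw [e, q, zero_smul] at p
  exact one_ne_zero p

/-- the trivial module -/
structure J0 (o : Fin W.L) : Prop where
  n : W.n o = 1
  d : ∀ j, W.d (irrOne G) j = if j = o then 1 else 0
  big : ∀ j ≠ o, D.p ≤ 2 * W.n j

variable {D W} in
theorem sub {o : Fin W.L} (big : ∀ j ≠ o, D.p ≤ 2 * W.n j) (v : Fin W.L → ℕ) (S : Finset (Fin W.L))
    (hS : ∀ j ∈ S, v j ≠ 0) (h : 2 * ∑ j, v j * W.n j < D.p + 2 * ∑ j ∈ S, W.n j) :
    ∀ j ≠ o, v j = if j ∈ S then 1 else 0 := fun j n => by
  by_contra e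
  have : ∑ i, ((if i ∈ S then W.n i else 0) + if i = j then W.n i else 0) ≤ ∑ i, v i * W.n i :=
    sum_le_sum fun i _ => by
      have := hS i
      refine le_trans ?_ (Nat.mul_le_mul_right _ (show (if i ∈ S then 1 else 0) + (if i = j then 1 else 0) ≤ v i by
        by_cases a : i = j
        · subst a; rw [if_pos rfl]; split_ifs at e ⊢ with b
          · have := this b; omega
          · omega
        · rw [if_neg a]; split_ifs with b
          · have := this b; omega
          · omega))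
      split_ifs <;> omega
  rw [sum_add_distrib, sum_ite_eq', sum_ite_mem, univ_inter, if_pos (mem_univ _)] at this
  have := big j n
  omega

theorem ex_j0 (h : 2 < D.p) : ∃ o, J0 D W o := by
  have e := W.degree_eq D.pd.hM (irrOne G)
  rw [charDegree_irrOne] at e
  obtain ⟨o, -, ho⟩ := exists_ne_zero_of_sum_ne_zero (e ▸ one_ne_zero)
  have l := (single_le_sum (fun _ _ => Nat.zero_le _) (mem_univ o)).trans e.ge
  have q := mul_eq_one.1 (le_antisymm l (Nat.pos_of_ne_zero ho))
  have big : ∀ j ≠ o, D.p ≤ 2 * W.n j := fun j n => not_lt.1 fun a => n (uniq D W a (by rw [q.2]; exact h))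
  refine ⟨o, q.2, fun j => ?_, big⟩
  split_ifs with n
  · rw [n, q.1]
  · simpa using sub big _ ∅ (by simp) (by rw [← e]; simpa using h) j n

variable {D W} {o : Fin W.L}

theorem li' (S : D.K1) (J : J0 D W o) (c : IrrCharacter G → ℂ) (h0 : ∀ χ, D.a χ = 0 → c χ = 0)
    (h1 : ∀ j ≠ o, ∑ χ, c χ * W.d χ j = 0) {χ} (n : χ ≠ irrOne G) : c χ = 0 := by
  have := li G D S (c - Pi.single (irrOne G) (∑ χ, c χ * W.d χ o)) (fun χ e => by
    rw [Pi.sub_apply, h0 χ e, Pi.single_eq_of_ne (by rintro rfl; simp [D.pd.one] at e), sub_zero]) (fun g hg => ?_) χ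
  · rwa [Pi.sub_apply, Pi.single_eq_of_ne n, sub_zero] at this
  simp only [← fun χ : IrrCharacter G => H21.rp_of_reg χ.1 hg, W.rp_irr D.pd.hM, Finset.sum_apply, Pi.smul_apply,
    smul_eq_mul, mul_sum, ← mul_assoc]
  rw [sum_comm]
  refine sum_eq_zero fun j _ => ?_
  rw [← sum_mul, mul_eq_zero_of_left]
  simp only [Pi.sub_apply, sub_mul, sum_sub_distrib, Pi.single_apply, ite_mul, zero_mul, sum_ite_eq', mem_univ, if_true, J.d]
  split_ifs with e
  · simp [e]
  · simp [h1 j e]

theorem kap (S : D.K1) (J : J0 D W o) {χ} (h : D.a χ = -1) (h' : charDegree χ.1 + 1 = D.p) : W.d χ o ≤ D.t := by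
  have q := D.pd.two_le_aq D.perf
  obtain ⟨y, m, n⟩ : ∃ y ∈ 𝐍 D.x, y ∉ zpowers D.x := SetLike.not_le_iff_exists.1 fun l => by
    have := card_le_of_le l
    rw [S.card_normalizer', S.card] at this
    nlinarith [S.prime.pos]
  obtain ⟨e1, e2⟩ := S.card_inf_cent m n
  have l : 𝐂 y ⊓ 𝐍 D.x ≤ 𝐍 D.x := inf_le_right
  generalize 𝐂 y ⊓ 𝐍 D.x = E at *
  have := Fintype.ofFinite E
  have L : W.Lift _ _ := ⟨incl_fB_singleton_mem D.pd.hM e1 (irrOne E), incl_fB_idem _, rfl⟩
  have a := L.ev_eq_sum (irrOne G).2.isClassFunction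
  have b := L.ev_eq_sum χ.2.isClassFunction
  generalize W.π _ = A at a b
  simp only [W.ev_i, ev_incl, ev_fB_singleton, J.d] at a b
  have z : sP D.x χ.1 = 0 := by rw [D.pd.sP_nonexc (by omega), h, ← h']; simp
  rw [classInner_def, sum_eq_single 1 (fun g _ k => by
    rw [S.apply_eq_zero χ.2.isCharacter z (l g.2) (S.notMem_of_not_dvd (by simpa using k) fun d =>
      e1 (d.trans (orderOf_dvd_natCard _ g.2))), zero_mul]) (by simp)] at b
  simp only [irrOne, classInner_one_one, mul_one, Nat.cast_ite, Nat.cast_one, Nat.cast_zero, mul_ite, mul_zero,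
    sum_ite_eq', mem_univ, if_true, one_mul, map_one, OneMemClass.coe_one] at a b
  rw [irr_apply_one, inv_mul_eq_iff_eq_mul₀ (card_ne_zero_complex E), e2] at b
  have b' : charDegree χ.1 = aq D.x * ∑ j, (A j).rank * W.d χ j := by exact_mod_cast b
  have a' : (A o).rank = 1 := by exact_mod_cast a.symm
  have := single_le_sum (f := fun j => (A j).rank * W.d χ j) (fun _ _ => Nat.zero_le _) (mem_univ o)
  have c := D.pd.card
  simp only [a', one_mul] at this
  exact this.trans (Nat.le_of_mul_le_mul_left (by rw [← b', mul_comm, Dat.t]; omega) (aq_pos D.x))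

theorem reg_d {η} (m : η ∈ D.Y) (j : Fin W.L) : D.δ * W.d η j = ∑ χ, D.a χ * W.d χ j := by
  have := Fintype.ofFinite G
  have : classInner ((D.δ : ℂ) • η.1) (W.Φ j) = classInner (∑ χ, (D.a χ : ℂ) • χ.1) (W.Φ j) :=
    classInner_congr_left fun g n => by
      simpa using D.pd.reg η m g fun e => n (W.Φ_sing D.pd.hM j e)
  simp only [classInner_sum_left, classInner_smul_left, ← fun χ : IrrCharacter G => W.ev_i_eq_inner χ.2.isClassFunction,
    W.ev_i] at this
  exact_mod_cast this

theorem kindC (S : D.K1) (J : J0 D W o) {χ} (h : D.a χ = -1) (h' : charDegree χ.1 + 1 = D.p) :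
    ∃ f, f ≠ o ∧ (∀ j ≠ o, W.d χ j = if j = f then 1 else 0) ∧ D.p ≤ W.n f + 1 + D.t := by
  obtain ⟨f, n, e⟩ : ∃ f, f ≠ o ∧ W.d χ f ≠ 0 := by
    by_contra! k
    simpa using li' S J (Pi.single χ 1) (fun ψ e => Pi.single_eq_of_ne (by rintro rfl; omega) _)
      (fun j n => by simp [Pi.single_apply, k j n]) (χ := χ) (by rintro rfl; have := D.pd.one; omega)
  have d := W.degree_eq D.pd.hM χ
  have := J.big f n
  have k := sub J.big (W.d χ) {f} (by simpa using e) (by rw [← d, sum_singleton]; omega)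
  simp only [mem_singleton] at k
  refine ⟨f, n, k, ?_⟩
  rw [← add_sum_erase _ _ (mem_univ o), sum_eq_single f (fun j m n => by simp [k j (ne_of_mem_erase m), n])
    (by simp [n]), k f n, J.n] at d
  have := kap S J h h'
  simp at d
  omega

theorem m2 : M2.{u} := fun G _ _ _ D S hδ _ hN _ hp => by
  classical
  obtain ⟨W⟩ := exists_wed G D.M
  have u := D.upos
  obtain ⟨o, J⟩ := ex_j0 D W (by omega)
  obtain ⟨η, mη⟩ := card_pos.1 D.pd.card_Y_pos
  have : Nonempty (Fin W.L) := ⟨o⟩
  choose! f f1 f2 f3 using fun χ (h : D.a χ = -1 ∧ charDegree χ.1 + 1 = D.p) => kindC S J h.1 h.2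
  have ex : ∀ χ, D.a χ = -1 ∧ charDegree χ.1 + 1 = D.p →
      ∃ A, (D.a A = 1 ∧ charDegree A.1 = D.u * D.p + 1) ∧ W.d A (f χ) ≠ 0 := fun χ h => by
    by_contra! k
    have := reg_d mη (f χ)
    refine absurd (this ▸ sum_lt_sum (g := fun _ => 0) (fun ψ _ => ?_) ⟨χ, mem_univ _, by simp [h.1, f2 χ h _ (f1 χ h)]⟩)
      (by simp [hδ])
    rcases D.pd.pm ψ with e | e | e
    · simp [e]
    · rcases D.pos ψ e with rfl | r | r
      · simp [J.d, f1 χ h]
      · simp [k ψ ⟨e, r⟩]
      · exact absurd hN (card_ne_zero.2 ⟨ψ, by simp [e, r]⟩)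
    · simp [e]
  choose! g g1 g2 using ex
  rw [mul_comm]
  refine card_le_mul_card_image_of_maps_to (f := g) (fun χ h => by simpa using g1 χ (by simpa using h)) _ fun A hA => ?_
  by_contra! l
  obtain ⟨T, s, c⟩ := exists_subset_card_eq (show D.u ≤ _ from Nat.le_of_pred_lt l)
  simp only [mem_filter, mem_univ, true_and] at hA
  have m : ∀ χ ∈ T, (D.a χ = -1 ∧ charDegree χ.1 + 1 = D.p) ∧ g χ = A := fun χ h => by simpa using s h
  have inj : Set.InjOn f T := fun χ h ψ h' e => by
    by_contra n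
    have := li' S J (Pi.single χ 1 - Pi.single ψ 1) (fun θ e => by
      have := (m χ h).1.1; have := (m ψ h').1.1
      rw [Pi.sub_apply, Pi.single_eq_of_ne (by rintro rfl; omega), Pi.single_eq_of_ne (by rintro rfl; omega), sub_zero])
      (fun j n => by simp [Pi.single_apply, sub_mul, f2 χ (m χ h).1 j n, f2 ψ (m ψ h').1 j n, e]) (χ := χ)
      (by rintro rfl; have := D.pd.one; have := (m _ h).1.1; omega)
    rw [Pi.sub_apply, Pi.single_eq_same, Pi.single_eq_of_ne n, sub_zero] at this
    exact one_ne_zero this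
  have k := sub J.big (W.d A) (T.image f) (by
    simp only [mem_image]; rintro _ ⟨χ, h, rfl⟩; exact (m χ h).2 ▸ g2 χ (m χ h).1) (by
    have := sum_le_sum fun χ h => f3 χ (m χ h).1
    rw [← W.degree_eq D.pd.hM, hA.2, sum_image inj]
    simp only [sum_add_distrib, sum_const, smul_eq_mul, c] at this
    omega)
  have nA : A ∉ T := fun h => by have := (m A h).1.1; omega
  simpa [nA] using li' S J (fun θ => (if θ = A then 1 else 0) - if θ ∈ T then 1 else 0) (fun θ e => by
      rw [if_neg (by rintro rfl; omega), if_neg fun h => by have := (m θ h).1.1; omega, sub_zero])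
    (fun j n => by
      simp only [sub_mul, ite_mul, one_mul, zero_mul, sum_sub_distrib, sum_ite_eq', mem_univ, if_true, sum_ite_mem,
        univ_inter, k j n, sub_eq_zero]
      rw [sum_congr rfl fun χ h => congrArg _ (f2 χ (m χ h).1 j n)]
      split_ifs with h
      · obtain ⟨χ, hχ, rfl⟩ := mem_image.1 h
        rw [sum_eq_single χ (fun ψ h' n => by rw [if_neg fun e => n (inj h' hχ e.symm)]; simp) (by simp [hχ])]; simp
      · rw [sum_eq_zero fun ψ h' => by rw [if_neg fun e : j = f ψ => h (e ▸ mem_image_of_mem f h')]; simp]; simp)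
    (χ := A) (by
      rintro rfl
      have := hA.2; rw [charDegree_irrOne] at this; have := Nat.mul_pos u S.prime.pos; omega)

end H4.SN
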