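/-
The Sylow `2`-subgroup of `PSU₃(4)` and an automorphism of order five.
-/
import Cfsg.Agent.H4.U3Aut
import Cfsg.Agent.H4.U3c
import Cfsg.Agent.H4.R2a

set_option autoImplicit false
set_option linter.unusedSectionVars false

namespace H4
open Subgroup Module
open scoped commutatorElement

/-- split extensions with corresponding actions are isomorphic -/
theorem equiv_of_compl {G₁ G₂ : Type*} [Group G₁] [Group G₂] {N₁ H₁ : Subgroup G₁} {N₂ H₂ : Subgroup G₂}
    [N₁.Normal] [N₂.Normal] (c₁ : N₁.IsComplement' H₁) (c₂ : N₂.IsComplement' H₂) (e : N₁ ≃* N₂)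
    (f : H₁ ≃* H₂) (h : ∀ (g : H₁) x, e (MulAut.conjNormal (g : G₁) x) = MulAut.conjNormal (f g : G₂) (e x)) :
    Nonempty (G₁ ≃* G₂) :=
  ⟨(SemidirectProduct.mulEquivSubgroup c₁).symm.trans ((SemidirectProduct.congr e f (by
    intro g; exact MulEquiv.ext fun x => h g x)).trans (SemidirectProduct.mulEquivSubgroup c₂))⟩

theorem compl_zpowers {G : Type*} [Group G] [Finite G] {N : Subgroup G} {r : ℕ} (hr : r.Prime)
    (hi : N.index = r) (hn : ¬ r ∣ Nat.card N) {ρ : G} (ho : orderOf ρ = r) : N.IsComplement' (zpowers ρ) :=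
  isComplement'_of_coprime (by rw [Nat.card_zpowers, ho, ← hi, N.card_mul_index])
    (by rw [Nat.card_zpowers, ho]; exact ((Nat.Prime.coprime_iff_not_dvd hr).2 hn).symm)

theorem equiv_of_prime_index {G₁ G₂ : Type*} [Group G₁] [Finite G₁] [Group G₂] [Finite G₂]
    {N₁ : Subgroup G₁} {N₂ : Subgroup G₂} [N₁.Normal] [N₂.Normal] (e : N₁ ≃* N₂) {r : ℕ} (hr : r.Prime)
    (i₁ : N₁.index = r) (i₂ : N₂.index = r) (hn : ¬ r ∣ Nat.card N₂)
    (ha : ¬ r * r ∣ Nat.card (MulAut N₂)) {ρ₁ : G₁} {ρ₂ : G₂} (o₁ : orderOf ρ₁ = r) (o₂ : orderOf ρ₂ = r)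
    (h₁ : (MulAut.conjNormal ρ₁ : MulAut N₁) ≠ 1) (h₂ : (MulAut.conjNormal ρ₂ : MulAut N₂) ≠ 1) :
    Nonempty (G₁ ≃* G₂) := by
  have := Fact.mk hr
  let k₁ : MulAut N₂ := MulAut.congr e (MulAut.conjNormal ρ₁)
  let k₂ : MulAut N₂ := MulAut.conjNormal ρ₂
  have ok₁ : orderOf k₁ = r := orderOf_eq_prime
    (by rw [← map_pow, ← map_pow, ← o₁, pow_orderOf_eq_one, map_one, map_one]) 
    ((map_ne_one_iff _ (MulAut.congr e).injective).2 h₁)
  have ok₂ : orderOf k₂ = r := orderOf_eq_prime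
    (by rw [← map_pow, ← o₂, pow_orderOf_eq_one, map_one]) h₂
  have syl : ∀ k : MulAut N₂, orderOf k = r → ∃ S : Sylow r (MulAut N₂), (S : Subgroup _) = zpowers k :=
    fun k hk => ⟨(IsPGroup.of_card (G := zpowers k) (n := 1) (by rw [Nat.card_zpowers, hk, pow_one])).toSylow fun hd => ha (by
      rw [← (zpowers k).card_mul_index, Nat.card_zpowers, hk]; exact Nat.mul_dvd_mul_left _ hd), rfl⟩
  obtain ⟨S₁, e₁⟩ := syl k₁ ok₁
  obtain ⟨S₂, e₂⟩ := syl k₂ ok₂
  obtain ⟨ψ, hψ⟩ := MulAction.exists_smul_eq (MulAut N₂) S₁ S₂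
  have hm : ψ * k₁ * ψ⁻¹ ∈ zpowers k₂ := by
    rw [← e₂, ← hψ, Sylow.coe_subgroup_smul, e₁]
    exact Subgroup.smul_mem_pointwise_smul _ _ _ (mem_zpowers k₁)
  obtain ⟨j, hj⟩ := mem_zpowers_iff.1 hm
  have o₃ : orderOf (ρ₂ ^ j) = r := orderOf_eq_prime
    (by rw [← zpow_natCast, ← zpow_mul, mul_comm, zpow_mul, zpow_natCast, ← o₂, pow_orderOf_eq_one, one_zpow])
    fun e1 => by
      rw [← map_zpow, e1, map_one, eq_comm, mul_inv_eq_one, mul_eq_left] at hj
      exact hr.one_lt.ne (by rw [← ok₁, hj, orderOf_one])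
  have c₁ : IsCyclic (zpowers ρ₁) := inferInstance
  let g₁ : zpowers ρ₁ := ⟨ρ₁, mem_zpowers _⟩
  let g₂ : zpowers (ρ₂ ^ j) := ⟨ρ₂ ^ j, mem_zpowers _⟩
  have hg₁ : ∀ x, x ∈ zpowers g₁ := fun ⟨_, i, rfl⟩ => ⟨i, rfl⟩
  have hg₂ : ∀ x, x ∈ zpowers g₂ := fun ⟨_, i, rfl⟩ => ⟨i, rfl⟩
  have ho : orderOf g₁ = orderOf g₂ := by rw [← orderOf_coe, ← orderOf_coe, o₁, o₃]
  refine equiv_of_compl (compl_zpowers hr i₁ (by rwa [Nat.card_congr e.toEquiv]) o₁)
    (compl_zpowers hr i₂ hn o₃) (e.trans ψ) (mulEquivOfOrderOfEq hg₁ hg₂ ho) fun g x => ?_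
  obtain ⟨i, rfl⟩ := mem_zpowers_iff.1 (hg₁ g)
  rw [map_zpow (mulEquivOfOrderOfEq hg₁ hg₂ ho), mulEquivOfOrderOfEq_apply_gen]
  have : (MulAut.conjNormal ((ρ₂ ^ j) ^ i) : MulAut N₂) = ψ * MulAut.congr e (MulAut.conjNormal (ρ₁ ^ i)) * ψ⁻¹ := by
    rw [map_zpow, map_zpow, hj, conj_zpow, map_zpow, map_zpow]
  refine Eq.trans ?_ (DFunLike.congr_fun this (ψ (e x))).symm
  simp [g₁]

section
variable {P : Type*} [Group P] [Finite P] {k : MulAut P}

theorem exists_field_hom {W : Subgroup P} (hlt : W ≠ ⊤) (hW : Inv k W) (hsq : ∀ x, x * x ∈ W)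
    (hirr : ∀ X, Inv k X → W ≤ X → X = W ∨ X = ⊤) {F : Type*} [Field F] [Fintype F]
    (hF : Fintype.card F = W.index) : ∃ (c : P →* Multiplicative F) (m : F), c.ker = W ∧
      (∀ a, ∃ x, (c x).toAdd = a) ∧ ∀ x, (c (k x)).toAdd = m * (c x).toAdd := by
  obtain ⟨E, _, _, π, ρ, T, hs, hT⟩ := exists_secT (V := ⊤) le_top inv_top hW fun x _ => hsq x
  have := hs.finite
  obtain ⟨u, hu, huW⟩ := SetLike.exists_of_lt (lt_top_iff_ne_top.2 hlt)
  obtain ⟨K, _, _, _, f, hf1, hf⟩ := H0.exists_field_model {T} (by rintro _ rfl _ rfl; rfl) (fun S hS => by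
    refine (hirr (hs.grp S) (fun x hx => ⟨trivial, ?_⟩) (hs.le_grp S)).imp
      (fun e => hs.grp_inj (e.trans hs.grp_bot.symm)) fun e => hs.grp_inj (e.trans hs.grp_top.symm)
    rw [hT x hx.1]; exact hS T rfl _ hx.2) (v₀ := π u) (fun e => huW ((hs.ker u hu).1 e))
  let c : P →* Multiplicative K := MonoidHom.mk' (fun x => Multiplicative.ofAdd (f (π x))) fun x y => by
    rw [hs.add x trivial y trivial, map_add]; rfl
  have hk : c.ker = W := Subgroup.ext fun x =>
    (map_eq_zero_iff f f.injective).trans (hs.ker x trivial)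
  have hc : ∀ a, ∃ x, f (π x) = a := fun a => by
    obtain ⟨x, -, e⟩ := hs.surj (f.symm a)
    exact ⟨x, by simp [e]⟩
  let e : K ≃+* F := FiniteField.ringEquivOfCardEq (by
    rw [hF, ← hk, index_ker, MonoidHom.range_eq_top.2 fun a => hc a.toAdd, Subgroup.card_top,
      Nat.card_congr Multiplicative.toAdd, Nat.card_eq_fintype_card])
  refine ⟨(AddMonoidHom.toMultiplicative (e : K →+ F)).comp c, e (f (T (π u))), ?_, fun a => ?_, fun x => ?_⟩
  · rw [← hk]; exact Subgroup.ext fun x => map_eq_zero_iff e e.injective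
  · obtain ⟨x, hx⟩ := hc (e.symm a)
    exact ⟨x, show e (f (π x)) = a by simp [hx]⟩
  · show e (f (π (k x))) = _ * e (f (π x))
    rw [hT x trivial, hf T rfl, map_mul]

theorem U3.equiv_of_norm {F : Type*} [Field F] [Fintype F] {n : ℕ} (hF : Fintype.card F = (2 ^ n) ^ 2)
    (hP : Nat.card P = (2 ^ n) ^ 3) (c : P →* Multiplicative F) {z : P → F}
    (hz : ∀ x ∈ c.ker, ∀ y ∈ c.ker, z (x * y) = z x + z y) (hi : ∀ x ∈ c.ker, z x = 0 → x = 1)
    (hσ : ∀ x ∈ c.ker, H11.frob hF (z x) = z x) (hs : ∀ x, x * x ∈ c.ker)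
    (hq : ∀ x, z (x * x) = (c x).toAdd * H11.frob hF (c x).toAdd) : Nonempty (P ≃* U3 hF) := by
  have := U3.charTwo hF
  have h2 : (2 : F) = 0 := CharTwo.two_eq_zero
  let _ : Algebra (ZMod 2) F := ZMod.algebra F 2
  obtain ⟨y, hy, hyz⟩ := exists_split (c := c)
    ((AddMonoidHom.mul : F →+ F →+ F).compl₂ (H11.frob hF : F →+ F)) hz hs hq
  obtain ⟨ε, hε⟩ := H12.exists_trace_eq (H11.frob_ne_id hF) (H11.frob_frob hF) (map_one (H11.frob hF))
  let g : P →* U3 hF := MonoidHom.mk' (fun u => ⟨(c u).toAdd,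
    y u + ε * (y u + H11.frob hF (y u) + (c u).toAdd * H11.frob hF (c u).toAdd), by
      simp only [map_add, map_mul, H11.frob_frob]
      linear_combination (y u + H11.frob hF (y u) + (c u).toAdd * H11.frob hF (c u).toAdd) * (hε + h2)⟩)
    fun u v => U3.ext (by simp) (by
      have e : y (u * v) = y u + y v + (c u).toAdd * H11.frob hF (c v).toAdd := hy u v
      simp only [U3.mul_b, e, map_add, map_mul, H11.frob_frob, toAdd_mul]
      linear_combination ((c u).toAdd * H11.frob hF (c v).toAdd * (1 + ε) +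
        ε * (c v).toAdd * H11.frob hF (c u).toAdd) * h2)
  refine ⟨MulEquiv.ofBijective g ((Nat.bijective_iff_injective_and_card g).2
    ⟨(injective_iff_map_eq_one g).2 fun u hu => ?_, by rw [hP, U3.card]⟩)⟩
  have e1 : (c u).toAdd = 0 := congrArg U3.a hu
  have e2 : y u + ε * (y u + H11.frob hF (y u) + (c u).toAdd * H11.frob hF (c u).toAdd) = 0 :=
    congrArg U3.b hu
  rw [hyz u e1, hσ u e1, e1] at e2
  exact hi u e1 (by linear_combination e2 - ε * z u * h2)

theorem equiv_u3_of_five (hP : Nat.card P = 64) (hZ : IsKleinFour (center P)) (hk : k ^ 5 = 1)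
    (hM : ∀ M : Subgroup P, commutator P ≤ M → (∀ x, k x * x⁻¹ ∈ M) → M = ⊤)
    {F : Type*} [Field F] [Fintype F] (hF : Fintype.card F = (2 ^ 2) ^ 2) : Nonempty (P ≃* U3 hF) := by
  have hp : IsPGroup 2 P := IsPGroup.of_card (n := 6) hP
  have : Fact (Nat.Prime 5) := ⟨by norm_num⟩
  have cV : Nat.card (center P) = 4 := hZ.card_four
  have iV : (center P).index = 16 := by have := (center P).card_mul_index; rw [cV, hP] at this; omega
  have nV : center P ≠ ⊤ := fun e => by rw [e] at iV; simp at iV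
  have eV : ∀ v ∈ center P, v * v = 1 := fun v hv =>
    congrArg Subtype.val (IsKleinFour.mul_self (⟨v, hv⟩ : center P))
  have ok : orderOf k = 5 := orderOf_eq_prime hk fun e => by
    have : Nontrivial P := Finite.one_lt_card_iff_nontrivial.1 (by omega)
    have := hp.isNilpotent
    exact (Group.IsSolvable.commutator_lt_top_of_nontrivial P).ne (hM _ le_rfl fun x => by simp [e])
  have hfx : ∀ U, Inv k U → (Fx k).relIndex U ∣ 32 → (Fx k).relIndex U = 1 ∨ (Fx k).relIndex U = 16 :=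
    fun U hU hd => by
      obtain ⟨i, h1, h2⟩ := dvd_relIndex_Fx (r := 5) (j := 0) (by norm_num) (by norm_num) hp ok hU
      rw [pow_zero, pow_one] at h1
      rw [h1] at hd ⊢
      have : i ≤ 5 := (Nat.pow_dvd_pow_iff_le_right one_lt_two).1 hd
      interval_cases i <;> simp_all
  have fV : center P ≤ Fx k := by
    have h1 : (Fx k).relIndex (center P) ∣ 4 := cV ▸ relIndex_dvd_card _ _
    exact relIndex_eq_one.1 ((hfx _ inv_center (h1.trans (by norm_num))).resolve_right fun e => by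
      rw [e] at h1; norm_num at h1)
  have hirr : ∀ X, Inv k X → center P ≤ X → X = center P ∨ X = ⊤ := fun X hX hle => by
    have h0 := index_dvd_of_le fV
    have h1 := (hfx ⊤ inv_top (by rw [relIndex_top_right]; exact h0.trans (by rw [iV]; norm_num))).resolve_left
      fun e => by
        have : k = 1 := MulEquiv.ext fun x => relIndex_eq_one.1 e (mem_top x)
        simp [this] at ok
    rw [relIndex_top_right] at h1
    have e : Fx k = center P := (eq_of_le_of_card_ge fV (by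
      have := (Fx k).card_mul_index; rw [h1, hP] at this; omega)).symm
    have h2 := relIndex_mul_index hle
    rw [iV] at h2
    rcases e ▸ hfx X hX (by rw [e]; exact (Dvd.intro _ h2).trans (by norm_num)) with h3 | h3
    · exact .inl (le_antisymm (relIndex_eq_one.1 h3) hle)
    · exact .inr (index_eq_one.1 (by rw [h3] at h2; omega))
  have hcm : cmod (center P) = ⊤ := (hirr _ inv_center.cmod le_cmod).resolve_left fun e =>
    exists_mem_cmod hp (N := ⊤) (fun h => nV (top_le_iff.1 h)) (by rw [e]; exact inf_le_right)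
  have hsq : ∀ x, x * x ∈ center P := fun x => (mem_cmod.1 (hcm ▸ mem_top x)).1
  have hco : ∀ x y, ⁅x, y⁆ ∈ center P := fun x => (mem_cmod.1 (hcm ▸ mem_top x)).2
  obtain ⟨c, μ, hc, hs, hμ⟩ := exists_field_hom nV inv_center hsq hirr (hF.trans iV.symm)
  have := U3.charTwo hF
  have h2 : (2 : F) = 0 := CharTwo.two_eq_zero
  have hσ : ∀ a, H11.frob hF a = a ^ 4 := fun _ => rfl
  have hj : ∀ (j : ℕ) x, (c ((k ^ j) x)).toAdd = μ ^ j * (c x).toAdd := fun j x => by
    induction j with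
    | zero => simp
    | succ j ih => rw [pow_succ', MulAut.mul_apply, hμ, ih, pow_succ', mul_assoc]
  have ceq : ∀ {x y}, (c x).toAdd = (c y).toAdd → ∃ v ∈ center P, x = v * y := fun {x y} e =>
    ⟨x * y⁻¹, by rw [← hc, MonoidHom.mem_ker, map_mul, map_inv, Multiplicative.toAdd.injective e,
      mul_inv_cancel], by simp⟩
  have m5 : μ ^ 5 = 1 := by
    obtain ⟨x, hx⟩ := hs 1
    simpa [hk, hx] using (hj 5 x).symm
  have m1 : μ ≠ 1 := fun e => nV (hM _ (commutator_le.2 fun x _ y _ => hco x y) fun x => by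
    obtain ⟨v, hv, e1⟩ := ceq (show (c (k x)).toAdd = (c x).toAdd by rw [hμ, e, one_mul])
    simpa [e1] using hv)
  have hprim : IsPrimitiveRoot μ 5 := (orderOf_eq_prime m5 m1 : orderOf μ = 5) ▸ IsPrimitiveRoot.orderOf μ
  have sq0 : ∀ {x y}, (c x).toAdd = (c y).toAdd → x * x = y * y := fun {x y} e => by
    obtain ⟨v, hv, rfl⟩ := ceq e
    rw [mul_assoc, ← mul_assoc y, mem_center_iff.1 hv, ← mul_assoc, ← mul_assoc, eV v hv, one_mul]
  have sq1 : ∀ {x y}, (c x).toAdd ^ 5 = (c y).toAdd ^ 5 → x * x = y * y := fun {x y} e => by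
    by_cases h0 : (c y).toAdd = 0
    · exact sq0 (by rw [h0, zero_pow (by norm_num), pow_eq_zero_iff (by norm_num)] at e; rw [e, h0])
    obtain ⟨i, -, hi⟩ := hprim.eq_pow_of_pow_eq_one (ξ := (c x).toAdd / (c y).toAdd) (by
      rw [div_pow, e, div_self (pow_ne_zero _ h0)])
    rw [sq0 (show _ = (c ((k ^ i) y)).toAdd by rw [hj, hi, div_mul_cancel₀ _ h0]), ← map_mul]
    exact (MulAction.stabilizer (MulAut P) (y * y)).pow_mem (fV (hsq y)) i
  have cm : ∀ {x y} (r : F), r ^ 4 = r → (c y).toAdd = r * (c x).toAdd → y ∈ centralizer {x} :=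
    fun {x y} r hr e => by
      have hw : k x * (k ^ 4) x ∈ centralizer {x} := by
        have e1 : ⁅(k ^ 4) x, x⁆ = ⁅x, k x⁆ := by
          rw [← mem_Fx.1 (fV (hco _ _)), map_commutatorElement, ← MulAut.mul_apply, ← pow_succ', hk]; rfl
        rw [mem_centralizer_singleton_iff, ← commutatorElement_eq_one_iff_mul_comm]
        have e2 : ⁅k x * (k ^ 4) x, x⁆ = k x * ⁅(k ^ 4) x, x⁆ * (k x)⁻¹ * ⁅k x, x⁆ := by
          simp only [commutatorElement_def]; group
        rw [e2, mem_center_iff.1 (hco _ x) (k x), mul_inv_cancel_right, e1, ← commutatorElement_inv (k x) x,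
          inv_mul_cancel]
      have hx : x ∈ centralizer {x} := mem_centralizer_singleton_iff.2 rfl
      have key : ∀ w ∈ centralizer {x}, (c y).toAdd = (c w).toAdd → y ∈ centralizer {x} := fun w hw e => by
        obtain ⟨v, hv, rfl⟩ := ceq e
        exact mul_mem (center_le_centralizer _ hv) hw
      have h5 : μ ^ 4 + μ ^ 3 + μ ^ 2 + μ + 1 = 0 :=
        mul_left_cancel₀ (sub_ne_zero.2 m1) (by linear_combination m5)
      have : r * ((r - 1) * ((r - (μ + μ ^ 4)) * (r - (μ + μ ^ 4 + 1)))) = 0 := by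
        have : (μ + μ ^ 4) * (μ + μ ^ 4 + 1) = 1 := by
          linear_combination h5 + (μ ^ 3 + 2) * m5 + 0 * h2
        linear_combination hr + r * (r - 1) * this + (r ^ 2 - r ^ 3 - (r ^ 3 - r ^ 2) * (μ + μ ^ 4)) * h2
      simp only [mul_eq_zero, sub_eq_zero] at this
      rcases this with rfl | rfl | rfl | rfl
      · exact key 1 (one_mem _) (by simp [e])
      · exact key x hx (by simp [e])
      · exact key _ hw (by rw [e, map_mul, toAdd_mul, hμ, hj]; ring)
      · exact key _ (mul_mem hw hx) (by rw [e, map_mul c, map_mul c, toAdd_mul, toAdd_mul, hμ, hj]; ring)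
  choose s hs using hs
  let H : Multiplicative (U3.Fq hF) →* P := MonoidHom.mk'
    (fun t => s (t.toAdd * t.toAdd) * s (t.toAdd * t.toAdd)) fun t u => by
      have ht : (t.toAdd : F) ^ 4 = t.toAdd := t.toAdd.2
      have hu : (u.toAdd : F) ^ 4 = u.toAdd := u.toAdd.2
      generalize e1 : s (t.toAdd * t.toAdd) = x
      generalize e2 : s (u.toAdd * u.toAdd) = y
      have e3 : x * y = y * x := by
        by_cases h0 : (t.toAdd : F) = 0
        · exact (mem_center_iff.1 (show x ∈ center P by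
            rw [← hc, ← e1]; exact show (c _).toAdd = 0 from (hs _).trans (by rw [h0, mul_zero])) y).symm
        · exact (mem_centralizer_singleton_iff.1 (cm ((u.toAdd / t.toAdd) ^ 2)
            (by rw [pow_right_comm, div_pow, ht, hu]) (by rw [← e1, ← e2, hs, hs]; field_simp))).symm
      rw [sq0 (y := x * y) (by
        rw [hs, map_mul c, toAdd_mul, toAdd_mul, ← e1, ← e2, hs, hs, AddSubgroup.coe_add]
        linear_combination (t.toAdd * u.toAdd : F) * h2), mul_assoc, ← mul_assoc y, ← e3]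
      simp only [mul_assoc]
  have hH : ∀ x, x * x = H (.ofAdd ⟨(c x).toAdd * H11.frob hF (c x).toAdd, by
      show H11.frob hF _ = _
      rw [map_mul, H11.frob_frob, mul_comm]⟩) := fun x => sq1 (by
    have := FiniteField.pow_card (c x).toAdd
    rw [hF] at this
    show _ = (c (s _)).toAdd ^ 5
    rw [hs]
    show _ = ((c x).toAdd * (c x).toAdd ^ 4 * ((c x).toAdd * (c x).toAdd ^ 4)) ^ 5
    generalize (c x).toAdd = a at this
    have e : a ^ 16 = a := this
    calc a ^ 5 = a ^ 2 * a ^ 3 := by ring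
      _ = a ^ 2 * (a ^ 16) ^ 3 := by rw [e]
      _ = _ := by ring)
  have rV : H.range ≤ center P := by rintro _ ⟨t, rfl⟩; exact hsq _
  have sH : ∀ x, x * x ∈ H.range := fun x => ⟨_, (hH x).symm⟩
  have eH : H.range = center P := by
    obtain ⟨Y, h1, -, h3, h4⟩ := exists_compl (k := k) (V := ⊤) (by rw [ok]; decide) rV le_top inv_top
      (fun x hx => by rwa [show k x = x from fV (rV hx)]) inv_center fun x _ => sH x
    have hY : H.range ≤ Y := h3 ▸ inf_le_right
    rw [← h3, hM Y (commutator_le.2 fun x _ y _ => hY (comm_mem_of_sq (V := ⊤) (fun x _ => sH x)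
      trivial trivial)) fun x => ?_, inf_top_eq]
    obtain ⟨v, hv, y, hy, rfl⟩ := mem_sup_of_normal_left.1 (h4 ▸ mem_top x)
    rw [map_mul, show k v = v from fV hv, mul_inv_rev, mul_assoc, ← mem_center_iff.1 hv]
    simpa [mul_assoc] using Y.mul_mem (h1 y hy) (Y.inv_mem hy)
  have iH : Function.Injective H := by
    have := ((Nat.bijective_iff_surjective_and_card H.rangeRestrict).2 ⟨H.rangeRestrict_surjective, by
      rw [eH, cV, Nat.card_congr Multiplicative.toAdd, U3.card_Fq]; rfl⟩).1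
    exact fun a b e => this (Subtype.ext e)
  have li := Function.leftInverse_invFun iH
  rw [← eH] at hc
  refine U3.equiv_of_norm hF hP c (z := fun v => ((Function.invFun H v).toAdd : F)) ?_ ?_
    (fun x _ => (Function.invFun H x).toAdd.2) (hc ▸ sH) fun x => by rw [hH, li]; rfl
  · rw [hc]; rintro _ ⟨a, rfl⟩ _ ⟨b, rfl⟩
    simp only [← map_mul, li a, li b, li (a * b)]; rfl
  · rw [hc]; rintro _ ⟨a, rfl⟩ e
    rw [li] at e
    rw [show a = 1 from Multiplicative.toAdd.injective (Subtype.ext e), map_one]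

end

open Matrix in
theorem U3.exists_cent {F : Type*} [Field F] [Fintype F] (hF : Fintype.card F = (2 ^ 2) ^ 2) :
    ∃ (t : H11.suMat hF (J F)) (N : Subgroup (centralizer {t})) (_ : N.Normal) (ρ : centralizer {t}),
      orderOf t = 2 ∧ Nonempty (U3 hF ≃* N) ∧ N.index = 5 ∧ orderOf ρ = 5 ∧
        (MulAut.conjNormal ρ : MulAut N) ≠ 1 := by
  classical
  have := U3.charTwo hF
  have : Fact (Nat.Prime 5) := ⟨by norm_num⟩
  have h2 : (2 : F) = 0 := CharTwo.two_eq_zero
  let z : U3 hF := ⟨0, 1, by simp only [map_one, map_zero]; linear_combination h2⟩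
  have z1 : z ≠ 1 := fun e => one_ne_zero (congrArg U3.b e)
  let C := centralizer {toSU hF z}
  have hC : ∀ s : C, s.1 • (none : Option (U3 hF)) = none := fun s => by
    have e : toSU hF z • s.1 • (none : Option (U3 hF)) = s.1 • none := by
      rw [← mul_smul, ← mem_centralizer_singleton_iff.1 s.2, mul_smul, toSU_none]
    rcases h : s.1 • (none : Option (U3 hF)) with _ | y
    · rfl
    · rw [h, toSU_some] at e
      exact absurd (by simpa using e) z1
  let δ : C →* F := ⟨⟨fun s => s.1.1.1 0 0, rfl⟩, fun s t => diag_mul (hC s) (hC t) 0⟩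
  have hd : ∀ s : C, s.1.1.1 2 2 = δ s ∧ δ s ^ 5 = 1 ∧ δ s * s.1.1.1 1 1 * δ s = 1 := fun s => by
    obtain ⟨h3, h4, h5⟩ := triang (hC s)
    have e1 : s.1.1.1 * mat z = mat z * s.1.1.1 :=
      congrArg (fun g : H11.suMat hF (J F) => g.1.1) (mem_centralizer_singleton_iff.1 s.2)
    have e2 := congrFun (congrFun e1 0) 2
    have hs : (s.1.1.1.map (H11.frob hF))ᵀ * J F * s.1.1.1 = J F := s.1.2
    have e3 := congrFun (congrFun hs 0) 2
    have e4 : s.1.1.1.det = 1 := s.1.1.2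
    rw [Matrix.det_fin_three] at e4
    simp [J, mat, z, Matrix.mul_apply, Fin.sum_univ_three, h3, h4, h5] at e2 e3 e4
    have e5 : s.1.1.1 2 2 = δ s := by show _ = s.1.1.1 0 0; linear_combination -e2
    rw [e5] at e3 e4
    exact ⟨e5, by rw [pow_succ]; exact e3, e4⟩
  have hU : ∀ x, toSU hF x ∈ C := fun x => mem_centralizer_singleton_iff.2 (by
    rw [← map_mul, ← map_mul, mem_center_iff.1 (U3.mem_center.2 rfl : z ∈ _)])
  let f : U3 hF →* δ.toHomUnits.ker := ((toSU hF).codRestrict C hU).codRestrict _ fun x => Units.ext rfl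
  have hf : Function.Bijective f := ⟨fun x y e => toSU_injective (congrArg (fun g => g.1.1) e), fun s => by
    have e : δ s.1 = 1 := congrArg Units.val s.2
    obtain ⟨h1, -, h3⟩ := hd s.1
    obtain ⟨x, hx⟩ := mem_range (hC s.1) e (by simpa [e] using h3) (h1.trans e)
    exact ⟨x, Subtype.ext (Subtype.ext hx)⟩⟩
  obtain ⟨μ, hμ⟩ := exists_prime_orderOf_dvd_card' (G := Fˣ) 5 (by
    rw [Nat.card_units, Nat.card_eq_fintype_card, hF]; norm_num)
  have m5 : (μ : F) ^ 5 = 1 := by rw [← Units.val_pow_eq_pow_val, ← hμ, pow_orderOf_eq_one]; rfl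
  have m1 : (μ : F) ≠ 1 := fun e => by simp [Units.ext (e.trans Units.val_one.symm)] at hμ
  let D : H11.suMat hF (J F) := ⟨⟨!![μ, 0, 0; 0, μ ^ 3, 0; 0, 0, μ], by
      simp [Matrix.det_fin_three]; linear_combination m5⟩, by
    change (Matrix.map _ (H11.frob hF))ᵀ * J F * _ = J F
    ext i j
    fin_cases i <;> fin_cases j <;> simp [J, Matrix.mul_apply, Fin.sum_univ_three]
    · linear_combination m5
    · linear_combination ((μ : F) ^ 10 + μ ^ 5 + 1) * m5
    · linear_combination m5⟩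
  have hD : D ∈ C := mem_centralizer_singleton_iff.2 (Subtype.ext (Subtype.ext (by
    change D.1.1 * mat z = mat z * D.1.1
    ext i j
    fin_cases i <;> fin_cases j <;> simp [D, z, mat, Matrix.mul_apply, Fin.sum_univ_three])))
  have eD : δ.toHomUnits ⟨D, hD⟩ = μ := Units.ext rfl
  have D5 : (⟨D, hD⟩ : C) ^ 5 = 1 := Subtype.ext (Subtype.ext (Subtype.ext (by
    change D.1.1 ^ 5 = 1
    have : D.1.1 = Matrix.diagonal ![(μ : F), μ ^ 3, μ] := by
      ext i j; fin_cases i <;> fin_cases j <;> simp [D]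
    rw [this, diagonal_pow, ← diagonal_one]
    congr 1; ext i
    fin_cases i <;> simp [m5, pow_right_comm _ 3 5])))
  refine ⟨toSU hF z, δ.toHomUnits.ker, inferInstance, ⟨D, hD⟩, ?_, ⟨MulEquiv.ofBijective f hf⟩, ?_,
    orderOf_eq_prime D5 fun e => m1 (by rw [← eD, e, map_one]; rfl), fun e => ?_⟩
  · rw [orderOf_injective _ toSU_injective]
    exact orderOf_eq_prime ((sq z).trans (U3.sq_eq_one.2 rfl)) z1
  · rw [index_ker, ← hμ, ← Nat.card_zpowers]
    congr 2
    refine le_antisymm ?_ (zpowers_le.2 ⟨_, eD⟩)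
    rintro _ ⟨s, rfl⟩
    have hprim : IsPrimitiveRoot (μ : F) 5 :=
      (orderOf_eq_prime m5 m1 : orderOf (μ : F) = 5) ▸ IsPrimitiveRoot.orderOf _
    obtain ⟨i, -, hi⟩ := hprim.eq_pow_of_pow_eq_one (hd s).2.1
    exact (Units.ext hi : μ ^ i = δ.toHomUnits s) ▸ pow_mem (mem_zpowers μ) i
  · obtain ⟨x, hx⟩ := exists_a hF 1
    have e1 : D * toSU hF x * D⁻¹ = toSU hF x := congrArg (fun g => g.1.1) (DFunLike.congr_fun e (f x))
    have e2 : D.1.1 * mat x = mat x * D.1.1 :=
      congrArg (fun g : H11.suMat hF (J F) => g.1.1) (mul_inv_eq_iff_eq_mul.1 e1)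
    have e3 := congrFun (congrFun e2 0) 1
    simp [D, mat, hx, Matrix.mul_apply, Fin.sum_univ_three] at e3
    exact m1 (by linear_combination (1 + (μ : F) ^ 2) * e3 + m5)

end H4
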