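import Cfsg.Agent.H4.BGH

/-! Extremely sparse fusion systems. -/

set_option autoImplicit false

namespace H4
open Subgroup H25 H25.FS
open scoped commutatorElement

variable {Γ : Type*} [Group Γ] [Finite Γ] {p : ℕ} [hp : Fact p.Prime] {F E N : FS Γ}
  {A D H K P Q R X : Subgroup Γ} {a b g x : Γ}

theorem syl_sup_zpowers (hb : b ∈ nz Q) (hc : (orderOf b).Coprime p) :
    Syl p Q (Q ⊔ zpowers b) := by
  refine ⟨le_sup_left, fun h => ?_⟩
  rw [relIndex_eq_of_cover (H := zpowers b) le_sup_right fun a ha => by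
    rw [sup_comm, mem_sup_of_le_nz_right (zpowers_le.2 hb)] at ha
    obtain ⟨c, hc, d, hd, rfl⟩ := ha
    exact ⟨c, hc, by simpa using hd⟩] at h
  exact (hp.out.coprime_iff_not_dvd.1 hc.symm)
    (h.trans (Nat.card_zpowers b ▸ (index_dvd_card _ : Q.relIndex (zpowers b) ∣ _)))

theorem ofSub_le_of_A (hQ : Q ≤ F.S) (h1 : Q ≤ H) (h2 : H ≤ F.A Q) : ofSub H Q ≤ F := fun P g h => by
  obtain ⟨a1, -, k, a2, a3⟩ := (ofSub_T h1).1 h
  exact ((T_of_mem_A hQ (h2 a2)).mono a1).congr a3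

theorem xs_eq (hF : F.Sat p) (h : ∀ D : FS Γ, D.Sat p → D ≤ F → D = F ∨ D = inner D.S)
    (hQ : Q ≤ F.S) (hb : b ∈ F.A Q) (hc : (orderOf b).Coprime p) (hn : b ∉ cz Q) :
    ofSub (Q ⊔ zpowers b) Q = F := by
  have h1 := F.A_le_nz Q hb
  refine (h _ (sat_ofSub (hF.pg' hQ) (syl_sup_zpowers h1 hc)) (ofSub_le_of_A hQ le_sup_left
    (sup_le ((F.le_N hQ).trans (F.N_le_A Q)) (zpowers_le.2 hb)))).resolve_right fun e => hn ?_
  have h2 : b ∈ (ofSub (Q ⊔ zpowers b) Q).A Q := by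
    rw [ofSub_A le_sup_left le_rfl]; exact mem_ai_of_mem (mem_sup_right (mem_zpowers b)) h1
  rw [e, ofSub_S, ofSub_A le_rfl le_rfl] at h2
  exact (pel_ai (hF.pg' hQ) b h2).mem_of_coprime hc

theorem xs_main (hF : F.Sat p) (h : ∀ D : FS Γ, D.Sat p → D ≤ F → D = F ∨ D = inner D.S)
    (hne : F ≠ inner F.S) : F.Nm F.S ∧ F.hyp p = F.S ∧ (∃ b ∈ F.A F.S, (orderOf b).Coprime p ∧
      b ∉ cz F.S) ∧ ∀ b ∈ F.A F.S, (orderOf b).Coprime p → b ∉ cz F.S →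
        F.A F.S = ai F.S F.S ⊔ zpowers b := by
  obtain ⟨Q, hQ, b, hb, hc, hn⟩ : ∃ Q ≤ F.S, ∃ b ∈ F.A Q, (orderOf b).Coprime p ∧ b ∉ cz Q := by
    by_contra! h1
    exact hne (hF.eq_inner fun Q hQ a ha => pel_of_coprime ha
      (h1 Q (hQ.elim Eq.le Ess.le)))
  obtain rfl : Q = F.S := congrArg FS.S (xs_eq hF h hQ hb hc hn)
  refine ⟨?_, ?_, ⟨b, hb, hc, hn⟩, fun b hb hc hn => ?_⟩
  · have := nm_ofSub (le_sup_left (b := zpowers b)) le_rfl
      (sup_le (le_nz_self _) (zpowers_le.2 (F.A_le_nz _ hb)))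
    rwa [xs_eq hF h hQ hb hc hn] at this
  · exact congrArg FS.S (xs_eq hF h (F.hyp_le p) (mem_A_of_le le_rfl hb (F.hyp_le p)
      (F.A_S_le_nz_hyp p hb)) hc fun e => hn (cz_step (hF.pg' (F.hyp_le p)) e hc
        fun x hx => mem_hyp' le_rfl (mem_resid hb hc) hx))
  · have := ofSub_A (le_sup_left (a := F.S) (b := zpowers b)) le_rfl
    rw [xs_eq hF h hQ hb hc hn] at this
    rw [this, ai_eq_sup, ai_eq_sup, inf_eq_left.2 (le_nz_self _), inf_eq_left.2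
      (sup_le (le_nz_self _) (zpowers_le.2 (F.A_le_nz _ hb))), sup_right_comm]

end H4
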